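import Mathlib

/-! Two primes, at least three apart, in `(n, 2n]`. -/

set_option autoImplicit false

namespace CfsgLib.H4

open Nat

theorem prod_small_centralBinom_le (n : ℕ) (n_pos : 0 < n) :
    ∏ p ∈ Finset.range (2 * n / 3 + 1), p ^ (centralBinom n).factorization p ≤
      (2 * n) ^ sqrt (2 * n) * 4 ^ (2 * n / 3) := by
  have n2_pos : 1 ≤ 2 * n := mul_pos (zero_lt_two' ℕ) n_pos
  let S := {p ∈ Finset.range (2 * n / 3 + 1) | Nat.Prime p}
  let f x := x ^ n.centralBinom.factorization x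
  have : ∏ x ∈ S, f x = ∏ x ∈ Finset.range (2 * n / 3 + 1), f x := by
    refine Finset.prod_filter_of_ne fun p _ h => ?_
    contrapose h; dsimp only [f]
    rw [factorization_eq_zero_of_not_prime n.centralBinom h, _root_.pow_zero]
  rw [← this, ← Finset.prod_filter_mul_prod_filter_not S (· ≤ sqrt (2 * n))]
  apply mul_le_mul'
  · refine (Finset.prod_le_prod' fun p _ => (?_ : f p ≤ 2 * n)).trans ?_
    · exact pow_factorization_choose_le (mul_pos two_pos n_pos)
    have : (Finset.Icc 1 (sqrt (2 * n))).card = sqrt (2 * n) := by rw [card_Icc, Nat.add_sub_cancel]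
    rw [Finset.prod_const]
    refine pow_right_mono₀ n2_pos ((Finset.card_le_card fun x hx => ?_).trans this.le)
    obtain ⟨h1, h2⟩ := Finset.mem_filter.1 hx
    exact Finset.mem_Icc.mpr ⟨(Finset.mem_filter.1 h1).2.one_lt.le, h2⟩
  · refine le_trans ?_ (primorial_le_four_pow (2 * n / 3))
    refine (Finset.prod_le_prod' fun p hp => (?_ : f p ≤ p)).trans ?_
    · obtain ⟨h1, h2⟩ := Finset.mem_filter.1 hp
      refine (pow_right_mono₀ (Finset.mem_filter.1 h1).2.one_lt.le ?_).trans (pow_one p).le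
      exact Nat.factorization_choose_le_one (sqrt_lt'.mp <| not_le.1 h2)
    refine Finset.prod_le_prod_of_subset_of_one_le' (Finset.filter_subset _ _) ?_
    exact fun p hp _ => (Finset.mem_filter.1 hp).2.one_lt.le

theorem centralBinom_le_of_few_primes (n : ℕ) (n_large : 2 < n) (a : ℕ)
    (h : ∀ p : ℕ, p.Prime → n < p → p ≤ 2 * n → p ∈ Finset.Icc a (a + 2)) :
    centralBinom n ≤ (2 * n) ^ sqrt (2 * n) * 4 ^ (2 * n / 3) * (2 * n) ^ 3 := by
  have n_pos : 0 < n := (Nat.zero_le _).trans_lt n_large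
  have n2_pos : 1 ≤ 2 * n := mul_pos (zero_lt_two' ℕ) n_pos
  let f x := x ^ n.centralBinom.factorization x
  have h1 : centralBinom n = ∏ p ∈ Finset.range (2 * n + 1), f p :=
    n.prod_pow_factorization_centralBinom.symm
  have h2 : ∏ p ∈ Finset.range (2 * n + 1), f p ≤
      ∏ p ∈ Finset.range (2 * n / 3 + 1) ∪ Finset.Icc a (a + 2), f p := by
    have hpos : ∀ p, 1 ≤ f p := fun p => by
      rcases Nat.eq_zero_or_pos p with rfl | hp
      · simp [f]
      · exact Nat.one_le_pow _ _ hp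
    rw [← Finset.prod_filter_of_ne (s := Finset.range (2 * n + 1))
      (p := fun p => p ∈ Finset.range (2 * n / 3 + 1) ∪ Finset.Icc a (a + 2))]
    · exact Finset.prod_le_prod_of_subset_of_one_le' (fun p hp => (Finset.mem_filter.1 hp).2)
        fun p _ _ => hpos p
    · intro x hx hf
      by_contra hc
      apply hf
      rw [Finset.mem_union, not_or, Finset.mem_range, Nat.lt_succ_iff, not_le,
        div_lt_iff_lt_mul three_pos, mul_comm x] at hc
      rw [Finset.mem_range, Nat.lt_succ_iff] at hx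
      by_cases hp : x.Prime
      · by_cases hn : n < x
        · exact absurd (h x hp hn hx) hc.2
        · simp only [f]
          rw [factorization_centralBinom_of_two_mul_self_lt_three_mul n_large (not_lt.1 hn) hc.1,
            Nat.pow_zero]
      · simp only [f]
        rw [factorization_eq_zero_of_not_prime n.centralBinom hp, Nat.pow_zero]
  have h3 : ∏ p ∈ Finset.range (2 * n / 3 + 1) ∪ Finset.Icc a (a + 2), f p ≤
      (∏ p ∈ Finset.range (2 * n / 3 + 1), f p) * ∏ p ∈ Finset.Icc a (a + 2), f p := by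
    rw [← Finset.prod_union_inter]
    refine Nat.le_mul_of_pos_right _ (Finset.prod_pos fun p _ => ?_)
    rcases Nat.eq_zero_or_pos p with rfl | hp
    · simp [f]
    · exact Nat.pow_pos hp
  have h4 : ∏ p ∈ Finset.Icc a (a + 2), f p ≤ (2 * n) ^ 3 := by
    refine (Finset.prod_le_prod' fun p _ => (?_ : f p ≤ 2 * n)).trans ?_
    · exact pow_factorization_choose_le (mul_pos two_pos n_pos)
    rw [Finset.prod_const, card_Icc, show a + 2 + 1 - a = 3 by omega]
  rw [h1]
  exact h2.trans (h3.trans (mul_le_mul' (prod_small_centralBinom_le n n_pos) h4))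

theorem succ_le_two_pow_div_eight (s : ℕ) (hs : 48 ≤ s) : s + 1 ≤ 2 ^ (s / 8) := by
  have key : ∀ k, 6 ≤ k → 8 * k + 8 ≤ 2 ^ k := by
    intro k hk
    induction k, hk using Nat.le_induction with
    | base => norm_num
    | succ k _ ih => rw [pow_succ]; omega
  have := key (s / 8) (by omega)
  omega

theorem two_primes_inequality {n : ℕ} (hn : 1152 ≤ n) :
    n * ((2 * n) ^ sqrt (2 * n) * 4 ^ (2 * n / 3) * (2 * n) ^ 3) ≤ 4 ^ n := by
  set s := sqrt (2 * n) with hs
  have hs48 : 48 ≤ s := Nat.le_sqrt'.2 (by omega)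
  have h1 : 2 * n < (s + 1) ^ 2 := Nat.lt_succ_sqrt' _
  have h2 : s ^ 2 ≤ 2 * n := Nat.sqrt_le' _
  have h3 : 2 * n ≤ 2 ^ (2 * (s / 8)) := by
    rw [mul_comm 2 (s / 8), pow_mul]
    exact h1.le.trans (Nat.pow_le_pow_left (succ_le_two_pow_div_eight s hs48) 2)
  have h4 : n * ((2 * n) ^ s * (2 * n) ^ 3) ≤ (2 * n) ^ (s + 4) := by
    rw [← pow_add, show s + 4 = (s + 3) + 1 by ring, pow_succ' _ (s + 3)]
    exact Nat.mul_le_mul_right _ (by omega)
  have h5 : (2 * n) ^ (s + 4) ≤ 4 ^ (s / 8 * (s + 4)) := by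
    refine (Nat.pow_le_pow_left h3 _).trans (le_of_eq ?_)
    rw [← pow_mul, show (4 : ℕ) = 2 ^ 2 by norm_num, ← pow_mul, mul_assoc]
  have h6 : s / 8 * (s + 4) + 2 * n / 3 ≤ n := by
    have h7 : 8 * (s / 8 * (s + 4)) ≤ s * (s + 4) := by
      rw [← mul_assoc]; exact Nat.mul_le_mul_right _ (Nat.mul_div_le s 8)
    have h8 : 48 * s ≤ s * s := Nat.mul_le_mul_right _ hs48
    have h9 : s * (s + 4) = s * s + 4 * s := by ring
    have h10 : s ^ 2 = s * s := by ring
    omega
  calc n * ((2 * n) ^ s * 4 ^ (2 * n / 3) * (2 * n) ^ 3)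
      = n * ((2 * n) ^ s * (2 * n) ^ 3) * 4 ^ (2 * n / 3) := by ring
    _ ≤ 4 ^ (s / 8 * (s + 4)) * 4 ^ (2 * n / 3) := Nat.mul_le_mul_right _ (h4.trans h5)
    _ ≤ 4 ^ n := by rw [← pow_add]; exact Nat.pow_le_pow_right (by norm_num) h6

theorem exists_two_primes_large {n : ℕ} (hn : 1152 ≤ n) :
    ∃ p q : ℕ, p.Prime ∧ q.Prime ∧ n < p ∧ p + 3 ≤ q ∧ q ≤ 2 * n := by
  classical
  by_contra hc
  push Not at hc
  have hex : ∃ p, p.Prime ∧ n < p := by
    obtain ⟨p, hp, h1, -⟩ := Nat.exists_prime_lt_and_le_two_mul n (by omega)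
    exact ⟨p, hp, h1⟩
  have h0 := Nat.find_spec hex
  have h1 := centralBinom_le_of_few_primes n (by omega) (Nat.find hex) fun p hp h1 h2 => by
    have h3 : Nat.find hex ≤ p := Nat.find_min' hex ⟨hp, h1⟩
    have h4 := hc _ p h0.1 hp h0.2
    rw [Finset.mem_Icc]
    omega
  have h2 := Nat.four_pow_lt_mul_centralBinom n (by omega)
  have h3 := two_primes_inequality hn
  have h4 := Nat.mul_le_mul_left n h1
  omega

theorem exists_two_primes {m : ℕ} (hm : 17 ≤ m) :
    ∃ p q : ℕ, p.Prime ∧ q.Prime ∧ m < 2 * p ∧ p + 3 ≤ q ∧ q ≤ m := by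
  by_cases h : 2304 ≤ m
  · obtain ⟨p, q, hp, hq, h1, h2, h3⟩ := exists_two_primes_large (n := m / 2) (by omega)
    exact ⟨p, q, hp, hq, by omega, h2, by omega⟩
  have key : ∀ p q : ℕ, p.Prime → q.Prime → p + 3 ≤ q → q ≤ m → m < 2 * p →
      ∃ p q : ℕ, p.Prime ∧ q.Prime ∧ m < 2 * p ∧ p + 3 ≤ q ∧ q ≤ m :=
    fun p q hp hq h1 h2 h3 => ⟨p, q, hp, hq, h3, h1, h2⟩
  by_cases h1 : m < 26
  · exact key 13 17 (by norm_num) (by norm_num) (by norm_num) (by omega) (by omega)
  by_cases h1 : m < 34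
  · exact key 17 23 (by norm_num) (by norm_num) (by norm_num) (by omega) (by omega)
  by_cases h1 : m < 46
  · exact key 23 29 (by norm_num) (by norm_num) (by norm_num) (by omega) (by omega)
  by_cases h1 : m < 62
  · exact key 31 37 (by norm_num) (by norm_num) (by norm_num) (by omega) (by omega)
  by_cases h1 : m < 94
  · exact key 47 53 (by norm_num) (by norm_num) (by norm_num) (by omega) (by omega)
  by_cases h1 : m < 158
  · exact key 79 83 (by norm_num) (by norm_num) (by norm_num) (by omega) (by omega)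
  by_cases h1 : m < 278
  · exact key 139 149 (by norm_num) (by norm_num) (by norm_num) (by omega) (by omega)
  by_cases h1 : m < 526
  · exact key 263 269 (by norm_num) (by norm_num) (by norm_num) (by omega) (by omega)
  by_cases h1 : m < 1006
  · exact key 503 509 (by norm_num) (by norm_num) (by norm_num) (by omega) (by omega)
  by_cases h1 : m < 1982
  · exact key 991 997 (by norm_num) (by norm_num) (by norm_num) (by omega) (by omega)
  · exact key 1973 1979 (by norm_num) (by norm_num) (by norm_num) (by omega) (by omega)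

end CfsgLib.H4
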