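import Cfsg.Agent.Lib.CoreComponents
import Cfsg.Agent.Lib.SylowIn

/-! Flavell's and Guralnick–Tracey's extensions of Wielandt's zipper lemma. -/

set_option autoImplicit false

namespace CfsgLib

open Subgroup

variable {G : Type*} [Group G]

local notation "cj " g:max H:max => Subgroup.map (MulEquiv.toMonoidHom (MulAut.conj g)) H

theorem isCoatom_map_conj' {M : Subgroup G} (hM : IsCoatom M) (g : G) : IsCoatom (cj g M) :=
  ((MulAut.conj g).mapSubgroup.isCoatom_iff M).mpr hM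

theorem unique_coatom_of_subnormalIn [Finite G] (A : Subgroup G)
    (hA : normalClosure (A : Set G) = ⊤) (M : Subgroup G)
    (h : ∀ L, IsCoatom L → A ≤ L → L ≠ M → SubnormalIn A L) :
    ∀ L₁ L₂, IsCoatom L₁ → IsCoatom L₂ → A ≤ L₁ → A ≤ L₂ → L₁ = L₂ := by
  induction hn : Nat.card G - Nat.card A using Nat.strong_induction_on generalizing A M with
  | _ n ih =>
  intro L₁ L₂ hL₁ hL₂ hAL₁ hAL₂
  by_contra hne
  have hN : ∀ (N : Subgroup G) (g : G), N.Normal → cj g A ≤ N → N = ⊤ := fun N g hN h1 => by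
    rw [eq_top_iff, ← hA]
    refine normalClosure_le_normal fun a ha => ?_
    simpa [mul_assoc] using hN.conj_mem _ (h1 (conj_mem_map_conj ha)) g⁻¹
  have hsn : ∀ (g : G) L, IsCoatom L → cj g A ≤ L → L ≠ cj g M → SubnormalIn (cj g A) L := by
    intro g L h1 h2 h3
    have := (h (cj (g⁻¹) L) (isCoatom_map_conj' h1 _)
      (by rw [← map_conj_inv_map_conj g A]; exact map_mono h2)
      (fun h4 => h3 (by rw [← h4, map_conj_map_conj_inv]))).map (MulAut.conj g).toMonoidHom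
    rwa [map_conj_map_conj_inv] at this
  have pair : ∀ (g k : G) (K₁ K₂ : Subgroup G), IsCoatom K₁ → IsCoatom K₂ → K₁ ≠ K₂ →
      cj g A ≤ K₁ → cj g A ≤ K₂ → cj k A ≤ K₁ → cj k A ≤ K₂ → cj g A ≠ cj k A →
      cj g A ≤ cj k M ∧ cj g M ≠ cj k M := by
    intro g k K₁ K₂ h1 h2 h3 h4 h5 h6 h7 h8
    by_contra h9
    have hlt : cj g A < cj g A ⊔ cj k A := lt_of_le_of_ne le_sup_left fun h10 => h8
      (eq_of_le_of_card_le (le_sup_right.trans h10.ge)
        (by rw [card_map_conj, card_map_conj])).symm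
    have hc := card_lt_card_of_lt hlt
    rw [card_map_conj] at hc
    have hc2 := card_le_card_group (cj g A ⊔ cj k A)
    refine h3 (ih _ (by omega) (cj g A ⊔ cj k A)
      (hN _ g normalClosure_normal (le_sup_left.trans le_normalClosure)) (cj g M) ?_ rfl K₁ K₂ h1 h2
      (sup_le h4 h6) (sup_le h5 h7))
    intro L hL hle hLg
    refine (hsn g L hL (le_sup_left.trans hle) hLg).sup (hsn k L hL (le_sup_right.trans hle) ?_)
    rintro rfl
    exact h9 ⟨le_sup_left.trans hle, hLg.symm⟩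
  have hA1 : cj (1 : G) A = A := map_conj_one A
  by_cases hall : ∀ L, IsCoatom L → A ≤ L → SubnormalIn A L
  · obtain ⟨K, hK1, hK2⟩ := zipper_lemma (K := ⊤) A le_top (fun H h1 h2 => by
      obtain ⟨L, hL, h3⟩ := (eq_top_or_exists_le_coatom H).resolve_left h2.ne
      exact (hall L hL (h1.trans h3)).mono h1 h3) (fun h1 => by
      obtain ⟨N, hN1, hN2, hN3⟩ := h1.exists_normal (fun h2 => hL₁.1 (top_le_iff.mp (h2 ▸ hAL₁)))
      exact hN2.ne (hN N 1 (normal_of_le_normalizer_top hN3) (hA1.le.trans hN1)))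
    exact hne (((hL₁.le_iff.mp (hK2 L₁ hAL₁ hL₁.lt_top)).resolve_left hK1.ne).symm.trans
      ((hL₂.le_iff.mp (hK2 L₂ hAL₂ hL₂.lt_top)).resolve_left hK1.ne))
  push Not at hall
  obtain ⟨M', hM, hAM, hns⟩ := hall
  obtain rfl : M' = M := by_contra fun h1 => hns (h M' hM hAM h1)
  set M := M'
  have hM1 : cj (1 : G) M = M := map_conj_one M
  have hNM : normalizer (M : Set G) ≤ M := by
    rcases hM.le_iff.mp (le_normalizer (H := M)) with h1 | h1
    · exact absurd (hN M 1 (normalizer_eq_top_iff.mp h1) (hA1.le.trans hAM)) hM.1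
    · exact h1.le
  have hNA : normalizer (A : Set G) ≤ M := fun g hg => hNM (mem_normalizer_of_map_conj_eq (by
    by_contra h1
    have h2 := map_conj_eq_of_mem_normalizer hg
    exact hns (h2 ▸ hsn g M hM (h2.symm ▸ hAM) (Ne.symm h1))))
  have step : ∀ L, IsCoatom L → A ≤ L → L ≠ M →
      ∃ x ∈ L, cj x A ≠ A ∧ cj x A ≤ M ∧ cj x A ≤ L ∧ A ≤ cj x M ∧ cj x M ≠ M := by
    intro L h1 h2 h3
    obtain ⟨x, hx, h4, h5⟩ := (h L h1 h2 h3).exists_conj fun h4 =>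
      h3 ((h1.le_iff.mp (h4.trans hNA)).resolve_left hM.1).symm
    have h6 : cj x A ≤ L := by
      rw [← map_conj_eq_of_mem_normalizer (le_normalizer hx)]; exact map_mono h2
    have := pair 1 x L M h1 hM h3 (hA1.le.trans h2) (hA1.le.trans hAM) h6 (h5.trans hNA) (hA1.symm ▸ h4.symm)
    rw [hA1, hM1] at this
    exact ⟨x, hx, h4, h5.trans hNA, h6, this.1, this.2.symm⟩
  obtain ⟨x, -, hx1, hx2, -, hx3, hx4⟩ : ∃ x ∈ (⊤ : Subgroup G),
      cj x A ≠ A ∧ cj x A ≤ M ∧ True ∧ A ≤ cj x M ∧ cj x M ≠ M := by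
    by_cases h1 : L₁ = M
    · obtain ⟨x, -, h2, h3, -, h4⟩ := step L₂ hL₂ hAL₂ fun h2 => hne (h1.trans h2.symm)
      exact ⟨x, trivial, h2, h3, trivial, h4⟩
    · obtain ⟨x, -, h2, h3, -, h4⟩ := step L₁ hL₁ hAL₁ h1
      exact ⟨x, trivial, h2, h3, trivial, h4⟩
  have hM' := isCoatom_map_conj' hM x
  set 𝒞 : Set (Subgroup G) := {B | (∃ g, B = cj g A) ∧ B ≤ M ∧ B ≤ cj x M} with h𝒞
  have cl : ∀ C ∈ 𝒞, ∀ k : G, cj k A ∈ 𝒞 → C ≤ cj k M := by
    rintro _ ⟨⟨g, rfl⟩, h1, h2⟩ k ⟨-, h3, h4⟩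
    by_cases h5 : cj g A = cj k A
    · rw [h5]; exact map_mono hAM
    · exact (pair g k M _ hM hM' hx4.symm h1 h2 h3 h4 h5).1
  have nl : ∀ g : G, (∀ C ∈ 𝒞, C ≤ cj g M ∧ C ≤ cj g (cj x M)) →
      g ∈ normalizer ((sSup 𝒞 : Subgroup G) : Set G) := by
    intro g hg
    rw [← inv_mem_iff]
    apply mem_normalizer_of_conj_mem
    have : cj (g⁻¹) (sSup 𝒞) ≤ sSup 𝒞 := by
      rw [map_le_iff_le_comap, sSup_le_iff]
      intro C hC
      obtain ⟨h1, h2⟩ := hg C hC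
      obtain ⟨⟨k, rfl⟩, -⟩ := hC
      refine map_le_iff_le_comap.mp (le_sSup ⟨⟨g⁻¹ * k, (map_conj_mul _ _ _).symm⟩, ?_, ?_⟩)
      · rw [← map_conj_inv_map_conj g M]; exact map_mono h1
      · rw [← map_conj_inv_map_conj g (cj x M)]; exact map_mono h2
    exact fun y hy => this (conj_mem_map_conj hy)
  have hA𝒞 : A ∈ 𝒞 := ⟨⟨1, hA1.symm⟩, hAM, hx3⟩
  have hA'𝒞 : cj x A ∈ 𝒞 := ⟨⟨x, rfl⟩, hx2, map_mono hAM⟩
  obtain ⟨z, hz, -, hz2, hz3, -, hz5⟩ := step _ hM' hx3 hx4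
  have hzN := nl z fun C hC => ⟨cl C hC z ⟨⟨z, rfl⟩, hz2, hz3⟩, by
    rw [map_conj_eq_of_mem_normalizer (le_normalizer hz)]; exact hC.2.2⟩
  obtain ⟨L, hL, hNL⟩ := (eq_top_or_exists_le_coatom
    (normalizer ((sSup 𝒞 : Subgroup G) : Set G))).resolve_left fun h1 => hM.1 (top_le_iff.mp
      ((hN _ 1 (normalizer_eq_top_iff.mp h1) (hA1.le.trans (le_sSup hA𝒞))).ge.trans
        (sSup_le fun C hC => hC.2.1)))
  have hLM : L ≠ M := fun h1 => hz5 (map_conj_eq_of_mem_normalizer (le_normalizer (h1 ▸ hNL hzN)))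
  have hCsn : ∀ C ∈ 𝒞, C ≠ A → SubnormalIn C M := by
    rintro _ ⟨⟨g, rfl⟩, h1, h2⟩ h3
    have := (pair g 1 M _ hM hM' hx4.symm h1 h2 (hA1.le.trans hAM) (hA1.le.trans hx3) (hA1.symm ▸ h3)).2
    exact hsn g M hM h1 fun h4 => this (h4.symm.trans hM1.symm)
  set V := sSup {C | C ∈ 𝒞 ∧ C ≠ A} with hV
  have hVsn : SubnormalIn V M := sSup_closed (fun H => SubnormalIn H M)
    (SubnormalIn.of_le_normalizer bot_le le_normalizer_of_normal) (fun _ _ => SubnormalIn.sup) _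
    (fun C hC => hCsn C hC.1 hC.2)
  have hVD : V ≤ M ⊓ cj x M := sSup_le fun C hC => le_inf hC.1.2.1 hC.1.2.2
  have hNV : M ⊓ normalizer (V : Set G) ≤ L := fun g hg => hNL (nl g fun C hC => by
    have h1 : cj (g * x) A ≤ V := by
      rw [map_conj_mul, ← map_conj_eq_of_mem_normalizer hg.2]
      exact map_mono (le_sSup ⟨hA'𝒞, hx1⟩)
    refine ⟨by rw [map_conj_eq_of_mem_normalizer (le_normalizer hg.1)]; exact hC.2.1, ?_⟩
    rw [← map_conj_mul]
    exact cl C hC _ ⟨⟨_, rfl⟩, (h1.trans hVD).trans inf_le_left, (h1.trans hVD).trans inf_le_right⟩)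
  obtain ⟨y, hy, hy1, hy2⟩ := hVsn.exists_conj fun h1 =>
    hLM ((hM.le_iff.mp ((le_inf le_rfl h1).trans hNV)).resolve_left hL.1)
  have hyM := map_conj_eq_of_mem_normalizer (le_normalizer hy)
  have hVy : cj y V ≤ M := hyM ▸ map_mono hVsn.1
  refine hy1 (eq_of_le_of_card_le ?_ (card_map_conj y V).ge)
  rw [map_le_iff_le_comap, hV, sSup_le_iff]
  intro C hC
  have h1 : cj y C ≤ cj y V := map_mono (le_sSup hC)
  have h2 := (hCsn C hC.1 hC.2).map (MulAut.conj y).toMonoidHom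
  rw [hyM] at h2
  obtain ⟨⟨⟨g, rfl⟩, -⟩, -⟩ := hC
  refine map_le_iff_le_comap.mp (le_sSup ⟨⟨⟨y * g, (map_conj_mul _ _ _).symm⟩, h1.trans hVy, ?_⟩,
    fun h3 => hns (h3 ▸ h2)⟩)
  rw [← map_conj_mul] at h1 ⊢
  by_cases h3 : cj (y * g) A = cj x A
  · rw [h3]; exact map_mono hAM
  · exact (pair (y * g) x L M hL hM hLM (h1.trans ((le_inf hVy hy2).trans hNV)) (h1.trans hVy)
      (((le_sSup hA'𝒞).trans le_normalizer).trans hNL) hx2 h3).1

theorem exists_subnormal_closure [Finite G] {A L : Subgroup G} (h : A ≤ L) :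
    ∃ B : Subgroup G, A ≤ B ∧ SubnormalIn B L ∧
      normalClosure ((A.subgroupOf B : Subgroup B) : Set B) = ⊤ := by
  obtain ⟨B, -, hB⟩ := exists_minimal_le_of_wellFoundedLT
    (fun B : Subgroup G => A ≤ B ∧ SubnormalIn B L) L ⟨h, SubnormalIn.refl L⟩
  refine ⟨B, hB.1.1, hB.1.2, ?_⟩
  set N := normalClosure ((A.subgroupOf B : Subgroup B) : Set B)
  have h1 := hB.2 (y := N.map B.subtype) ⟨fun a ha => ⟨⟨a, hB.1.1 ha⟩, subset_normalClosure ha, rfl⟩,
    (subnormalIn_map_subtype_iff.mpr normalClosure_normal.isSubnormal).trans hB.1.2⟩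
    (map_subtype_le _)
  rw [eq_top_iff]
  intro x _
  obtain ⟨y, hy, h4⟩ := h1 x.2
  exact (Subtype.ext h4 : y = x) ▸ hy

/-- **Guralnick–Tracey zipper lemma**. -/
theorem unique_coatom_of_closed_le [Finite G] (A : Subgroup G)
    (hA : normalClosure (A : Set G) = ⊤) {M : Subgroup G} (hM : IsCoatom M)
    (h : ∀ H : Subgroup G, A ≤ H → H ≠ ⊤ →
      normalClosure ((A.subgroupOf H : Subgroup H) : Set H) = ⊤ → H ≤ M) :
    ∀ L₁ L₂, IsCoatom L₁ → IsCoatom L₂ → A ≤ L₁ → A ≤ L₂ → L₁ = L₂ := by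
  induction A using WellFoundedGT.induction with
  | _ A ih =>
  refine unique_coatom_of_subnormalIn A hA M fun L hL hAL hLM => ?_
  obtain ⟨B, h1, h2, h3⟩ := exists_subnormal_closure hAL
  rcases h1.eq_or_lt with rfl | h4
  · exact h2
  refine absurd (ih B h4 (top_le_iff.mp (hA ▸ normalClosure_mono h1)) (fun H h5 h6 h7 => ?_) L M hL
    hM h2.1 (h B h1 (fun h5 => hL.1 (top_le_iff.mp (h5 ▸ h2.1))) h3)) hLM
  refine h H (h1.trans h5) h6 (top_le_iff.mp (h7 ▸ normalClosure_le_normal ?_))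
  intro b hb
  have h8 : normalClosure ((A.subgroupOf B : Subgroup B) : Set B) ≤
      (normalClosure ((A.subgroupOf H : Subgroup H) : Set H)).comap (inclusion h5) :=
    normalClosure_le_normal fun a ha => subset_normalClosure ha
  exact h8 (h3.ge (mem_top (⟨b, hb⟩ : B)))

end CfsgLib
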