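import Cfsg.Agent.Lib.CoprimeGen
import Cfsg.Agent.Lib.CoprimeSylow
import Cfsg.Agent.Lib.SylowIn
import Cfsg.Agent.Lib.CoreFitting
import Cfsg.Agent.Lib.CorePiSep

/-! The inequality `∏ₓ |C_V(x)|^p ≤ |C_V(P)|^((p-1)|P|) |V|^|P|` for a coprime action of a
`p`-group (a consequence of the Navarro–Rizo formula). -/

set_option autoImplicit false

namespace CfsgLib

open Subgroup Cfsg
open scoped commutatorElement

theorem prod_card_ker_le {V ι : Type*} [CommGroup V] [Finite V] (T : ι → V →* V)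
    (hc : ∀ i j v, T i (T j v) = T j (T i v)) (S : Finset ι)
    (h : ∀ i ∈ S, ∀ j ∈ S, i ≠ j → ∀ v, T i v = 1 → T j v = 1 → v = 1) :
    ∀ U : Subgroup V, (∀ i, ∀ u ∈ U, T i u ∈ U) →
      ∏ i ∈ S, Nat.card ↥(U ⊓ (T i).ker) ≤ Nat.card U := by
  classical
  induction S using Finset.induction_on with
  | empty => intro U _; exact Nat.card_pos
  | insert j S hj ih =>
    intro U hU
    rw [Finset.prod_insert hj]
    have h1 := ih (fun a ha b hb => h a (Finset.mem_insert_of_mem ha) b
      (Finset.mem_insert_of_mem hb)) (U.map (T j)) (by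
        rintro i _ ⟨u, hu, rfl⟩
        exact ⟨_, hU i u hu, hc j i u⟩)
    rw [← card_inf_mul_relIndex (T j).ker U, inf_comm, relIndex_ker]
    refine Nat.mul_le_mul_left _ (le_trans (Finset.prod_le_prod' fun i hi => ?_) h1)
    refine Nat.card_le_card_of_injective (fun u => ⟨T j u, ⟨u, u.2.1, rfl⟩, ?_⟩) fun u v huv => ?_
    · show T i (T j u) = 1
      rw [hc, show T i u = 1 from u.2.2, map_one]
    · have h2 := congrArg Subtype.val huv
      refine Subtype.ext (mul_inv_eq_one.mp (h i (Finset.mem_insert_of_mem hi) j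
        (Finset.mem_insert_self _ _) (by rintro rfl; exact hj hi) _ ?_ ?_))
      · exact (T i).ker.mul_mem u.2.2 ((T i).ker.inv_mem v.2.2)
      · rw [map_mul, map_inv, mul_inv_eq_one]; exact h2

variable {P : Type*} [Group P] [Fintype P] {p : ℕ} [hp : Fact p.Prime]

theorem prod_card_fixed_le_of_irr (hP : IsPGroup p P) {V : Type*} [CommGroup V] [Finite V]
    (φ : P →* MulAut V) (hirr : ∀ W : Subgroup V, (∀ a, ∀ w ∈ W, φ a w ∈ W) → W = ⊥ ∨ W = ⊤) :
    ∏ x : P, {v | φ x v = v}.ncard ^ p ≤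
      {v | ∀ x, φ x v = v}.ncard ^ ((p - 1) * Fintype.card P) * Nat.card V ^ Fintype.card P := by
  by_cases h0 : φ.range = ⊥
  · have h1 : ∀ x v, φ x v = v := fun x v => by rw [mem_bot.mp (h0 ▸ ⟨x, rfl⟩ : φ x ∈ ⊥)]; rfl
    simp only [h1, Set.setOf_true, implies_true, Set.ncard_univ, Finset.prod_const,
      Finset.card_univ, ← pow_mul, ← pow_add]
    rw [← Nat.succ_mul, Nat.succ_eq_add_one, Nat.sub_add_cancel hp.out.one_lt.le]
  haveI := (nontrivial_iff_ne_bot _).mpr h0
  have hR : IsPGroup p φ.range := hP.of_surjective _ φ.rangeRestrict_surjective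
  haveI := hR.center_nontrivial
  obtain ⟨⟨⟨_, z, rfl⟩, hz⟩, hz0⟩ := exists_prime_orderOf_dvd_card' (G := center φ.range) p
    ((hR.to_subgroup _).card_eq_or_dvd.resolve_left Finite.one_lt_card.ne')
  rw [← orderOf_coe, ← orderOf_coe] at hz0
  replace hz0 : orderOf (φ z) = p := hz0
  have hcz : ∀ x, Commute (φ x) (φ z) := fun x =>
    congrArg Subtype.val (mem_center_iff.mp hz ⟨φ x, x, rfl⟩)
  have h1 : ∀ v, φ z v = v → v = 1 := by
    rcases hirr ((φ z).toMonoidHom.eqLocus (MonoidHom.id V)) (fun a w hw => by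
      show φ z (φ a w) = φ a w
      rw [← MulAut.mul_apply, ← (hcz a).eq, MulAut.mul_apply, show φ z w = w from hw]) with h | h
    · exact fun v hv => mem_bot.mp (h ▸ hv)
    · have : φ z = 1 := MulEquiv.ext fun v => h.ge (mem_top v)
      rw [this, orderOf_one] at hz0
      exact absurd hz0 hp.out.one_lt.ne
  have h2 : ∀ x, ∏ i ∈ Finset.range p, {v | φ (x * z ^ i) v = v}.ncard ≤ Nat.card V := by
    intro x
    have h3 := prod_card_ker_le (fun i : ℕ => (φ (x * z ^ i)).toMonoidHom / MonoidHom.id V)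
      (fun i j v => by
        have : Commute (φ (x * z ^ i)) (φ (x * z ^ j)) := by
          simp only [map_mul, map_pow]
          exact ((Commute.refl _).mul_right ((hcz x).pow_right j)).mul_left
            (((hcz x).symm.pow_left i).mul_right (Commute.pow_pow_self _ _ _))
        have h4 := DFunLike.congr_fun this.eq v
        simp only [MulAut.mul_apply] at h4
        simp only [MonoidHom.div_apply, MulEquiv.coe_toMonoidHom, MonoidHom.id_apply, map_div, h4]
        exact div_div_div_comm _ _ _ _) (Finset.range p) (fun i hi j hj hij v h4 h5 => by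
        simp only [MonoidHom.div_apply, MulEquiv.coe_toMonoidHom, MonoidHom.id_apply, div_eq_one,
          map_mul, map_pow, MulAut.mul_apply] at h4 h5
        have h6 := (φ x).injective (h4.trans h5.symm)
        apply h1
        have h7 : (φ z ^ j)⁻¹ * φ z ^ i ∈ MulAction.stabilizer (MulAut V) v := by
          rw [MulAction.mem_stabilizer_iff, mul_smul, inv_smul_eq_iff]; exact h6
        have h8 : (φ z ^ j)⁻¹ * φ z ^ i ≠ 1 := fun h => hij (pow_injOn_Iio_orderOf
          (by simpa [hz0] using hi) (by simpa [hz0] using hj) (inv_mul_eq_one.mp h).symm)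
        have h9 := (zpowers (φ z)).mul_mem (inv_mem (pow_mem (mem_zpowers _) j))
          (pow_mem (mem_zpowers _) i)
        have h10 := (zpowers (φ z) ⊓ MulAction.stabilizer (MulAut V) v).subgroupOf (zpowers (φ z))
          |>.eq_bot_or_eq_top_of_prime_card (hp := ⟨by rw [Nat.card_zpowers, hz0]; exact hp.out⟩)
        rcases h10 with h | h
        · exact absurd (congrArg Subtype.val (mem_bot.mp (h.le (x := ⟨_, h9⟩) ⟨h9, h7⟩))) h8
        · exact (h.ge (mem_top ⟨_, mem_zpowers _⟩)).2) ⊤ fun _ _ _ => mem_top _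
    rw [card_top] at h3
    refine le_of_eq_of_le (Finset.prod_congr rfl fun i _ => ?_) h3
    rw [top_inf_eq, ← Nat.card_coe_set_eq]
    exact Nat.card_congr (Equiv.subtypeEquivRight fun v => by simp [MonoidHom.mem_ker, div_eq_one])
  calc ∏ x : P, {v | φ x v = v}.ncard ^ p
      = ∏ i ∈ Finset.range p, ∏ x : P, {v | φ (x * z ^ i) v = v}.ncard := by
        rw [Finset.prod_pow, ← Finset.card_range p, ← Finset.prod_const, Finset.card_range]
        exact Finset.prod_congr rfl fun i _ =>
          (Fintype.prod_equiv (Equiv.mulRight (z ^ i)) _ _ fun x => rfl).symm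
    _ ≤ Nat.card V ^ Fintype.card P := by
        rw [Finset.prod_comm]
        exact Finset.prod_le_pow_card _ _ _ fun x _ => h2 x
    _ ≤ _ := Nat.le_mul_of_pos_left _ (pow_pos ((Set.ncard_pos (s := {v | ∀ x, φ x v = v})
        (Set.toFinite _)).mpr ⟨1, fun x => map_one (φ x)⟩) _)

theorem prod_card_inf_centralizer_le (hP : IsPGroup p P) {X : Type*} [Group X] [Finite X]
    (f : P →* X) (M : Subgroup X) (hM : f.range ≤ normalizer (M : Set X)) (hc : ¬ p ∣ Nat.card M) :
    ∏ x : P, Nat.card ↥(M ⊓ centralizer {f x}) ^ p ≤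
      Nat.card ↥(M ⊓ centralizer (f.range : Set X)) ^ ((p - 1) * Fintype.card P) *
        Nat.card M ^ Fintype.card P := by
  induction M using WellFoundedLT.induction with
  | _ M ih =>
  have hR : IsPGroup p f.range := hP.of_surjective _ f.rangeRestrict_surjective
  have hcop : ∀ B N : Subgroup X, B ≤ f.range → N ≤ M → (Nat.card B).Coprime (Nat.card N) := by
    intro B N h1 h2
    obtain ⟨k, hk⟩ := (hR.to_le h1).exists_card_eq
    exact hk ▸ (hp.out.coprime_iff_not_dvd.mpr fun h => hc (h.trans (card_dvd_of_le h2))).pow_left k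
  have hs : ∀ B : Subgroup X, B ≤ f.range → Group.IsSolvable B := fun B h =>
    Cop.solvable_of_isPGroup (hR.to_le h)
  have hz : ∀ x, centralizer ({f x} : Set X) = centralizer (zpowers (f x) : Set X) := fun x => by
    rw [zpowers_eq_closure, centralizer_closure]
  have hzl : ∀ x, zpowers (f x) ≤ f.range := fun x => zpowers_le.mpr ⟨x, rfl⟩
  by_cases h0 : M = ⊥
  · simp [h0]
  by_cases hq : ∃ q : ℕ, q.Prime ∧ IsPGroup q M
  · obtain ⟨q, hq, hMq⟩ := hq
    haveI := Fact.mk hq
    obtain ⟨N, hN0, hN⟩ := Finite.exists_le_maximal (a := ⁅M, M⁆)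
      (p := fun N : Subgroup X => N < M ∧ f.range ≤ normalizer (N : Set X))
      ⟨by
        haveI := (nontrivial_iff_ne_bot _).mpr h0
        haveI := hMq.isNilpotent
        rw [← map_subtype_commutator]
        conv_rhs => rw [← range_subtype M, MonoidHom.range_eq_map]
        exact map_subtype_lt_map_subtype.mpr
          (Group.IsSolvable.commutator_lt_top_of_nontrivial M), Cop.le_normalizer_commutator hM hM⟩
    have hc' : _root_.commutator M ≤ N.subgroupOf M := by
      rw [subgroupOf, ← map_le_iff_le_comap, map_subtype_commutator]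
      exact hN0
    haveI : (N.subgroupOf M).Normal := Normal.of_commutator_le M hc'
    have hcm : IsMulCommutative (M ⧸ N.subgroupOf M) :=
      Normal.quotient_commutative_iff_commutator_le.2 hc'
    let _ : CommGroup (M ⧸ N.subgroupOf M) := { mul_comm := hcm.is_comm.comm }
    let φ := (Cop.sectionAction f.range M N hM hN.1.2).comp f.rangeRestrict
    have hφ : ∀ x (m : M), φ x m = ((⟨f x * m * (f x)⁻¹,
      conj_mem_of_mem_normalizer (hM ⟨x, rfl⟩) m.2⟩ : M) : M ⧸ N.subgroupOf M) := fun _ _ => rfl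
    have h1 := prod_card_fixed_le_of_irr hP φ fun W hW => by
      have h2 : N ≤ (W.comap (QuotientGroup.mk' _)).map M.subtype := fun n hn =>
        ⟨⟨n, hN.1.1.le hn⟩, show ((⟨n, _⟩ : M) : M ⧸ N.subgroupOf M) ∈ W from
          ((QuotientGroup.eq_one_iff (N := N.subgroupOf M) ⟨n, hN.1.1.le hn⟩).mpr hn).symm ▸
            one_mem W, rfl⟩
      rcases (map_subtype_le (W.comap (QuotientGroup.mk' _))).eq_or_lt with h | h
      · refine Or.inr (eq_top_iff.mpr fun w _ => ?_)
        obtain ⟨m, rfl⟩ := QuotientGroup.mk_surjective w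
        obtain ⟨m', h3, h4⟩ := h.ge m.2
        exact (Subtype.ext h4 : m' = m) ▸ h3
      · refine Or.inl (eq_bot_iff.mpr fun w hw => ?_)
        obtain ⟨m, rfl⟩ := QuotientGroup.mk_surjective w
        refine (QuotientGroup.eq_one_iff _).mpr (hN.2 ⟨h, ?_⟩ h2 ⟨m, hw, rfl⟩)
        rw [le_normalizer_iff]
        rintro _ ⟨x, rfl⟩ _ ⟨m, hm, rfl⟩
        exact ⟨_, hW x _ hm, rfl⟩
    have h2 : ∀ B : Subgroup X, B ≤ f.range → Nat.card ↥(M ⊓ centralizer (B : Set X)) =
        Nat.card ↥(N ⊓ centralizer (B : Set X)) * {v | ∀ x, f x ∈ B → φ x v = v}.ncard := by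
      intro B hB
      have h3 : N ⊓ centralizer (B : Set X) = N ⊓ (M ⊓ centralizer (B : Set X)) := by
        rw [← inf_assoc, inf_eq_left.mpr hN.1.1.le]
      rw [h3, ← card_inf_mul_relIndex N, ← relIndex_subgroupOf (inf_le_left : _ ≤ M),
        ← card_map_mk'_eq_relIndex, ← Nat.card_coe_set_eq]
      congr 1
      refine Nat.card_congr (Equiv.subtypeEquivRight fun v => ⟨?_, fun hv => ?_⟩)
      · rintro ⟨m, hm, rfl⟩ x hx
        refine (hφ x m).trans (congrArg _ (Subtype.ext ?_))
        exact mul_inv_eq_iff_eq_mul.mpr (hm.2 _ hx)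
      · obtain ⟨m, rfl⟩ := QuotientGroup.mk_surjective v
        obtain ⟨u, hu, h4⟩ := Cop.exists_mul_mem_centralizer_of_coset (hB.trans hN.1.2)
          (hcop B N hB hN.1.1.le) (Or.inl (hs B hB)) (g := m) fun a ha => by
            obtain ⟨x, rfl⟩ := hB ha
            exact (QuotientGroup.eq (s := N.subgroupOf M)).mp ((hv x ha).symm.trans (hφ x m))
        exact ⟨m * ⟨u, hN.1.1.le hu⟩, ⟨mul_mem m.2 (hN.1.1.le hu), h4⟩,
          QuotientGroup.mk_mul_of_mem _ hu⟩
    have h3 : ∀ x, {v | ∀ y, f y ∈ zpowers (f x) → φ y v = v} = {v | φ x v = v} := by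
      intro x
      ext v
      refine ⟨fun h => h x (mem_zpowers _), fun h y ⟨n, hn⟩ => ?_⟩
      have h4 : φ y = φ x ^ n := by
        rw [← map_zpow]
        exact congrArg (Cop.sectionAction f.range M N hM hN.1.2)
          (Subtype.ext (hn.symm.trans (map_zpow f x n).symm))
      rw [h4]
      exact (MulAction.stabilizer (MulAut (M ⧸ N.subgroupOf M)) v).zpow_mem h n
    have h4 : {v | ∀ y, f y ∈ f.range → φ y v = v} = {v | ∀ y, φ y v = v} := by simp
    have h5 := ih N hN.1.1 hN.1.2 fun h => hc (h.trans (card_dvd_of_le hN.1.1.le))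
    simp only [hz] at h5 ⊢
    simp only [h2 _ (hzl _), h2 _ le_rfl, h3, h4, mul_pow, Finset.prod_mul_distrib]
    refine (Nat.mul_le_mul h5 h1).trans_eq ?_
    rw [← card_mul_relIndex hN.1.1.le, mul_pow, relIndex, index_eq_card]
    ring
  · have h1 : ∀ q : (Nat.card M).primeFactors, ∃ Q : Subgroup X, Q < M ∧
        f.range ≤ normalizer (Q : Set X) ∧ ∀ B : Subgroup X, B ≤ f.range →
          Nat.card ↥(Q ⊓ centralizer (B : Set X)) =
            q ^ (Nat.card ↥(M ⊓ centralizer (B : Set X))).factorization q := by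
      rintro ⟨q, hq'⟩
      haveI := Fact.mk (Nat.prime_of_mem_primeFactors hq')
      obtain ⟨Q, hQ, hfQ⟩ := Cop.exists_invariant_sylowOf q hM (hcop _ _ le_rfl le_rfl)
        (Or.inl (hs _ le_rfl))
      refine ⟨Q, lt_of_le_of_ne hQ.1 fun h => hq ⟨q, Fact.out, h ▸ Cop.isPGroup_of_isPiHallOf hQ⟩,
        hfQ, fun B hB => IsSylowIn.card_eq_ordProj (Cop.isPiHallOf_singleton_iff.mp ?_)⟩
      exact Cop.sylowOf_inf_centralizer (hB.trans hM) (hcop _ _ hB le_rfl) (Or.inl (hs B hB)) hQ
        (hB.trans hfQ)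
    choose Q hQ1 hQ2 hQ3 using h1
    have h2 : ∀ B : Subgroup X, B ≤ f.range → Nat.card ↥(M ⊓ centralizer (B : Set X)) =
        ∏ q, Nat.card ↥(Q q ⊓ centralizer (B : Set X)) := by
      intro B hB
      simp only [hQ3 _ B hB]
      rw [Finset.prod_coe_sort _ fun q => q ^ (Nat.card ↥(M ⊓ centralizer (B : Set X))).factorization q]
      conv_lhs => rw [← Nat.prod_factorization_pow_eq_self (Nat.card_pos).ne']
      refine Finsupp.prod_of_support_subset _ ?_ _ fun _ _ => pow_zero _
      exact Nat.primeFactors_mono (card_dvd_of_le inf_le_left) Nat.card_pos.ne'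
    have h3 := h2 ⊥ bot_le
    rw [centralizer_eq_top_iff_subset.mpr (bot_le (a := center X))] at h3
    simp only [inf_top_eq] at h3
    simp only [hz] at ih ⊢
    simp only [h2 _ (hzl _), h2 _ le_rfl, h3, ← Finset.prod_pow, ← Finset.prod_mul_distrib]
    rw [Finset.prod_comm]
    exact Finset.prod_le_prod' fun q _ => ih _ (hQ1 q) (hQ2 q)
      fun h => hc (h.trans (card_dvd_of_le (hQ1 q).le))

end CfsgLib
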