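import Mathlib
import Cfsg.Agent.Lib.H5Real
import Cfsg.Agent.Lib.CoprimeAction
import Cfsg.Agent.Lib.CoreSolvable

/-! Lifting real elements along homomorphisms. -/

set_option autoImplicit false

namespace CfsgLib

open Subgroup Cfsg

variable {Y : Type*} [Group Y]

theorem exists_two_element_map_inverts {X : Type*} [Group X] [Finite X] (f : X →* Y) {y : Y}
    {u : X} (h : f u * y * (f u)⁻¹ = y⁻¹) :
    ∃ w : X, (∃ k, orderOf w = 2 ^ k) ∧ f w * y * (f w)⁻¹ = y⁻¹ := by
  obtain ⟨w, -, v, ⟨m, rfl⟩, huv, -, hw, hv⟩ := exists_p_part Nat.prime_two u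
  refine ⟨w, hw, ?_⟩
  have h1 : u ^ m ∈ (centralizer ({y} : Set Y)).comap f := by
    refine H5.mem_of_sq_mem_of_odd hv ?_
    rw [← zpow_natCast, ← zpow_mul, mul_comm, zpow_mul, zpow_natCast]
    exact zpow_mem (by rw [mem_comap, map_pow]; exact H5.sq_mem_centralizer_of_inverts h) m
  have h2 := mem_centralizer_singleton_iff.mp h1
  change u = w * u ^ m at huv
  calc f w * y * (f w)⁻¹ = f w * (y * f (u ^ m)) * (f w * f (u ^ m))⁻¹ := by group
    _ = (f w * f (u ^ m)) * y * (f w * f (u ^ m))⁻¹ := by rw [← h2]; group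
    _ = _ := by rw [← map_mul, ← huv, h]

/-- Real elements lift to real elements along a homomorphism with kernel of odd order. -/
theorem exists_real_lift_of_odd_ker {X : Type*} [Group X] [Finite X] (f : X →* Y)
    (hk : Odd (Nat.card f.ker)) {x u : X} (h : f u * f x * (f u)⁻¹ = (f x)⁻¹) :
    ∃ x', f x' = f x ∧ IsConj x' x'⁻¹ := by
  classical
  obtain ⟨w, ⟨k, hw⟩, h⟩ := exists_two_element_map_inverts f h
  have h' : (f w)⁻¹ * (f x)⁻¹ * f w = f x := by rw [← h]; group
  let σ : Equiv.Perm {g : X // f g = f x} :=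
    { toFun := fun g => ⟨w * g.1⁻¹ * w⁻¹, by
        rw [map_mul, map_mul, map_inv, map_inv, g.2, ← conj_inv, h, inv_inv]⟩
      invFun := fun g => ⟨w⁻¹ * g.1⁻¹ * w, by rw [map_mul, map_mul, map_inv, map_inv, g.2, h']⟩
      left_inv := fun g => Subtype.ext (by simp [mul_assoc])
      right_inv := fun g => Subtype.ext (by simp [mul_assoc]) }
  have h2 : ∀ n : ℕ, ∀ g, (((σ ^ 2) ^ n) g).1 = (w ^ 2) ^ n * g.1 * ((w ^ 2) ^ n)⁻¹ := by
    intro n
    induction n with
    | zero => simp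
    | succ n ih =>
      intro g
      rw [pow_succ, Equiv.Perm.mul_apply, ih, pow_succ (w ^ 2)]
      simp [σ, pow_two, mul_assoc]
  have h3 : σ ^ 2 ^ (k + 1) = 1 := by
    ext g
    rw [pow_succ', pow_mul, h2, ← pow_mul, mul_comm 2, pow_mul, ← hw, pow_orderOf_eq_one]
    simp
  have : Fintype X := Fintype.ofFinite X
  have h4 : Fintype.card {g : X // f g = f x} = Nat.card f.ker := by
    rw [← Nat.card_eq_fintype_card]
    exact Nat.card_congr
      { toFun := fun g => ⟨x⁻¹ * g.1, by rw [MonoidHom.mem_ker, map_mul, map_inv, g.2]; simp⟩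
        invFun := fun g => ⟨x * g.1, by rw [map_mul, g.2, mul_one]⟩
        left_inv := fun g => Subtype.ext (by simp)
        right_inv := fun g => Subtype.ext (by simp) }
  obtain ⟨g, hg⟩ := Equiv.Perm.exists_fixed_point_of_prime (p := 2)
    (by rw [h4, ← even_iff_two_dvd, Nat.not_even_iff_odd]; exact hk) h3
  refine ⟨g.1, g.2, (isConj_iff.2 ⟨w, congrArg Subtype.val hg⟩).symm⟩

/-- Real elements of odd order lift to real elements of odd order. -/
theorem exists_real_lift_odd (X : Type*) [Group X] [Finite X] :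
    ∀ (f : X →* Y) {x u : X}, f u * f x * (f u)⁻¹ = (f x)⁻¹ → Odd (orderOf (f x)) →
      ∃ x', f x' = f x ∧ Odd (orderOf x') ∧ IsConj x' x'⁻¹ := by
  revert X
  refine card_induction fun X _ _ ih => ?_
  intro f x u h hodd
  obtain ⟨Q⟩ : Nonempty (Sylow 2 f.ker) := inferInstance
  set T := (Q : Subgroup f.ker).map f.ker.subtype with hT
  have hfr := Sylow.normalizer_sup_eq_top Q
  by_cases hN : normalizer (T : Set X) = ⊤
  swap
  · have hl : ∀ g : X, ∃ n : normalizer (T : Set X), f n = f g := fun g => by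
      obtain ⟨n, hn, c, hc, rfl⟩ := (mem_sup_iff_of_le_normalizer (by
        exact le_normalizer_of_normal)).1 (hfr ▸ mem_top g)
      exact ⟨⟨n, hn⟩, by rw [map_mul, hc, mul_one]⟩
    obtain ⟨x', hx'⟩ := hl x
    obtain ⟨u', hu'⟩ := hl u
    obtain ⟨z, hz1, hz2, hz3⟩ := ih _ (card_lt_of_ne_top hN) (f.comp (Subgroup.subtype _)) (x := x')
      (u := u') (by simpa [hx', hu'] using h) (by simpa [hx'] using hodd)
    exact ⟨z, hz1.trans hx', by rwa [orderOf_coe], (Subgroup.subtype _).map_isConj hz3⟩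
  have hTn : T.Normal := normalizer_eq_top_iff.1 hN
  have hTp : IsPGroup 2 T := Q.isPGroup'.map _
  have hTk : T ≤ f.ker := map_subtype_le _
  by_cases hT1 : T = ⊥
  · have hk : Odd (Nat.card f.ker) := by
      rw [← Nat.not_even_iff_odd, even_iff_two_dvd]
      intro h2
      exact Q.ne_bot_of_dvd_card h2 ((map_eq_bot_iff_of_injective _ f.ker.subtype_injective).1 hT1)
    obtain ⟨x', h1, h2⟩ := exists_real_lift_of_odd_ker f hk h
    refine ⟨x', h1, ?_, h2⟩
    have h3 : x' ^ orderOf (f x) ∈ f.ker := by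
      rw [MonoidHom.mem_ker, map_pow, h1, pow_orderOf_eq_one]
    refine Odd.of_dvd_nat (hodd.mul hk) (orderOf_dvd_of_pow_eq_one ?_)
    rw [pow_mul]
    exact orderOf_dvd_iff_pow_eq_one.1 (orderOf_dvd_natCard _ h3)
  obtain ⟨z, hz1, hz2, hz3⟩ := ih _ (card_quotient_lt hT1) (QuotientGroup.lift T f hTk)
    (x := x) (u := u) (by simpa using h) (by simpa using hodd)
  obtain ⟨z, rfl⟩ := QuotientGroup.mk'_surjective T z
  obtain ⟨x', -, hx', hxo⟩ := exists_lift_isPiNum (QuotientGroup.mk' T) (π := {2}ᶜ) z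
    ((isPiNum_compl_singleton_iff Nat.prime_two).2 (Nat.coprime_two_right.2 hz2))
  rw [← hx'] at hz1 hz3
  have ho := (isPiNum_compl_singleton_iff Nat.prime_two).1 hxo
  have hcop : (Nat.card (zpowers x')).Coprime (Nat.card T) := by
    obtain ⟨k, hk⟩ := hTp.exists_card_eq
    rw [hk, Nat.card_zpowers]
    exact ho.pow_right k
  obtain ⟨t, ht⟩ := isConj_iff.1 hz3
  have h1 := Cop.normalizer_map_mk' (A := zpowers x') T hcop
    (Or.inr (isSolvable_of_isPGroup hTp))
  obtain ⟨g, hg, rfl⟩ := h1.le (show t ∈ _ by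
    rw [MonoidHom.map_zpowers]
    exact H5.mem_normalizer_zpowers_of_conj_mem (ht ▸ inv_mem (mem_zpowers _)))
  refine ⟨x', by simpa using hz1, Nat.coprime_two_right.1 ho, isConj_iff.2 ⟨g, ?_⟩⟩
  rw [← mul_eq_one_iff_eq_inv]
  refine disjoint_def.1 (Subgroup.disjoint_of_coprime_natCard hcop)
    (mul_mem (conj_mem_of_mem_normalizer hg (mem_zpowers _)) (mem_zpowers _)) ?_
  rw [← QuotientGroup.eq_one_iff, ← QuotientGroup.mk'_apply, map_mul, map_mul, map_mul, map_inv,
    ht, inv_mul_cancel]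

end CfsgLib
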