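import Mathlib
import Cfsg.Agent.Lib.CoreInvol
import Cfsg.Agent.Lib.CoreRealLift
import Cfsg.Agent.Lib.CoreSimpleInd
import Cfsg.Agent.Lib.H8Inv
import Cfsg.Agent.Lib.FrobFPFStruct
import Cfsg.Agent.Lib.ClassSize

/-! Groups acting on an elementary abelian `2`-group so that every non-identity vector is fixed by
exactly one Sylow `2`-subgroup, and centralizers of real elements of odd order are transitive on
Sylow `2`-subgroups, are solvable. -/

set_option autoImplicit false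

namespace CfsgLib.Spread

open Subgroup Cfsg CfsgLib.Invol

variable {H V : Type*} [Group H] [Group V]

/-- fixed vectors -/
def fixv (φ : H →* MulAut V) (a : H) : Subgroup V where
  carrier := {v | φ a v = v}
  one_mem' := map_one _
  mul_mem' := fun {x y} hx hy => by
    change φ a (x * y) = _
    rw [map_mul, hx, hy]
  inv_mem' := fun {x} hx => by
    change φ a x⁻¹ = _
    rw [map_inv, hx]

theorem mem_fixv {φ : H →* MulAut V} {a : H} {v : V} : v ∈ fixv φ a ↔ φ a v = v := Iff.rfl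

structure Hyp (φ : H →* MulAut V) : Prop where
  sq : ∀ v : V, v * v = 1
  ex : ∀ v : V, ∃ P : Sylow 2 H, ∀ g ∈ P, φ g v = v
  uniq : ∀ v : V, v ≠ 1 → ∀ P Q : Sylow 2 H, (∀ g ∈ P, φ g v = v) → (∀ g ∈ Q, φ g v = v) → P = Q
  trans : ∀ x : H, x ≠ 1 → Odd (orderOf x) → IsConj x x⁻¹ → ∀ P Q : Sylow 2 H,
    ∃ c, Commute c x ∧ c • P = Q

theorem apply_mul (φ : H →* MulAut V) (a b : H) (v : V) : φ (a * b) v = φ a (φ b v) := by
  rw [map_mul]; rfl

theorem apply_inv_eq {φ : H →* MulAut V} {a : H} {v : V} (h : φ a v = v) : φ a⁻¹ v = v := by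
  conv_lhs => rw [← h, ← apply_mul, inv_mul_cancel, map_one]
  rfl

theorem conj_fix {φ : H →* MulAut V} {a : H} {v : V} (h : φ a v = v) (g : H) :
    φ (g * a * g⁻¹) (φ g v) = φ g v := by
  rw [← apply_mul, inv_mul_cancel_right, apply_mul, h]

theorem smul_fix {φ : H →* MulAut V} {P : Sylow 2 H} {v : V} (h : ∀ g ∈ P, φ g v = v) (c : H) :
    ∀ g ∈ c • P, φ g (φ c v) = φ c v := fun g hg => by
  have := conj_fix (h _ (mem_smul.1 hg)) c
  simpa [mul_assoc] using this

theorem card_partition {ι : Type*} [Finite V] [Fintype ι] (F : ι → Subgroup V)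
    (hd : ∀ i j, i ≠ j → F i ⊓ F j = ⊥) (hc : ∀ v, v ≠ 1 → ∃ i, v ∈ F i) (Y : Subgroup V) :
    Nat.card Y - 1 = ∑ i, (Nat.card (Y ⊓ F i : Subgroup V) - 1) := by
  classical
  have := Fintype.ofFinite V
  have e : ∀ K : Subgroup V, Nat.card K - 1 =
      (Finset.univ.filter fun v => v ∈ K ∧ v ≠ 1).card := fun K => by
    rw [← Frob.ncard_diff_one, ← Set.ncard_coe_finset]
    congr 1
    ext v; simp
  simp_rw [e]
  rw [← Finset.card_biUnion]
  · congr 1
    ext v
    simp only [Finset.mem_filter, Finset.mem_univ, true_and, Finset.mem_biUnion, mem_inf]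
    exact ⟨fun ⟨h1, h2⟩ => (hc v h2).imp fun i hi => ⟨⟨h1, hi⟩, h2⟩,
      fun ⟨i, h1, h2⟩ => ⟨h1.1, h2⟩⟩
  · intro i _ j _ hij
    rw [Function.onFun, Finset.disjoint_left]
    intro v h1 h2
    simp only [Finset.mem_filter, Finset.mem_univ, true_and, mem_inf] at h1 h2
    exact h1.2 (mem_bot.1 (hd i j hij ▸ ⟨h1.1.2, h2.1.2⟩))

namespace Hyp

variable {φ : H →* MulAut V} (h : Hyp φ)
include h

theorem comm (v w : V) : v * w = w * v := by
  rw [← inv_eq (h.sq (v * w)), mul_inv_rev, inv_eq (h.sq v), inv_eq (h.sq w)]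

theorem smul_eq {v : V} (hv : v ≠ 1) {P : Sylow 2 H} (hP : ∀ g ∈ P, φ g v = v) {g : H}
    (hg : φ g v = v) : g • P = P :=
  h.uniq v hv _ _ (by simpa [hg] using smul_fix hP g) hP

theorem mem_of_fix {v : V} (hv : v ≠ 1) {P : Sylow 2 H} (hP : ∀ g ∈ P, φ g v = v) {a : H}
    (ha : a * a = 1) (hg : φ a v = v) : a ∈ P :=
  mem_sylow_of_smul_eq (isPGroup_zpowers ha) (h.smul_eq hv hP hg)

variable [Finite H]

theorem exists_fix [Nontrivial V] (Q : Sylow 2 H) : ∃ v, v ≠ 1 ∧ ∀ g ∈ Q, φ g v = v := by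
  obtain ⟨v, hv⟩ := exists_ne (1 : V)
  obtain ⟨P, hP⟩ := h.ex v
  obtain ⟨c, rfl⟩ := MulAction.exists_smul_eq H P Q
  exact ⟨φ c v, by simpa using hv, smul_fix hP c⟩

theorem smul_ne {x : H} (h1 : x ≠ 1) (ho : Odd (orderOf x)) (hr : IsConj x x⁻¹) (P : Sylow 2 H) :
    x • P ≠ P := by
  intro hP
  obtain ⟨u, hu, hux⟩ := H5.exists_two_element_inverts hr
  obtain ⟨Q, hQ⟩ := (isPGroup_zpowers_iff.2 hu).exists_le_sylow
  obtain ⟨c, hc, rfl⟩ := h.trans x h1 ho hr P Q
  have h2 : x • c • P = c • P := by rw [smul_smul, ← hc.eq, mul_smul, hP]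
  have h3 : u ∈ c • P := hQ (mem_zpowers u)
  have h4 := mul_mem (h2 ▸ conj_mem_smul h3 x) (inv_mem h3)
  have h5 : x * u * x⁻¹ * u⁻¹ = x ^ 2 := by
    rw [mul_assoc, mul_assoc, ← mul_assoc u, ← conj_inv, hux, inv_inv, pow_two]
  rw [h5] at h4
  have := eq_one_of_odd_of_mem (c • P).isPGroup' h4 (ho.of_dvd_nat (orderOf_pow_dvd 2))
  exact h1 (eq_one_of_odd ho (by rwa [← pow_two]))

theorem eq_one_of_fix {x : H} (h1 : x ≠ 1) (ho : Odd (orderOf x)) (hr : IsConj x x⁻¹) {v : V}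
    (hv : φ x v = v) : v = 1 := by
  by_contra h0
  obtain ⟨P, hP⟩ := h.ex v
  exact h.smul_ne h1 ho hr P (h.smul_eq h0 hP hv)

theorem inf_eq_bot {a b : H} (ha : a * a = 1) (hb : b * b = 1) (h1 : a * b ≠ 1)
    (ho : Odd (orderOf (a * b))) : fixv φ a ⊓ fixv φ b = ⊥ :=
  (eq_bot_iff_forall _).2 fun v hv => h.eq_one_of_fix h1 ho
    (isConj_iff.2 ⟨a, inverts_mul ha hb⟩) (by rw [apply_mul, hv.2, hv.1])

omit [Finite H] in
theorem card_le_sq [Finite V] {a : H} (ha : a * a = 1) :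
    Nat.card V ≤ Nat.card (fixv φ a) * Nat.card (fixv φ a) := by
  let f : V →* V := MonoidHom.mk' (fun v => v * φ a v) fun v w => by
    rw [map_mul, mul_assoc, mul_assoc, ← mul_assoc w, h.comm w, mul_assoc]
  have h1 : f.ker ≤ fixv φ a := fun v hv => by
    have : v * φ a v = 1 := hv
    rw [mem_fixv, ← inv_eq_of_mul_eq_one_right this, inv_eq (h.sq v)]
  have h2 : f.range ≤ fixv φ a := by
    rintro _ ⟨v, rfl⟩
    change φ a (v * φ a v) = v * φ a v
    rw [map_mul, ← apply_mul, ha, map_one, h.comm]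
    rfl
  rw [← f.ker.card_mul_index, index_ker]
  exact Nat.mul_le_mul (card_le_of_le h1) (card_le_of_le h2)

omit [Finite H] in
theorem mul_card_le [Finite V] {A B : Subgroup V} (hAB : A ⊓ B = ⊥) :
    Nat.card A * Nat.card B ≤ Nat.card V := by
  rw [← card_sup_of_disjoint (fun g _ => mem_normalizer_of_conj_mem fun y hy => by
    rwa [h.comm g, mul_inv_cancel_right]) hAB]
  exact card_le_card_group _

theorem exists_inverted (hf : Function.Injective φ) {a : H} (ha : a * a = 1) (h1 : a ≠ 1) :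
    ∃ y, y ≠ 1 ∧ Odd (orderOf y) ∧ a * y * a⁻¹ = y⁻¹ := by
  obtain ⟨y, hy, hy2, h3⟩ := H5.exists_inverted_of_notMem_pCore (t := a) (by rw [pow_two, ha])
    fun h0 => h1 (hf (by
      ext v
      obtain ⟨P, hP⟩ := h.ex v
      rw [hP a (pCore_le_sylow P h0), map_one]
      rfl))
  exact ⟨y, by rintro rfl; simp at hy; exact Nat.not_prime_one hy, hy.odd_of_ne_two hy2, h3⟩

variable [Finite V]

theorem card_fixv (hf : Function.Injective φ) {a : H} (ha : a * a = 1) (h1 : a ≠ 1) :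
    Nat.card (fixv φ a) * Nat.card (fixv φ a) = Nat.card V := by
  obtain ⟨y, hy, ho, hay⟩ := h.exists_inverted hf ha h1
  have hb := mul_mul_self ha hay
  have e : a * (a * y) = y := by rw [← mul_assoc, ha, one_mul]
  have h2 := h.mul_card_le (h.inf_eq_bot ha hb (e.symm ▸ hy) (e.symm ▸ ho))
  have h3 := h.card_le_sq hb
  refine le_antisymm ?_ (h.card_le_sq ha)
  have h4 : Nat.card (fixv φ a) ≤ Nat.card (fixv φ (a * y)) :=
    Nat.le_of_mul_le_mul_right (h2.trans h3) Nat.card_pos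
  exact (Nat.mul_le_mul_left _ h4).trans h2

theorem card_fixv_eq (hf : Function.Injective φ) {a b : H} (ha : a * a = 1) (h1 : a ≠ 1)
    (hb : b * b = 1) (h2 : b ≠ 1) : Nat.card (fixv φ a) = Nat.card (fixv φ b) :=
  Nat.mul_self_inj.1 ((h.card_fixv hf ha h1).trans (h.card_fixv hf hb h2).symm)

variable [Nontrivial V]

theorem exists_max {a y : H} (ho : Odd (orderOf y)) (hay : a * y * a⁻¹ = y⁻¹) :
    ∃ x, y ∈ zpowers x ∧ Odd (orderOf x) ∧ a * x * a⁻¹ = x⁻¹ ∧
      ∀ k, Odd (orderOf k) → Commute k x → a * k * a⁻¹ = k⁻¹ → k ∈ zpowers x := by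
  obtain ⟨x, ⟨hx1, hx2, hx3⟩, hmax⟩ := Set.exists_max_image
    {x | y ∈ zpowers x ∧ Odd (orderOf x) ∧ a * x * a⁻¹ = x⁻¹} orderOf (Set.toFinite _)
    ⟨y, mem_zpowers y, ho, hay⟩
  refine ⟨x, hx1, hx2, hx3, fun k hk hkx hak => ?_⟩
  set B := zpowers x ⊔ zpowers k with hB
  have hmem : ∀ b ∈ B, ∃ u ∈ zpowers x, ∃ v ∈ zpowers k, u * v = b := fun b hb =>
    (mem_sup_iff_of_le_normalizer (zpowers_le.2 (H5.mem_normalizer_zpowers_of_conj_mem (by
      rw [← hkx.eq, mul_inv_cancel_right]; exact mem_zpowers k)))).1 hb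
  have hc : ∀ u ∈ zpowers x, ∀ v ∈ zpowers k, Commute u v := by
    rintro _ ⟨i, rfl⟩ _ ⟨j, rfl⟩
    exact hkx.symm.zpow_zpow i j
  have h1 : ∀ b ∈ B, Odd (orderOf b) ∧ a * b * a⁻¹ = b⁻¹ := fun b hb => by
    obtain ⟨u, hu, v, hv, rfl⟩ := hmem b hb
    refine ⟨((hx2.of_dvd_nat (orderOf_dvd_of_mem_zpowers hu)).mul
      (hk.of_dvd_nat (orderOf_dvd_of_mem_zpowers hv))).of_dvd_nat
      (hc u hu v hv).orderOf_mul_dvd_mul_orderOf, ?_⟩
    rw [← conj_mul, inverts_of_mem_zpowers hx3 hu, inverts_of_mem_zpowers hak hv,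
      (hc u hu v hv).eq, mul_inv_rev]
  have h2 : IsCyclic B := by
    refine (Frob.IsFPF.hasFPF (φ := φ.comp B.subtype) fun b hb v hv => ?_).isCyclic_of_comm
      fun b c => Subtype.ext ?_
    · exact h.eq_one_of_fix (fun e => hb (Subtype.ext e)) (h1 b b.2).1
        (isConj_iff.2 ⟨a, (h1 b b.2).2⟩) hv
    · have h3 := (h1 _ (mul_mem b.2 c.2)).2
      rw [← conj_mul, (h1 b b.2).2, (h1 c c.2).2, ← mul_inv_rev, inv_inj] at h3
      exact h3.symm
  obtain ⟨g, hg⟩ := (isCyclic_iff_exists_zpowers_eq_top.1 h2)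
  have h3 : zpowers (g : H) = B := by
    rw [← Subgroup.coe_subtype, ← MonoidHom.map_zpowers, hg, ← MonoidHom.range_eq_map,
      range_subtype]
  have h4 := hmax g ⟨h3.ge (mem_sup_left hx1), h1 g g.2⟩
  rw [← Nat.card_zpowers, ← Nat.card_zpowers, h3] at h4
  rw [eq_of_le_of_card_le le_sup_left h4]
  exact mem_sup_right (mem_zpowers k)

omit [Finite V] [Nontrivial V] h in
theorem exists_mem_sylow {M : Type*} [Group M] [Finite M] (A : Subgroup M) [A.Normal]
    (hA : Odd (Nat.card A)) {a : M} (ha : a * a = 1)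
    (hmax : ∀ k, Odd (orderOf k) → a * k * a⁻¹ = k⁻¹ → k ∈ A) (S : Sylow 2 M) :
    ∃ α ∈ A, a * α ∈ S := by
  have hs := QuotientGroup.mk'_surjective A
  have h1 : QuotientGroup.mk' A a ∈ pCore 2 (M ⧸ A) := by
    by_contra h0
    obtain ⟨y, hy, hy2, h3⟩ := H5.exists_inverted_of_notMem_pCore
      (by rw [pow_two, ← map_mul, ha, map_one]) h0
    obtain ⟨y, rfl⟩ := hs y
    have ho := hy.odd_of_ne_two hy2
    -- the element `y * a * y⁻¹ * a⁻¹` is inverted by `a` and maps to the square of `y`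
    have h4 : QuotientGroup.mk' A (y * a * y⁻¹ * a⁻¹) = QuotientGroup.mk' A y ^ 2 := by
      rw [map_mul, map_mul, map_mul, map_inv, map_inv, mul_assoc, mul_assoc,
        ← mul_assoc (QuotientGroup.mk' A a), ← conj_inv, h3, inv_inv, pow_two]
    have h5 : y * a * y⁻¹ * a⁻¹ ∈ A := by
      refine hmax _ ?_ (by rw [inv_eq ha]; simp [mul_assoc, inv_eq ha, ha])
      have h6 : (y * a * y⁻¹ * a⁻¹) ^ orderOf (QuotientGroup.mk' A y) ∈ A := by
        rw [← QuotientGroup.eq_one_iff, ← QuotientGroup.mk'_apply, map_pow, h4, ← pow_mul,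
          mul_comm, pow_mul, pow_orderOf_eq_one, one_pow]
      refine Odd.of_dvd_nat (ho.mul hA) (orderOf_dvd_of_pow_eq_one ?_)
      rw [pow_mul]
      exact orderOf_dvd_iff_pow_eq_one.1 (orderOf_dvd_natCard _ h6)
    rw [← QuotientGroup.eq_one_iff, ← QuotientGroup.mk'_apply, h4, pow_two] at h5
    rw [eq_one_of_odd ho h5, orderOf_one] at hy
    exact Nat.not_prime_one hy
  obtain ⟨s, hs, e⟩ := pCore_le_sylow (S.mapSurjective hs) h1
  exact ⟨a⁻¹ * s, QuotientGroup.eq.1 e.symm, by simpa using hs⟩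

omit [Finite V] [Nontrivial V] in
theorem exists_mul_mem {a x : H} (ha : a * a = 1) (h1 : x ≠ 1) (ho : Odd (orderOf x))
    (hax : a * x * a⁻¹ = x⁻¹)
    (hmax : ∀ k, Odd (orderOf k) → Commute k x → a * k * a⁻¹ = k⁻¹ → k ∈ zpowers x)
    (Q : Sylow 2 H) : ∃ α ∈ zpowers x, a * α ∈ Q := by
  let M : Subgroup H :=
    { carrier := {g | g * x * g⁻¹ = x ∨ g * x * g⁻¹ = x⁻¹}
      one_mem' := Or.inl (by simp)
      mul_mem' := by
        intro g k hg hk
        have e : g * k * x * (g * k)⁻¹ = g * (k * x * k⁻¹) * g⁻¹ := by group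
        rcases hk with hk | hk <;> rcases hg with hg | hg <;>
          simp only [Set.mem_ofPred_eq, e, hk, ← conj_inv, hg, inv_inv, true_or, or_true]
      inv_mem' := by
        intro g hg
        rcases hg with hg | hg
        · left
          conv_lhs => rw [← hg]
          group
        · right
          have : g * x⁻¹ * g⁻¹ = x := by rw [← conj_inv, hg, inv_inv]
          conv_lhs => rw [← this]
          group }
  have haM : a ∈ M := Or.inr hax
  have hC : ∀ c, Commute c x → c ∈ M := fun c hc => Or.inl (by rw [hc.eq, mul_inv_cancel_right])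
  have hn : ((zpowers x).subgroupOf M).Normal := normal_subgroupOf_of_le_normalizer fun g hg =>
    H5.mem_normalizer_zpowers_of_conj_mem (by
      rcases hg with hg | hg <;> rw [hg]
      exacts [mem_zpowers x, inv_mem (mem_zpowers x)])
  have hle : zpowers x ≤ M := zpowers_le.2 (hC x rfl)
  have key := exists_mem_sylow ((zpowers x).subgroupOf M)
    (by rwa [card_subgroupOf_of_le hle, Nat.card_zpowers]) (a := ⟨a, haM⟩) (Subtype.ext ha)
    (fun k hk hak => hmax k (by rwa [orderOf_coe]) (by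
      rcases k.2 with h2 | h2
      · exact mul_inv_eq_iff_eq_mul.1 h2
      · exact mem_centralizer_singleton_iff.1 (H5.mem_of_sq_mem_of_odd
          (by rw [orderOf_coe]; exact Nat.coprime_two_right.2 hk)
          (H5.sq_mem_centralizer_of_inverts h2))) (congrArg Subtype.val hak))
  obtain ⟨S⟩ : Nonempty (Sylow 2 M) := inferInstance
  obtain ⟨P, hP⟩ := S.exists_comap_subtype_eq
  obtain ⟨c, hc, rfl⟩ := h.trans x h1 ho (isConj_iff.2 ⟨a, hax⟩) P Q
  obtain ⟨α, hα, h2⟩ := key ((⟨c, hC c hc⟩ : M) • S)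
  refine ⟨α, hα, mem_smul.2 ?_⟩
  have h3 : _ ∈ (S : Subgroup M) := mem_smul.1 h2
  rw [← hP] at h3
  exact h3

/-- the partition of the nonzero vectors by the fixed spaces of a dihedral coset -/
theorem exists_partition (hf : Function.Injective φ) {a y : H} (ha : a * a = 1) (ha1 : a ≠ 1)
    (h1 : y ≠ 1) (ho : Odd (orderOf y)) (hay : a * y * a⁻¹ = y⁻¹) :
    ∃ x, y ∈ zpowers x ∧ Odd (orderOf x) ∧ a * x * a⁻¹ = x⁻¹ ∧
      (∀ Q : Sylow 2 H, ∃ α ∈ zpowers x, a * α ∈ Q) ∧ orderOf x = Nat.card (fixv φ a) + 1 ∧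
      ∀ Y : Subgroup V, (∀ α ∈ zpowers x, Y ⊓ fixv φ (a * α) ≠ ⊥) → orderOf x ≤ Nat.card Y - 1 := by
  classical
  obtain ⟨x, hx1, hx2, hx3, hmax⟩ := h.exists_max ho hay
  have hx0 : x ≠ 1 := by rintro rfl; exact h1 (by simpa using hx1)
  have hcov := h.exists_mul_mem ha hx0 hx2 hx3 hmax
  have hinv : ∀ α ∈ zpowers x, a * α * (a * α) = 1 := fun α hα =>
    mul_mul_self ha (inverts_of_mem_zpowers hx3 hα)
  have hne : ∀ α ∈ zpowers x, a * α ≠ 1 := fun α hα h0 => by
    have h2 : α = a := by rw [← inv_eq ha]; exact (inv_eq_of_mul_eq_one_right h0).symm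
    exact ha1 (eq_one_of_odd (hx2.of_dvd_nat (orderOf_dvd_of_mem_zpowers (h2 ▸ hα))) ha)
  have := Fintype.ofFinite (zpowers x)
  have hp := card_partition (fun α : zpowers x => fixv φ (a * α)) (fun α β hαβ => by
    have e : a * α * (a * β) = (α⁻¹ * β : zpowers x) := by
      have := inverts_of_mem_zpowers hx3 α.2
      rw [inv_eq ha] at this
      rw [← mul_assoc, this]; rfl
    refine h.inf_eq_bot (hinv _ α.2) (hinv _ β.2) ?_ ?_ <;> rw [e]
    · exact fun h0 => hαβ (inv_mul_eq_one.1 (Subtype.ext h0))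
    · exact hx2.of_dvd_nat (orderOf_dvd_of_mem_zpowers (α⁻¹ * β).2)) (fun v _ => by
      obtain ⟨P, hP⟩ := h.ex v
      obtain ⟨α, hα, h2⟩ := hcov P
      exact ⟨⟨α, hα⟩, hP _ h2⟩)
  have hcard : Fintype.card (zpowers x) = orderOf x := by
    rw [← Nat.card_eq_fintype_card, Nat.card_zpowers]
  refine ⟨x, hx1, hx2, hx3, hcov, ?_, fun Y hY => ?_⟩
  · have h2 := hp ⊤
    rw [Finset.sum_congr rfl (g := fun _ => Nat.card (fixv φ a) - 1) (fun α _ => by
      rw [top_inf_eq, h.card_fixv_eq hf (hinv _ α.2) (hne _ α.2) ha ha1]), Finset.sum_const,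
      Finset.card_univ, hcard, smul_eq_mul, card_top, ← h.card_fixv hf ha ha1] at h2
    have h3 := h.card_fixv hf ha ha1
    have h4 := Finite.one_lt_card (α := V)
    obtain ⟨q, hq⟩ : ∃ q, Nat.card (fixv φ a) = q + 1 := ⟨_, (Nat.sub_add_cancel Nat.card_pos).symm⟩
    rw [hq] at h2 h3 ⊢
    have h5 : 0 < q := by
      rcases q with _ | q
      · omega
      · omega
    refine Nat.eq_of_mul_eq_mul_right h5 ?_
    rw [Nat.add_sub_cancel] at h2
    rw [← h2]
    apply Nat.sub_eq_of_eq_add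
    ring
  · rw [hp Y, ← hcard, ← Finset.card_univ, Finset.card_eq_sum_ones]
    refine Finset.sum_le_sum fun α _ => ?_
    have := (Subgroup.one_lt_card_iff_ne_bot _).2 (hY α α.2)
    omega

theorem not_inv (hf : Function.Injective φ) {a y z : H} (ha : a * a = 1) (ha1 : a ≠ 1)
    (h1 : y ≠ 1) (ho : Odd (orderOf y)) (hay : a * y * a⁻¹ = y⁻¹) (hz : z * z = 1) (hz1 : z ≠ 1)
    (hinv : ∀ v ∈ fixv φ z, φ y v ∈ fixv φ z) : False := by
  obtain ⟨x, hx1, -, -, -, hx2, -⟩ := h.exists_partition hf ha ha1 h1 ho hay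
  have h2 := orderOf_dvd_of_mem_zpowers hx1
  rw [hx2, h.card_fixv_eq hf ha ha1 hz hz1] at h2
  have hI : CopAut.Inv (φ.comp (zpowers y).subtype) (fixv φ z) := by
    rintro ⟨_, hk⟩
    obtain ⟨k, rfl⟩ := mem_powers_iff_mem_zpowers.2 hk
    change ∀ v ∈ fixv φ z, φ (y ^ k) v ∈ fixv φ z
    induction k with
    | zero => simp
    | succ k ih =>
      intro v hv
      rw [pow_succ, apply_mul]
      exact ih (npow_mem_zpowers y k) _ (hinv v hv)
  have h3 := Frob.IsFPF.card_dvd_card_sub_one (φ := H8Inv.restrHom hI) fun b hb v hv =>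
    Subtype.ext (h.eq_one_of_fix (fun e => hb (Subtype.ext e))
      (ho.of_dvd_nat (orderOf_dvd_of_mem_zpowers b.2))
      (isConj_iff.2 ⟨a, inverts_of_mem_zpowers hay b.2⟩) (congrArg Subtype.val hv))
  rw [Nat.card_zpowers] at h3
  have h4 := Nat.dvd_sub h2 h3
  have h5 : 0 < Nat.card (fixv φ z) := Nat.card_pos
  rw [show Nat.card (fixv φ z) + 1 - (Nat.card (fixv φ z) - 1) = 2 by omega] at h4
  exact h1 (orderOf_eq_one_iff.1 ((Nat.coprime_two_right.2 ho).eq_one_of_dvd h4))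

theorem not_commute (hf : Function.Injective φ) {a y z : H} (ha : a * a = 1) (ha1 : a ≠ 1)
    (h1 : y ≠ 1) (ho : Odd (orderOf y)) (hay : a * y * a⁻¹ = y⁻¹) (hz : z * z = 1) (hz1 : z ≠ 1)
    (hc : Commute z y) : False :=
  h.not_inv hf ha ha1 h1 ho hay hz hz1 fun v hv => by
    rw [mem_fixv, ← apply_mul, hc.eq, apply_mul, hv]

theorem odd_or_sylow (hf : Function.Injective φ) {a b : H} (ha : a * a = 1) (ha1 : a ≠ 1)
    (hb : b * b = 1) : Odd (orderOf (a * b)) ∨ ∃ Q : Sylow 2 H, a ∈ Q ∧ b ∈ Q := by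
  obtain ⟨u, hu, v, hv, e, hc, hu2, hv2⟩ := exists_p_part Nat.prime_two (a * b)
  by_cases h1 : v = 1
  · rw [h1, mul_one] at e
    exact Or.inr (exists_sylow_of_isPGroup ha hb (isPGroup_zpowers_iff.2 (e ▸ hu2)))
  left
  by_contra h2
  obtain ⟨z, hz, hz1, hz2⟩ := exists_involution_mem_zpowers (Nat.not_odd_iff_even.1 h2)
  exact h.not_commute hf ha ha1 h1 (Nat.coprime_two_right.1 hv2)
    (inverts_of_mem_zpowers (inverts_mul ha hb) hv) hz2 hz1 (commute_of_mem_zpowers hz hv)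

theorem isConj (hf : Function.Injective φ) {a b : H} (ha : a * a = 1) (ha1 : a ≠ 1)
    (hb : b * b = 1) (hb1 : b ≠ 1) : IsConj a b := by
  by_contra hab
  obtain ⟨y, h1, ho, hay⟩ := h.exists_inverted hf ha ha1
  obtain ⟨x, -, hx2, hx3, -, hx4, hx5⟩ := h.exists_partition hf ha ha1 h1 ho hay
  have := hx5 (fixv φ b) fun α hα h0 => by
    have h2 := inverts_of_mem_zpowers hx3 hα
    rcases h.odd_or_sylow hf hb hb1 (mul_mul_self ha h2) with h3 | ⟨Q, h3, h4⟩
    · obtain ⟨s, -, hs⟩ := exists_conj_of_odd hb (mul_mul_self ha h2) h3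
      obtain ⟨c, -, hc⟩ := exists_conj_eq_mul h2 (hx2.of_dvd_nat (orderOf_dvd_of_mem_zpowers hα))
      exact hab ((isConj_iff.2 ⟨c, hc⟩).trans (isConj_iff.2 ⟨s, hs⟩).symm)
    · obtain ⟨v, hv, h5⟩ := h.exists_fix Q
      exact hv (mem_bot.1 (h0 ▸ ⟨h5 _ h3, h5 _ h4⟩))
  rw [hx4, h.card_fixv_eq hf ha ha1 hb hb1] at this
  omega

theorem central (hf : Function.Injective φ) {P : Sylow 2 H} {b : H} (hb : b * b = 1) (hbP : b ∈ P) :
    ∀ g ∈ P, Commute g b := by
  by_cases hb1 : b = 1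
  · simp [hb1]
  have := P.isPGroup'.isNilpotent
  obtain ⟨z, -, hz1, hz⟩ := PGrp.exists_ne_one_mem_center_of_normal (⊤ : Subgroup P) fun h0 =>
    hb1 (congrArg Subtype.val (mem_bot.1 (h0.le (mem_top (⟨b, hbP⟩ : P)))) :)
  obtain ⟨a, haz, ha1, ha⟩ := exists_involution_mem_zpowers (u := (z : H)) (by
    by_contra h0
    exact hz1 (Subtype.ext (eq_one_of_odd_of_mem P.isPGroup' z.2 (Nat.not_even_iff_odd.1 h0))))
  have haP : a ∈ P := zpowers_le.2 z.2 haz
  have hac : ∀ g ∈ P, Commute g a := fun g hg => by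
    obtain ⟨k, rfl⟩ := haz
    exact Commute.zpow_right (congrArg Subtype.val (mem_center_iff.1 hz ⟨g, hg⟩)) k
  obtain ⟨g, rfl⟩ := isConj_iff.1 (h.isConj hf ha ha1 hb hb1)
  obtain ⟨y, h1, ho, hay⟩ := h.exists_inverted hf ha ha1
  obtain ⟨c, hc, hcP⟩ := h.trans y h1 ho (isConj_iff.2 ⟨a, hay⟩) P (g⁻¹ • P)
  have h2 : c⁻¹ * a * c ∈ P := by
    rw [← mem_smul, hcP, mem_smul, inv_inv]; exact hbP
  have h3 : a * (c⁻¹ * a * c) = 1 := by
    by_contra h0
    obtain ⟨e, he, he1, he2⟩ := exists_involution_mem_zpowers (u := a * (c⁻¹ * a * c)) (by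
      by_contra h4
      exact h0 (eq_one_of_odd_of_mem P.isPGroup' (mul_mem haP h2) (Nat.not_even_iff_odd.1 h4)))
    obtain ⟨k, rfl⟩ := he
    refine h.not_commute hf ha ha1 h1 ho hay he2 he1 (Commute.zpow_left ?_ k)
    have h5 : Commute (a * c⁻¹ * a⁻¹) y := by
      have := (hc.inv_left.inv_right).map (MulAut.conj a)
      rwa [MulAut.conj_apply, MulAut.conj_apply, ← conj_inv (a := y), hay, inv_inv] at this
    rw [show a * (c⁻¹ * a * c) = a * c⁻¹ * a⁻¹ * c by rw [inv_eq ha]; group]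
    exact h5.mul_left hc
  have h4 : (g * c) • P = P := by rw [mul_smul, hcP, smul_inv_smul]
  have h5 : g * a * g⁻¹ = g * c * a * (g * c)⁻¹ := by
    have : c⁻¹ * a * c = a := by rw [← inv_eq_of_mul_eq_one_right h3, inv_eq ha]
    conv_rhs => rw [← this]
    group
  intro k hk
  have := (hac _ (mem_smul.1 (h4.symm ▸ hk))).map (MulAut.conj (g * c))
  rw [MulAut.conj_apply, MulAut.conj_apply, ← h5] at this
  convert this using 1
  group

theorem commute_of_commute (hf : Function.Injective φ) {a e e' : H} (ha : a * a = 1) (ha1 : a ≠ 1)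
    (he : e * e = 1) (he' : e' * e' = 1) (h1 : Commute a e) (h2 : Commute a e') :
    Commute e e' := by
  by_cases he1 : e = 1
  · simp [he1]
  by_cases h3 : e * e' = 1
  · rw [← inv_eq_of_mul_eq_one_right h3]; exact (Commute.refl e).inv_right
  rcases h.odd_or_sylow hf he he1 he' with h4 | ⟨Q, h4, h5⟩
  · exact (h.not_commute hf he he1 h3 h4 (inverts_mul he he') ha ha1 (h1.mul_right h2)).elim
  · exact h.central hf he' h5 e h4

theorem fixv_le (hf : Function.Injective φ) {a b : H} (ha : a * a = 1) (ha1 : a ≠ 1)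
    (hb : b * b = 1) (hab : Commute a b) : fixv φ a ≤ fixv φ b := by
  intro v hv
  by_cases hv1 : v = 1
  · rw [hv1]; exact one_mem _
  obtain ⟨P, hP⟩ := h.ex v
  have haP := h.mem_of_fix hv1 hP ha hv
  let E : Subgroup H :=
    { carrier := {e | e * e = 1 ∧ Commute a e}
      one_mem' := ⟨by simp, by simp⟩
      mul_mem' := fun {e e'} he he' => ⟨by
        rw [mul_assoc, ← mul_assoc e', ← (h.commute_of_commute hf ha ha1 he.1 he'.1 he.2 he'.2).eq,
          mul_assoc, he'.1, mul_one, he.1], he.2.mul_right he'.2⟩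
      inv_mem' := fun {e} he => by rwa [inv_eq he.1] }
  have hE : IsPGroup 2 E := fun e => ⟨1, Subtype.ext (by simpa [pow_two] using e.2.1)⟩
  have h1 := P.isPGroup'.to_sup_of_normal_right' hE fun g hg =>
    mem_normalizer_of_conj_mem fun e he => ⟨conj_mul_self he.1 g, by
      have := (h.central hf ha haP g hg).symm
      exact (this.mul_right he.2).mul_right this.inv_right⟩
  have h2 := P.is_maximal' h1 le_sup_left
  exact hP b (h2.le (mem_sup_right ⟨hb, hab⟩))

theorem eq_of_commute (hf : Function.Injective φ) {a b : H} (ha : a * a = 1) (ha1 : a ≠ 1)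
    (hb : b * b = 1) (hb1 : b ≠ 1) (hab : Commute a b) : a = b := by
  by_contra hne
  obtain ⟨y, h1, ho, hay⟩ := h.exists_inverted hf ha ha1
  have hu := mul_mul_self ha hay
  have hau : ¬ Commute a (a * y) := fun hc => by
    have h2 : Commute a y := by simpa using (Commute.refl a).inv_right.mul_right hc
    rw [h2.eq, mul_inv_cancel_right] at hay
    exact h1 (eq_one_of_odd ho (mul_eq_one_iff_eq_inv.2 hay))
  have hbu : ¬ Commute b (a * y) := fun hc =>
    hau (h.commute_of_commute hf hb hb1 ha hu hab.symm hc)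
  have key : ∀ {e e' : H}, e * e = 1 → e ≠ 1 → e' * e' = 1 → ¬ Commute e e' →
      Odd (orderOf (e * e')) := fun he he1 he' hc =>
    (h.odd_or_sylow hf he he1 he').resolve_right fun ⟨Q, h2, h3⟩ => hc (h.central hf he' h3 _ h2)
  obtain ⟨s, hs, hsa⟩ := exists_conj_of_odd ha hu (key ha ha1 hu hau)
  obtain ⟨s', hs', hsb⟩ := exists_conj_of_odd hb hu (key hb hb1 hu hbu)
  have hk : s * s' * b * (s * s')⁻¹ = a := by
    rw [mul_inv_rev, mul_assoc s, mul_assoc s, ← mul_assoc (s' * b), hsb, ← hsa, inv_eq hs]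
    simp [← mul_assoc, hs]
    simp [mul_assoc, hs]
  have hk1 : s * s' ≠ 1 := fun h0 => hne (by simpa [h0] using hk.symm)
  have hs1 : s ≠ 1 := by
    rintro rfl
    exact hau (by rw [← hsa]; simp)
  by_cases hc : Commute s s'
  · have hk2 : s * s' * (s * s') = 1 := by
      rw [mul_assoc, ← mul_assoc s', ← hc.eq, mul_assoc, hs', mul_one, hs]
    by_cases hc2 : Commute (s * s') b
    · rw [hc2.eq, mul_inv_cancel_right] at hk
      exact hne hk.symm
    · have h2 := (key hk2 hk1 hb hc2).of_dvd_nat (orderOf_pow_dvd 2)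
      rw [inv_eq hk2] at hk
      rw [pow_two, ← mul_assoc, hk] at h2
      have h3 := eq_one_of_odd h2 (by
        rw [mul_assoc, ← mul_assoc b, ← hab.eq, mul_assoc, hb, mul_one, ha])
      exact hne (by rw [← inv_eq hb]; exact eq_inv_of_mul_eq_one_left h3)
  · refine h.not_inv hf hs hs1 hk1 (key hs hs1 hs' hc) (inverts_mul hs hs') hb hb1 fun v hv => ?_
    exact h.fixv_le hf ha ha1 hb hab (hk ▸ conj_fix hv _)

theorem eq_of_mem (hf : Function.Injective φ) {P : Sylow 2 H} {a b : H} (ha : a * a = 1)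
    (ha1 : a ≠ 1) (hb : b * b = 1) (hb1 : b ≠ 1) (haP : a ∈ P) (hbP : b ∈ P) : a = b :=
  h.eq_of_commute hf ha ha1 hb hb1 (h.central hf hb hbP a haP)

theorem isSolvable_of_centralizer (hf : Function.Injective φ) {a : H} (ha : a * a = 1)
    (ha1 : a ≠ 1) (hs : Group.IsSolvable (centralizer ({a} : Set H))) : Group.IsSolvable H := by
  obtain ⟨y, h1, ho, hay⟩ := h.exists_inverted hf ha ha1
  obtain ⟨x, -, hx2, hx3, hx4, -, -⟩ := h.exists_partition hf ha ha1 h1 ho hay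
  have hinv : ∀ α ∈ zpowers x, a * α * (a * α) = 1 := fun α hα =>
    mul_mul_self ha (inverts_of_mem_zpowers hx3 hα)
  have hne : ∀ α ∈ zpowers x, a * α ≠ 1 := fun α hα h0 => by
    have h2 : α = a := by rw [← inv_eq ha]; exact (inv_eq_of_mul_eq_one_right h0).symm
    exact ha1 (eq_one_of_odd (hx2.of_dvd_nat (orderOf_dvd_of_mem_zpowers (h2 ▸ hα))) ha)
  have key : ∀ b : H, b * b = 1 → b ≠ 1 → ∃ α ∈ zpowers x, a * α = b := fun b hb hb1 => by
    obtain ⟨Q, hQ⟩ := exists_sylow_mem hb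
    obtain ⟨α, hα, h2⟩ := hx4 Q
    exact ⟨α, hα, h.eq_of_mem hf (hinv α hα) (hne α hα) hb hb1 h2 hQ⟩
  have hn : (zpowers x).Normal := ⟨fun α hα g => by
    obtain ⟨β, hβ, e1⟩ := key _ (conj_mul_self ha g) (by simpa using ha1)
    obtain ⟨γ, hγ, e2⟩ := key _ (conj_mul_self (hinv α hα) g) (by
      rw [Ne, conj_eq_one_iff]; exact hne α hα)
    have : g * α * g⁻¹ = β⁻¹ * γ := by
      rw [← conj_mul, ← e1] at e2
      rw [eq_inv_mul_iff_mul_eq, ← mul_left_cancel_iff (a := a), e2, mul_assoc a]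
    exact this ▸ mul_mem (inv_mem hβ) hγ⟩
  refine isSolvable_of_normal_of_quotient (zpowers x) inferInstance
    (Group.isSolvable_of_surjective (f := (QuotientGroup.mk' (zpowers x)).comp
      (centralizer ({a} : Set H)).subtype) fun g => ?_)
  obtain ⟨g, rfl⟩ := QuotientGroup.mk'_surjective _ g
  obtain ⟨β, hβ, e1⟩ := key _ (conj_mul_self ha g) (by simpa using ha1)
  obtain ⟨c, hc, e2⟩ := exists_conj_eq_mul (inverts_of_mem_zpowers hx3 hβ)
    (hx2.of_dvd_nat (orderOf_dvd_of_mem_zpowers hβ))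
  refine ⟨⟨c⁻¹ * g, mem_centralizer_singleton_iff.2 ?_⟩, ?_⟩
  · rw [← e2] at e1
    calc c⁻¹ * g * a = c⁻¹ * (g * a * g⁻¹) * g := by group
      _ = _ := by rw [← e1]; group
  · have : QuotientGroup.mk' (zpowers x) c = 1 :=
      (QuotientGroup.eq_one_iff _).2 (zpowers_le.2 hβ hc)
    change QuotientGroup.mk' (zpowers x) (c⁻¹ * g) = _
    rw [map_mul, map_inv, this, inv_one, one_mul]

omit h [Finite H] [Finite V] [Nontrivial V] in
theorem inv_centralizer (a : H) :
    CopAut.Inv (φ.comp (centralizer ({a} : Set H)).subtype) (fixv φ a) := fun c v hv => by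
  change φ a (φ c v) = φ c v
  rw [← apply_mul, ← mem_centralizer_singleton_iff.1 c.2, apply_mul, hv]

theorem centralizer_hyp (hf : Function.Injective φ) {a : H} (ha : a * a = 1) (ha1 : a ≠ 1) :
    Hyp (H8Inv.restrHom (inv_centralizer (φ := φ) a)) := by
  have hle : ∀ P : Sylow 2 H, a ∈ P → (P : Subgroup H) ≤ centralizer {a} := fun P hP g hg =>
    mem_centralizer_singleton_iff.2 (h.central hf ha hP g hg)
  have hup : ∀ S : Sylow 2 (centralizer ({a} : Set H)), ∃ (P : Sylow 2 H) (hP : a ∈ P),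
      S = P.subtype (hle P hP) := fun S => by
    obtain ⟨P, hP⟩ := S.exists_comap_subtype_eq
    have h1 : (⟨a, mem_centralizer_singleton_iff.2 rfl⟩ : centralizer ({a} : Set H)) ∈ S :=
      mem_sylow_of_smul_eq (isPGroup_zpowers (Subtype.ext ha))
        (Sylow.smul_eq_iff_mem_normalizer.2 (center_le_normalizer _ (mem_center_iff.2 fun g =>
          Subtype.ext (mem_centralizer_singleton_iff.1 g.2))))
    exact ⟨P, hP.ge h1, Sylow.ext hP.symm⟩
  refine ⟨fun v => Subtype.ext (h.sq v), fun v => ?_, fun v hv S T hS hT => ?_,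
    fun x hx1 hx2 hx3 S T => ?_⟩
  · by_cases hv : v = 1
    · exact ⟨default, fun g _ => by rw [hv, map_one]⟩
    obtain ⟨P, hP⟩ := h.ex v
    exact ⟨P.subtype (hle P (h.mem_of_fix (fun e => hv (Subtype.ext e)) hP ha v.2)),
      fun g hg => Subtype.ext (hP g hg)⟩
  · obtain ⟨P, hP, rfl⟩ := hup S
    obtain ⟨Q, hQ, rfl⟩ := hup T
    have := h.uniq v (fun e => hv (Subtype.ext e)) P Q
      (fun g hg => congrArg Subtype.val (hS ⟨g, hle P hP hg⟩ hg))
      (fun g hg => congrArg Subtype.val (hT ⟨g, hle Q hQ hg⟩ hg))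
    subst this
    rfl
  · obtain ⟨P, hP, rfl⟩ := hup S
    obtain ⟨Q, hQ, rfl⟩ := hup T
    obtain ⟨c, hc, rfl⟩ := h.trans x (fun e => hx1 (Subtype.ext e)) (by rwa [orderOf_coe])
      ((Subgroup.subtype _).map_isConj hx3) P Q
    have := h.eq_of_mem hf (conj_mul_self ha c) (by simpa using ha1) ha ha1 (conj_mem_smul hP c) hQ
    exact ⟨⟨c, mem_centralizer_singleton_iff.2 (mul_inv_eq_iff_eq_mul.1 this)⟩, Subtype.ext hc,
      Sylow.smul_subtype _ _⟩

omit [Finite V] [Nontrivial V] in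
theorem kerLift_hyp : Hyp (QuotientGroup.kerLift φ) := by
  have hs := QuotientGroup.mk'_surjective φ.ker
  refine ⟨h.sq, fun v => ?_, fun v hv S T hS hT => ?_, fun x hx1 hx2 hx3 S T => ?_⟩
  · obtain ⟨P, hP⟩ := h.ex v
    refine ⟨P.mapSurjective hs, ?_⟩
    rintro _ ⟨g, hg, rfl⟩
    exact hP g hg
  · obtain ⟨P, rfl⟩ := Sylow.mapSurjective_surjective hs 2 S
    obtain ⟨Q, rfl⟩ := Sylow.mapSurjective_surjective hs 2 T
    rw [h.uniq v hv P Q (fun g hg => hS _ ⟨g, hg, rfl⟩) (fun g hg => hT _ ⟨g, hg, rfl⟩)]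
  · obtain ⟨P, rfl⟩ := Sylow.mapSurjective_surjective hs 2 S
    obtain ⟨Q, rfl⟩ := Sylow.mapSurjective_surjective hs 2 T
    obtain ⟨x, rfl⟩ := hs x
    obtain ⟨u, hu⟩ := isConj_iff.1 hx3
    obtain ⟨u, rfl⟩ := hs u
    obtain ⟨x', h1, h2, h3⟩ := exists_real_lift_odd H _ hu hx2
    obtain ⟨c, hc, rfl⟩ := h.trans x' (fun e => hx1 (by rw [← h1, e, map_one])) h2 h3 P Q
    refine ⟨QuotientGroup.mk' _ c, h1 ▸ hc.map _, Sylow.ext ?_⟩
    rw [sylow_coe_smul_eq_map, Sylow.coe_mapSurjective, Sylow.coe_mapSurjective,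
      sylow_coe_smul_eq_map, map_map, map_map]
    congr 1

end Hyp

theorem isSolvable_of_le_normalizer [Finite H] (P : Sylow 2 H) {K : Subgroup H}
    (hK : K ≤ normalizer (P : Set H)) : Group.IsSolvable K := by
  have := @isSolvable_of_normal_sylow_two _ _ _ (P.subtype (le_normalizer (H := (P : Subgroup H))))
    (normal_subgroupOf_of_le_normalizer (H := normalizer (P : Set H)) (N := P) le_rfl)
  exact Group.isSolvable_of_isSolvable_injective (inclusion_injective hK)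

theorem isSolvable (H : Type*) [Group H] [Finite H] : ∀ {V : Type*} [Group V] [Finite V]
    [Nontrivial V] {φ : H →* MulAut V}, Hyp φ → Group.IsSolvable H := by
  revert H
  refine card_induction fun H _ _ ih => ?_
  intro V _ _ _ φ h
  by_cases hf : φ.ker = ⊥
  swap
  · refine isSolvable_of_normal_of_quotient φ.ker ?_ (ih _ (card_quotient_lt hf) h.kerLift_hyp)
    obtain ⟨v, hv⟩ := exists_ne (1 : V)
    obtain ⟨P, hP⟩ := h.ex v
    exact isSolvable_of_le_normalizer P fun g hg => Sylow.smul_eq_iff_mem_normalizer.1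
      (h.smul_eq hv hP (by rw [hg]; rfl))
  rw [MonoidHom.ker_eq_bot_iff] at hf
  by_contra hns
  obtain ⟨a, ha⟩ := exists_prime_orderOf_dvd_card' (G := H) 2
    (even_card_of_not_isSolvable hns).two_dvd
  have ha1 : a ≠ 1 := by rintro rfl; simp at ha
  have ha2 : a * a = 1 := by rw [← pow_two, ← ha, pow_orderOf_eq_one]
  have : Nontrivial (fixv φ a) := by
    rw [← Finite.one_lt_card_iff_nontrivial]
    have h1 := h.card_fixv hf ha2 ha1
    have h2 := Finite.one_lt_card (α := V)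
    nlinarith
  refine hns (h.isSolvable_of_centralizer hf ha2 ha1 (ih _ (card_lt_of_ne_top fun h0 => ?_)
    (h.centralizer_hyp hf ha2 ha1)))
  obtain ⟨y, h1, ho, hay⟩ := h.exists_inverted hf ha2 ha1
  exact h.not_commute hf ha2 ha1 h1 ho hay ha2 ha1
    (mem_centralizer_singleton_iff.1 (h0 ▸ mem_top y)).symm

end CfsgLib.Spread
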