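import Mathlib
import Cfsg.Agent.Lib.CoreSpread
import Cfsg.Agent.Lib.H5ClassGraph

/-! Groups whose prime graph on real class sizes is disconnected. -/

set_option autoImplicit false

namespace CfsgLib.RealGraph

open Subgroup Cfsg CfsgLib.Invol
open scoped commutatorElement Pointwise

variable {G : Type*} [Group G] [Finite G]

theorem exists_normal_stab {a b : G}
    (h : (centralizer ({a} : Set G)).index.Coprime (centralizer ({b} : Set G)).index)
    (hle : (centralizer ({a * b} : Set G)).index ≤ (centralizer ({b} : Set G)).index) :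
    ∃ S : Subgroup G, S.Normal ∧ (∀ s ∈ S, IsConj (a * b) (s * (a * b))) ∧ ∀ g : G, ⁅g, a⁆ ∈ S := by
  rw [Frob.index_centralizer_eq_ncard, Frob.index_centralizer_eq_ncard] at hle
  have h1 : ∀ g : G, (g * a * g⁻¹) • {y | IsConj b y} = {y | IsConj (a * b) y} := fun g =>
    Set.eq_of_subset_of_ncard_le (by
      rintro _ ⟨y, hy, rfl⟩
      obtain ⟨k, rfl⟩ := isConj_iff.mp hy
      exact H5.isConj_mul_of_coprime_index h g k) (by rwa [Set.ncard_smul_set])
  have h2 := h1 1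
  simp only [one_mul, inv_one, mul_one] at h2
  refine ⟨MulAction.stabilizer G {y | IsConj (a * b) y}, ⟨fun s hs g => ?_⟩,
    fun s hs => hs.le ⟨_, IsConj.refl _, rfl⟩, fun g => ?_⟩
  · refine Set.eq_of_subset_of_ncard_le ?_ (by rw [Set.ncard_smul_set])
    rintro _ ⟨y, hy, rfl⟩
    have h3 : IsConj (a * b) (s * (g⁻¹ * y * g⁻¹⁻¹)) :=
      hs.le ⟨_, IsConj.trans hy (isConj_iff.mpr ⟨g⁻¹, rfl⟩), rfl⟩
    exact h3.trans (isConj_iff.mpr ⟨g, by simp [mul_assoc]⟩)
  · rw [MulAction.mem_stabilizer_iff, commutatorElement_def, mul_smul, ← h2, inv_smul_smul, h1, h2]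

theorem index_mul_le {π : Set ℕ} {a b : G} (ha : IsPiNum π (centralizer ({a} : Set G)).index)
    (hb : IsPiNum πᶜ (centralizer ({b} : Set G)).index)
    (hab : IsPiNum πᶜ (centralizer ({a * b} : Set G)).index) :
    (centralizer ({a * b} : Set G)).index ≤ (centralizer ({b} : Set G)).index := by
  have h1 : (centralizer ({a * b} : Set G)).index ∣ _ := index_dvd_of_le
    (H := centralizer {a} ⊓ centralizer {b}) fun g hg => mem_centralizer_singleton_iff.2
      (Commute.mul_right (mem_centralizer_singleton_iff.1 hg.1) (mem_centralizer_singleton_iff.1 hg.2))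
  rw [ClassCount.index_inf_of_coprime (ha.coprime_compl hb)] at h1
  exact Nat.le_of_dvd (Nat.pos_of_ne_zero index_ne_zero_of_finite)
    ((ha.coprime_compl hab).symm.dvd_of_dvd_mul_left h1)

omit [Finite G] in
theorem isConj_inv_of_sq {a : G} (ha : a * a = 1) : IsConj a a⁻¹ := by rw [inv_eq ha]

/-- real class sizes are `π`- or `π'`-numbers -/
def Dich (π : Set ℕ) (G : Type*) [Group G] : Prop :=
  ∀ x : G, IsConj x x⁻¹ → IsPiNum π (centralizer ({x} : Set G)).index ∨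
    IsPiNum πᶜ (centralizer ({x} : Set G)).index

structure Star (π : Set ℕ) (t : G) : Prop where
  two : 2 ∉ π
  dich : Dich π G
  real : IsConj t t⁻¹
  pi : IsPiNum π (centralizer ({t} : Set G)).index
  ne : t ∉ center G

namespace Star

variable {π : Set ℕ} {t : G} (h : Star π t)
include h

omit [Finite G] in
theorem odd : ¬ 2 ∣ (centralizer ({t} : Set G)).index := fun h2 => h.two (h.pi 2 Nat.prime_two h2)

omit [Finite G] in
theorem sq : t * t = 1 := by
  by_contra h0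
  exact h.odd (H5.two_dvd_index_centralizer_of_isConj_inv h.real (by rwa [pow_two]))

omit [Finite G] in
theorem compl {x : G} (hx : IsConj x x⁻¹) (h2 : x * x ≠ 1) :
    IsPiNum πᶜ (centralizer ({x} : Set G)).index :=
  (h.dich x hx).resolve_left fun h0 => h.two (h0 2 Nat.prime_two
    (H5.two_dvd_index_centralizer_of_isConj_inv hx (by rwa [pow_two])))

omit [Finite G] in
theorem not_compl : ¬ IsPiNum πᶜ (centralizer ({t} : Set G)).index := fun h0 =>
  h.ne (Frob.index_centralizer_eq_one_iff.1 (h.pi.eq_one h0))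

theorem factor {x : G} (hx : IsConj x x⁻¹) (h2 : x * x ≠ 1) (g : G) :
    ∃ c, Commute c t ∧ ∃ d, Commute d x ∧ g = c * d := by
  obtain ⟨c, hc, d, hd, e⟩ := ClassCount.exists_mul_of_coprime_index
    (h.pi.coprime_compl (h.compl hx h2)) g
  exact ⟨c, mem_centralizer_singleton_iff.1 hc, d, mem_centralizer_singleton_iff.1 hd, e⟩

theorem not_commute {x : G} (hx : IsConj x x⁻¹) (h1 : x ≠ 1) (ho : Odd (orderOf x)) :
    ¬ Commute x t := by
  intro hc
  have h2 : x * x ≠ 1 := fun e => h1 (eq_one_of_odd ho e)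
  obtain ⟨g, hg⟩ := isConj_iff.1 hx
  obtain ⟨c, hc1, d, hd, rfl⟩ := h.factor hx h2 g
  have h3 : c * x * c⁻¹ = x⁻¹ := by
    rw [← hg, mul_assoc c d, hd.eq]; group
  have h4 : IsConj (x * t) (x * t)⁻¹ := isConj_iff.2 ⟨c, by
    rw [← conj_mul, h3, hc1.eq, mul_inv_cancel_right, hc.eq, mul_inv_rev, inv_eq h.sq]⟩
  have hco : (orderOf x).Coprime (orderOf t) := (Nat.coprime_two_right.2 ho).coprime_dvd_right
    (orderOf_dvd_of_pow_eq_one (by rw [pow_two, h.sq]))
  rcases h.dich _ h4 with h5 | h5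
  · exact h.two (h5 2 Nat.prime_two ((H5.two_dvd_index_centralizer_of_isConj_inv hx
      (by rwa [pow_two])).trans (H5.index_dvd_index_mul_left hc hco)))
  · exact h.not_compl (h5.of_dvd (H5.index_dvd_index_mul_right hc hco))

theorem closed : ∃ P : Sylow 2 G, (P : Subgroup G) ≤ centralizer {t} ∧
    centralizer {t} ≤ normalizer (P : Set G) := by
  obtain ⟨P, hP⟩ := H5.exists_sylow_le_of_not_dvd_index h.odd
  refine ⟨P, hP, (normal_subgroupOf_iff_le_normalizer hP).1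
    (H5.sylow_two_normal_of_not_real (fun y hy hy2 hr => ?_) (P.subtype hP))⟩
  refine h.not_commute ((Subgroup.subtype _).map_isConj hr) (fun e => ?_)
    (by rw [Subgroup.coe_subtype, orderOf_coe]; exact hy.odd_of_ne_two hy2)
    (mem_centralizer_singleton_iff.1 y.2)
  rw [show y = 1 from Subtype.ext e, orderOf_one] at hy
  exact Nat.not_prime_one hy

theorem isSolvable_centralizer : Group.IsSolvable (centralizer ({t} : Set G)) := by
  obtain ⟨P, -, hP⟩ := h.closed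
  exact Spread.isSolvable_of_le_normalizer P hP

theorem sylow_eq {P Q : Sylow 2 G} (hP : (P : Subgroup G) ≤ centralizer {t})
    (hQ : (Q : Subgroup G) ≤ centralizer {t}) : P = Q := by
  obtain ⟨R, -, hR⟩ := h.closed
  have key : ∀ P : Sylow 2 G, (P : Subgroup G) ≤ centralizer {t} → P = R := fun P hP =>
    Sylow.ext (P.is_maximal' R.isPGroup' fun g hg =>
      ((P.isPGroup'.inf_normalizer_sylow R).le ⟨hg, hR (hP hg)⟩).2).symm
  rw [key P hP, key Q hQ]

theorem trans {x : G} (h1 : x ≠ 1) (ho : Odd (orderOf x)) (hx : IsConj x x⁻¹) (P Q : Sylow 2 G) :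
    ∃ c, Commute c x ∧ c • P = Q := by
  obtain ⟨R, -, hR⟩ := h.closed
  have key : ∀ P : Sylow 2 G, ∃ c, Commute c x ∧ c • P = R := fun P => by
    obtain ⟨g, hg⟩ := MulAction.exists_smul_eq G P R
    obtain ⟨c, hc, d, hd, rfl⟩ := h.factor hx (fun e => h1 (eq_one_of_odd ho e)) g
    refine ⟨d, hd, ?_⟩
    rw [mul_smul, smul_eq_iff_eq_inv_smul] at hg
    rw [hg]
    exact Sylow.smul_eq_iff_mem_normalizer.2 (hR (inv_mem (mem_centralizer_singleton_iff.2 hc)))
  obtain ⟨c, hc, e⟩ := key P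
  obtain ⟨d, hd, e'⟩ := key Q
  exact ⟨d⁻¹ * c, hd.inv_left.mul_left hc, by rw [mul_smul, e, ← e', inv_smul_smul]⟩

theorem mem_pCore (hO : pPrimeCore 2 G = ⊥) : t ∈ pCore 2 G := by
  by_contra h0
  obtain ⟨y, hy, hy2, hty⟩ := H5.exists_inverted_of_notMem_pCore (by rw [pow_two, h.sq]) h0
  have ho := hy.odd_of_ne_two hy2
  have h1 : y ≠ 1 := by rintro rfl; simp at hy; exact Nat.not_prime_one hy
  have h2 : ∀ g, t * (g * y * g⁻¹) * t⁻¹ = (g * y * g⁻¹)⁻¹ := fun g => by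
    obtain ⟨c, hc, d, hd, rfl⟩ := h.factor (isConj_iff.2 ⟨t, hty⟩)
      (fun e => h1 (eq_one_of_odd ho e)) g
    have : c * d * y * (c * d)⁻¹ = c * y * c⁻¹ := by rw [mul_assoc c d, hd.eq]; group
    rw [this, conj_inv, ← hty]
    calc t * (c * y * c⁻¹) * t⁻¹ = (t * c) * y * (t * c)⁻¹ := by group
      _ = _ := by rw [← hc.eq]; group
  set N := normalClosure ({y} : Set G)
  have h3 : y ∈ centralizer (N : Set G) := by
    refine H5.mem_of_sq_mem_of_odd (Nat.coprime_two_right.2 ho) ?_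
    change _ ∈ centralizer ((closure (Group.conjugatesOfSet {y}) : Subgroup G) : Set G)
    rw [centralizer_closure]
    rintro _ hz
    obtain ⟨y', hy', hz'⟩ := Group.mem_conjugatesOfSet_iff.1 hz
    rw [Set.mem_singleton_iff.1 hy'] at hz'
    obtain ⟨g, rfl⟩ := isConj_iff.1 hz'
    have h4 := h2 (y⁻¹ * g)
    have h5 := h2 g
    have e : y ^ 2 = y * t * y⁻¹ * t⁻¹ := by
      rw [mul_assoc, mul_assoc, ← mul_assoc t, ← conj_inv, hty, inv_inv, pow_two]
    have h6 : t⁻¹ * (g * y * g⁻¹) * t = (g * y * g⁻¹)⁻¹ := by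
      rw [inv_eq h.sq, ← h5, inv_eq h.sq]
    have h7 : y * t * y⁻¹ * (g * y * g⁻¹)⁻¹ * (y * t * y⁻¹)⁻¹ = g * y * g⁻¹ := by
      rw [← conj_inv, inv_eq_iff_eq_inv]
      calc _ = y * (t * (y⁻¹ * g * y * (y⁻¹ * g)⁻¹) * t⁻¹) * y⁻¹ := by group
        _ = _ := by rw [h4]; group
    rw [e]
    calc _ = y * t * y⁻¹ * (g * y * g⁻¹)⁻¹ * (y * t * y⁻¹)⁻¹ * (y * t * y⁻¹ * t⁻¹) := by rw [h7]
      _ = y * t * y⁻¹ * (g * y * g⁻¹)⁻¹ * t⁻¹ := by group
      _ = _ := by rw [← h6]; group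
  let K : Subgroup G :=
    { carrier := {e | e ∈ N ⊓ centralizer (N : Set G) ∧ e ^ orderOf y = 1}
      one_mem' := ⟨one_mem _, one_pow _⟩
      mul_mem' := fun {a b} ha hb => ⟨mul_mem ha.1 hb.1, by
        rw [Commute.mul_pow (hb.1.2 a ha.1.1), ha.2, hb.2, one_mul]⟩
      inv_mem' := fun {a} ha => ⟨inv_mem ha.1, by rw [inv_pow, ha.2, inv_one]⟩ }
  have hK : K.Normal := ⟨fun a ha g => ⟨Normal.conj_mem inferInstance a ha.1 g, by
    rw [conj_pow, ha.2, mul_one, mul_inv_cancel]⟩⟩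
  have : Fact (orderOf y).Prime := ⟨hy⟩
  have hKp : IsPGroup (orderOf y) K := fun a => ⟨1, Subtype.ext (by simpa using a.2.2)⟩
  have h8 : K ≤ pPrimeCore 2 G := le_pPrimeCore (by
    obtain ⟨k, hk⟩ := hKp.exists_card_eq
    rw [hk]
    exact (Nat.coprime_two_right.2 ho).pow_left k)
  exact h1 (mem_bot.1 (hO ▸ h8 ⟨⟨subset_normalClosure rfl, h3⟩, pow_orderOf_eq_one y⟩))

omit [Finite G] in
theorem commute_of_mem_center {g : G} (hg : ⁅g, t⁆ ∈ center G) : Commute g t := by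
  by_contra h0
  have hz := mem_center_iff.1 hg
  have e : g * t * g⁻¹ = ⁅g, t⁆ * t := by rw [commutatorElement_def, inv_mul_cancel_right]
  have h1 : ⁅g, t⁆ * ⁅g, t⁆ = 1 := by
    have := conj_mul_self h.sq g
    rwa [e, mul_assoc, ← mul_assoc t, hz t, mul_assoc, h.sq, mul_one] at this
  refine h.odd ((H5.prime_dvd_relIndex_of_pow_mem Nat.prime_two le_rfl (g := g) ?_
    (fun h2 => h0 (mem_centralizer_singleton_iff.1 h2)) ?_).trans
    (relIndex_dvd_index_of_le le_normalizer))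
  · rw [← map_conj_eq_iff_mem_normalizer, ← Frob.centralizer_conj_singleton, e,
      H5.centralizer_mul_of_mem_center hg]
  · rw [mem_centralizer_singleton_iff, ← mul_inv_eq_iff_eq_mul]
    calc g ^ 2 * t * (g ^ 2)⁻¹ = g * (g * t * g⁻¹) * g⁻¹ := by rw [pow_two]; group
      _ = ⁅g, t⁆ * (g * t * g⁻¹) := by rw [e, ← mul_assoc, hz g]; group
      _ = t := by rw [e, ← mul_assoc, h1, one_mul]

theorem isSolvable_of_core (hO : pPrimeCore 2 G = ⊥) : Group.IsSolvable G := by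
  let E : Subgroup G :=
    { carrier := {e | e ∈ pCore 2 G ⊓ centralizer (pCore 2 G : Set G) ∧ e * e = 1}
      one_mem' := ⟨one_mem _, one_mul _⟩
      mul_mem' := fun {a b} ha hb => ⟨mul_mem ha.1 hb.1, by
        rw [mul_assoc, ← mul_assoc b, ← hb.1.2 a ha.1.1, mul_assoc, hb.2, mul_one, ha.2]⟩
      inv_mem' := fun {a} ha => by rwa [inv_eq ha.2] }
  have hE : E.Normal := ⟨fun a ha g => ⟨Normal.conj_mem inferInstance a ha.1 g,
    conj_mul_self ha.2 g⟩⟩
  have htE : t ∈ E := by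
    obtain ⟨P, hP, -⟩ := h.closed
    exact ⟨⟨h.mem_pCore hO, fun u hu =>
      mem_centralizer_singleton_iff.1 (hP (pCore_le_sylow P hu))⟩, h.sq⟩
  have hcE : ∀ a ∈ E, ∀ g : G, ⁅g, a⁆ ∈ E := fun a ha g => mul_mem (hE.conj_mem a ha g) (inv_mem ha)
  set V := normalClosure (Set.range fun g : G => ⁅g, t⁆)
  have hVE : V ≤ E := normalClosure_le_normal (by rintro _ ⟨g, rfl⟩; exact hcE t htE g)
  have hstar : ∀ w ∈ V, w ∉ center G → Star π w := fun w hw hwc => by
    have hwE := hVE hw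
    refine ⟨h.two, h.dich, isConj_inv_of_sq hwE.2,
      (h.dich w (isConj_inv_of_sq hwE.2)).resolve_right fun h0 => ?_, hwc⟩
    have hc : t * w = w * t := hwE.1.2 t htE.1.1
    rcases h.dich _ (isConj_inv_of_sq (mul_mem htE hwE).2) with h1 | h1
    · obtain ⟨S, -, h2, h3⟩ := H5.exists_normal_of_coprime_index (h.pi.coprime_compl h0).symm
        (index_mul_le h0 (by rw [compl_compl]; exact h.pi) (by rw [compl_compl, ← hc]; exact h1))
      refine hwc (mem_center_iff.2 fun g => commutatorElement_eq_one_iff_mul_comm.1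
        (eq_one_of_odd ?_ (hcE w hwE g).2))
      rw [← Nat.not_even_iff_odd, even_iff_two_dvd]
      exact fun h4 => h.odd (h4.trans ((orderOf_dvd_natCard S (h3 g)).trans h2))
    · obtain ⟨S, hS, h2, h3⟩ := exists_normal_stab (h.pi.coprime_compl h0) (index_mul_le h.pi h0 h1)
      have h4 := h2 w (normalClosure_le_normal (by rintro _ ⟨g, rfl⟩; exact h3 g) hw)
      rw [hc, ← mul_assoc, hwE.2, one_mul, ← hc] at h4
      obtain ⟨g, hg⟩ := isConj_iff.1 h4
      exact h.not_compl (by rwa [← hg, Frob.index_centralizer_conj])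
  set f := QuotientGroup.mk' (center G)
  have hn : (V.map f).Normal := Normal.map inferInstance f (QuotientGroup.mk'_surjective _)
  have hfix : ∀ (g w : G) (hw : w ∈ V), (MulAut.conjNormal.comp f) g ⟨f w, mem_map_of_mem f hw⟩ =
      ⟨f w, mem_map_of_mem f hw⟩ ↔ ⁅g, w⁆ ∈ center G := fun g w hw => by
    rw [Subtype.ext_iff, MonoidHom.comp_apply, MulAut.conjNormal_apply,
      ← QuotientGroup.eq_one_iff, ← QuotientGroup.mk'_apply, map_commutatorElement,
      commutatorElement_def, mul_inv_eq_one]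
  have : Nontrivial (V.map f) := by
    rw [nontrivial_iff_ne_bot, Ne, Subgroup.map_eq_bot_iff, QuotientGroup.ker_mk']
    exact fun h0 => h.ne (mem_center_iff.2 fun g =>
      h.commute_of_mem_center (h0 (subset_normalClosure ⟨g, rfl⟩)))
  refine Spread.isSolvable G (V := V.map f) (φ := MulAut.conjNormal.comp f) ⟨?_, ?_, ?_, ?_⟩
  · rintro ⟨_, w, hw, rfl⟩
    exact Subtype.ext (by
      change f w * f w = 1
      rw [← map_mul, (hVE hw).2, map_one])
  · rintro ⟨_, w, hw, rfl⟩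
    by_cases hc : w ∈ center G
    · refine ⟨default, fun g _ => (hfix g w hw).2 ?_⟩
      rw [commutatorElement_eq_one_iff_mul_comm.2 (mem_center_iff.1 hc g)]
      exact one_mem _
    · obtain ⟨P, hP, -⟩ := (hstar w hw hc).closed
      refine ⟨P, fun g hg => (hfix g w hw).2 ?_⟩
      rw [commutatorElement_eq_one_iff_mul_comm.2 (mem_centralizer_singleton_iff.1 (hP hg))]
      exact one_mem _
  · rintro ⟨_, w, hw, rfl⟩ h1 P Q hP hQ
    have hs := hstar w hw fun hc => h1 (Subtype.ext ((QuotientGroup.eq_one_iff _).2 hc))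
    exact hs.sylow_eq
      (fun g hg => mem_centralizer_singleton_iff.2 (hs.commute_of_mem_center ((hfix g w hw).1 (hP g hg))))
      (fun g hg => mem_centralizer_singleton_iff.2 (hs.commute_of_mem_center ((hfix g w hw).1 (hQ g hg))))
  · exact fun x h1 ho hx => h.trans h1 ho hx

end Star

theorem isSolvable {π : Set ℕ} (G : Type*) [Group G] [Finite G] :
    ∀ t : G, Star π t → Group.IsSolvable G := by
  revert G
  refine card_induction fun G _ _ ih => ?_
  intro t h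
  by_cases hO : pPrimeCore 2 G = ⊥
  · exact h.isSolvable_of_core hO
  set N := pPrimeCore 2 G
  have hN : Odd (Nat.card N) := Nat.coprime_two_right.1 (pPrimeCore_coprime 2)
  have hs := QuotientGroup.mk'_surjective N
  refine isSolvable_of_normal_of_quotient N (FT.feit_thompson hN) ?_
  by_cases hc : QuotientGroup.mk' N t ∈ center (G ⧸ N)
  · have h1 := Cop.centralizer_map_mk' (A := zpowers t) N (by
      rw [Nat.card_zpowers]
      exact (Nat.coprime_two_left.2 hN).coprime_dvd_left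
        (orderOf_dvd_of_pow_eq_one (by rw [pow_two, h.sq]))) (Or.inl inferInstance)
    rw [MonoidHom.map_zpowers, H5.centralizer_zpowers_eq, H5.centralizer_zpowers_eq,
      Frob.centralizer_singleton_eq_top_iff.2 hc] at h1
    have := h.isSolvable_centralizer
    refine Group.isSolvable_of_surjective (f := (QuotientGroup.mk' N).comp
      (centralizer ({t} : Set G)).subtype) fun g => ?_
    obtain ⟨c, hc, e⟩ := h1.le (mem_top g)
    exact ⟨⟨c, hc⟩, e⟩
  · refine ih _ (card_quotient_lt hO) _ ⟨h.two, fun x hx => ?_, (QuotientGroup.mk' N).map_isConj h.real,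
      h.pi.of_dvd (Frob.index_centralizer_map_dvd _ hs t), hc⟩
    obtain ⟨x, rfl⟩ := hs x
    obtain ⟨u, hu⟩ := isConj_iff.1 hx
    obtain ⟨u, rfl⟩ := hs u
    obtain ⟨x', h1, h2⟩ := exists_real_lift_of_odd_ker _ (by rwa [QuotientGroup.ker_mk']) hu
    rw [← h1]
    exact (h.dich x' h2).imp (fun h3 => h3.of_dvd (Frob.index_centralizer_map_dvd _ hs x'))
      fun h3 => h3.of_dvd (Frob.index_centralizer_map_dvd _ hs x')

omit [Finite G] in
theorem mem_centralizer_of_not_real {N : Subgroup G} [hN : N.Normal]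
    (h : ∀ y ∈ N, IsConj y y⁻¹ → y = 1) (k : ℕ) : ∀ u : G, u ^ 2 ^ k = 1 →
      u ∈ centralizer (N : Set G) := by
  induction k with
  | zero => intro u hu; rw [pow_zero, pow_one] at hu; rw [hu]; exact one_mem _
  | succ k ih =>
    intro u hu n hn
    have h1 := ih (u ^ 2) (by rwa [← pow_mul, ← pow_succ']) n hn
    have h2 := h (n⁻¹ * (u * n * u⁻¹)) (mul_mem (inv_mem hn) (hN.conj_mem n hn u))
      (isConj_iff.2 ⟨u, by
        calc _ = u * n⁻¹ * u⁻¹ * (u ^ 2 * n) * (u ^ 2)⁻¹ := by rw [pow_two]; group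
          _ = _ := by rw [← h1]; group⟩)
    rw [inv_mul_eq_one, eq_mul_inv_iff_mul_eq] at h2
    exact h2

/-- a solvable group generated by `2`-elements has real `r`-elements for all odd `r ∣ |G|` -/
theorem exists_real_of_isSolvable {r : ℕ} (hr : r.Prime) (hr2 : r ≠ 2) (G : Type*) [Group G]
    [Finite G] : Group.IsSolvable G → closure {g : G | ∃ k : ℕ, orderOf g = 2 ^ k} = ⊤ →
      r ∣ Nat.card G → ∃ y : G, y ≠ 1 ∧ (∃ k, orderOf y = r ^ k) ∧ IsConj y y⁻¹ := by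
  revert G
  refine card_induction fun G _ _ ih => ?_
  intro hs hgen hdvd
  have := Fact.mk hr
  have : Nontrivial G := Finite.one_lt_card_iff_nontrivial.1
    (hr.one_lt.trans_le (Nat.le_of_dvd Nat.card_pos hdvd))
  obtain ⟨N, hN⟩ := exists_isMinNormal (G := G)
  have := hN.1
  have hf := QuotientGroup.mk'_surjective N
  by_cases h1 : r ∣ N.index
  · obtain ⟨y, hy1, ⟨k, hy2⟩, hy3⟩ := ih _ (card_quotient_lt hN.2.1) inferInstance (by
      rw [eq_top_iff, ← map_top_of_surjective _ hf, ← hgen, MonoidHom.map_closure]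
      refine closure_mono ?_
      rintro _ ⟨g, ⟨k, hk⟩, rfl⟩
      obtain ⟨j, -, hj⟩ := (Nat.dvd_prime_pow Nat.prime_two).1 (hk ▸ orderOf_map_dvd (QuotientGroup.mk' N) g)
      exact ⟨j, hj⟩) h1
    obtain ⟨y, rfl⟩ := hf y
    obtain ⟨u, hu⟩ := isConj_iff.1 hy3
    obtain ⟨u, rfl⟩ := hf u
    obtain ⟨x, h2, -, h3⟩ := exists_real_lift_odd G _ hu (hy2 ▸ (hr.odd_of_ne_two hr2).pow)
    obtain ⟨v, hv, h4, h5⟩ := exists_lift_isPiNum (QuotientGroup.mk' N) (π := {r}) x
      ((isPiNum_singleton_iff hr (orderOf_pos _).ne').2 ⟨k, h2 ▸ hy2⟩)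
    obtain ⟨g, hg⟩ := isConj_iff.1 h3
    exact ⟨v, fun e => hy1 (by rw [← h2, ← h4, e, map_one]),
      (isPiNum_singleton_iff hr (orderOf_pos _).ne').1 h5,
      isConj_iff.2 ⟨g, inverts_of_mem_zpowers hg hv⟩⟩
  by_contra h0
  push Not at h0
  obtain ⟨q, hq, hNq⟩ := hN.exists_isPGroup inferInstance
  have := Fact.mk hq
  obtain rfl : r = q := by
    obtain ⟨k, hk⟩ := hNq.exists_card_eq
    rw [← N.card_mul_index, hr.dvd_mul, hk] at hdvd
    exact (Nat.prime_dvd_prime_iff_eq hr hq).1 (hr.dvd_of_dvd_pow (hdvd.resolve_right h1))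
  have h2 : centralizer (N : Set G) = ⊤ := by
    rw [eq_top_iff, ← hgen, closure_le]
    rintro u ⟨k, hk⟩
    exact mem_centralizer_of_not_real (fun y hy hr => by
      by_contra h3
      exact h0 y h3 (orderOf_eq_pow_of_mem_isPGroup hNq hy) hr) k u (hk ▸ pow_orderOf_eq_one u)
  obtain ⟨L, hL, h3, k, h4⟩ := PCompl.hnpc_exists_normal (PCompl.hnpc_of_sylow_le_center
    (hNq.toSylow h1) (centralizer_eq_top_iff_subset.1 h2))
  have h5 : L = ⊤ := by
    rw [eq_top_iff, ← hgen, closure_le]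
    rintro u ⟨j, hj⟩
    refine mem_of_coprime_index ?_
    rw [hj, h4]
    exact Nat.Coprime.pow _ _ ((Nat.coprime_primes Nat.prime_two hr).2 hr2.symm)
  rw [h5, card_top] at h3
  exact hr.one_lt.ne' (h3.symm.eq_one_of_dvd hdvd)

theorem exists_even {π : Set ℕ} (hd : Dich π G) {t w : G} (ht : IsConj t t⁻¹) (hw : IsConj w w⁻¹)
    (ht1 : IsPiNum π (centralizer ({t} : Set G)).index)
    (hw1 : IsPiNum πᶜ (centralizer ({w} : Set G)).index) (ht2 : t ∉ center G)
    (hw2 : w ∉ center G) : ∃ x : G, IsConj x x⁻¹ ∧ 2 ∣ (centralizer ({x} : Set G)).index := by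
  by_contra h0
  push Not at h0
  have hsq : ∀ x : G, IsConj x x⁻¹ → x * x = 1 := fun x hx => by
    by_contra h1
    exact h0 x hx (H5.two_dvd_index_centralizer_of_isConj_inv hx (by rwa [pow_two]))
  obtain ⟨P⟩ : Nonempty (Sylow 2 G) := inferInstance
  have hP := H5.sylow_two_normal_of_not_real (fun y hy hy2 hr => by
    rw [eq_one_of_odd (hy.odd_of_ne_two hy2) (hsq y hr), orderOf_one] at hy
    exact Nat.not_prime_one hy) P
  have hmem : ∀ x : G, IsConj x x⁻¹ → x ∈ (P : Subgroup G) := fun x hx =>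
    mem_sylow_of_smul_eq (isPGroup_zpowers (hsq x hx)) Sylow.smul_eq_of_normal
  have hc : Commute t w := by
    obtain ⟨Q, hQ⟩ := H5.exists_sylow_le_of_not_dvd_index (h0 w hw)
    have := P.unique_of_normal hP
    exact mem_centralizer_singleton_iff.1 (hQ (Subsingleton.elim P Q ▸ hmem t ht))
  have key : ∀ {a b : G} {σ : Set ℕ}, IsConj a a⁻¹ → IsConj b b⁻¹ →
      IsPiNum σ (centralizer ({a} : Set G)).index → IsPiNum σᶜ (centralizer ({b} : Set G)).index →
      IsPiNum σᶜ (centralizer ({a * b} : Set G)).index → a ∈ center G := by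
    intro a b σ ha hb h1 h2 h3
    obtain ⟨S, -, h4, h5⟩ := H5.exists_normal_of_coprime_index (h1.coprime_compl h2)
      (index_mul_le h1 h2 h3)
    refine mem_center_iff.2 fun g => commutatorElement_eq_one_iff_mul_comm.1
      (eq_one_of_odd_of_mem P.isPGroup' (mul_mem (hP.conj_mem _ (hmem a ha) g)
        (inv_mem (hmem a ha))) ?_)
    rw [← Nat.not_even_iff_odd, even_iff_two_dvd]
    exact fun h6 => h0 b hb (h6.trans ((orderOf_dvd_natCard S (h5 g)).trans h4))
  rcases hd (t * w) (isConj_inv_of_sq (by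
    rw [mul_assoc, ← mul_assoc w, ← hc.eq, mul_assoc, hsq w hw, mul_one, hsq t ht])) with h1 | h1
  · exact hw2 (key hw ht hw1 (by rwa [compl_compl]) (by rwa [compl_compl, ← hc.eq]))
  · exact ht2 (key ht hw ht1 hw1 h1)

theorem Star.mem_of_dvd {π : Set ℕ} {t : G} (h : Star π t) {r : ℕ} (hr : r.Prime) (hr2 : r ≠ 2)
    (hdvd : r ∣ Nat.card (closure {g : G | ∃ k : ℕ, orderOf g = 2 ^ k})) : r ∈ π := by
  have := isSolvable G t h
  have := Fact.mk hr
  obtain ⟨y, h1, ⟨k, h2⟩, h3⟩ := exists_real_of_isSolvable hr hr2 _ inferInstance (by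
    rw [eq_top_iff, ← closure_closure_coe_preimage]
    exact closure_mono fun g ⟨k, hk⟩ => ⟨k, by rwa [← orderOf_coe]⟩) hdvd
  by_contra h0
  obtain ⟨g, hg⟩ := Chr.exists_conj_mem_of_not_dvd_index (fun h4 => h0 (h.pi r hr h4))
    (x := (y : G)) ⟨k, by rwa [orderOf_coe]⟩
  have h5 : IsConj (y : G) (g * y * g⁻¹) := isConj_iff.2 ⟨g, rfl⟩
  refine h.not_commute (x := g * y * g⁻¹) ?_ (by simpa using h1) ?_
    (mem_centralizer_singleton_iff.1 hg)
  · exact h5.symm.trans (((Subgroup.subtype _).map_isConj h3).trans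
      (isConj_iff.2 ⟨g, by simp [mul_assoc]⟩))
  · rw [← MulAut.conj_apply, MulEquiv.orderOf_eq, orderOf_coe, h2]
    exact (hr.odd_of_ne_two hr2).pow

omit [Finite G] in
theorem split {π₁ π₂ : Set ℕ} (h₂ : π₂.Nonempty) (hdisj : Disjoint π₁ π₂)
    (hsub : ∀ q ∈ π₁ ∪ π₂, q.Prime ∧ ∃ n ∈ {n : ℕ | ∃ x : G, IsConj x x⁻¹ ∧
      (centralizer ({x} : Set G)).index = n}, q ∣ n)
    (hcover : ∀ q : ℕ, q.Prime → (∃ n ∈ {n : ℕ | ∃ x : G, IsConj x x⁻¹ ∧
      (centralizer ({x} : Set G)).index = n}, q ∣ n) → q ∈ π₁ ∨ q ∈ π₂)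
    (hnoedge : ∀ a ∈ π₁, ∀ b ∈ π₂, ∀ n ∈ {n : ℕ | ∃ x : G, IsConj x x⁻¹ ∧
      (centralizer ({x} : Set G)).index = n}, ¬ (a ∣ n ∧ b ∣ n)) :
    Dich π₂ G ∧ ∃ t : G, IsConj t t⁻¹ ∧ IsPiNum π₂ (centralizer ({t} : Set G)).index ∧
      IsPiNum π₁ᶜ (centralizer ({t} : Set G)).index ∧ t ∉ center G := by
  have key : ∀ x : G, IsConj x x⁻¹ → ∀ q ∈ π₂, q ∣ (centralizer ({x} : Set G)).index →
      IsPiNum π₂ (centralizer ({x} : Set G)).index := fun x hx q hq h1 r hr h2 =>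
    (hcover r hr ⟨_, ⟨x, hx, rfl⟩, h2⟩).resolve_left fun h3 =>
      hnoedge r h3 q hq _ ⟨x, hx, rfl⟩ ⟨h2, h1⟩
  refine ⟨fun x hx => or_iff_not_imp_left.2 fun h1 q _ h2 h3 => h1 (key x hx q h3 h2), ?_⟩
  obtain ⟨q, hq⟩ := h₂
  obtain ⟨h1, _, ⟨t, ht, rfl⟩, h2⟩ := hsub q (Or.inr hq)
  refine ⟨t, ht, key t ht q hq h2, (key t ht q hq h2).mono hdisj.subset_compl_left, fun h3 => ?_⟩
  rw [Frob.index_centralizer_eq_one_iff.2 h3] at h2
  exact h1.one_lt.ne' (Nat.dvd_one.1 h2)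

theorem exists_star {π₁ π₂ : Set ℕ} (h₁ : π₁.Nonempty) (h₂ : π₂.Nonempty) (hdisj : Disjoint π₁ π₂)
    (hsub : ∀ q ∈ π₁ ∪ π₂, q.Prime ∧ ∃ n ∈ {n : ℕ | ∃ x : G, IsConj x x⁻¹ ∧
      (centralizer ({x} : Set G)).index = n}, q ∣ n)
    (hcover : ∀ q : ℕ, q.Prime → (∃ n ∈ {n : ℕ | ∃ x : G, IsConj x x⁻¹ ∧
      (centralizer ({x} : Set G)).index = n}, q ∣ n) → q ∈ π₁ ∨ q ∈ π₂)
    (hnoedge : ∀ a ∈ π₁, ∀ b ∈ π₂, ∀ n ∈ {n : ℕ | ∃ x : G, IsConj x x⁻¹ ∧
      (centralizer ({x} : Set G)).index = n}, ¬ (a ∣ n ∧ b ∣ n)) :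
    (∃ (π : Set ℕ) (t : G), Star π t) ∧
      ∃ x : G, IsConj x x⁻¹ ∧ 2 ∣ (centralizer ({x} : Set G)).index := by
  obtain ⟨d2, t, ht1, ht2, -, ht3⟩ := split h₂ hdisj hsub hcover hnoedge
  obtain ⟨d1, w, hw1, hw2, hw4, hw3⟩ := split h₁ hdisj.symm (by rwa [Set.union_comm])
    (fun q hq h => (hcover q hq h).symm) (fun a ha b hb n hn h => hnoedge b hb a ha n hn h.symm)
  refine ⟨?_, exists_even d2 ht1 hw1 ht2 hw4 ht3 hw3⟩
  by_cases h : 2 ∈ π₂
  · exact ⟨π₁, w, fun h' => Set.disjoint_left.1 hdisj h' h, d1, hw1, hw2, hw3⟩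
  · exact ⟨π₂, t, h, d2, ht1, ht2, ht3⟩

end CfsgLib.RealGraph
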