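import Mathlib
import Cfsg.Agent.Lib.FrobCharZero

/-! An abstract Frobenius complement acts fixed-point-freely in every coprime characteristic. -/

set_option autoImplicit false

namespace CfsgLib.Frob

open Subgroup Cfsg MonoidAlgebra

variable {A : Type*} [Group A]

/-- a multiplicative action on an elementary abelian group as a representation -/
def mulAutToRep {W : Type*} [CommGroup W] (q : ℕ) [Module (ZMod q) (Additive W)]
    (ψ : A →* MulAut W) : Representation (ZMod q) A (Additive W) where
  toFun a := (MonoidHom.toAdditive (ψ a).toMonoidHom).toZModLinearMap q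
  map_one' := by rw [map_one]; rfl
  map_mul' a b := by rw [map_mul]; rfl

/-- the additive form of a fixed-point-free action on an elementary abelian group -/
theorem IsFPF.exists_rep_zmod {W : Type} [CommGroup W] [Finite W] [Nontrivial W]
    {ψ : A →* MulAut W} (h : IsFPF ψ) {q : ℕ} (hq : ∀ w : W, w ^ q = 1) [NeZero q] :
    ∃ (V : Type) (_ : AddCommGroup V) (_ : Module (ZMod q) V) (_ : Finite V) (_ : Nontrivial V)
      (ρ : Representation (ZMod q) A V), ∀ a : A, a ≠ 1 → ∀ v : V, ρ a v = v → v = 0 := by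
  let _ : Module (ZMod q) (Additive W) := AddCommGroup.zmodModule fun x => hq x.toMul
  exact ⟨Additive W, inferInstance, inferInstance, inferInstance, inferInstance,
    mulAutToRep q ψ, fun a ha v hv => h a ha v.toMul hv⟩

/-- the sum of the powers of `a` in the group ring -/
noncomputable def normElt (R : Type*) [CommRing R] (a : A) : MonoidAlgebra R A :=
  ∑ i ∈ Finset.range (orderOf a), of R A (a ^ i)

theorem of_mul_normElt (R : Type*) [CommRing R] (a : A) : of R A a * normElt R a = normElt R a := by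
  have h1 := Finset.sum_range_succ (fun i => of R A (a ^ i)) (orderOf a)
  rw [Finset.sum_range_succ', pow_orderOf_eq_one, pow_zero] at h1
  rw [normElt, Finset.mul_sum, ← add_right_cancel h1]
  exact Finset.sum_congr rfl fun i _ => by rw [pow_succ', map_mul]

theorem normElt_mul_self (R : Type*) [CommRing R] (a : A) :
    normElt R a * normElt R a = (orderOf a : R) • normElt R a := by
  have h1 : ∀ i : ℕ, of R A (a ^ i) * normElt R a = normElt R a := fun i => by
    induction i with
    | zero => simp [← one_def]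
    | succ i ih => rw [pow_succ, map_mul, mul_assoc, of_mul_normElt, ih]
  nth_rewrite 1 [normElt]
  rw [Finset.sum_mul]
  simp only [h1, Finset.sum_const, Finset.card_range, Nat.cast_smul_eq_nsmul]

theorem mapRingHom_normElt {R S : Type*} [CommRing R] [CommRing S] (f : R →+* S) (a : A) :
    mapRingHom A f (normElt R a) = normElt S a := by
  simp [normElt]

theorem exists_idempotent_lift [Finite A] {q : ℕ} [hq : Fact q.Prime] (hqA : ¬ q ∣ Nat.card A)
    {V : Type*} [AddCommGroup V] [Module (ZMod q) V] [Nontrivial V]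
    (ρ : Representation (ZMod q) A V) (h : ∀ a : A, a ≠ 1 → ∀ v : V, ρ a v = v → v = 0)
    (k : ℕ) : ∃ (e : MonoidAlgebra (ZMod (q ^ (k + 1))) A) (g : A), IsUnit (e.coeff g) ∧
      ∀ a : A, a ≠ 1 → ∀ x, normElt _ a * x * e = 0 := by
  have : NeZero (Nat.card A : ZMod q) := ⟨fun e => hqA ((ZMod.natCast_eq_zero_iff _ _).mp e)⟩
  have : NeZero (q ^ (k + 1)) := ⟨pow_ne_zero _ hq.out.ne_zero⟩
  set I : Ideal (MonoidAlgebra (ZMod q) A) :=
    Ideal.span {y | ∃ a : A, a ≠ 1 ∧ ∃ x, y = normElt _ a * x} with hI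
  obtain ⟨e0, he0, hIe⟩ := IsSemisimpleRing.ideal_eq_span_idempotent I
  have hker : I ≤ RingHom.ker ρ.asAlgebraHom.toRingHom := by
    rw [hI, Ideal.span_le]
    rintro _ ⟨a, ha, x, rfl⟩
    have : ρ.asAlgebraHom (normElt _ a) = 0 := by
      ext v
      simp only [normElt, map_sum, Representation.asAlgebraHom_of, LinearMap.sum_apply]
      exact rep_sum_range_eq_zero ρ (h a ha) (pow_orderOf_eq_one a) v
    change ρ.asAlgebraHom _ = 0
    rw [map_mul, this, zero_mul]
  have he1 : 1 - e0 ≠ 0 := fun e => by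
    have h1 : e0 ∈ I := by rw [hIe]; exact Ideal.subset_span rfl
    have h2 : ρ.asAlgebraHom e0 = 0 := hker h1
    rw [← sub_eq_zero.mp e, map_one] at h2
    exact one_ne_zero h2
  have hann : ∀ y ∈ I, y * (1 - e0) = 0 := fun y hy => by
    rw [hIe, Ideal.mem_span_singleton'] at hy
    obtain ⟨r, rfl⟩ := hy
    rw [mul_assoc, he0.mul_one_sub_self, mul_zero]
  set c : ZMod (q ^ (k + 1)) →+* ZMod q := ZMod.castHom (dvd_pow_self q k.succ_ne_zero) (ZMod q)
  set f := mapRingHom A c with hf
  have hc : ∀ x : ZMod (q ^ (k + 1)), c x = (x.val : ZMod q) := fun x => by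
    rw [← ZMod.natCast_zmod_val x, map_natCast, ZMod.natCast_zmod_val]
  have hdiv : ∀ x, f x = 0 → ∃ y, x = (q : ZMod (q ^ (k + 1))) • y := fun x hx => by
    have h1 : ∀ g : A, ∃ t, x.coeff g = q * t := fun g => by
      have h2 : c (x.coeff g) = 0 := by rw [← coeff_mapRingHom, ← hf, hx]; rfl
      rw [hc, ZMod.natCast_eq_zero_iff] at h2
      obtain ⟨t, ht⟩ := h2
      exact ⟨t, by rw [← ZMod.natCast_zmod_val (x.coeff g), ht, Nat.cast_mul]⟩
    choose t ht using h1
    refine ⟨ofCoeff (Finsupp.equivFunOnFinite.symm t), ?_⟩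
    ext g
    simp [ht]
  have hq0 : (q : ZMod (q ^ (k + 1))) ^ (k + 1) = 0 := by rw [← Nat.cast_pow, ZMod.natCast_self]
  obtain ⟨e, he, hfe⟩ := exists_isIdempotentElem_eq_of_ker_isNilpotent f (fun x hx => by
      obtain ⟨y, rfl⟩ := hdiv x hx
      exact ⟨k + 1, by rw [smul_pow, hq0, zero_smul]⟩) (1 - e0)
    ⟨ofCoeff (Finsupp.equivFunOnFinite.symm fun g => (((1 - e0).coeff g).val : ZMod _)), by
      ext g
      simp [hf]⟩ he0.one_sub
  obtain ⟨g, hg⟩ : ∃ g, (1 - e0).coeff g ≠ 0 := by
    by_contra hcon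
    push Not at hcon
    exact he1 (by ext g; simpa using hcon g)
  refine ⟨e, g, ?_, fun a ha => ?_⟩
  · rw [← hfe, hf, coeff_mapRingHom, hc, Ne, ZMod.natCast_eq_zero_iff] at hg
    rw [← ZMod.natCast_zmod_val (e.coeff g), ZMod.isUnit_iff_coprime]
    exact ((Nat.Prime.coprime_iff_not_dvd hq.out).mpr hg).symm.pow_right _
  · obtain ⟨u, hu⟩ : IsUnit (orderOf a : ZMod (q ^ (k + 1))) := by
      rw [ZMod.isUnit_iff_coprime]
      exact ((Nat.Prime.coprime_iff_not_dvd hq.out).mpr fun hd =>
        hqA (hd.trans (orderOf_dvd_natCard a))).symm.pow_right _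
    have key : ∀ j : ℕ, ∀ x, ∃ y, normElt _ a * x * e =
        (q : ZMod (q ^ (k + 1))) ^ j • (normElt _ a * y * e) := by
      intro j
      induction j with
      | zero => exact fun x => ⟨x, by simp⟩
      | succ j ih =>
        intro x
        obtain ⟨y, hy⟩ := ih x
        obtain ⟨z, hz⟩ := hdiv (normElt _ a * y * e) (by
          rw [map_mul, map_mul, hfe, hf, mapRingHom_normElt]
          exact hann _ (Ideal.subset_span ⟨a, ha, _, rfl⟩))
        refine ⟨(↑u⁻¹ : ZMod (q ^ (k + 1))) • z, ?_⟩
        have h1 : (u : ZMod (q ^ (k + 1))) • (normElt _ a * y * e) =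
            (q : ZMod (q ^ (k + 1))) • (normElt _ a * z * e) := by
          calc _ = normElt _ a * (normElt _ a * y * e) * e := by
                rw [hu, ← smul_mul_assoc, ← smul_mul_assoc, ← normElt_mul_self]
                simp only [mul_assoc, he.eq]
            _ = _ := by rw [hz, mul_smul_comm, smul_mul_assoc]
        rw [hy, pow_succ (q : ZMod (q ^ (k + 1))), mul_smul, mul_smul_comm, smul_mul_assoc,
          smul_comm (q : ZMod (q ^ (k + 1))) (↑u⁻¹ : ZMod (q ^ (k + 1))),
          ← h1, smul_smul (↑u⁻¹ : ZMod (q ^ (k + 1))), Units.inv_mul, one_smul]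
    intro x
    obtain ⟨y, hy⟩ := key (k + 1) x
    rw [hy, hq0, zero_smul]

/-- A group acting fixed-point-freely acts fixed-point-freely on an elementary abelian `p`-group
for every prime `p` not dividing its order. -/
theorem HasFPF.exists_fpf_char (h : HasFPF A) {p : ℕ} (hp : p.Prime) (hpA : ¬ p ∣ Nat.card A) :
    ∃ (W : Type) (_ : CommGroup W) (_ : Finite W) (_ : Nontrivial W) (ψ : A →* MulAut W),
      IsFPF ψ ∧ ∀ w : W, w ^ p = 1 := by
  have := h.finite
  obtain ⟨q, hq, W, _, _, _, ψ, h1, h2, hqA⟩ := h.exists_elementaryAbelian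
  have := Fact.mk hq
  obtain ⟨V, _, _, _, _, ρ, hρ⟩ := h1.exists_rep_zmod h2
  set I : Ideal (MonoidAlgebra ℤ A) :=
    Ideal.span {y | ∃ a : A, a ≠ 1 ∧ ∃ x, y = normElt _ a * x} with hI
  let σ : Representation ℤ A (MonoidAlgebra ℤ A) :=
    { toFun := fun a => LinearMap.mulLeft ℤ (of ℤ A a)
      map_one' := by rw [map_one, LinearMap.mulLeft_one]; rfl
      map_mul' := fun a b => by rw [map_mul, LinearMap.mulLeft_mul]; rfl }
  have hinv : ∀ a : A, I.restrictScalars ℤ ≤ (I.restrictScalars ℤ).comap (σ a) := fun a x hx =>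
    I.mul_mem_left _ hx
  refine exists_rep_mod_p (σ.quotient _ hinv) (Submodule.Quotient.mk 1) (fun n hn => ?_)
    (fun a ha v => ?_) hp hpA
  · rw [← Submodule.Quotient.mk_smul, Submodule.Quotient.mk_eq_zero] at hn
    have key : ∀ k : ℕ, (q ^ (k + 1) : ℕ) ∣ n.natAbs := fun k => by
      obtain ⟨e, g, hg, he⟩ := exists_idempotent_lift hqA ρ hρ k
      have h3 : ∀ y ∈ I, mapRingHom A (Int.castRingHom (ZMod (q ^ (k + 1)))) y * e = 0 := by
        intro y hy
        induction hy using Submodule.span_induction with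
        | mem y hy =>
          obtain ⟨a, ha, x, rfl⟩ := hy
          rw [map_mul, mapRingHom_normElt]
          exact he a ha _
        | zero => simp
        | add x y _ _ hx hy => rw [map_add, add_mul, hx, hy, add_zero]
        | smul r x _ hx => rw [smul_eq_mul, map_mul, mul_assoc, hx, mul_zero]
      have h4 := h3 _ hn
      rw [map_zsmul, map_one, smul_mul_assoc, one_mul] at h4
      have h5 : (n : ZMod (q ^ (k + 1))) * e.coeff g = 0 := by
        have := congrArg (fun z => z.coeff g) h4
        rw [← zsmul_eq_mul]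
        exact this
      rw [hg.mul_left_eq_zero, ZMod.intCast_zmod_eq_zero_iff_dvd] at h5
      exact Int.natCast_dvd.mp h5
    by_contra h0
    have h6 := Nat.le_of_dvd (Int.natAbs_pos.mpr h0) (key n.natAbs)
    have h7 := Nat.lt_pow_self (n := n.natAbs + 1) hq.one_lt
    omega
  · obtain ⟨x, rfl⟩ := Submodule.Quotient.mk_surjective _ v
    have h3 : normElt ℤ a * x ∈ I.restrictScalars ℤ := Ideal.subset_span ⟨a, ha, x, rfl⟩
    rw [← Submodule.Quotient.mk_eq_zero, normElt, Finset.sum_mul, ← Submodule.mkQ_apply,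
      map_sum] at h3
    exact h3

theorem HasFPF.exists_rep_char (h : HasFPF A) {p : ℕ} (hp : p.Prime) (hpA : ¬ p ∣ Nat.card A) :
    ∃ (V : Type) (_ : AddCommGroup V) (_ : Module (ZMod p) V) (_ : Finite V) (_ : Nontrivial V)
      (ρ : Representation (ZMod p) A V), ∀ a : A, a ≠ 1 → ∀ v : V, ρ a v = v → v = 0 := by
  obtain ⟨W, _, _, _, ψ, h1, h2⟩ := h.exists_fpf_char hp hpA
  have : NeZero p := ⟨hp.ne_zero⟩
  exact h1.exists_rep_zmod h2

/-- the direct product of two groups of coprime orders acting fixed-point-freely -/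
theorem HasFPF.prod {B : Type*} [Group B] (hA : HasFPF A) (hB : HasFPF B)
    (hc : (Nat.card A).Coprime (Nat.card B)) : HasFPF (A × B) := by
  have := hA.finite
  have := hB.finite
  obtain ⟨p, hp, hd⟩ := exists_prime_not_dvd_card (A × B)
  rw [Nat.card_prod] at hd
  have := Fact.mk hp
  obtain ⟨V, _, _, _, _, ρ, hρ⟩ := hA.exists_rep_char hp fun h => hd (h.mul_right _)
  obtain ⟨W, _, _, _, _, σ, hσ⟩ := hB.exists_rep_char hp fun h => hd (h.mul_left _)
  have : Module.Finite (ZMod p) V := Module.Finite.of_finite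
  have : Module.Finite (ZMod p) W := Module.Finite.of_finite
  have : Finite (TensorProduct (ZMod p) V W) := Module.finite_of_finite (ZMod p)
  have : Nontrivial (TensorProduct (ZMod p) V W) := by
    rw [← Module.finrank_pos_iff (R := ZMod p), Module.finrank_tensorProduct]
    exact Nat.mul_pos Module.finrank_pos Module.finrank_pos
  let τ : Representation (ZMod p) (A × B) (TensorProduct (ZMod p) V W) :=
    Representation.tprod (ρ.comp (MonoidHom.fst A B)) (σ.comp (MonoidHom.snd A B))
  refine hasFPF_of_rep τ ?_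
  rintro ⟨a, b⟩ hab t ht
  have hpow : ∀ n : ℕ, τ ((a, b) ^ n) t = t := fun n => by
    induction n with
    | zero => rw [pow_zero, map_one]; rfl
    | succ i ih => rw [pow_succ, map_mul, Module.End.mul_apply, ht, ih]
  have hcop : (orderOf a).Coprime (orderOf b) := Nat.Coprime.coprime_dvd_left
    (orderOf_dvd_natCard a) (Nat.Coprime.coprime_dvd_right (orderOf_dvd_natCard b) hc)
  by_cases ha : a = 1
  · have hb : b ≠ 1 := fun hb => hab (by rw [ha, hb]; rfl)
    have h1 : Function.Injective (σ b - 1 : W →ₗ[ZMod p] W) :=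
      (injective_iff_map_eq_zero _).mpr fun w hw => hσ b hb w (sub_eq_zero.mp hw)
    refine (injective_iff_map_eq_zero _).mp
      (Module.Flat.lTensor_preserves_injective_linearMap (M := V) _ h1) t ?_
    have e : τ (a, b) = (σ b).lTensor V := by
      rw [ha]
      change TensorProduct.map (ρ 1) (σ b) = _
      rw [map_one]; rfl
    rw [LinearMap.lTensor_sub, LinearMap.sub_apply, ← e, ht, Module.End.one_eq_id,
      LinearMap.lTensor_id, LinearMap.id_apply, sub_self]
  · have ha' : a ^ orderOf b ≠ 1 := fun e =>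
      ha (orderOf_eq_one_iff.mp (hcop.eq_one_of_dvd (orderOf_dvd_of_pow_eq_one e)))
    have h1 : Function.Injective (ρ (a ^ orderOf b) - 1 : V →ₗ[ZMod p] V) :=
      (injective_iff_map_eq_zero _).mpr fun w hw => hρ _ ha' w (sub_eq_zero.mp hw)
    refine (injective_iff_map_eq_zero _).mp
      (Module.Flat.rTensor_preserves_injective_linearMap (M := W) _ h1) t ?_
    have e : τ ((a, b) ^ orderOf b) = (ρ (a ^ orderOf b)).rTensor W := by
      rw [Prod.pow_mk, pow_orderOf_eq_one]
      change TensorProduct.map (ρ _) (σ 1) = _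
      rw [map_one]; rfl
    rw [LinearMap.rTensor_sub, LinearMap.sub_apply, ← e, hpow, Module.End.one_eq_id,
      LinearMap.rTensor_id, LinearMap.id_apply, sub_self]

theorem HasFPF.coprime_of_prod {B : Type*} [Group B] (h : HasFPF (A × B)) :
    (Nat.card A).Coprime (Nat.card B) := by
  have := (h.of_injective (MonoidHom.inl A B) (Prod.mk_left_injective 1)).finite
  have := (h.of_injective (MonoidHom.inr A B) (Prod.mk_right_injective 1)).finite
  refine Nat.coprime_of_dvd fun p hp h1 h2 => ?_
  have := Fact.mk hp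
  obtain ⟨a, ha⟩ := exists_prime_orderOf_dvd_card' p h1
  obtain ⟨b, hb⟩ := exists_prime_orderOf_dvd_card' p h2
  obtain ⟨k, hk⟩ := h.mem_zpowers_of_commute hp (x := (a, 1)) (y := (1, b))
    (by rw [Prod.pow_mk, ← ha, pow_orderOf_eq_one, one_pow]; rfl)
    (by rw [Prod.pow_mk, ← hb, pow_orderOf_eq_one, one_pow]; rfl)
    (fun e => by
      have : b = 1 := congrArg Prod.snd e
      rw [this, orderOf_one] at hb
      exact hp.one_lt.ne hb)
    (Prod.ext (by simp) (by simp))
  have : a = 1 := by simpa using (congrArg Prod.fst hk).symm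
  rw [this, orderOf_one] at ha
  exact hp.one_lt.ne ha

end CfsgLib.Frob
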