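import Mathlib

/-! Computations in a `ℚ`-algebra containing a quaternion pair `i`, `j`. -/

set_option autoImplicit false

namespace CfsgLib.Frob

variable {R : Type*} [Ring R] [Algebra ℚ R]

/-- a quaternion pair -/
structure QPair (i j : R) : Prop where
  ii : i * i = -1
  jj : j * j = -1
  ji : j * i = -(i * j)

/-- the centralizer of a pair of elements -/
abbrev QC (i j : R) : Subalgebra ℚ R := Subalgebra.centralizer ℚ {i, j}

/-- `p0 + p1 i + p2 j + p3 k` -/
def qt {i j : R} (p0 p1 p2 p3 : QC i j) : R := p0 + p1 * i + p2 * j + p3 * (i * j)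

variable {i j : R}

theorem QC.i_mul (p : QC i j) : i * p = p * i := p.2 i (by simp)

theorem QC.j_mul (p : QC i j) : j * p = p * j := p.2 j (by simp)

theorem QC.i_mul' (p : QC i j) (x : R) : i * (p * x) = p * (i * x) := by
  rw [← mul_assoc, QC.i_mul, mul_assoc]

theorem QC.j_mul' (p : QC i j) (x : R) : j * (p * x) = p * (j * x) := by
  rw [← mul_assoc, QC.j_mul, mul_assoc]

theorem mem_QC {p : R} (h1 : i * p = p * i) (h2 : j * p = p * j) : p ∈ QC i j := by
  intro x hx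
  rcases hx with rfl | rfl
  exacts [h1, h2]

omit [Algebra ℚ R] in
theorem QPair.ii' (h : QPair i j) (x : R) : i * (i * x) = -x := by
  rw [← mul_assoc, h.ii, neg_one_mul]

omit [Algebra ℚ R] in
theorem QPair.jj' (h : QPair i j) (x : R) : j * (j * x) = -x := by
  rw [← mul_assoc, h.jj, neg_one_mul]

omit [Algebra ℚ R] in
theorem QPair.ji' (h : QPair i j) (x : R) : j * (i * x) = -(i * (j * x)) := by
  rw [← mul_assoc, h.ji, neg_mul, mul_assoc]

theorem QPair.qt_mul (h : QPair i j) (p0 p1 p2 p3 q0 q1 q2 q3 : QC i j) :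
    qt p0 p1 p2 p3 * qt q0 q1 q2 q3 =
      qt (p0 * q0 - p1 * q1 - p2 * q2 - p3 * q3) (p0 * q1 + p1 * q0 + p2 * q3 - p3 * q2)
        (p0 * q2 + p2 * q0 + p3 * q1 - p1 * q3) (p0 * q3 + p3 * q0 + p1 * q2 - p2 * q1) := by
  simp only [qt, MulMemClass.coe_mul, AddMemClass.coe_add, AddSubgroupClass.coe_sub, mul_add,
    add_mul, sub_mul, mul_assoc, QC.i_mul, QC.j_mul, QC.i_mul', QC.j_mul', h.ii, h.jj, h.ji, h.ii',
    h.ji', mul_neg, neg_neg, mul_one]
  abel

theorem qt_add (p0 p1 p2 p3 q0 q1 q2 q3 : QC i j) :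
    qt p0 p1 p2 p3 + qt q0 q1 q2 q3 = qt (p0 + q0) (p1 + q1) (p2 + q2) (p3 + q3) := by
  simp only [qt, AddMemClass.coe_add, add_mul]
  abel

theorem qt_neg (p0 p1 p2 p3 : QC i j) : -qt p0 p1 p2 p3 = qt (-p0) (-p1) (-p2) (-p3) := by
  simp only [qt, NegMemClass.coe_neg, neg_mul]
  abel

theorem qt_scalar (p : QC i j) : qt p 0 0 0 = p := by simp [qt]

theorem qt_smul_one (c : ℚ) : (c • (1 : R)) = qt (i := i) (j := j) (c • 1) 0 0 0 := by
  simp [qt]

theorem qt_i : qt (i := i) (j := j) 0 1 0 0 = i := by simp [qt]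

theorem qt_j : qt (i := i) (j := j) 0 0 1 0 = j := by simp [qt]

theorem QPair.qt_eq_zero (h : QPair i j) {p0 p1 p2 p3 : QC i j} (e : qt p0 p1 p2 p3 = 0) :
    p0 = 0 ∧ p1 = 0 ∧ p2 = 0 ∧ p3 = 0 := by
  have key : ∀ q0 q1 q2 q3 : QC i j, qt q0 q1 q2 q3 = 0 → q0 = 0 := by
    intro q0 q1 q2 q3 e
    have h1 : qt q0 q1 q2 q3 - i * qt q0 q1 q2 q3 * i - j * qt q0 q1 q2 q3 * j -
        (i * j) * qt q0 q1 q2 q3 * (i * j) = (4 : ℚ) • (q0 : R) := by
      simp only [qt, mul_add, add_mul, mul_assoc, QC.i_mul', QC.j_mul', h.ii, h.jj,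
        h.ji, h.ii', h.ji', mul_neg, neg_mul, neg_neg, mul_one]
      module
    rw [e] at h1
    have h2 : (4 : ℚ) • (q0 : R) = 0 := by rw [← h1]; simp
    exact Subtype.ext ((smul_eq_zero.mp h2).resolve_left (by norm_num))
  have h1 := h.qt_mul p0 p1 p2 p3 0 1 0 0
  have h2 := h.qt_mul p0 p1 p2 p3 0 0 1 0
  have h3 := h.qt_mul p0 p1 p2 p3 0 0 0 1
  rw [e, zero_mul] at h1 h2 h3
  exact ⟨key _ _ _ _ e, by simpa using key _ _ _ _ h1.symm, by simpa using key _ _ _ _ h2.symm,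
    by simpa using key _ _ _ _ h3.symm⟩

theorem QPair.qt_inj (h : QPair i j) {p0 p1 p2 p3 q0 q1 q2 q3 : QC i j}
    (e : qt p0 p1 p2 p3 = qt q0 q1 q2 q3) : p0 = q0 ∧ p1 = q1 ∧ p2 = q2 ∧ p3 = q3 := by
  have := h.qt_eq_zero (p0 := p0 + -q0) (p1 := p1 + -q1) (p2 := p2 + -q2) (p3 := p3 + -q3)
    (by rw [← qt_add, ← qt_neg, e, add_neg_cancel])
  simpa only [add_neg_eq_zero] using this

theorem QPair.exists_qt (h : QPair i j) (b : R) : ∃ p0 p1 p2 p3 : QC i j, b = qt p0 p1 p2 p3 := by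
  have hT : ∀ r : R, (1 / 4 : ℚ) • (r - i * r * i - j * r * j - (i * j) * r * (i * j)) ∈ QC i j := by
    intro r
    refine Subalgebra.smul_mem _ (mem_QC ?_ ?_) _
    · simp only [mul_sub, sub_mul, mul_assoc, h.ii, h.ji, h.ii', mul_neg, neg_neg,
        mul_one]
      abel
    · simp only [mul_sub, sub_mul, mul_assoc, h.jj, h.jj', h.ji', mul_neg, neg_neg,
        mul_one]
      abel
  refine ⟨⟨_, hT b⟩, ⟨_, hT (-(b * i))⟩, ⟨_, hT (-(b * j))⟩, ⟨_, hT (-(b * (i * j)))⟩, ?_⟩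
  simp only [qt, smul_mul_assoc, sub_mul, mul_assoc, h.ii, h.jj, h.ji, h.ii', h.ji',
    mul_neg, neg_mul, neg_neg, mul_one]
  module

/-- the possible anticommutators of the pure parts of two elements of order `3` -/
def Tri (a b : R) : Prop :=
  a * b + b * a = (2 : ℚ) • 1 ∨ a * b + b * a = (-2 : ℚ) • 1 ∨
    (a * b + b * a) * (a * b + b * a) = (20 : ℚ) • 1

theorem QPair.anticomm (h : QPair i j) (p1 p2 p3 q1 q2 q3 : QC i j) :
    qt 0 p1 p2 p3 * qt 0 q1 q2 q3 + qt 0 q1 q2 q3 * qt 0 p1 p2 p3 =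
      qt (-(p1 * q1 + q1 * p1 + (p2 * q2 + q2 * p2) + (p3 * q3 + q3 * p3)))
        (p2 * q3 - q3 * p2 + (q2 * p3 - p3 * q2)) (p3 * q1 - q1 * p3 + (q3 * p1 - p1 * q3))
        (p1 * q2 - q2 * p1 + (q1 * p2 - p2 * q1)) := by
  rw [h.qt_mul, h.qt_mul, qt_add]
  congr 1 <;> noncomm_ring

theorem smul_one_ne_zero' {A : Type*} [Ring A] [Algebra ℚ A] [Nontrivial A] {c : ℚ} (hc : c ≠ 0) :
    c • (1 : A) ≠ 0 := smul_ne_zero hc one_ne_zero

theorem tri_aux {A : Type*} [Ring A] [Algebra ℚ A] {d : ℚ} (hd : d = 1 ∨ d = -1) {p : A}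
    {c : A} (hc : c = (2 * d) • 1 - (4 : ℚ) • p)
    (h : c = (2 : ℚ) • 1 ∨ c = (-2 : ℚ) • 1 ∨ c * c = (20 : ℚ) • 1) :
    p = 0 ∨ p = d • 1 ∨ (p * p = d • p + 1 ∧ c * c = (20 : ℚ) • 1) := by
  subst hc
  rcases h with h | h | h
  · rcases hd with rfl | rfl
    · left; linear_combination (norm := module) (-1 / 4 : ℚ) • h
    · right; left; linear_combination (norm := module) (-1 / 4 : ℚ) • h
  · rcases hd with rfl | rfl
    · right; left; linear_combination (norm := module) (-1 / 4 : ℚ) • h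
    · left; linear_combination (norm := module) (-1 / 4 : ℚ) • h
  · refine Or.inr (Or.inr ⟨?_, h⟩)
    simp only [mul_sub, sub_mul, mul_smul_comm, smul_mul_assoc, mul_one, one_mul] at h
    rcases hd with rfl | rfl
    · linear_combination (norm := module) (1 / 16 : ℚ) • h
    · linear_combination (norm := module) (1 / 16 : ℚ) • h

theorem tri_aux2 {A : Type*} [Ring A] [Algebra ℚ A] [Nontrivial A] {d : ℚ} (hd : d = 1 ∨ d = -1)
    {p q r : A} (h1 : p + q + r = d • 1) (hp : p = 0 ∨ p = d • 1) (hq : q * q = d • q + 1)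
    (hr : r * r = d • r + 1) : p = 0 ∧ ∃ φ : A, φ * φ = φ + 1 ∧ q = d • φ ∧ r = d • (1 - φ) := by
  rcases hp with rfl | rfl
  · refine ⟨rfl, d • q, ?_, ?_, ?_⟩
    · rw [smul_mul_assoc, mul_smul_comm, hq]
      rcases hd with rfl | rfl <;> module
    · rcases hd with rfl | rfl <;> module
    · rcases hd with rfl | rfl <;> linear_combination (norm := module) h1
  · exfalso
    have h2 : r = -q := by linear_combination (norm := module) h1
    subst h2
    rw [neg_mul_neg, hq] at hr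
    have h3 : q = 0 := by
      rcases hd with rfl | rfl
      · linear_combination (norm := module) (1 / 2 : ℚ) • hr
      · linear_combination (norm := module) (-1 / 2 : ℚ) • hr
    rw [h3] at hq
    simp at hq

/-- the shape of an element of order `3` generating `SL₂(3)` with `(-1 + i + j + k) / 2` -/
theorem QPair.shape [Nontrivial R] (h : QPair i j) {b : R} (hb : b * b = (-3 : ℚ) • 1) {c : ℚ}
    (hc : c = 2 ∨ c = -2)
    (h1 : b * qt (i := i) (j := j) 0 1 1 1 + qt (i := i) (j := j) 0 1 1 1 * b = c • 1)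
    (h2 : Tri b (qt (i := i) (j := j) 0 1 (-1) (-1)))
    (h3 : Tri b (qt (i := i) (j := j) 0 (-1) 1 (-1)))
    (h4 : Tri b (qt (i := i) (j := j) 0 (-1) (-1) 1)) :
    (∃ a, (a = qt (i := i) (j := j) 0 1 (-1) (-1) ∨ a = qt (i := i) (j := j) 0 (-1) 1 (-1)) ∧
      (b * a + a * b) * (b * a + a * b) = (20 : ℚ) • 1) ∧
    ∃ (φ : QC i j) (d : ℚ), φ * φ = φ + 1 ∧ (d = 1 ∨ d = -1) ∧
      (b = qt 0 0 (d • φ) (d • (1 - φ)) ∨ b = qt 0 (d • (1 - φ)) 0 (d • φ) ∨
        b = qt 0 (d • φ) (d • (1 - φ)) 0) := by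
  obtain ⟨p0, p1, p2, p3, rfl⟩ := h.exists_qt b
  rw [h.qt_mul, h.qt_mul, qt_add, qt_smul_one (i := i) (j := j)] at h1
  obtain ⟨e0, e1, -, -⟩ := h.qt_inj h1
  have hp0 : p0 = 0 := by
    simp only [mul_one, one_mul, mul_zero, zero_mul] at e1
    linear_combination (norm := module) (1 / 2 : ℚ) • e1
  subst hp0
  obtain ⟨d, hd, hdc⟩ : ∃ d : ℚ, (d = 1 ∨ d = -1) ∧ c = -2 * d := by
    rcases hc with rfl | rfl
    · exact ⟨-1, Or.inr rfl, by norm_num⟩
    · exact ⟨1, Or.inl rfl, by norm_num⟩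
  subst hdc
  have hsum : p1 + p2 + p3 = d • 1 := by
    simp only [mul_one, one_mul, mul_zero] at e0
    linear_combination (norm := module) (-1 / 2 : ℚ) • e0
  rw [h.qt_mul, qt_smul_one (i := i) (j := j)] at hb
  have hsq : p1 * p1 + p2 * p2 + p3 * p3 = (3 : ℚ) • 1 := by
    have := (h.qt_inj hb).1
    simp only [mul_zero] at this
    linear_combination (norm := module) -this
  have key : ∀ (q1 q2 q3 p : QC i j), Tri (qt 0 p1 p2 p3) (qt 0 q1 q2 q3) →
      qt 0 p1 p2 p3 * qt 0 q1 q2 q3 + qt 0 q1 q2 q3 * qt 0 p1 p2 p3 =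
        qt ((2 * d) • 1 - (4 : ℚ) • p) 0 0 0 →
      p = 0 ∨ p = d • 1 ∨ (p * p = d • p + 1 ∧
        (qt 0 p1 p2 p3 * qt 0 q1 q2 q3 + qt 0 q1 q2 q3 * qt 0 p1 p2 p3) *
        (qt 0 p1 p2 p3 * qt 0 q1 q2 q3 + qt 0 q1 q2 q3 * qt 0 p1 p2 p3) = (20 : ℚ) • 1) := by
    intro q1 q2 q3 p ht e
    unfold Tri at ht
    rw [e, qt_scalar] at ht ⊢
    have := tri_aux hd (p := p) rfl (by
      rcases ht with ht | ht | ht
      · exact Or.inl (Subtype.ext ht)
      · exact Or.inr (Or.inl (Subtype.ext ht))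
      · exact Or.inr (Or.inr (Subtype.ext ht)))
    exact this.imp id (Or.imp id (And.imp id fun e => congrArg Subtype.val e))
  have k1 := key _ _ _ p1 h2 (by
    rw [h.anticomm]
    congr 1 <;> simp only [mul_one, one_mul, mul_neg, neg_mul] <;>
      first | module | linear_combination (norm := module) (2 : ℚ) • hsum)
  have k2 := key _ _ _ p2 h3 (by
    rw [h.anticomm]
    congr 1 <;> simp only [mul_one, one_mul, mul_neg, neg_mul] <;>
      first | module | linear_combination (norm := module) (2 : ℚ) • hsum)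
  have k3 := key _ _ _ p3 h4 (by
    rw [h.anticomm]
    congr 1 <;> simp only [mul_one, one_mul, mul_neg, neg_mul] <;>
      first | module | linear_combination (norm := module) (2 : ℚ) • hsum)
  have hdd : d * d = 1 := by rcases hd with rfl | rfl <;> norm_num
  have hz : ∀ p : QC i j, p = 0 ∨ p = d • 1 → p * p = d • p := by
    rintro p (rfl | rfl) <;> simp
  have hs2 : d • p1 + d • p2 + d • p3 = 1 := by
    rw [← smul_add, ← smul_add, hsum, smul_smul, hdd, one_smul]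
  rw [← or_assoc] at k1 k2 k3
  rcases k1 with k1 | k1 <;> rcases k2 with k2 | k2 <;> rcases k3 with k3 | k3
  · exact absurd (by linear_combination (norm := module) hz _ k1 + hz _ k2 + hz _ k3 + hs2 - hsq)
      (smul_one_ne_zero' (A := QC i j) (c := 2) (by norm_num))
  · exact absurd (by linear_combination (norm := module) hz _ k1 + hz _ k2 + k3.1 + hs2 - hsq)
      (smul_one_ne_zero' (A := QC i j) (c := 1) (by norm_num))
  · exact absurd (by linear_combination (norm := module) hz _ k1 + k2.1 + hz _ k3 + hs2 - hsq)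
      (smul_one_ne_zero' (A := QC i j) (c := 1) (by norm_num))
  · obtain ⟨rfl, φ, hφ, rfl, rfl⟩ := tri_aux2 hd hsum k1 k2.1 k3.1
    exact ⟨⟨_, Or.inr rfl, k2.2⟩, φ, d, hφ, hd, Or.inl rfl⟩
  · exact absurd (by linear_combination (norm := module) k1.1 + hz _ k2 + hz _ k3 + hs2 - hsq)
      (smul_one_ne_zero' (A := QC i j) (c := 1) (by norm_num))
  · obtain ⟨rfl, φ, hφ, rfl, rfl⟩ := tri_aux2 hd (p := p2) (q := p3) (r := p1)
      (by rw [← hsum]; abel) k2 k3.1 k1.1
    exact ⟨⟨_, Or.inl rfl, k1.2⟩, φ, d, hφ, hd, Or.inr (Or.inl rfl)⟩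
  · obtain ⟨rfl, φ, hφ, rfl, rfl⟩ := tri_aux2 hd (p := p3) (q := p1) (r := p2)
      (by rw [← hsum]; abel) k3 k1.1 k2.1
    exact ⟨⟨_, Or.inl rfl, k1.2⟩, φ, d, hφ, hd, Or.inr (Or.inr rfl)⟩
  · exact absurd (by linear_combination (norm := module) k1.1 + k2.1 + k3.1 + hs2 - hsq)
      (smul_one_ne_zero' (A := QC i j) (c := -1) (by norm_num))

theorem Tri.sq {a b : R} (h : Tri a b) : (a * b + b * a) * (a * b + b * a) = (4 : ℚ) • 1 ∨
    (a * b + b * a) * (a * b + b * a) = (20 : ℚ) • 1 := by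
  rcases h with h | h | h
  · left; rw [h]; simp [smul_smul]; norm_num
  · left; rw [h]; simp [smul_smul]; norm_num
  · exact Or.inr h

theorem two_icosa_aux {A : Type*} [Ring A] [Algebra ℚ A] [Nontrivial A] {m : A} {u v : ℚ}
    (hu : u = 12 ∨ u = 76) (hv : v = 124 ∨ v = 60) (h1 : m * m + (4 : ℚ) • m = u • 1)
    (h2 : m * m - (4 : ℚ) • m = v • 1) : m = (-6 : ℚ) • 1 := by
  have h3 : m = ((u - v) / 8) • 1 := by linear_combination (norm := module) (1 / 8 : ℚ) • (h1 - h2)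
  have h4 : (((u - v) / 8) * ((u - v) / 8) + 4 * ((u - v) / 8) - u) • (1 : A) = 0 := by
    rw [h3] at h1
    simp only [mul_smul_comm, mul_one] at h1
    linear_combination (norm := module) h1
  have h5 := (smul_eq_zero.mp h4).resolve_right one_ne_zero
  have h6 : (u - v) / 8 = -6 := by
    rcases hu with rfl | rfl <;> rcases hv with rfl | rfl <;> norm_num at h5
    norm_num
  rw [h3, h6]

/-- two binary icosahedral groups over the same binary tetrahedral group are incompatible -/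
theorem QPair.not_two_icosa [Nontrivial R] (h : QPair i j) {φ ψ : QC i j} (hφ : φ * φ = φ + 1)
    (hψ : ψ * ψ = ψ + 1) (h1 : Tri (qt 0 0 φ (1 - φ)) (qt 0 0 ψ (1 - ψ)))
    (h2 : Tri (qt 0 0 φ (1 - φ)) (qt 0 0 ψ (-(1 - ψ))))
    (h3 : Tri (qt 0 0 φ (1 - φ)) (qt 0 (1 - ψ) 0 ψ)) : False := by
  have hφ' : ∀ x, φ * (φ * x) = φ * x + x := fun x => by rw [← mul_assoc, hφ, add_mul, one_mul]
  have hψ' : ∀ x, ψ * (ψ * x) = ψ * x + x := fun x => by rw [← mul_assoc, hψ, add_mul, one_mul]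
  obtain ⟨m, hm⟩ : ∃ m, m = (4 : ℚ) • (φ * ψ + ψ * φ) - (4 : ℚ) • φ - (4 : ℚ) • ψ + (2 : ℚ) • 1 :=
    ⟨_, rfl⟩
  have k1 : ∃ u : ℚ, (u = 12 ∨ u = 76) ∧ m * m + (4 : ℚ) • m = u • 1 := by
    have := h1.sq
    rw [h.anticomm, h.qt_mul, qt_smul_one (i := i) (j := j) 4, qt_smul_one (i := i) (j := j) 20]
      at this
    rcases this with e | e
    all_goals
      have e' := (h.qt_inj e).1
      simp only [mul_add, add_mul, mul_sub, sub_mul, mul_neg, neg_mul, mul_one, one_mul, mul_zero,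
        zero_mul, mul_assoc, hφ, hψ, hφ', hψ'] at e'
    · refine ⟨12, Or.inl rfl, ?_⟩
      simp only [hm, mul_add, add_mul, mul_sub, sub_mul, mul_one, one_mul, smul_mul_assoc,
        mul_smul_comm, mul_assoc, hφ, hψ, hφ', hψ']
      linear_combination (norm := module) (4 : ℚ) • e'
    · refine ⟨76, Or.inr rfl, ?_⟩
      simp only [hm, mul_add, add_mul, mul_sub, sub_mul, mul_one, one_mul, smul_mul_assoc,
        mul_smul_comm, mul_assoc, hφ, hψ, hφ', hψ']
      linear_combination (norm := module) (4 : ℚ) • e'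
  have k2 : ∃ v : ℚ, (v = 124 ∨ v = 60) ∧ m * m - (4 : ℚ) • m = v • 1 := by
    have := h2.sq
    rw [h.anticomm, h.qt_mul, qt_smul_one (i := i) (j := j) 4, qt_smul_one (i := i) (j := j) 20]
      at this
    rcases this with e | e
    all_goals
      have e' := (h.qt_inj e).1
      simp only [mul_add, add_mul, mul_sub, sub_mul, mul_neg, neg_mul, mul_one, one_mul, mul_zero,
        zero_mul, mul_assoc, hφ, hψ, hφ', hψ'] at e'
    · refine ⟨124, Or.inl rfl, ?_⟩
      simp only [hm, mul_add, add_mul, mul_sub, sub_mul, mul_one, one_mul, smul_mul_assoc,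
        mul_smul_comm, mul_assoc, hφ, hψ, hφ', hψ']
      linear_combination (norm := module) (-4 : ℚ) • e'
    · refine ⟨60, Or.inr rfl, ?_⟩
      simp only [hm, mul_add, add_mul, mul_sub, sub_mul, mul_one, one_mul, smul_mul_assoc,
        mul_smul_comm, mul_assoc, hφ, hψ, hφ', hψ']
      linear_combination (norm := module) (-4 : ℚ) • e'
  obtain ⟨u, hu, k1⟩ := k1
  obtain ⟨v, hv, k2⟩ := k2
  have hm6 := two_icosa_aux hu hv k1 k2
  have k3 : (φ * ψ - ψ * φ) * ((2 : ℚ) • 1 - m) = 0 := by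
    have := h3.sq
    rw [h.anticomm, h.qt_mul, qt_smul_one (i := i) (j := j) 4, qt_smul_one (i := i) (j := j) 20]
      at this
    rcases this with e | e
    all_goals
      have e' := (h.qt_inj e).2.1
      simp only [mul_add, add_mul, mul_sub, sub_mul, mul_neg, neg_mul, mul_one, one_mul, mul_zero,
        zero_mul, mul_assoc, hφ, hψ, hφ', hψ'] at e'
      simp only [hm, mul_add, mul_sub, sub_mul, mul_one,
        mul_smul_comm, mul_assoc, hφ, hψ, hφ', hψ']
      linear_combination (norm := module) (-2 : ℚ) • e'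
  have k4 : (16 : ℚ) • ((φ * ψ - ψ * φ) * (φ * ψ - ψ * φ)) = m * m - (100 : ℚ) • 1 := by
    simp only [hm, mul_add, add_mul, mul_sub, sub_mul, mul_one, one_mul, smul_mul_assoc,
      mul_smul_comm, mul_assoc, hφ, hψ, hφ', hψ']
    module
  rw [hm6] at k3 k4
  generalize φ * ψ - ψ * φ = D at k3 k4
  have k5 : D = 0 := by
    simp only [mul_sub, mul_smul_comm, mul_one] at k3
    linear_combination (norm := module) (1 / 8 : ℚ) • k3
  simp only [k5, mul_smul_comm, mul_one, mul_zero] at k4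
  exact smul_one_ne_zero' (A := QC i j) (c := 64) (by norm_num)
    (by linear_combination (norm := module) k4)

theorem QPair.conj_i (h : QPair i j) (p q r : QC i j) :
    i * qt 0 p q r = qt 0 p (-q) (-r) * i := by
  simp only [qt, ZeroMemClass.coe_zero, NegMemClass.coe_neg, zero_add, mul_add, add_mul, mul_assoc,
    QC.i_mul', h.ii, h.ji, h.ii', mul_neg, neg_mul, neg_neg, mul_one]

theorem QPair.conj_j (h : QPair i j) (p q r : QC i j) :
    j * qt 0 p q r = qt 0 (-p) q (-r) * j := by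
  simp only [qt, ZeroMemClass.coe_zero, NegMemClass.coe_neg, zero_add, mul_add, add_mul, mul_assoc,
    QC.j_mul', h.jj, h.ji, h.ji', mul_neg, neg_mul, neg_neg, mul_one]

theorem QPair.conj_x (h : QPair i j) {x : R}
    (hx : (2 : ℚ) • x + 1 = qt (i := i) (j := j) 0 1 1 1) (p q r : QC i j) :
    x * qt 0 p q r = qt 0 q r p * x := by
  have h1 : x = qt (i := i) (j := j) ((-1 / 2 : ℚ) • 1) ((1 / 2 : ℚ) • 1) ((1 / 2 : ℚ) • 1)
      ((1 / 2 : ℚ) • 1) := by
    simp only [qt, ZeroMemClass.coe_zero, OneMemClass.coe_one, one_mul, SetLike.val_smul,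
      smul_mul_assoc] at hx ⊢
    linear_combination (norm := module) (1 / 2 : ℚ) • hx
  rw [h1, h.qt_mul, h.qt_mul]
  congr 1 <;> simp only [smul_mul_assoc, mul_smul_comm, mul_one, one_mul, mul_zero] <;>
    module

/-- sets of pure quaternions invariant under the binary tetrahedral group and `-1` -/
structure QClosed (i j : R) (T : Set R) : Prop where
  neg : ∀ r ∈ T, -r ∈ T
  cyc : ∀ p q r : QC i j, qt 0 p q r ∈ T → qt 0 q r p ∈ T
  ci : ∀ p q r : QC i j, qt 0 p q r ∈ T → qt 0 p (-q) (-r) ∈ T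
  cj : ∀ p q r : QC i j, qt 0 p q r ∈ T → qt 0 (-p) q (-r) ∈ T

theorem QClosed.normal_form {T : Set R} (hT : QClosed i j T) {b : R} (hb : b ∈ T) {φ : QC i j}
    {d : ℚ} (hd : d = 1 ∨ d = -1)
    (h : b = qt 0 0 (d • φ) (d • (1 - φ)) ∨ b = qt 0 (d • (1 - φ)) 0 (d • φ) ∨
      b = qt 0 (d • φ) (d • (1 - φ)) 0) : qt 0 0 φ (1 - φ) ∈ T := by
  have h1 : qt 0 0 (d • φ) (d • (1 - φ)) ∈ T := by
    rcases h with rfl | rfl | rfl
    · exact hb
    · exact hT.cyc _ _ _ hb
    · exact hT.cyc _ _ _ (hT.cyc _ _ _ hb)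
  rcases hd with rfl | rfl
  · simpa using h1
  · have := hT.neg _ h1
    rw [qt_neg] at this
    simpa using this

theorem QPair.false_of_closed [Nontrivial R] (h : QPair i j) {T T' : Set R} (hT' : QClosed i j T')
    {φ ψ : QC i j} (hφ : φ * φ = φ + 1) (hψ : ψ * ψ = ψ + 1) (h1 : qt 0 0 φ (1 - φ) ∈ T)
    (h2 : qt 0 0 ψ (1 - ψ) ∈ T') (h3 : ∀ r ∈ T, ∀ r' ∈ T', Tri r r') : False :=
  h.not_two_icosa hφ hψ (h3 _ h1 _ h2) (h3 _ h1 _ (by simpa using hT'.cj _ _ _ h2))
    (h3 _ h1 _ (hT'.cyc _ _ _ (hT'.cyc _ _ _ h2)))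

end CfsgLib.Frob
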