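import Mathlib
import Cfsg.Agent.Lib.FrobLift

/-! Frobenius complements inside `ℚ`-algebras; products of two elements of order `3`. -/

set_option autoImplicit false

namespace CfsgLib.Frob

open Subgroup Polynomial
open scoped TensorProduct

variable {G : Type*} [Group G]

/-- all "norm elements" of non-identity elements vanish -/
def IsFPFHom {R : Type*} [Ring R] (ρ : G →* R) : Prop :=
  ∀ a : G, a ≠ 1 → ∀ n : ℕ, a ^ n = 1 → ∑ i ∈ Finset.range n, ρ a ^ i = 0

theorem HasFPF.exists_ring (h : HasFPF G) :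
    ∃ (R : Type) (_ : Ring R) (_ : Algebra ℚ R) (_ : Nontrivial R) (ρ : G →* R), IsFPFHom ρ := by
  have := h.finite
  let P := {p : ℕ // p.Prime ∧ ¬ p ∣ Nat.card G}
  choose V i1 i2 i3 i4 ρ hρ using fun p : P => h.exists_rep_char p.2.1 p.2.2
  let R0 := ∀ p : P, Module.End (ZMod p) (V p)
  let ρ0 : G →* R0 := MonoidHom.pi fun p => ρ p
  have h0 : IsFPFHom ρ0 := by
    intro a ha n hn
    funext p
    ext v
    have := rep_sum_range_eq_zero (ρ p) (hρ p a ha) hn v
    simpa [ρ0, R0, Finset.sum_apply, LinearMap.sum_apply] using this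
  have h1 : ∀ n : ℤ, n • (1 : R0) = 0 → n = 0 := by
    intro n hn
    by_contra hn0
    obtain ⟨p, hp1, hp⟩ := Nat.exists_infinite_primes (n.natAbs * Nat.card G + 1)
    have hpos : 0 < n.natAbs := Int.natAbs_pos.mpr hn0
    have hG : 0 < Nat.card G := Nat.card_pos
    have h2 : ¬ p ∣ Nat.card G := fun hd => by
      have := Nat.le_of_dvd hG hd
      nlinarith
    have h3 : ¬ p ∣ n.natAbs := fun hd => by
      have := Nat.le_of_dvd hpos hd
      nlinarith
    have := Fact.mk hp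
    let _ : Module (ZMod p) (V ⟨p, hp, h2⟩) := i2 ⟨p, hp, h2⟩
    obtain ⟨v, hv⟩ := exists_ne (0 : V ⟨p, hp, h2⟩)
    have h4 : n • v = 0 := by
      have := congrArg (fun f : R0 => f ⟨p, hp, h2⟩ v) hn
      simpa [R0] using this
    have h5 : ((n : ℤ) : ZMod p) • v = 0 := by
      rw [Int.cast_smul_eq_zsmul]; exact h4
    have h6 : ((n : ℤ) : ZMod p) ≠ 0 := by
      rw [Ne, ZMod.intCast_zmod_eq_zero_iff_dvd]
      exact fun hd => h3 (Int.natCast_dvd.mp hd)
    exact hv ((smul_eq_zero.mp h5).resolve_left h6)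
  let ι : R0 →ₐ[ℤ] ℚ ⊗[ℤ] R0 := Algebra.TensorProduct.includeRight
  refine ⟨ℚ ⊗[ℤ] R0, inferInstance, inferInstance, ⟨⟨1, 0, fun e => ?_⟩⟩,
    (ι : R0 →* ℚ ⊗[ℤ] R0).comp ρ0, fun a ha n hn => ?_⟩
  · have e' : TensorProduct.mk ℤ ℚ R0 1 1 = 0 := e
    obtain ⟨⟨m, hm⟩, h2⟩ := (IsLocalizedModule.eq_zero_iff (nonZeroDivisors ℤ) _).mp e'
    exact nonZeroDivisors.ne_zero hm (h1 m h2)
  · have := congrArg ι (h0 a ha n hn)
    simpa using this

section Ring

variable {R : Type*} [Ring R] [Algebra ℚ R] {ρ : G →* R}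

theorem eq_zero_of_natCast_mul {n : ℕ} (hn : n ≠ 0) {r : R} (h : (n : R) * r = 0) : r = 0 := by
  have h1 : (n : ℚ) • r = 0 := by rw [Nat.cast_smul_eq_nsmul, nsmul_eq_mul, h]
  exact (smul_eq_zero.mp h1).resolve_left (by exact_mod_cast hn)

theorem natCast_ne_zero_of_algebra [Nontrivial R] {n : ℕ} (hn : n ≠ 0) : (n : R) ≠ 0 := fun h =>
  one_ne_zero (eq_zero_of_natCast_mul hn (r := (1 : R)) (by rw [mul_one, h]))

theorem IsFPFHom.injective [Finite G] [Nontrivial R] (h : IsFPFHom ρ) : Function.Injective ρ := by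
  rw [injective_iff_map_eq_one]
  intro a ha
  by_contra ha1
  have := h a ha1 _ (pow_orderOf_eq_one a)
  simp only [ha, one_pow, Finset.sum_const, Finset.card_range, nsmul_eq_mul, mul_one] at this
  exact natCast_ne_zero_of_algebra (orderOf_pos a).ne' this

omit [Algebra ℚ R] in
theorem IsFPFHom.map_involution (h : IsFPFHom ρ) {t : G} (h1 : t ≠ 1) (h2 : t ^ 2 = 1) :
    ρ t = -1 := by
  have := h t h1 2 h2
  simp only [Finset.sum_range_succ, Finset.range_zero, Finset.sum_empty, pow_zero, zero_add,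
    pow_one] at this
  exact eq_neg_of_add_eq_zero_right this

omit [Algebra ℚ R] in
theorem IsFPFHom.mul_self_of_three (h : IsFPFHom ρ) {x : G} (hx : orderOf x = 3) :
    ρ x * ρ x = -1 - ρ x := by
  have := h x (by rintro rfl; simp at hx) 3 (by rw [← hx, pow_orderOf_eq_one])
  simp only [Finset.sum_range_succ, Finset.range_zero, Finset.sum_empty, pow_zero, zero_add,
    pow_one, sq] at this
  linear_combination (norm := abel) this

omit [Algebra ℚ R] in
theorem IsFPFHom.map_inv_of_three (h : IsFPFHom ρ) {x : G} (hx : orderOf x = 3) :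
    ρ x⁻¹ = -1 - ρ x := by
  have h1 : x⁻¹ = x * x := by
    rw [inv_eq_iff_mul_eq_one, ← pow_three, ← hx, pow_orderOf_eq_one]
  rw [h1, map_mul, h.mul_self_of_three hx]

/-- polynomial relations of `ρ w` hold for every primitive root of unity of order `orderOf w` -/
theorem IsFPFHom.aeval_eq_zero [Finite G] [Nontrivial R] (h : IsFPFHom ρ) (w : G) {ζ : ℂ}
    (hζ : IsPrimitiveRoot ζ (orderOf w)) {Q : ℚ[X]} (hQ : aeval (ρ w) Q = 0) : aeval ζ Q = 0 := by
  have hm : 0 < orderOf w := orderOf_pos w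
  have hw : ρ w ^ orderOf w = 1 := by rw [← map_pow, pow_orderOf_eq_one, map_one]
  have hint : IsIntegral ℚ (ρ w) := IsIntegral.of_pow hm (by rw [hw]; exact isIntegral_one)
  obtain ⟨μ, hμ⟩ := IsAlgClosed.exists_aeval_eq_zero ℂ (minpoly ℚ (ρ w))
    (minpoly.degree_pos hint).ne'
  have key : ∀ Q : ℚ[X], aeval (ρ w) Q = 0 → aeval μ Q = 0 := fun Q hQ => by
    obtain ⟨T, rfl⟩ := minpoly.dvd ℚ _ hQ
    rw [map_mul, hμ, zero_mul]
  have hprim : IsPrimitiveRoot μ (orderOf w) := by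
    refine ⟨?_, fun l hl => ?_⟩
    · have := key (X ^ orderOf w - 1) (by simp [hw])
      simpa [sub_eq_zero] using this
    · by_contra hd
      have h1 : w ^ l ≠ 1 := fun e => hd (orderOf_dvd_of_pow_eq_one e)
      have h2 := h _ h1 (orderOf w) (by rw [← pow_mul, mul_comm, pow_mul, pow_orderOf_eq_one, one_pow])
      have h3 := key (∑ i ∈ Finset.range (orderOf w), (X ^ l) ^ i) (by simpa using h2)
      simp [hl, hm.ne'] at h3
  obtain ⟨T, rfl⟩ := minpoly.dvd ℚ _ (key Q hQ)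
  rw [← cyclotomic_eq_minpoly_rat hprim hm, cyclotomic_eq_minpoly_rat hζ hm, map_mul,
    minpoly.aeval, zero_mul]

end Ring

/-- the sequence `u ^ k + u⁻¹ ^ k` in terms of `t = u + u⁻¹` -/
def chebSeq {A : Type*} [Ring A] (t : A) : ℕ → A
  | 0 => 2
  | 1 => t
  | k + 2 => t * chebSeq t (k + 1) - chebSeq t k

theorem map_chebSeq {A B : Type*} [Ring A] [Ring B] (f : A →+* B) (t : A) :
    ∀ k, f (chebSeq t k) = chebSeq (f t) k
  | 0 => by simp [chebSeq, map_ofNat]
  | 1 => by simp [chebSeq]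
  | k + 2 => by simp [chebSeq, map_chebSeq f t (k + 1), map_chebSeq f t k]

theorem chebSeq_add {A : Type*} [Ring A] {u v : A} (h1 : u * v = 1) (h2 : v * u = 1) :
    ∀ k, chebSeq (u + v) k = u ^ k + v ^ k
  | 0 => by simp [chebSeq, one_add_one_eq_two]
  | 1 => by simp [chebSeq]
  | k + 2 => by
    rw [chebSeq, chebSeq_add h1 h2 (k + 1), chebSeq_add h1 h2 k]
    simp only [pow_succ', add_mul, mul_add, ← mul_assoc, h1, h2, one_mul]
    abel

theorem chebSeq_lt {t : ℝ} (ht : 2 < t) : ∀ k, 2 ≤ chebSeq t k ∧ chebSeq t k < chebSeq t (k + 1)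
  | 0 => by simp [chebSeq, ht]
  | k + 1 => by
    obtain ⟨h1, h2⟩ := chebSeq_lt ht k
    refine ⟨by linarith, ?_⟩
    rw [chebSeq]
    nlinarith

theorem exists_coprime_mem_third {m : ℕ} (hm : 0 < m) (h1 : m ≠ 1) (h3 : m ≠ 3) (h4 : m ≠ 4)
    (h6 : m ≠ 6) (h10 : m ≠ 10) : ∃ k : ℕ, k.Coprime m ∧ m < 3 * k ∧ 3 * k < 2 * m := by
  have key : ∀ k : ℕ, 2 * k - m ∣ 4 → (k % 2 = 1 ∨ m % 2 = 1) → k.Coprime m := by
    intro k hk ho
    refine Nat.coprime_of_dvd fun d hd e1 e2 => ?_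
    have h2 : d ∣ 2 ^ 2 := (Nat.dvd_sub (e1.mul_left 2) e2).trans hk
    have := (Nat.prime_dvd_prime_iff_eq hd Nat.prime_two).mp (hd.dvd_of_dvd_pow h2)
    subst this
    omega
  by_cases h2 : m = 2
  · exact ⟨1, by simp, by omega, by omega⟩
  rcases Nat.mod_two_eq_zero_or_one m with ho | ho
  · by_cases hm4 : m % 4 = 0
    · exact ⟨m / 2 + 1, key _ (by rw [show 2 * (m / 2 + 1) - m = 2 by omega]; norm_num)
        (by omega), by omega, by omega⟩
    · exact ⟨m / 2 + 2, key _ (by rw [show 2 * (m / 2 + 2) - m = 4 by omega]) (by omega),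
        by omega, by omega⟩
  · exact ⟨m / 2 + 1, key _ (by rw [show 2 * (m / 2 + 1) - m = 1 by omega]; norm_num)
      (by omega), by omega, by omega⟩

theorem exists_primitiveRoot_re_lt {m : ℕ} (hm : 0 < m) (h1 : m ≠ 1) (h3 : m ≠ 3) (h4 : m ≠ 4)
    (h6 : m ≠ 6) (h10 : m ≠ 10) :
    ∃ (ζ : ℂ) (t : ℝ), IsPrimitiveRoot ζ m ∧ 2 < t ∧ 1 - (ζ + ζ ^ (m - 1)) = t := by
  obtain ⟨k, hk, hk1, hk2⟩ := exists_coprime_mem_third hm h1 h3 h4 h6 h10
  have hζ := Complex.isPrimitiveRoot_exp_of_coprime k m hm.ne' hk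
  set θ : ℝ := 2 * Real.pi * (k / m) with hθ
  have e : 2 * (Real.pi : ℂ) * Complex.I * ((k : ℂ) / m) = θ * Complex.I := by
    rw [hθ]; push_cast; ring
  rw [e] at hζ
  refine ⟨_, 1 - 2 * Real.cos θ, hζ, ?_, ?_⟩
  · have hm' : (0 : ℝ) < m := by exact_mod_cast hm
    have a1 : (1 : ℝ) / 3 < k / m := by
      rw [div_lt_div_iff₀ (by norm_num) hm']; exact_mod_cast (by omega : 1 * m < k * 3)
    have a2 : (k : ℝ) / m < 2 / 3 := by
      rw [div_lt_div_iff₀ hm' (by norm_num)]; exact_mod_cast (by omega : k * 3 < 2 * m)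
    have hpi := Real.pi_pos
    have a3 : |Real.pi - θ| < Real.pi / 3 := by
      rw [abs_lt, hθ]; constructor <;> nlinarith
    have a4 := Real.cos_lt_cos_of_nonneg_of_le_pi (abs_nonneg _) (by linarith) a3
    rw [Real.cos_abs, Real.cos_pi_sub, Real.cos_pi_div_three] at a4
    linarith
  · have h5 : Complex.exp (θ * Complex.I) ^ (m - 1) = Complex.exp (-θ * Complex.I) := by
      have h7 := hζ.pow_eq_one
      rw [neg_mul, Complex.exp_neg]
      refine eq_inv_of_mul_eq_one_left ?_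
      rw [← pow_succ, Nat.sub_add_cancel hm, h7]
    rw [h5, ← Complex.two_cos]
    push_cast
    ring

section Three

variable {R : Type*} [Ring R] [Algebra ℚ R] {ρ : G →* R}

omit [Algebra ℚ R] in
theorem IsFPFHom.trace_mul (h : IsFPFHom ρ) {x y : G} (hx : orderOf x = 3) (hy : orderOf y = 3) :
    ρ (x * y) + ρ (x * y)⁻¹ = ρ x * ρ y + ρ y * ρ x + ρ x + ρ y + 1 := by
  rw [mul_inv_rev, map_mul, map_mul, h.map_inv_of_three hx, h.map_inv_of_three hy]
  noncomm_ring

omit [Algebra ℚ R] in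
theorem IsFPFHom.trace_mul_inv (h : IsFPFHom ρ) {x y : G} (hx : orderOf x = 3)
    (hy : orderOf y = 3) :
    ρ (x * y⁻¹) + ρ (x * y⁻¹)⁻¹ = 1 - (ρ (x * y) + ρ (x * y)⁻¹) := by
  rw [h.trace_mul hx hy, h.trace_mul hx (by rwa [orderOf_inv]), h.map_inv_of_three hy]
  noncomm_ring

theorem IsFPFHom.orderOf_mul_three [Finite G] [Nontrivial R] (h : IsFPFHom ρ) {x y : G}
    (hx : orderOf x = 3) (hy : orderOf y = 3) :
    orderOf (x * y) = 1 ∨ orderOf (x * y) = 3 ∨ orderOf (x * y) = 4 ∨ orderOf (x * y) = 6 ∨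
      orderOf (x * y) = 10 := by
  by_contra hcon
  simp only [not_or] at hcon
  obtain ⟨h1, h3, h4, h6, h10⟩ := hcon
  have hm := orderOf_pos (x * y)
  obtain ⟨ζ, t, hζ, ht, e⟩ := exists_primitiveRoot_re_lt hm h1 h3 h4 h6 h10
  obtain ⟨N, hN⟩ : ∃ N, orderOf (x * y⁻¹) = N + 1 := ⟨_, (Nat.sub_add_cancel (orderOf_pos _)).symm⟩
  have hinv : ρ (x * y) ^ (orderOf (x * y) - 1) = ρ (x * y)⁻¹ := by
    rw [← map_pow]
    congr 1
    refine eq_inv_of_mul_eq_one_left ?_
    rw [← pow_succ, Nat.sub_add_cancel hm, pow_orderOf_eq_one]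
  have h5 := h.aeval_eq_zero (x * y) hζ
    (Q := chebSeq (1 - (X + X ^ (orderOf (x * y) - 1))) (N + 1) - 2) (by
      rw [map_sub, ← AlgHom.coe_toRingHom, map_chebSeq]
      simp only [RingHom.coe_coe, map_sub, map_one, map_add, aeval_X, map_pow, hinv]
      rw [← h.trace_mul_inv hx hy, chebSeq_add (by rw [← map_mul]; simp) (by rw [← map_mul]; simp),
        ← map_pow, ← map_pow, inv_pow, ← hN, pow_orderOf_eq_one, inv_one, map_one, map_ofNat]
      norm_num)
  rw [map_sub, ← AlgHom.coe_toRingHom, map_chebSeq] at h5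
  simp only [RingHom.coe_coe, map_sub, map_one, map_add, aeval_X, map_pow, e, map_ofNat] at h5
  have h7 : ((chebSeq t (N + 1) : ℝ) : ℂ) = chebSeq (t : ℂ) (N + 1) :=
    map_chebSeq Complex.ofRealHom t (N + 1)
  rw [← h7, sub_eq_zero] at h5
  have h8 : chebSeq t (N + 1) = 2 := by exact_mod_cast h5
  have := chebSeq_lt ht N
  linarith

theorem IsFPFHom.trace_cases [Finite G] [Nontrivial R] (h : IsFPFHom ρ) {x y : G}
    (hx : orderOf x = 3) (hy : orderOf y = 3) {s : R} (hs : ρ (x * y) + ρ (x * y)⁻¹ = s) :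
    x * y = 1 ∨ s = -1 ∨ s = 0 ∨ s = 1 ∨ s * s = s + 1 := by
  subst hs
  have h0 := h.orderOf_mul_three hx hy
  generalize x * y = w at h0
  have hinv : ∀ n : ℕ, orderOf w = n + 1 → ρ w⁻¹ = ρ w ^ n := fun n hn => by
    rw [← map_pow]
    congr 1
    refine (eq_inv_of_mul_eq_one_left ?_).symm
    rw [← pow_succ, ← hn, pow_orderOf_eq_one]
  have hhalf : ∀ n : ℕ, n ≠ 0 → orderOf w = n * 2 → ρ w ^ n = -1 := fun n hn0 hn => by
    rw [← map_pow]
    refine h.map_involution (fun e => ?_) (by rw [← pow_mul, ← hn, pow_orderOf_eq_one])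
    have := Nat.le_of_dvd (Nat.pos_of_ne_zero hn0) (orderOf_dvd_of_pow_eq_one e)
    omega
  have hsq : ∀ n : ℕ, 1 < n → orderOf w = 2 * n →
      ∑ i ∈ Finset.range n, (ρ w ^ 2) ^ i = 0 := fun n hn0 hn => by
    rw [← map_pow]
    refine h _ (fun e => ?_) n (by rw [← pow_mul, ← hn, pow_orderOf_eq_one])
    have := Nat.le_of_dvd two_pos (orderOf_dvd_of_pow_eq_one e)
    omega
  rcases h0 with h0 | h0 | h0 | h0 | h0
  · exact Or.inl (orderOf_eq_one_iff.mp h0)
  · right; left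
    rw [h.map_inv_of_three h0]; abel
  · right; right; left
    rw [hinv 3 h0, pow_succ, hhalf 2 two_ne_zero h0]; simp
  · right; right; right; left
    have h1 := hhalf 3 (by norm_num) h0
    have h2 := hsq 3 (by norm_num) h0
    rw [hinv 5 h0]
    simp only [Finset.sum_range_succ, Finset.range_zero, Finset.sum_empty] at h2
    generalize ρ w = u at h1 h2
    have e1 : u ^ 5 = u ^ 3 * u ^ 2 := by rw [← pow_add]
    have e2 : (u ^ 2) ^ 2 = u ^ 3 * u := by rw [← pow_mul, ← pow_succ]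
    rw [e2, h1] at h2
    rw [e1, h1]
    linear_combination (norm := noncomm_ring) -h2
  · right; right; right; right
    have h1 := hhalf 5 (by norm_num) h0
    have h2 := hsq 5 (by norm_num) h0
    rw [hinv 9 h0]
    simp only [Finset.sum_range_succ, Finset.range_zero, Finset.sum_empty] at h2
    generalize ρ w = u at h1 h2
    have e1 : u ^ 9 = u ^ 5 * u ^ 4 := by rw [← pow_add]
    have e2 : (u ^ 2) ^ 3 = u ^ 5 * u := by rw [← pow_mul, ← pow_succ]
    have e3 : (u ^ 2) ^ 4 = u ^ 5 * u ^ 3 := by rw [← pow_mul, ← pow_add]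
    have e4 : u ^ 4 * u ^ 4 = u ^ 5 * u ^ 3 := by rw [← pow_add, ← pow_add]
    have e5 : u * u ^ 4 = u ^ 5 := by rw [← pow_succ']
    have e6 : u ^ 4 * u = u ^ 5 := by rw [← pow_succ]
    rw [e2, e3, h1] at h2
    rw [e1, h1]
    simp only [neg_mul, one_mul, mul_add, add_mul, mul_neg, neg_neg, e4, e5, e6, h1]
    linear_combination (norm := noncomm_ring) h2

/-- two elements of order `3` of a Frobenius complement -/
theorem IsFPFHom.trace_cases' [Finite G] [Nontrivial R] (h : IsFPFHom ρ) {x y : G}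
    (hx : orderOf x = 3) (hy : orderOf y = 3) {s : R} (hs : ρ (x * y) + ρ (x * y)⁻¹ = s) :
    y = x ∨ y = x⁻¹ ∨ s = 0 ∨ s = 1 ∨ s * s = s + 1 := by
  rcases h.trace_cases hx hy hs with h1 | h1 | h1
  · exact Or.inr (Or.inl (eq_inv_of_mul_eq_one_right h1))
  · have h2 := h.trace_mul_inv hx hy
    rw [hs, h1] at h2
    left
    have hne : ∀ n : ℕ, n ≠ 0 → (n : R) ≠ 0 := fun n hn => natCast_ne_zero_of_algebra hn
    rcases h.trace_cases hx (by rwa [orderOf_inv]) h2 with h3 | h3 | h3 | h3 | h3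
    · exact (mul_inv_eq_one.mp h3).symm
    · exact absurd (by push_cast; linear_combination (norm := norm_num) h3) (hne 3 (by norm_num))
    · exact absurd (by push_cast; linear_combination (norm := norm_num) h3) (hne 2 (by norm_num))
    · exact absurd (by push_cast; linear_combination (norm := noncomm_ring) h3) (hne 1 (by norm_num))
    · exact absurd (by push_cast; linear_combination (norm := noncomm_ring) h3) (hne 1 (by norm_num))
  · exact Or.inr (Or.inr h1)

end Three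

end CfsgLib.Frob
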