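import Mathlib
import Cfsg.Agent.Lib.FrobRing
import Cfsg.Agent.Lib.FrobQuat
import Cfsg.Agent.Lib.FrobSL25
import Cfsg.Agent.Lib.FrobZGroup
import Cfsg.Agent.Lib.PComplementMore
import Cfsg.Agent.Lib.CharBurnside

/-! Zassenhaus' theorem: a non-solvable Frobenius complement has a normal subgroup `SL₂(5)`. -/

set_option autoImplicit false

namespace CfsgLib.Frob

open Subgroup Cfsg
open scoped commutatorElement

variable {G : Type*} [Group G]

section Ring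

variable {R : Type*} [Ring R] [Algebra ℚ R] {ρ : G →* R}

/-- the pure part of an element of order `3` -/
def pp (ρ : G →* R) (g : G) : R := (2 : ℚ) • ρ g + 1

theorem IsFPFHom.pp_sq (h : IsFPFHom ρ) {x : G} (hx : orderOf x = 3) :
    pp ρ x * pp ρ x = (-3 : ℚ) • 1 := by
  simp only [pp, mul_add, add_mul, smul_mul_assoc, mul_smul_comm, mul_one, one_mul,
    h.mul_self_of_three hx]
  module

theorem IsFPFHom.pp_inv (h : IsFPFHom ρ) {x : G} (hx : orderOf x = 3) :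
    pp ρ x⁻¹ = -pp ρ x := by
  simp only [pp, h.map_inv_of_three hx]
  module

theorem pp_conj {u g : G} {r : R} (e : ρ u * pp ρ g = r * ρ u) : pp ρ (u * g * u⁻¹) = r := by
  have h1 : ρ u * ρ u⁻¹ = 1 := by rw [← map_mul]; simp
  calc pp ρ (u * g * u⁻¹) = ρ u * pp ρ g * ρ u⁻¹ := by
        simp only [pp, map_mul, mul_add, add_mul, smul_mul_assoc, mul_smul_comm, mul_one, h1]
    _ = r := by rw [e, mul_assoc, h1, mul_one]

theorem IsFPFHom.pp_anticomm (h : IsFPFHom ρ) {x y : G} (hx : orderOf x = 3) (hy : orderOf y = 3) :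
    pp ρ x * pp ρ y + pp ρ y * pp ρ x = (4 : ℚ) • (ρ (x * y) + ρ (x * y)⁻¹) - (2 : ℚ) • 1 := by
  simp only [pp, mul_add, add_mul, smul_mul_assoc, mul_smul_comm, mul_one, one_mul,
    h.trace_mul hx hy]
  module

theorem IsFPFHom.tri [Finite G] [Nontrivial R] (h : IsFPFHom ρ) {x y : G} (hx : orderOf x = 3)
    (hy : orderOf y = 3) (h1 : x ≠ y) (h2 : x ≠ y⁻¹) : Tri (pp ρ x) (pp ρ y) := by
  unfold Tri
  rw [h.pp_anticomm hx hy]
  rcases h.trace_cases' hx hy rfl with e | e | e | e | e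
  · exact absurd e.symm h1
  · exact absurd (by rw [e, inv_inv]) h2
  · right; left; rw [e]; module
  · left; rw [e]; module
  · right; right
    generalize ρ (x * y) + ρ (x * y)⁻¹ = s at e
    simp only [mul_sub, sub_mul, smul_mul_assoc, mul_smul_comm, mul_one, one_mul, e]
    module

theorem IsFPFHom.golden_of_sq (h : IsFPFHom ρ) {x y : G} (hx : orderOf x = 3) (hy : orderOf y = 3)
    (e : (pp ρ x * pp ρ y + pp ρ y * pp ρ x) * (pp ρ x * pp ρ y + pp ρ y * pp ρ x) =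
      (20 : ℚ) • 1) :
    (ρ (x * y) + ρ (x * y)⁻¹) * (ρ (x * y) + ρ (x * y)⁻¹) = (ρ (x * y) + ρ (x * y)⁻¹) + 1 := by
  rw [h.pp_anticomm hx hy] at e
  generalize ρ (x * y) + ρ (x * y)⁻¹ = s at e
  simp only [mul_sub, sub_mul, smul_mul_assoc, mul_smul_comm, mul_one, one_mul] at e
  linear_combination (norm := module) (1 / 16 : ℚ) • e

omit [Algebra ℚ R] in
theorem IsFPFHom.icoRel (h : IsFPFHom ρ) {x y : G} (hx : orderOf x = 3) (hy : orderOf y = 3)
    (e : (ρ (x * y) + ρ (x * y)⁻¹) * (ρ (x * y) + ρ (x * y)⁻¹) = (ρ (x * y) + ρ (x * y)⁻¹) + 1) :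
    IcoRel (ρ x) (ρ y) (ρ (x * y) + ρ (x * y)⁻¹) := by
  have h1 := h.mul_self_of_three hx
  have h2 := h.mul_self_of_three hy
  refine ⟨h1, h2, ?_, e, ?_, ?_⟩
  all_goals rw [h.trace_mul hx hy]
  · abel
  · linear_combination (norm := noncomm_ring) h1 * ρ y - ρ y * h1
  · linear_combination (norm := noncomm_ring) h2 * ρ x - ρ x * h2

omit [Algebra ℚ R] in
theorem IsFPFHom.qpair_aux (h : IsFPFHom ρ) {x y : G} (hx : orderOf x = 3) (hy : orderOf y = 3)
    (e : ρ (x * y) + ρ (x * y)⁻¹ = 0) :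
    ρ (x * y)⁻¹ = -(ρ x * ρ y) ∧ ρ (y * x)⁻¹ = -(ρ y * ρ x) ∧
      ρ (x * y)⁻¹ * ρ (y * x)⁻¹ = ρ x - ρ y ∧ QPair (ρ (x * y)⁻¹) (ρ (y * x)⁻¹) := by
  have h1 := h.mul_self_of_three hx
  have h2 := h.mul_self_of_three hy
  have e' : ρ (y * x) + ρ (y * x)⁻¹ = 0 := by
    rw [h.trace_mul hy hx, ← e, h.trace_mul hx hy]; abel
  have a1 : ρ (x * y)⁻¹ = -(ρ x * ρ y) := by rw [← map_mul]; exact eq_neg_of_add_eq_zero_right e
  have a2 : ρ (y * x)⁻¹ = -(ρ y * ρ x) := by rw [← map_mul]; exact eq_neg_of_add_eq_zero_right e'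
  have b1 : ρ (x * y)⁻¹ * (ρ x * ρ y) = 1 := by rw [← map_mul, ← map_mul]; simp
  have b2 : ρ (y * x)⁻¹ * (ρ y * ρ x) = 1 := by rw [← map_mul, ← map_mul]; simp
  rw [h.trace_mul hx hy] at e
  have c1 : ρ (x * y)⁻¹ * ρ (y * x)⁻¹ = ρ x - ρ y := by
    rw [a1, a2]
    linear_combination (norm := noncomm_ring) ρ x * h2 * ρ x - ρ x * e + h1 * ρ y
  have c2 : ρ (y * x)⁻¹ * ρ (x * y)⁻¹ = ρ y - ρ x := by
    rw [a1, a2]
    linear_combination (norm := noncomm_ring) ρ y * h1 * ρ y - ρ y * e + h2 * ρ x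
  refine ⟨a1, a2, c1, ?_, ?_, ?_⟩
  · rw [← b1]; nth_rewrite 2 [a1]; rw [mul_neg]
  · rw [← b2]; nth_rewrite 2 [a2]; rw [mul_neg]
  · rw [c1, c2, neg_sub]

theorem IsFPFHom.pp_eq_qt (h : IsFPFHom ρ) {x y : G} (hx : orderOf x = 3) (hy : orderOf y = 3)
    (e : ρ (x * y) + ρ (x * y)⁻¹ = 0) :
    pp ρ x = qt (i := ρ (x * y)⁻¹) (j := ρ (y * x)⁻¹) 0 1 1 1 := by
  obtain ⟨a1, a2, c1, -⟩ := h.qpair_aux hx hy e
  simp only [qt, ZeroMemClass.coe_zero, OneMemClass.coe_one, one_mul, zero_add, c1, pp]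
  rw [a1, a2]
  rw [h.trace_mul hx hy] at e
  linear_combination (norm := module) e

theorem IsFPFHom.qclosed (h : IsFPFHom ρ) {x y : G} (hx : orderOf x = 3) (hy : orderOf y = 3)
    (e : ρ (x * y) + ρ (x * y)⁻¹ = 0) {U : Set G} (hU : ∀ g ∈ U, g⁻¹ ∈ U)
    (h1 : ∀ g ∈ U, x * g * x⁻¹ ∈ U) (h2 : ∀ g ∈ U, (x * y)⁻¹ * g * (x * y)⁻¹⁻¹ ∈ U)
    (h3 : ∀ g ∈ U, (y * x)⁻¹ * g * (y * x)⁻¹⁻¹ ∈ U) :
    QClosed (ρ (x * y)⁻¹) (ρ (y * x)⁻¹) (pp ρ '' {g ∈ U | orderOf g = 3}) := by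
  have hq := (h.qpair_aux hx hy e).2.2.2
  refine ⟨?_, fun p q r => ?_, fun p q r => ?_, fun p q r => ?_⟩
  · rintro _ ⟨g, hg, rfl⟩
    exact ⟨g⁻¹, ⟨hU g hg.1, by rw [orderOf_inv, hg.2]⟩, h.pp_inv hg.2⟩
  · rintro ⟨g, hg, eg⟩
    exact ⟨_, ⟨h1 g hg.1, by rw [orderOf_conj_eq, hg.2]⟩,
      pp_conj (by rw [eg, hq.conj_x (h.pp_eq_qt hx hy e)])⟩
  · rintro ⟨g, hg, eg⟩
    exact ⟨_, ⟨h2 g hg.1, by rw [orderOf_conj_eq, hg.2]⟩, pp_conj (by rw [eg, hq.conj_i])⟩
  · rintro ⟨g, hg, eg⟩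
    exact ⟨_, ⟨h3 g hg.1, by rw [orderOf_conj_eq, hg.2]⟩, pp_conj (by rw [eg, hq.conj_j])⟩

theorem IsFPFHom.shape [Finite G] [Nontrivial R] (h : IsFPFHom ρ) {x y w : G} (hx : orderOf x = 3)
    (hy : orderOf y = 3) (e : ρ (x * y) + ρ (x * y)⁻¹ = 0) (hw : orderOf w = 3)
    (e' : ρ (x * w) + ρ (x * w)⁻¹ = 0 ∨ ρ (x * w) + ρ (x * w)⁻¹ = 1)
    (hne : ∀ u : G, (u = (x * y)⁻¹ ∨ u = (y * x)⁻¹ ∨ u = (x * y)⁻¹ * (y * x)⁻¹) →
      w ≠ u * x * u⁻¹ ∧ w ≠ (u * x * u⁻¹)⁻¹) :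
    (∃ g : G, orderOf g = 3 ∧ (ρ (w * g) + ρ (w * g)⁻¹) * (ρ (w * g) + ρ (w * g)⁻¹) =
      (ρ (w * g) + ρ (w * g)⁻¹) + 1) ∧
    ∃ (φ : QC (ρ (x * y)⁻¹) (ρ (y * x)⁻¹)) (d : ℚ), φ * φ = φ + 1 ∧ (d = 1 ∨ d = -1) ∧
      (pp ρ w = qt 0 0 (d • φ) (d • (1 - φ)) ∨ pp ρ w = qt 0 (d • (1 - φ)) 0 (d • φ) ∨
        pp ρ w = qt 0 (d • φ) (d • (1 - φ)) 0) := by
  have hq := (h.qpair_aux hx hy e).2.2.2
  have a1 := h.pp_eq_qt hx hy e
  have a2 : pp ρ ((x * y)⁻¹ * x * (x * y)⁻¹⁻¹) = qt 0 1 (-1) (-1) :=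
    pp_conj (by rw [a1, hq.conj_i])
  have a3 : pp ρ ((y * x)⁻¹ * x * (y * x)⁻¹⁻¹) = qt 0 (-1) 1 (-1) :=
    pp_conj (by rw [a1, hq.conj_j])
  have a4 : pp ρ ((x * y)⁻¹ * (y * x)⁻¹ * x * ((x * y)⁻¹ * (y * x)⁻¹)⁻¹) = qt 0 (-1) (-1) 1 :=
    pp_conj (by rw [a1, map_mul, mul_assoc, hq.conj_j, ← mul_assoc, hq.conj_i, neg_neg, mul_assoc])
  have ht : ∀ u : G, (u = (x * y)⁻¹ ∨ u = (y * x)⁻¹ ∨ u = (x * y)⁻¹ * (y * x)⁻¹) →
      Tri (pp ρ w) (pp ρ (u * x * u⁻¹)) := fun u hu =>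
    h.tri hw (by rw [orderOf_conj_eq, hx]) (hne u hu).1 (hne u hu).2
  obtain ⟨c, hc, h1⟩ : ∃ c : ℚ, (c = 2 ∨ c = -2) ∧ pp ρ w * pp ρ x + pp ρ x * pp ρ w = c • 1 := by
    rw [add_comm, h.pp_anticomm hx hw]
    rcases e' with e' | e' <;> rw [e']
    · exact ⟨-2, Or.inr rfl, by module⟩
    · exact ⟨2, Or.inl rfl, by module⟩
  obtain ⟨⟨a, ha, k1⟩, k2⟩ := hq.shape (h.pp_sq hw) hc (a1 ▸ h1) (a2 ▸ ht _ (Or.inl rfl))
    (a3 ▸ ht _ (Or.inr (Or.inl rfl))) (a4 ▸ ht _ (Or.inr (Or.inr rfl)))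
  refine ⟨?_, k2⟩
  rcases ha with rfl | rfl
  · rw [← a2] at k1
    exact ⟨_, by rw [orderOf_conj_eq, hx], h.golden_of_sq hw (by rw [orderOf_conj_eq, hx]) k1⟩
  · rw [← a3] at k1
    exact ⟨_, by rw [orderOf_conj_eq, hx], h.golden_of_sq hw (by rw [orderOf_conj_eq, hx]) k1⟩

theorem IsFPFHom.mem_of_trace [Finite G] [Nontrivial R] (h : IsFPFHom ρ) {S : Subgroup G}
    {x y v w : G} (hx : orderOf x = 3) (hy : orderOf y = 3) (e : ρ (x * y) + ρ (x * y)⁻¹ = 0)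
    (hv : orderOf v = 3) (ev : ρ (x * v) + ρ (x * v)⁻¹ = 0)
    (hne : ∀ u : G, (u = (x * y)⁻¹ ∨ u = (y * x)⁻¹ ∨ u = (x * y)⁻¹ * (y * x)⁻¹) →
      v ≠ u * x * u⁻¹ ∧ v ≠ (u * x * u⁻¹)⁻¹) (hxS : x ∈ S) (hyS : y ∈ S) (hvS : v ∈ S)
    (hw : orderOf w = 3) (ew : ρ (x * w) + ρ (x * w)⁻¹ = 0 ∨ ρ (x * w) + ρ (x * w)⁻¹ = 1) :
    w ∈ S := by
  by_contra hwS
  have hI : (x * y)⁻¹ ∈ S := S.inv_mem (S.mul_mem hxS hyS)
  have hJ : (y * x)⁻¹ ∈ S := S.inv_mem (S.mul_mem hyS hxS)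
  have hc : ∀ u ∈ S, ∀ g ∈ S, u * g * u⁻¹ ∈ S := fun u hu g hg =>
    S.mul_mem (S.mul_mem hu hg) (S.inv_mem hu)
  have hc' : ∀ u ∈ S, ∀ g ∈ (S : Set G)ᶜ, u * g * u⁻¹ ∈ (S : Set G)ᶜ := fun u hu g hg hg' =>
    hg (by simpa [mul_assoc] using hc _ (S.inv_mem hu) _ hg')
  obtain ⟨-, φ, d, hφ, hd, k1⟩ := h.shape hx hy e hw ew (fun u hu => by
    have hu' : u ∈ S := by
      rcases hu with rfl | rfl | rfl
      exacts [hI, hJ, S.mul_mem hI hJ]
    exact ⟨fun e => hwS (e ▸ hc u hu' x hxS), fun e => hwS (e ▸ S.inv_mem (hc u hu' x hxS))⟩)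
  obtain ⟨-, ψ, d', hψ, hd', k2⟩ := h.shape hx hy e hv (Or.inl ev) hne
  have T1 := h.qclosed hx hy e (U := (S : Set G)ᶜ) (fun g hg hg' => hg (inv_mem_iff.mp hg'))
    (hc' _ hxS) (hc' _ hI) (hc' _ hJ)
  have T2 := h.qclosed hx hy e (U := (S : Set G)) (fun g hg => S.inv_mem hg)
    (hc _ hxS) (hc _ hI) (hc _ hJ)
  refine (h.qpair_aux hx hy e).2.2.2.false_of_closed T2 hφ hψ
    (T1.normal_form ⟨w, ⟨hwS, hw⟩, rfl⟩ hd k1) (T2.normal_form ⟨v, ⟨hvS, hv⟩, rfl⟩ hd' k2) ?_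
  rintro _ ⟨g, hg, rfl⟩ _ ⟨g', hg', rfl⟩
  exact h.tri hg.2 hg'.2 (fun e => hg.1 (e ▸ hg'.1)) (fun e => hg.1 (e ▸ S.inv_mem hg'.1))

theorem IsFPFHom.exists_sl25 [Finite G] [Nontrivial R] (h : IsFPFHom ρ) {x y : G}
    (hx : orderOf x = 3) (hy : orderOf y = 3)
    (e : (ρ (x * y) + ρ (x * y)⁻¹) * (ρ (x * y) + ρ (x * y)⁻¹) = (ρ (x * y) + ρ (x * y)⁻¹) + 1) :
    ∃ F : SL25 →* G, Function.Injective F ∧ F sl25X = x ∧ F sl25Y = y := by
  have hr := h.icoRel hx hy e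
  obtain ⟨F, hF⟩ := exists_hom_sl25 h.injective hr
  refine ⟨F, ?_, by simpa [gword] using hF [true], by simpa [gword] using hF [false]⟩
  rw [← MonoidHom.ker_eq_bot_iff]
  by_contra hk
  have h1 : F (-1) = 1 := sl25_neg_one_mem _ hk
  have h2 : gword sl25X sl25Y [false, true, false, true, true, false, true, false, true, true] =
    -1 := by decide +kernel
  have h3 : icoWord [false, true, false, true, true, false, true, false, true, true] =
    ⟨-1, 0, 0, 0, 0, 0, 0, 0⟩ := by decide +kernel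
  rw [← h2, hF] at h1
  have h4 := congrArg ρ h1
  rw [map_gword, hr.gword_eq, h3, map_one] at h4
  simp only [Ico.ev, zero_smul, add_zero, neg_smul, one_smul] at h4
  exact natCast_ne_zero_of_algebra (R := R) two_ne_zero
    (by push_cast; linear_combination (norm := norm_num) -h4)

omit [Algebra ℚ R] in
theorem IsFPFHom.trace_eq_zero (h : IsFPFHom ρ) {F : SL25 →* G} (hF : Function.Injective F)
    {M : SL25} (hM : M * M = -1) : ρ (F M) + ρ (F M)⁻¹ = 0 := by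
  have h1 : ρ (F M) * ρ (F M) = -1 := by
    rw [← map_mul, ← map_mul, hM]
    exact h.map_involution (fun e => sl25_neg_one_ne (hF (e.trans (map_one F).symm)))
      (by rw [← map_pow]; simp)
  have h2 : ρ (F M)⁻¹ * ρ (F M) = 1 := by rw [← map_mul]; simp
  linear_combination (norm := noncomm_ring) ρ (F M)⁻¹ * h1 - h2 * ρ (F M)

theorem orderOf_sl25X : orderOf sl25X = 3 := orderOf_eq_prime sl25X_pow (by decide +kernel)

theorem orderOf_sl25Y : orderOf sl25Y = 3 := orderOf_eq_prime sl25Y_pow (by decide +kernel)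

theorem orderOf_sl25Y1 : orderOf sl25Y1 = 3 :=
  orderOf_eq_prime (by decide +kernel) (by decide +kernel)

theorem orderOf_sl25W : orderOf sl25W = 3 :=
  orderOf_eq_prime (by decide +kernel) (by decide +kernel)

theorem IsFPFHom.mem_range_sl25 [Finite G] [Nontrivial R] (h : IsFPFHom ρ) {F : SL25 →* G}
    (hF : Function.Injective F) {w : G} (hw : orderOf w = 3) : w ∈ F.range := by
  have o : ∀ (F : SL25 →* G), Function.Injective F → ∀ M, orderOf M = 3 → orderOf (F M) = 3 :=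
    fun F hF M hM => by rw [orderOf_injective F hF, hM]
  have t1 : ∀ (F : SL25 →* G), Function.Injective F →
      ρ (F sl25X * F sl25Y1) + ρ (F sl25X * F sl25Y1)⁻¹ = 0 := fun F hF => by
    rw [← map_mul F]; exact h.trace_eq_zero hF (by decide +kernel)
  have t2 : ∀ (F : SL25 →* G), Function.Injective F →
      ρ (F sl25X * F sl25W) + ρ (F sl25X * F sl25W)⁻¹ = 0 := fun F hF => by
    rw [← map_mul F]; exact h.trace_eq_zero hF (by decide +kernel)
  have hx := o F hF _ orderOf_sl25X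
  have key : ∀ w : G, orderOf w = 3 → (ρ (F sl25X * w) + ρ (F sl25X * w)⁻¹ = 0 ∨
      ρ (F sl25X * w) + ρ (F sl25X * w)⁻¹ = 1) → w ∈ F.range := fun w hw ew =>
    h.mem_of_trace hx (o F hF _ orderOf_sl25Y1) (t1 F hF) (o F hF _ orderOf_sl25W) (t2 F hF)
      (fun u hu => by
        obtain ⟨u', hu', rfl⟩ : ∃ u', (u' = sl25I ∨ u' = sl25J ∨ u' = sl25I * sl25J) ∧
            F u' = u := by
          rcases hu with rfl | rfl | rfl
          · exact ⟨_, Or.inl rfl, by simp [← sl25_I_eq]⟩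
          · exact ⟨_, Or.inr (Or.inl rfl), by simp [← sl25_J_eq]⟩
          · exact ⟨_, Or.inr (Or.inr rfl), by simp [← sl25_I_eq, ← sl25_J_eq]⟩
        exact ⟨fun e => (sl25W_ne hu').1 (hF (by simpa using e)),
          fun e => (sl25W_ne hu').2 (hF (by simpa using e))⟩)
      ⟨_, rfl⟩ ⟨_, rfl⟩ ⟨_, rfl⟩ hw ew
  rcases h.trace_cases' hx hw rfl with e | e | e | e | e
  · exact e ▸ ⟨_, rfl⟩
  · exact e ▸ inv_mem ⟨_, rfl⟩
  · exact key w hw (Or.inl e)
  · exact key w hw (Or.inr e)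
  · obtain ⟨F', hF', e1, e2⟩ := h.exists_sl25 hx hw e
    have k1 := key _ (o F' hF' _ orderOf_sl25Y1) (Or.inl (e1 ▸ t1 F' hF'))
    have k2 := key _ (o F' hF' _ orderOf_sl25W) (Or.inl (e1 ▸ t2 F' hF'))
    have k3 : F' sl25X ∈ F.range := e1 ▸ ⟨_, rfl⟩
    have k4 : sl25Y = sl25X * sl25X * sl25Y1 * sl25X * sl25W * sl25X * sl25X := by decide +kernel
    rw [← e2, k4]
    simp only [map_mul]
    exact mul_mem (mul_mem (mul_mem (mul_mem (mul_mem (mul_mem k3 k3) k1) k3) k2) k3) k3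

/-- if no two elements of order `3` generate `SL₂(5)`, there are at most four subgroups of
order `3` -/
theorem IsFPFHom.index_normalizer_le [Finite G] [Nontrivial R] (h : IsFPFHom ρ)
    (hg : ∀ x y : G, orderOf x = 3 → orderOf y = 3 →
      (ρ (x * y) + ρ (x * y)⁻¹) * (ρ (x * y) + ρ (x * y)⁻¹) ≠ (ρ (x * y) + ρ (x * y)⁻¹) + 1)
    {x : G} (hx : orderOf x = 3) : (normalizer (zpowers x : Set G)).index ≤ 4 := by
  have hN : ∀ g u : G, (g * x * g⁻¹ = u * x * u⁻¹ ∨ g * x * g⁻¹ = (u * x * u⁻¹)⁻¹) →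
      (u : G ⧸ normalizer (zpowers x : Set G)) = g := by
    intro g u e
    rw [QuotientGroup.eq]
    refine mem_normalizer_of_conj_mem ?_
    rintro _ ⟨n, rfl⟩
    simp only
    rw [← conj_zpow]
    refine zpow_mem ?_ n
    have : u⁻¹ * g * x * (u⁻¹ * g)⁻¹ = u⁻¹ * (g * x * g⁻¹) * u := by group
    rw [this]
    rcases e with e | e <;> rw [e] <;> simp [mul_assoc]
  obtain ⟨a, b, c, H⟩ : ∃ a b c : G, ∀ w : G, orderOf w = 3 → ∃ u : G,
      (u = 1 ∨ u = a ∨ u = b ∨ u = c) ∧ (w = u * x * u⁻¹ ∨ w = (u * x * u⁻¹)⁻¹) := by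
    by_cases h1 : ∀ w : G, orderOf w = 3 → w = x ∨ w = x⁻¹
    · exact ⟨1, 1, 1, fun w hw => ⟨1, Or.inl rfl, by simpa using h1 w hw⟩⟩
    push Not at h1
    obtain ⟨y0, hy0, n1, n2⟩ := h1
    obtain ⟨y, hy, e⟩ : ∃ y : G, orderOf y = 3 ∧ ρ (x * y) + ρ (x * y)⁻¹ = 0 := by
      rcases h.trace_cases' hx hy0 rfl with e | e | e | e | e
      · exact absurd e n1
      · exact absurd e n2
      · exact ⟨y0, hy0, e⟩
      · exact ⟨y0⁻¹, by rwa [orderOf_inv], by rw [h.trace_mul_inv hx hy0, e, sub_self]⟩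
      · exact absurd e (hg _ _ hx hy0)
    refine ⟨(x * y)⁻¹, (y * x)⁻¹, (x * y)⁻¹ * (y * x)⁻¹, fun w hw => ?_⟩
    by_contra hcon
    push Not at hcon
    have h0 := hcon 1 (Or.inl rfl)
    simp only [one_mul, inv_one, mul_one] at h0
    obtain ⟨⟨g, hg3, k⟩, -⟩ := h.shape hx hy e hw (by
      rcases h.trace_cases' hx hw rfl with e | e | e | e | e
      · exact absurd e h0.1
      · exact absurd e h0.2
      · exact Or.inl e
      · exact Or.inr e
      · exact absurd e (hg _ _ hx hw)) (fun u hu => hcon u (Or.inr hu))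
    exact hg _ _ hw hg3 k
  have hs : Function.Surjective
      (fun t : Fin 4 => ((![1, a, b, c] t : G) : G ⧸ normalizer (zpowers x : Set G))) := by
    intro q
    induction q using QuotientGroup.induction_on with
    | H g =>
      obtain ⟨u, hu, e⟩ := H (g * x * g⁻¹) (by rw [orderOf_conj_eq, hx])
      rw [← hN g u e]
      rcases hu with rfl | rfl | rfl | rfl
      exacts [⟨0, rfl⟩, ⟨1, rfl⟩, ⟨2, rfl⟩, ⟨3, rfl⟩]
  simpa [index] using Nat.card_le_card_of_surjective _ hs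

end Ring

theorem rank_le_two_of_quaternion {P : Type*} [Group P] [Group.FG P] {n : ℕ} [NeZero n]
    (e : P ≃* QuaternionGroup n) : Group.rank P ≤ 2 := by
  classical
  refine (Group.rank_le (S := {e.symm (QuaternionGroup.a 1), e.symm (QuaternionGroup.xa 0)})
    ?_).trans Finset.card_le_two
  rw [eq_top_iff]
  intro g _
  obtain ⟨g, rfl⟩ := e.symm.surjective g
  have ha : ∀ i : ZMod (2 * n), e.symm (QuaternionGroup.a i) ∈ closure
      (({e.symm (QuaternionGroup.a 1), e.symm (QuaternionGroup.xa 0)} : Finset P) : Set P) := by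
    intro i
    obtain ⟨k, rfl⟩ := ZMod.natCast_zmod_surjective i
    rw [← QuaternionGroup.a_one_pow, map_pow]
    exact pow_mem (subset_closure (by simp)) k
  rcases g with i | i
  · exact ha i
  · have : QuaternionGroup.xa i = QuaternionGroup.xa 0 * QuaternionGroup.a i := by simp
    rw [this, map_mul]
    exact mul_mem (subset_closure (by simp)) (ha i)

theorem HasFPF.rank_le_two [Finite G] (h : HasFPF G) {P : Subgroup G} (hP : IsPGroup 2 P) :
    Group.rank P ≤ 2 := by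
  rcases h.isCyclic_or_quaternion hP with hc | ⟨-, k, -, ⟨e⟩⟩
  · obtain ⟨g, hg⟩ := hc.exists_generator
    refine (Group.rank_le (S := {g}) ?_).trans (by simp)
    rw [eq_top_iff]
    intro x _
    rw [Finset.coe_singleton, ← zpowers_eq_closure]
    exact hg x
  · exact rank_le_two_of_quaternion e

theorem HasFPF.hnpc_two_of_not_three_dvd [Finite G] (h : HasFPF G) (h3 : ¬ 3 ∣ Nat.card G) :
    HasNormalPComplement 2 G := by
  refine PCompl.hnpc_of_rank_le default 2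
    (fun H hH => h.rank_le_two ((default : Sylow 2 G).isPGroup'.to_le hH)) ?_
  intro q hq hqG i h1 h2 hd
  interval_cases i
  · exact hq.one_lt.ne' (Nat.dvd_one.mp hd)
  · rw [(Nat.prime_dvd_prime_iff_eq hq Nat.prime_three).mp hd] at hqG
    exact h3 hqG

theorem HasFPF.isSolvable_of_hnpc_two [Finite G] (h : HasFPF G) (h2 : HasNormalPComplement 2 G) :
    Group.IsSolvable G := by
  obtain ⟨N, hN, hc, k, hk⟩ := PCompl.hnpc_exists_normal h2
  exact isSolvable_of_normal_of_quotient N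
    ((h.subgroup N).isSolvable_of_odd (Nat.coprime_two_right.mp hc))
    (isSolvable_of_isPGroup (IsPGroup.of_card hk))

theorem HasFPF.isSolvable_of_not_three_dvd [Finite G] (h : HasFPF G) (h3 : ¬ 3 ∣ Nat.card G) :
    Group.IsSolvable G := h.isSolvable_of_hnpc_two (h.hnpc_two_of_not_three_dvd h3)

theorem HasFPF.isSolvable_of_central_three [Finite G] (h : HasFPF G) {x : G} (hx : orderOf x = 3)
    (hc : x ∈ center G) : Group.IsSolvable G := by
  have h1 : HasNormalPComplement 3 G := by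
    refine FrobNPC.hnpc_of_primePow_centralizes fun H hH _ g hg q k hq hq3 ho => ?_
    have := h.isCyclic_of_isPGroup (by norm_num) hH
    have h2 := Cop.commutator_eq_bot_of_centralizes_omega_abelian hH inferInstance
      (zpowers_le_of_mem hg) (by
        rw [Nat.card_zpowers, ho]
        exact Nat.Coprime.pow_left _ ((Nat.coprime_primes hq Nat.prime_three).mpr hq3))
      (fun y _ e => center_le_centralizer _ (zpowers_le_of_mem hc
        (h.mem_zpowers_of_commute Nat.prime_three e (by rw [← hx, pow_orderOf_eq_one])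
          (by rintro rfl; simp at hx) (mem_center_iff.mp hc y))))
    exact Cop.commutator_eq_bot_iff_le_centralizer'.mp h2 (mem_zpowers g)
  obtain ⟨N, hN, hc, k, hk⟩ := PCompl.hnpc_exists_normal h1
  exact isSolvable_of_normal_of_quotient N
    ((h.subgroup N).isSolvable_of_not_three_dvd
      ((Nat.Prime.coprime_iff_not_dvd Nat.prime_three).mp hc.symm))
    (isSolvable_of_isPGroup (IsPGroup.of_card hk))

theorem HasFPF.isSolvable_of_normal_three [Finite G] (h : HasFPF G) {x : G} (hx : orderOf x = 3)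
    [(zpowers x).Normal] : Group.IsSolvable G := by
  have h1 : Group.IsSolvable (centralizer (zpowers x : Set G)) :=
    (h.subgroup _).isSolvable_of_central_three
      (x := ⟨x, fun y hy => commute_of_mem_zpowers hy (mem_zpowers x)⟩)
      (by rw [← orderOf_coe, hx])
      (mem_center_iff.mpr fun g => Subtype.ext (g.2 x (mem_zpowers x)).symm)
  have h2 : commutator G ≤ centralizer (zpowers x : Set G) :=
    commutator_le_centralizer_of_isCyclic le_normalizer_of_normal le_normalizer_of_normal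
  have : IsMulCommutative (G ⧸ commutator G) := inferInstanceAs (IsMulCommutative (Abelianization G))
  exact isSolvable_of_normal_of_quotient _ (isSolvable_of_le h1 h2) isSolvable_of_isMulCommutative

theorem HasFPF.isSolvable_of_index_le [Finite G] (h : HasFPF G) {x : G} (hx : orderOf x = 3)
    (hi : (normalizer (zpowers x : Set G)).index ≤ 4) : Group.IsSolvable G := by
  set N := (normalizer (zpowers x : Set G)).normalCore with hN
  have hle : N ≤ normalizer (zpowers x : Set G) := normalCore_le _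
  refine isSolvable_of_normal_of_quotient N ?_ ?_
  · by_cases h3 : 3 ∣ Nat.card N
    · obtain ⟨y, hy, hy3⟩ := exists_orderOf_prime_mem N Nat.prime_three h3
      have e3 : y ^ 3 = 1 := by rw [← hy3, pow_orderOf_eq_one]
      have h4 : Commute y x := h.commute_of_normalizes Nat.prime_three Nat.prime_three e3 hx
        (conj_mem_of_mem_normalizer (hle hy) (mem_zpowers x))
      have h5 : x ∈ N := zpowers_le_of_mem hy (h.mem_zpowers_of_commute Nat.prime_three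
        (by rw [← hx, pow_orderOf_eq_one]) e3 (by rintro rfl; simp at hy3) h4.symm)
      have h6 : zpowers (⟨x, h5⟩ : N) = (zpowers x).subgroupOf N := by
        ext g
        simp only [mem_subgroupOf, mem_zpowers_iff, Subtype.ext_iff, SubgroupClass.coe_zpow]
      have : (zpowers (⟨x, h5⟩ : N)).Normal := h6 ▸ normal_subgroupOf_of_le_normalizer hle
      exact (h.subgroup N).isSolvable_of_normal_three (x := ⟨x, h5⟩) (by rw [← orderOf_coe, hx])
    · exact (h.subgroup N).isSolvable_of_not_three_dvd h3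
  · have h1 : Nat.card (G ⧸ N) ∣ 24 := by
      refine Dvd.dvd.trans ?_ (Nat.factorial_dvd_factorial hi)
      rw [hN, normalCore_eq_ker]
      have := card_subgroup_dvd_card
        (MulAction.toPermHom G (G ⧸ normalizer (zpowers x : Set G))).range
      rwa [Nat.card_perm, ← index_ker] at this
    refine isSolvable_of_two_primes Nat.prime_two Nat.prime_three fun r hr hd => ?_
    have h2 : r ∣ 2 ^ 3 * 3 := hd.trans h1
    exact (hr.dvd_mul.mp h2).imp
      (fun e => (Nat.prime_dvd_prime_iff_eq hr Nat.prime_two).mp (hr.dvd_of_dvd_pow e))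
      (Nat.prime_dvd_prime_iff_eq hr Nat.prime_three).mp

/-- **Zassenhaus**: a non-solvable Frobenius complement has a normal subgroup `SL₂(5)` containing
all elements of order `3` -/
theorem HasFPF.exists_sl25 (h : HasFPF G) (hs : ¬ Group.IsSolvable G) :
    ∃ F : SL25 →* G, Function.Injective F ∧ F.range.Normal ∧
      ∀ w : G, orderOf w = 3 → w ∈ F.range := by
  have := h.finite
  obtain ⟨R, _, _, _, ρ, hρ⟩ := h.exists_ring
  have h3 : 3 ∣ Nat.card G := by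
    by_contra h3
    exact hs (h.isSolvable_of_not_three_dvd h3)
  obtain ⟨x, hx⟩ := exists_prime_orderOf_dvd_card' 3 h3
  obtain ⟨x, y, hx, hy, e⟩ : ∃ x y : G, orderOf x = 3 ∧ orderOf y = 3 ∧
      (ρ (x * y) + ρ (x * y)⁻¹) * (ρ (x * y) + ρ (x * y)⁻¹) = (ρ (x * y) + ρ (x * y)⁻¹) + 1 := by
    by_contra hcon
    push Not at hcon
    exact hs (h.isSolvable_of_index_le hx (hρ.index_normalizer_le hcon hx))
  obtain ⟨F, hF, e1, e2⟩ := hρ.exists_sl25 hx hy e
  refine ⟨F, hF, ⟨?_⟩, fun w hw => hρ.mem_range_sl25 hF hw⟩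
  rintro _ ⟨M, rfl⟩ g
  have h1 : (F.range.comap (MulAut.conj g).toMonoidHom).comap F = ⊤ :=
    sl25_eq_top (hρ.mem_range_sl25 hF (by rw [e1]; exact (orderOf_conj_eq g x).trans hx))
      (hρ.mem_range_sl25 hF (by rw [e2]; exact (orderOf_conj_eq g y).trans hy))
  have h2 : M ∈ (F.range.comap (MulAut.conj g).toMonoidHom).comap F := by rw [h1]; trivial
  exact h2

end CfsgLib.Frob
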