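import Mathlib
import Cfsg.Agent.Lib.SylowIn

/-! Isolated elements of a Sylow subgroup and the number of classes of `p`-elements. -/

set_option autoImplicit false

namespace CfsgLib.PGrp

open Subgroup Finset

variable {G : Type*} [Group G] {p : ℕ}

theorem card_image_eq_sum_inv {α β : Type*} [DecidableEq β] (s : Finset α) (f : α → β) :
    ((s.image f).card : ℚ) = ∑ x ∈ s, (((s.filter fun y => f y = f x).card : ℚ))⁻¹ := by
  rw [sum_comp (fun b => (((s.filter fun y => f y = b).card : ℚ))⁻¹) f, card_eq_sum_ones]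
  push_cast
  refine sum_congr rfl fun b hb => ?_
  obtain ⟨x, hx, rfl⟩ := mem_image.1 hb
  rw [nsmul_eq_mul, mul_inv_cancel₀]
  exact Nat.cast_ne_zero.2 (card_ne_zero.2 ⟨x, mem_filter.2 ⟨hx, rfl⟩⟩)

/-- A fusion of an element of `P` can be realised by an element fixing all isolated elements. -/
theorem exists_conj_fix_isolated [Finite G] [Fact p.Prime] (P : Sylow p G) {w g : G}
    (hw : w ∈ (P : Subgroup G)) (hg : g * w * g⁻¹ ∈ (P : Subgroup G)) :
    ∃ h : G, h * w * h⁻¹ = g * w * g⁻¹ ∧ ∀ i ∈ (P : Subgroup G),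
      (∀ k : G, k * i * k⁻¹ ∈ (P : Subgroup G) → k * i * k⁻¹ = i) → h * i * h⁻¹ = i := by
  set Z : Subgroup G := P ⊓ centralizer ((P : Subgroup G) : Set G) with hZ
  have hZp : IsPGroup p Z := P.isPGroup'.to_le inf_le_left
  have h1 : Z ≤ centralizer {w} := fun z hz =>
    mem_centralizer_singleton_iff.2 ((mem_inf.1 hz).2 w hw).symm
  have h2 : Z.map (MulAut.conj g⁻¹).toMonoidHom ≤ centralizer {w} := by
    rintro _ ⟨z, hz, rfl⟩
    have := (mem_inf.1 hz).2 _ hg
    rw [mem_centralizer_singleton_iff]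
    simp only [MulEquiv.coe_toMonoidHom, MulAut.conj_apply, inv_inv]
    calc g⁻¹ * z * g * w = g⁻¹ * (z * (g * w * g⁻¹)) * g := by group
      _ = w * (g⁻¹ * z * g) := by rw [← this]; group
  obtain ⟨S, hZS, hS⟩ := IsSylowIn.exists_ge hZp h1
  obtain ⟨c, hc, hcS⟩ := hS.exists_conj_le (hZp.map _) h2
  obtain ⟨k, -, hk⟩ := (IsSylowIn.sylow_top P).exists_conj_le hS.isPGroup le_top
  refine ⟨g * c⁻¹, ?_, fun i hi hiso => ?_⟩
  · have := mem_centralizer_singleton_iff.1 hc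
    calc g * c⁻¹ * w * (g * c⁻¹)⁻¹ = g * c⁻¹ * (w * c) * g⁻¹ := by group
      _ = g * w * g⁻¹ := by rw [← this]; group
  · have hiZ : i ∈ Z := mem_inf.2 ⟨hi, fun u hu => by
      have := hiso u (mul_mem (mul_mem hu hi) (inv_mem hu))
      rw [mul_inv_eq_iff_eq_mul] at this
      exact this⟩
    have h3 : k * i * k⁻¹ = i := hiso k (hk ⟨i, hZS hiZ, rfl⟩)
    have h4 : (k * c * g⁻¹) * i * (k * c * g⁻¹)⁻¹ = i := by
      refine hiso _ ?_
      have := hk ⟨_, hcS ⟨_, ⟨i, hiZ, rfl⟩, rfl⟩, rfl⟩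
      simp only [MulEquiv.coe_toMonoidHom, MulAut.conj_apply, inv_inv] at this
      convert this using 1
      group
    have h5 : k⁻¹ * i * k = i := by
      conv_lhs => rw [← h3]
      group
    calc g * c⁻¹ * i * (g * c⁻¹)⁻¹ = g * c⁻¹ * (k⁻¹ * i * k) * (g * c⁻¹)⁻¹ := by rw [h5]
      _ = g * c⁻¹ * (k⁻¹ * ((k * c * g⁻¹) * i * (k * c * g⁻¹)⁻¹) * k) * (g * c⁻¹)⁻¹ := by rw [h4]
      _ = i := by group

/-- The elements of a Sylow subgroup `P` not fused to any other element of `P`. -/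
def isolated [Finite G] [Fact p.Prime] (P : Sylow p G) : Subgroup G where
  carrier := {i | i ∈ (P : Subgroup G) ∧
    ∀ k : G, k * i * k⁻¹ ∈ (P : Subgroup G) → k * i * k⁻¹ = i}
  one_mem' := ⟨one_mem _, fun k _ => by simp⟩
  mul_mem' := by
    rintro x y hx hy
    refine ⟨mul_mem hx.1 hy.1, fun k hk => ?_⟩
    obtain ⟨h, h1, h2⟩ := exists_conj_fix_isolated P (mul_mem hx.1 hy.1) hk
    rw [← h1, ← conj_mul, h2 x hx.1 hx.2, h2 y hy.1 hy.2]
  inv_mem' := by
    rintro x hx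
    refine ⟨inv_mem hx.1, fun k hk => ?_⟩
    rw [← conj_inv] at hk ⊢
    rw [hx.2 k (inv_mem_iff.1 hk)]

theorem mem_isolated [Finite G] [Fact p.Prime] {P : Sylow p G} {i : G} :
    i ∈ isolated P ↔ i ∈ (P : Subgroup G) ∧
      ∀ k : G, k * i * k⁻¹ ∈ (P : Subgroup G) → k * i * k⁻¹ = i := Iff.rfl

theorem isolated_le [Finite G] [Fact p.Prime] (P : Sylow p G) : isolated P ≤ P := fun _ h => h.1

/-- The classes of `p`-elements are the classes meeting a Sylow subgroup. -/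
theorem pClasses_eq_image [Finite G] [Fact p.Prime] (P : Sylow p G) :
    {c : ConjClasses G | ∀ x ∈ c.carrier, ∃ k : ℕ, orderOf x = p ^ k} =
      ConjClasses.mk '' ((P : Subgroup G) : Set G) := by
  ext c
  constructor
  · intro h
    obtain ⟨x, rfl⟩ := ConjClasses.mk_surjective c
    obtain ⟨k, hk⟩ := h x ConjClasses.mem_carrier_mk
    have hx : IsPGroup p (zpowers x) := IsPGroup.of_card (by rw [Nat.card_zpowers, hk])
    obtain ⟨g, -, hg⟩ := (IsSylowIn.sylow_top P).exists_conj_le hx le_top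
    exact ⟨_, hg ⟨x, mem_zpowers x, rfl⟩,
      (ConjClasses.mk_eq_mk_iff_isConj.2 (isConj_iff.2 ⟨g, rfl⟩)).symm⟩
  · rintro ⟨x, hx, rfl⟩ y hy
    rw [ConjClasses.mem_carrier_iff_mk_eq, ConjClasses.mk_eq_mk_iff_isConj] at hy
    obtain ⟨k, hk⟩ := IsPGroup.iff_orderOf.1 P.isPGroup' ⟨x, hx⟩
    obtain ⟨g, rfl⟩ := isConj_iff.1 hy
    exact ⟨k, by rw [← hk, orderOf_mk, ← MulAut.conj_apply, MulEquiv.orderOf_eq]⟩

/-- The number of elements of `P` conjugate to `x`. -/
noncomputable def fusionCard (P : Subgroup G) (x : G) : ℕ := {v | v ∈ P ∧ IsConj x v}.ncard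

theorem card_pClasses_eq_sum [Fintype G] [Fact p.Prime] (P : Sylow p G)
    [DecidablePred (· ∈ (P : Subgroup G))] :
    (Nat.card {c : ConjClasses G // ∀ x ∈ c.carrier, ∃ k : ℕ, orderOf x = p ^ k} : ℚ) =
      ∑ x ∈ univ.filter (· ∈ (P : Subgroup G)), ((fusionCard (P : Subgroup G) x : ℚ))⁻¹ := by
  classical
  have h1 : Nat.card {c : ConjClasses G // ∀ x ∈ c.carrier, ∃ k : ℕ, orderOf x = p ^ k} =
      ((univ.filter (· ∈ (P : Subgroup G))).image ConjClasses.mk).card := by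
    change Nat.card {c : ConjClasses G | ∀ x ∈ c.carrier, ∃ k : ℕ, orderOf x = p ^ k} = _
    rw [pClasses_eq_image P, Nat.card_coe_set_eq, ← Set.ncard_coe_finset]
    congr 1
    ext
    simp
  rw [h1, card_image_eq_sum_inv]
  refine sum_congr rfl fun x _ => ?_
  rw [fusionCard, ← Set.ncard_coe_finset]
  congr 3
  ext v
  simp only [coe_filter, mem_filter, mem_univ, true_and, Set.mem_ofPred_eq,
    ConjClasses.mk_eq_mk_iff_isConj, isConj_comm (g := v)]

theorem one_le_fusionCard [Finite G] {P : Subgroup G} {x : G} (hx : x ∈ P) : 1 ≤ fusionCard P x :=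
  (Set.ncard_pos (Set.toFinite _)).2 ⟨x, hx, IsConj.refl x⟩

theorem two_le_fusionCard [Finite G] [Fact p.Prime] {P : Sylow p G} {x : G}
    (hx : x ∈ (P : Subgroup G)) (hi : x ∉ isolated P) : 2 ≤ fusionCard (P : Subgroup G) x := by
  rw [mem_isolated] at hi
  push Not at hi
  obtain ⟨k, hk, hne⟩ := hi hx
  exact (Set.one_lt_ncard (Set.toFinite _)).2
    ⟨_, ⟨hk, isConj_iff.2 ⟨k, rfl⟩⟩, x, ⟨hx, IsConj.refl x⟩, hne⟩

theorem fusionCard_le_mul_isolated [Finite G] [Fact p.Prime] {P : Sylow p G} {x i : G}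
    (hx : x ∈ (P : Subgroup G)) (hi : i ∈ isolated P) :
    fusionCard (P : Subgroup G) x ≤ fusionCard (P : Subgroup G) (x * i) := by
  refine Set.ncard_le_ncard_of_injOn (· * i) ?_ (fun a _ b _ h => mul_right_cancel h)
  rintro v ⟨hv, hxv⟩
  obtain ⟨g, rfl⟩ := isConj_iff.1 hxv
  obtain ⟨h, h1, h2⟩ := exists_conj_fix_isolated P hx hv
  exact ⟨mul_mem hv hi.1, isConj_iff.2 ⟨h, by rw [← conj_mul, h1, h2 i hi.1 hi.2]⟩⟩

theorem eq_one_of_conj_eq_mul_isolated [Finite G] [Fact p.Prime] {P : Sylow p G} {Q : Subgroup G}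
    (hQ : Q ≤ P) {u a i : G} (hu : u ∈ normalizer (Q : Set G)) (hcop : (orderOf u).Coprime p)
    (ha : a ∈ Q) (hi : i ∈ isolated P) (h : u * a * u⁻¹ = a * i) : i = 1 := by
  have hiQ : i ∈ Q := by
    rw [← inv_mul_eq_iff_eq_mul] at h
    rw [← h]
    exact mul_mem (inv_mem ha) ((mem_normalizer_iff.1 hu a).1 ha)
  have h1 : u * i * u⁻¹ = i := hi.2 u (hQ ((mem_normalizer_iff.1 hu i).1 hiQ))
  have h2 : ∀ k : ℕ, u ^ k * a * (u ^ k)⁻¹ = a * i ^ k := by
    intro k
    induction k with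
    | zero => simp
    | succ k ih =>
      calc u ^ (k + 1) * a * (u ^ (k + 1))⁻¹ = u * (u ^ k * a * (u ^ k)⁻¹) * u⁻¹ := by group
        _ = (u * a * u⁻¹) * (u * i * u⁻¹) ^ k := by rw [ih, conj_pow]; group
        _ = a * i ^ (k + 1) := by rw [h, h1]; group
  have h3 := h2 (orderOf u)
  rw [pow_orderOf_eq_one, one_mul, inv_one, mul_one, left_eq_mul] at h3
  obtain ⟨k, hk⟩ := IsPGroup.iff_orderOf.1 P.isPGroup' ⟨i, hi.1⟩
  rw [orderOf_mk] at hk
  have h4 := orderOf_dvd_of_pow_eq_one h3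
  rw [← orderOf_eq_one_iff]
  exact Nat.eq_one_of_dvd_coprimes (hcop.pow_right k) h4 (dvd_of_eq hk)

/-- If some element of odd order prime to `p` acts non-trivially on a `p`-subgroup, then the number
of classes of `p`-elements is at most half the order of a Sylow `p`-subgroup. -/
theorem two_mul_card_pClasses_le [Finite G] [Fact p.Prime] (P : Sylow p G) {Q : Subgroup G}
    (hQ : IsPGroup p Q) {y : G} (hy : y ∈ normalizer (Q : Set G)) (hcop : (orderOf y).Coprime p)
    (hodd : Odd (orderOf y)) (hc : y ∉ centralizer (Q : Set G)) :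
    2 * Nat.card {c : ConjClasses G // ∀ x ∈ c.carrier, ∃ k : ℕ, orderOf x = p ^ k} ≤
      Nat.card (P : Subgroup G) := by
  classical
  obtain ⟨P', hQP⟩ := hQ.exists_le_sylow
  rw [Sylow.card_eq_multiplicity P, ← Sylow.card_eq_multiplicity P']
  clear P
  have := Fintype.ofFinite G
  rw [mem_centralizer_iff] at hc
  push Not at hc
  obtain ⟨x, hxQ, hxy⟩ := hc
  have hyQ : ∀ a ∈ Q, y * a * y⁻¹ ∈ Q := fun a ha => (mem_normalizer_iff.1 hy a).1 ha
  let z : Fin 3 → G := ![x, y * x * y⁻¹, y ^ 2 * x * (y ^ 2)⁻¹]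
  have hzQ : ∀ j, z j ∈ Q := by
    intro j
    fin_cases j
    · exact hxQ
    · exact hyQ x hxQ
    · exact (mem_normalizer_iff.1 (pow_mem hy 2) x).1 hxQ
  have h01 : ∀ i ∈ isolated P', y * x * y⁻¹ ≠ x * i := by
    intro i hi h
    rw [eq_one_of_conj_eq_mul_isolated hQP hy hcop hxQ hi h, mul_one,
      mul_inv_eq_iff_eq_mul] at h
    exact hxy h.symm
  have h12 : ∀ i ∈ isolated P', y ^ 2 * x * (y ^ 2)⁻¹ ≠ y * x * y⁻¹ * i := by
    intro i hi h
    have h' : y * (y * x * y⁻¹) * y⁻¹ = y * x * y⁻¹ * i := by rw [← h, sq]; group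
    rw [eq_one_of_conj_eq_mul_isolated hQP hy hcop (hyQ x hxQ) hi h', mul_one, mul_left_inj,
      mul_assoc, mul_right_inj, ← mul_assoc, mul_inv_eq_iff_eq_mul] at h'
    exact hxy h'.symm
  have h02 : ∀ i ∈ isolated P', y ^ 2 * x * (y ^ 2)⁻¹ ≠ x * i := by
    intro i hi h
    rw [eq_one_of_conj_eq_mul_isolated hQP (pow_mem hy 2)
      (Nat.Coprime.coprime_dvd_left (orderOf_pow_dvd 2) hcop) hxQ hi h, mul_one,
      mul_inv_eq_iff_eq_mul] at h
    obtain ⟨m, hm⟩ := hodd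
    have h1 : y = (y ^ 2) ^ (m + 1) := by
      rw [← pow_mul, show 2 * (m + 1) = orderOf y + 1 by omega, pow_succ, pow_orderOf_eq_one,
        one_mul]
    have h2 : Commute (y ^ 2) x := h
    exact hxy (by rw [h1]; exact (h2.pow_left (m + 1)).symm)
  have hz : ∀ j l, ∀ i ∈ isolated P', z j = z l * i → j = l := by
    have hsw : ∀ a b i : G, a = b * i → b = a * i⁻¹ := fun a b i h => by rw [h]; group
    intro j l i hi h
    fin_cases j <;> fin_cases l <;> first
      | rfl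
      | exact absurd h (h01 i hi)
      | exact absurd h (h02 i hi)
      | exact absurd h (h12 i hi)
      | exact absurd (hsw _ _ _ h) (h01 _ (inv_mem hi))
      | exact absurd (hsw _ _ _ h) (h02 _ (inv_mem hi))
      | exact absurd (hsw _ _ _ h) (h12 _ (inv_mem hi))
  have hconj : ∀ j, IsConj x (z j) := by
    intro j
    fin_cases j
    · exact IsConj.refl x
    · exact isConj_iff.2 ⟨y, rfl⟩
    · exact isConj_iff.2 ⟨y ^ 2, rfl⟩
  have hz3 : ∀ j, 3 ≤ fusionCard (P' : Subgroup G) (z j) := by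
    intro j
    have h1 : Function.Injective z := fun j l h => hz j l 1 (one_mem _) (by rw [h, mul_one])
    have h2 := Set.ncard_le_ncard_of_injOn (s := Set.univ)
      (t := {v | v ∈ (P' : Subgroup G) ∧ IsConj (z j) v}) z
      (fun l _ => ⟨hQP (hzQ l), (hconj j).symm.trans (hconj l)⟩) h1.injOn
    rwa [Set.ncard_univ, Nat.card_eq_fintype_card, Fintype.card_fin] at h2
  let I : Finset G := univ.filter (· ∈ isolated P')
  let T : Finset G := (univ ×ˢ I).image fun w : Fin 3 × G => z w.1 * w.2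
  have hT : T.card = 3 * I.card := by
    rw [card_image_of_injOn, card_product, card_univ, Fintype.card_fin]
    rintro ⟨j, i⟩ hi ⟨l, i'⟩ hi' h
    simp only [I, coe_product, Set.mem_prod, mem_coe, mem_filter, mem_univ, true_and] at hi hi'
    have h' : z j * i = z l * i' := h
    obtain rfl := hz j l (i' * i⁻¹) (mul_mem hi' (inv_mem hi)) (by rw [← mul_assoc, ← h']; group)
    rw [mul_left_cancel h']
  have hT3 : ∀ w ∈ T, w ∈ (P' : Subgroup G) ∧ 3 ≤ fusionCard (P' : Subgroup G) w ∧ w ∉ I := by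
    intro w hw
    obtain ⟨⟨j, i⟩, hi, rfl⟩ := mem_image.1 hw
    simp only [I, mem_product, mem_filter, mem_univ, true_and] at hi ⊢
    refine ⟨mul_mem (hQP (hzQ j)) hi.1,
      (hz3 j).trans (fusionCard_le_mul_isolated (hQP (hzQ j)) hi), fun h => ?_⟩
    have h1 : z j ∈ isolated P' := by simpa using mul_mem h (inv_mem hi)
    obtain ⟨l, hl⟩ := exists_ne j
    obtain ⟨g, hg⟩ := isConj_iff.1 ((hconj j).symm.trans (hconj l))
    have h2 := h1.2 g (hg ▸ hQP (hzQ l))
    exact hl (hz l j 1 (one_mem _) (by rw [mul_one, ← hg, h2]))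
  have hsum : ∑ w ∈ univ.filter (· ∈ (P' : Subgroup G)),
      ((fusionCard (P' : Subgroup G) w : ℚ))⁻¹ ≤ ∑ w ∈ univ.filter (· ∈ (P' : Subgroup G)),
        (1 / 2 + (if w ∈ I then 1 / 2 else 0) - (if w ∈ T then 1 / 6 else 0) : ℚ) := by
    refine sum_le_sum fun w hw => ?_
    have hwP := (mem_filter.1 hw).2
    by_cases h1 : w ∈ T
    · obtain ⟨-, h2, h3⟩ := hT3 w h1
      rw [if_pos h1, if_neg h3]
      have : (3 : ℚ) ≤ fusionCard (P' : Subgroup G) w := by exact_mod_cast h2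
      exact (inv_anti₀ (by norm_num) this).trans (by norm_num)
    · rw [if_neg h1]
      by_cases h2 : w ∈ I
      · rw [if_pos h2]
        have : (1 : ℚ) ≤ fusionCard (P' : Subgroup G) w := by exact_mod_cast one_le_fusionCard hwP
        exact (inv_anti₀ (by norm_num) this).trans (by norm_num)
      · rw [if_neg h2]
        have : (2 : ℚ) ≤ fusionCard (P' : Subgroup G) w := by
          exact_mod_cast two_le_fusionCard hwP fun h => h2 (mem_filter.2 ⟨mem_univ _, h⟩)
        exact (inv_anti₀ (by norm_num) this).trans (by norm_num)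
  have hI' : (univ.filter (· ∈ (P' : Subgroup G))).filter (· ∈ I) = I := by
    ext w
    simp only [I, mem_filter, mem_univ, true_and]
    exact ⟨fun h => h.2, fun h => ⟨h.1, h⟩⟩
  have hT' : (univ.filter (· ∈ (P' : Subgroup G))).filter (· ∈ T) = T := by
    ext w
    simp only [mem_filter, mem_univ, true_and]
    exact ⟨fun h => h.2, fun h => ⟨(hT3 w h).1, h⟩⟩
  rw [← card_pClasses_eq_sum, sum_sub_distrib, sum_add_distrib, ← sum_filter, ← sum_filter, hI',
    hT', sum_const, sum_const, sum_const, hT] at hsum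
  have hP : Nat.card (P' : Subgroup G) = (univ.filter (· ∈ (P' : Subgroup G))).card := by
    rw [Nat.card_eq_fintype_card, Fintype.card_subtype]
  rw [hP]
  simp only [nsmul_eq_mul] at hsum
  push_cast at hsum
  have : (2 * Nat.card {c : ConjClasses G // ∀ x ∈ c.carrier, ∃ k : ℕ, orderOf x = p ^ k} : ℚ) ≤
    (univ.filter (· ∈ (P' : Subgroup G))).card := by linarith
  exact_mod_cast this

/-- There are at most as many classes of `p`-elements as classes of a Sylow `p`-subgroup. -/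
theorem card_pClasses_le [Finite G] [Fact p.Prime] (P : Sylow p G) :
    Nat.card {c : ConjClasses G // ∀ x ∈ c.carrier, ∃ k : ℕ, orderOf x = p ^ k} ≤
      Nat.card (ConjClasses (P : Subgroup G)) := by
  change Nat.card {c : ConjClasses G | ∀ x ∈ c.carrier, ∃ k : ℕ, orderOf x = p ^ k} ≤ _
  rw [pClasses_eq_image P, Nat.card_coe_set_eq, ← Set.ncard_univ]
  refine le_trans (Set.ncard_le_ncard ?_)
    (Set.ncard_image_le (f := ConjClasses.map (P : Subgroup G).subtype))
  rintro _ ⟨x, hx, rfl⟩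
  exact ⟨ConjClasses.mk ⟨x, hx⟩, trivial, rfl⟩

theorem card_pClasses_eq_of_fusion [Finite G] [Fact p.Prime] (P : Sylow p G)
    (h : ∀ x ∈ (P : Subgroup G), ∀ g : G, g * x * g⁻¹ ∈ (P : Subgroup G) →
      ∃ u ∈ (P : Subgroup G), g * x * g⁻¹ = u * x * u⁻¹) :
    Nat.card {c : ConjClasses G // ∀ x ∈ c.carrier, ∃ k : ℕ, orderOf x = p ^ k} =
      Nat.card (ConjClasses (P : Subgroup G)) := by
  change Nat.card {c : ConjClasses G | ∀ x ∈ c.carrier, ∃ k : ℕ, orderOf x = p ^ k} = _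
  have h1 : Function.Injective (ConjClasses.map (P : Subgroup G).subtype) := by
    intro a b hab
    obtain ⟨a, rfl⟩ := ConjClasses.mk_surjective a
    obtain ⟨b, rfl⟩ := ConjClasses.mk_surjective b
    obtain ⟨g, hg⟩ := isConj_iff.1 (ConjClasses.mk_eq_mk_iff_isConj.1
      (hab : ConjClasses.mk (a : G) = ConjClasses.mk (b : G)))
    obtain ⟨u, hu, h2⟩ := h a a.2 g (hg ▸ b.2)
    exact ConjClasses.mk_eq_mk_iff_isConj.2 (isConj_iff.2 ⟨⟨u, hu⟩, Subtype.ext (h2.symm.trans hg)⟩)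
  rw [pClasses_eq_image P, Nat.card_coe_set_eq, ← Set.ncard_univ,
    ← Set.ncard_image_of_injective _ h1]
  congr 1
  ext c
  constructor
  · rintro ⟨x, hx, rfl⟩
    exact ⟨ConjClasses.mk ⟨x, hx⟩, trivial, rfl⟩
  · rintro ⟨c, -, rfl⟩
    obtain ⟨x, rfl⟩ := ConjClasses.mk_surjective c
    exact ⟨x, x.2, rfl⟩

end CfsgLib.PGrp
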