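import Mathlib

/-! # A local lemma for the `2`-length versus derived length bound: pure operator calculus -/

set_option autoImplicit false

namespace CfsgLib.H2Der

open Subgroup
open scoped commutatorElement

/-- two representations with the same kernel: `τ` in characteristic two, `σ` without `2`-torsion,
linked by fixed point properties -/
structure Loc {Γ : Type*} [Group Γ] {A B : Type*} [Ring A] [Ring B] (τ : Γ →* A) (σ : Γ →* B) :
    Prop where
  two : ∀ x : A, x + x = 0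
  ntwo : ∀ x : B, x + x = 0 → x = 0
  ker : ∀ y, σ y = 1 ↔ τ y = 1
  fp1 : ∀ x y, τ x ≠ 1 → (τ y - 1) * (τ x - 1) = 0 → σ x * σ x = 1 → Commute (σ x) (σ y) →
    (σ y - 1) * (1 + σ x) = 0
  fp2 : ∀ x₁ x₂ y, (τ x₁ - 1) * (τ x₂ - 1) ≠ 0 → (τ y - 1) * ((τ x₁ - 1) * (τ x₂ - 1)) = 0 →
    σ x₁ * σ x₁ = 1 → σ x₂ * σ x₂ = 1 → Commute (σ x₁) (σ x₂) → Commute (σ x₁) (σ y) →
    Commute (σ x₂) (σ y) → (σ y - 1) * ((1 + σ x₁) * (1 + σ x₂)) = 0

variable {Γ : Type*} [Group Γ] {A B : Type*} [Ring A] [Ring B] {τ : Γ →* A} {σ : Γ →* B}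

theorem map_eq_iff (σ : Γ →* B) (x y : Γ) : σ x = σ y ↔ σ (x * y⁻¹) = 1 := by
  constructor
  · intro h; rw [map_mul, h, ← map_mul, mul_inv_cancel, map_one]
  · intro h
    have := congrArg (· * σ y) h
    simpa only [← map_mul, inv_mul_cancel_right, one_mul] using this

theorem Loc.eq_iff (L : Loc τ σ) (x y : Γ) : σ x = σ y ↔ τ x = τ y := by
  rw [map_eq_iff, map_eq_iff τ, L.ker]

theorem Loc.comm_iff (L : Loc τ σ) (x y : Γ) : Commute (σ x) (σ y) ↔ Commute (τ x) (τ y) := by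
  rw [Commute, Commute, SemiconjBy, SemiconjBy, ← map_mul, ← map_mul, ← map_mul, ← map_mul, L.eq_iff]

theorem Loc.sq_iff (L : Loc τ σ) (x : Γ) : σ x * σ x = 1 ↔ τ x * τ x = 1 := by
  rw [← map_mul, ← map_mul, L.ker]

theorem Loc.ro2 (L : Loc τ σ) {x y : Γ} (hx : σ x * σ x = 1) (hy : σ y * σ y = 1)
    (hc : Commute (σ x) (σ y)) (h : (τ x - 1) * (τ y - 1) = 0) (h1 : σ x ≠ 1)
    (h2 : σ (x * y) ≠ 1) : σ y = 1 := by
  have hc' := ((L.comm_iff _ _).1 hc).eq
  have hy' := (L.sq_iff _).1 hy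
  have e1 := L.fp1 x y (fun h => h1 ((L.ker _).2 h))
    (by linear_combination (norm := noncomm_ring) h - hc') hx hc
  have e2 := L.fp1 (x * y) y (fun h => h2 ((L.ker _).2 h)) (by
      rw [map_mul]
      linear_combination (norm := noncomm_ring) h - hc' * τ y + τ x * hy' + L.two (τ x - τ x * τ y))
    (by rw [map_mul, mul_assoc, ← mul_assoc (σ y), ← hc.eq, mul_assoc, hy, mul_one, hx])
    (by rw [map_mul]; exact hc.mul_left (Commute.refl _))
  rw [map_mul] at e2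
  rw [← sub_eq_zero]
  refine L.ntwo _ ?_
  linear_combination (norm := noncomm_ring) e1 + e2 + hc.eq * σ y - σ x * hy + hc.eq

theorem Loc.eig (L : Loc τ σ) {a β c : Γ} (ha : σ a * σ a = 1) (hβ : σ β * σ β = 1)
    (hc : σ c * σ c = 1) (h1 : Commute (σ a) (σ β)) (h2 : Commute (σ a) (σ c))
    (h3 : Commute (σ β) (σ c)) (hne : σ β ≠ 1) (h : (τ a - 1) * (τ β - 1) * (τ c - 1) = 0) :
    σ c * ((1 + σ β) * (1 - σ a)) = (1 + σ β) * (1 - σ a) ∨
      σ c * ((1 + σ β) * (1 - σ a)) = -((1 + σ β) * (1 - σ a)) := by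
  have hac : σ (a * c) * σ (a * c) = 1 := by
    rw [map_mul, mul_assoc, ← mul_assoc (σ c), ← h2.eq, mul_assoc, hc, mul_one, ha]
  have hacβ : Commute (σ (a * c)) (σ β) := by rw [map_mul]; exact h1.mul_left h3.symm
  have hp : σ a * ((1 + σ β) * (1 - σ a)) = -((1 + σ β) * (1 - σ a)) := by
    rw [← mul_assoc, ((Commute.one_right _).add_right h1).eq, mul_assoc, mul_sub, mul_one, ha,
      ← mul_neg, neg_sub]
  set N := (1 + σ β) * (1 - σ a) with hN
  by_cases hW : (τ (a * c) - 1) * (τ β - 1) = 0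
  · right
    have e := L.fp1 β (a * c) (fun h => hne ((L.ker _).2 h)) hW hβ hacβ.symm
    have e2 : (σ (a * c) - 1) * N = 0 := by rw [hN, ← mul_assoc, e, zero_mul]
    rw [map_mul, h2.eq, sub_mul, mul_assoc, hp] at e2
    linear_combination (norm := noncomm_ring) -e2
  · left
    have h2' := ((L.comm_iff _ _).1 h2).eq
    have h3' := (L.comm_iff _ _).1 h3
    have hc' := (L.sq_iff _).1 hc
    have e := L.fp2 (a * c) β c hW (by
      have h4 : (τ c - 1) * (τ (a * c) - 1) = (τ a - 1) * (τ c - 1) := by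
        rw [map_mul]
        linear_combination (norm := noncomm_ring) -h2' * τ c + τ a * hc' +
          L.two (τ a - τ a * τ c)
      rw [← mul_assoc, h4, mul_assoc, ← (h3'.sub_left (Commute.one_left _)).sub_right
        (Commute.one_right _) |>.eq, ← mul_assoc, h]) hac hβ hacβ
      (by rw [map_mul]; exact h2.mul_left (Commute.refl _)) h3
    have e2 : (σ c - 1) * ((1 + σ (a * c)) * N) = 0 := by
      rw [hN, ← mul_assoc (1 + σ (a * c)), ← mul_assoc, e, zero_mul]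
    rw [map_mul, h2.eq, add_mul, mul_assoc, hp] at e2
    rw [← sub_eq_zero]
    refine L.ntwo _ ?_
    linear_combination (norm := noncomm_ring) e2 + hc * N

/-- the stabilizer of `N` under right multiplication -/
def rstab (τ : Γ →* A) (N : A) : Subgroup Γ where
  carrier := {c | N * τ c = N}
  one_mem' := by simp
  mul_mem' := by
    intro a b ha hb
    simp only [Set.mem_ofPred_eq] at *
    rw [map_mul, ← mul_assoc, ha, hb]
  inv_mem' := by
    intro a ha
    simp only [Set.mem_ofPred_eq] at *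
    conv_lhs => rw [← ha]
    rw [mul_assoc, ← map_mul, mul_inv_cancel, map_one, mul_one]

/-- the elements commuting with `N` -/
def cstab (σ : Γ →* B) (N : B) : Subgroup Γ where
  carrier := {c | σ c * N = N * σ c}
  one_mem' := by simp
  mul_mem' := by
    intro a b ha hb
    simp only [Set.mem_ofPred_eq] at *
    rw [map_mul, mul_assoc, hb, ← mul_assoc, ha, mul_assoc]
  inv_mem' := by
    intro a ha
    simp only [Set.mem_ofPred_eq] at *
    have := congrArg (fun z => σ a⁻¹ * z * σ a⁻¹) ha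
    simp only [← mul_assoc] at this
    rw [← map_mul, inv_mul_cancel, map_one, one_mul, mul_assoc _ (σ a), ← map_mul, mul_inv_cancel,
      map_one, mul_one] at this
    exact this.symm

theorem Loc.false (L : Loc τ σ) {S S' Λ : Subgroup Γ} {b t : Γ} (hb : b ∈ S) (hbΛ : b ∈ Λ)
    (ht : t ∈ Λ)
    (hZ3 : ∀ x ∈ ⁅Λ, Λ⁆, ∀ y ∈ Λ, ∀ z ∈ Λ, (τ x - 1) * (τ y - 1) * (τ z - 1) = 0)
    (hsq : ∀ s ∈ S, s * s ∈ S') (hsq' : ∀ s ∈ S', s * s = 1) (hcom : ⁅S, S⁆ ≤ S')
    (hK : ∀ s ∈ S', σ (⁅t, b⁆ * s) ≠ 1) (hn : ∀ g : Γ, g * ⁅t, b⁆ * g⁻¹ ∈ ⁅Λ, Λ⁆)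
    (hcase : (τ ⁅t, b⁆ - 1) * (τ b - 1) = 0 ∨ ∃ M : Subgroup Γ, t ∈ ⁅M, M⁆ ∧
      ∀ m ∈ M, m * b * m⁻¹ ∈ S ⊓ Λ) : False := by
  set a := ⁅t, b⁆ with ha
  have haZ : a ∈ ⁅Λ, Λ⁆ := commutator_mem_commutator ht hbΛ
  have hZΛ : ⁅Λ, Λ⁆ ≤ Λ := commutator_le.2 fun x hx y hy =>
    mul_mem (mul_mem (mul_mem hx hy) (inv_mem hx)) (inv_mem hy)
  have ha1 : σ a ≠ 1 := by simpa using hK 1 (one_mem _)
  have hquad : ∀ x ∈ ⁅Λ, Λ⁆, ∀ c ∈ ⁅Λ, Λ⁆, (τ x - 1) * (τ c - 1) = 0 := by
    intro x hx c hc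
    have : ⁅Λ, Λ⁆ ≤ rstab τ (τ x - 1) := commutator_le.2 fun y hy z hz => by
      have h1 : (τ x - 1) * (τ y * τ z) = (τ x - 1) * (τ z * τ y) := by
        linear_combination (norm := noncomm_ring) hZ3 x hx y hy z hz - hZ3 x hx z hz y hy
      change (τ x - 1) * τ ⁅y, z⁆ = _
      rw [show ⁅y, z⁆ = y * z * (z * y)⁻¹ by rw [commutatorElement_def]; group, map_mul,
        ← mul_assoc, map_mul, h1, ← map_mul, mul_assoc, ← map_mul, mul_inv_cancel, map_one, mul_one]
    have h2 : (τ x - 1) * τ c = τ x - 1 := this hc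
    rw [mul_sub, h2, mul_one, sub_self]
  have hZsq : ∀ x ∈ ⁅Λ, Λ⁆, σ x * σ x = 1 := fun x hx => (L.sq_iff _).2 (by
    linear_combination (norm := noncomm_ring) hquad x hx x hx + L.two (τ x - 1))
  have hZc : ∀ x ∈ ⁅Λ, Λ⁆, Commute (σ a) (σ x) := fun x hx => (L.comm_iff _ _).2 (by
    change _ = _
    linear_combination (norm := noncomm_ring) hquad a haZ x hx - hquad x hx a haZ)
  have haa := hZsq a haZ
  have hZ : ∀ x ∈ ⁅Λ, Λ⁆, σ x ≠ 1 → σ x = σ a := fun x hx h1 => by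
    by_contra h2
    refine h1 (L.ro2 haa (hZsq x hx) (hZc x hx) (hquad a haZ x hx) ha1 fun h => h2 ?_)
    rw [map_mul] at h
    rw [← one_mul (σ x), ← haa, mul_assoc, h, mul_one]
  have hconj1 : ∀ g x : Γ, σ (g * x * g⁻¹) = 1 → σ x = 1 := fun g x h => by
    rw [show x = g⁻¹ * (g * x * g⁻¹) * g by group, map_mul, map_mul, h, mul_one, ← map_mul,
      inv_mul_cancel, map_one]
  have hcen : ∀ g : Γ, Commute (σ a) (σ g) := fun g => by
    have := hZ _ (hn g) fun h => ha1 (hconj1 _ _ h)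
    change _ = _
    conv_lhs => rw [← this]
    rw [← map_mul, ← map_mul, inv_mul_cancel_right]
  have hS2 : ∀ s ∈ S ⊓ Λ, σ s * σ s = 1 := fun s hs => by
    rw [← map_mul]
    refine L.ro2 haa (by rw [← map_mul, hsq' _ (hsq s hs.1), map_one]) (hcen _) ?_ ha1
      (hK _ (hsq s hs.1))
    rw [map_mul]
    linear_combination (norm := noncomm_ring) hZ3 a haZ s hs.2 s hs.2 +
      (τ a - 1) * L.two (τ s - 1)
  have hSc : ∀ s ∈ S ⊓ Λ, ∀ s' ∈ S ⊓ Λ, Commute (σ s) (σ s') := fun s hs s' hs' => by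
    have h1 : σ ⁅s, s'⁆ = 1 := by
      by_contra h
      refine hK _ (hcom (commutator_mem_commutator hs.1 hs'.1)) ?_
      rw [map_mul, hZ _ (commutator_mem_commutator hs.2 hs'.2) h, haa]
    change _ = _
    rw [← map_mul, ← map_mul, map_eq_iff, ← h1, commutatorElement_def]
    congr 1; group
  have htb : t * b * t⁻¹ = a * b := by rw [ha, commutatorElement_def]; group
  have hb1 : σ b ≠ 1 := fun h => ha1 (by
    have h2 : σ b⁻¹ = 1 := by rw [← one_mul (σ b⁻¹), ← h, ← map_mul, mul_inv_cancel, map_one, h]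
    rw [ha, commutatorElement_def, map_mul, map_mul, map_mul, h, h2, mul_one, mul_one, ← map_mul,
      mul_inv_cancel, map_one])
  have hab1 : σ (a * b) ≠ 1 := fun h => hb1 (hconj1 t b (htb ▸ h))
  have hbb := hS2 b ⟨hb, hbΛ⟩
  rcases hcase with h | ⟨M, htM, hM⟩
  · exact hb1 (L.ro2 haa hbb (hcen _) h ha1 hab1)
  set p := 1 - σ a with hp
  have hp0 : p ≠ 0 := fun h => ha1 (sub_eq_zero.1 h).symm
  have hap : σ a * p = -p := by rw [hp, mul_sub, mul_one, haa, neg_sub]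
  have hpc : ∀ g, σ g * p = p * σ g := fun g => ((Commute.one_right _).sub_right (hcen g).symm).eq
  have hconj : ∀ g : Γ, σ g * (σ b * p) = σ (g * b * g⁻¹) * p * σ g := fun g => by
    rw [mul_assoc, ← hpc, ← mul_assoc, ← mul_assoc, ← map_mul, ← map_mul, inv_mul_cancel_right]
  have htN : σ t * (σ b * p) = -(σ b * p * σ t) := by
    rw [hconj, htb, map_mul, (hcen b).eq, mul_assoc (σ b), hap, mul_neg, neg_mul]
  have hcan : ∀ (g : Γ) (x : B), x * σ g = 0 → x = 0 := fun g x h => by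
    rw [← mul_one x, ← map_one σ, ← mul_inv_cancel g, map_mul, ← mul_assoc, h, zero_mul]
  have hcan' : ∀ (g : Γ) (x : B), σ g * x = 0 → x = 0 := fun g x h => by
    rw [← one_mul x, ← map_one σ, ← inv_mul_cancel g, map_mul, mul_assoc, h, mul_zero]
  have hN : ¬ σ t * (σ b * p) = σ b * p * σ t := fun h => by
    rw [htN] at h
    refine hp0 (hcan' b _ (hcan t _ (L.ntwo _ ?_)))
    linear_combination (norm := noncomm_ring) -h
  have hscal : ∀ m : Γ, ¬ (σ (m * b * m⁻¹) * p = p ∨ σ (m * b * m⁻¹) * p = -p) := fun m h => by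
    have h1 := hconj m
    rcases h with h | h
    · rw [h, ← hpc] at h1
      have h2 : σ b * p = p := sub_eq_zero.1 (hcan' m _ (by rw [mul_sub, h1, sub_self]))
      exact hN (by rw [h2, hpc])
    · rw [h, neg_mul, ← hpc, ← mul_neg] at h1
      have h2 : σ b * p = -p := sub_eq_zero.1 (hcan' m _ (by rw [mul_sub, h1, sub_self]))
      exact hN (by rw [h2, mul_neg, neg_mul, hpc])
  have key : ∀ m ∈ M, σ m * (σ b * p) = σ b * p * σ m ∨ σ m * (σ b * p) = -(σ b * p * σ m) := by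
    intro m hm
    have hc := hM m hm
    have hs := hscal m
    rw [hconj]
    set c := m * b * m⁻¹
    have hbc := hSc b ⟨hb, hbΛ⟩ c hc
    have e1 := L.eig haa hbb (hS2 c hc) (hcen b) (hcen c) hbc hb1 (hZ3 a haZ b hbΛ c hc.2)
    have e2 := L.eig (β := a * b) haa (by
        rw [map_mul, mul_assoc, ← mul_assoc (σ b), ← (hcen b).eq, mul_assoc, hbb, mul_one, haa])
      (hS2 c hc) (hcen _) (hcen c) (by rw [map_mul]; exact (hcen c).mul_left hbc) hab1
      (hZ3 a haZ _ (mul_mem (hZΛ haZ) hbΛ) c hc.2)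
    have e3 : (1 + σ (a * b)) * p = p - σ b * p := by
      rw [map_mul, (hcen b).eq, add_mul, mul_assoc, hap, one_mul, mul_neg, sub_eq_add_neg]
    rw [← hp] at e1 e2
    rw [e3] at e2
    rcases e1 with e1 | e1 <;> rcases e2 with e2 | e2
    · exact absurd (Or.inl (sub_eq_zero.1 (L.ntwo _ (by
        linear_combination (norm := noncomm_ring) e1 + e2)))) hs
    · left
      rw [show σ c * p = σ b * p from sub_eq_zero.1 (L.ntwo _ (by
        linear_combination (norm := noncomm_ring) e1 + e2))]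
    · right
      rw [show σ c * p = -(σ b * p) from sub_eq_zero.1 (L.ntwo _ (by
        linear_combination (norm := noncomm_ring) e1 + e2)), neg_mul]
    · exact absurd (Or.inr (sub_eq_zero.1 (L.ntwo _ (by
        linear_combination (norm := noncomm_ring) e1 + e2)))) hs
  refine hN ((commutator_le.2 fun x hx y hy => ?_ : ⁅M, M⁆ ≤ cstab σ (σ b * p)) htM)
  set N := σ b * p
  have h1 : ∃ N', σ (x * y) * N = N' * σ (x * y) ∧ σ (y * x) * N = N' * σ (y * x) ∧
      (N' = N ∨ N' = -N) := by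
    simp only [map_mul]
    rcases key x hx with h1 | h1 <;> rcases key y hy with h2 | h2
    · exact ⟨N, by rw [mul_assoc, h2, ← mul_assoc, h1, mul_assoc],
        by rw [mul_assoc, h1, ← mul_assoc, h2, mul_assoc], Or.inl rfl⟩
    · exact ⟨-N, by rw [mul_assoc, h2, mul_neg, ← mul_assoc, h1, mul_assoc, neg_mul],
        by rw [mul_assoc, h1, ← mul_assoc, h2, neg_mul, mul_assoc, neg_mul], Or.inr rfl⟩
    · exact ⟨-N, by rw [mul_assoc, h2, ← mul_assoc, h1, neg_mul, mul_assoc, neg_mul],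
        by rw [mul_assoc, h1, mul_neg, ← mul_assoc, h2, mul_assoc, neg_mul], Or.inr rfl⟩
    · exact ⟨N, by rw [mul_assoc, h2, mul_neg, ← mul_assoc, h1, neg_mul, neg_neg, mul_assoc],
        by rw [mul_assoc, h1, mul_neg, ← mul_assoc, h2, neg_mul, neg_neg, mul_assoc], Or.inl rfl⟩
  obtain ⟨N', h2, h3, h4⟩ := h1
  have h5 : σ (y * x)⁻¹ * N' = N * σ (y * x)⁻¹ := by
    have := congrArg (fun z => σ (y * x)⁻¹ * z * σ (y * x)⁻¹) h3
    simp only [← mul_assoc] at this
    rw [← map_mul, inv_mul_cancel, map_one, one_mul, mul_assoc _ (σ (y * x)), ← map_mul,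
      mul_inv_cancel, map_one, mul_one] at this
    exact this.symm
  change σ ⁅x, y⁆ * N = N * σ ⁅x, y⁆
  rw [show ⁅x, y⁆ = x * y * (y * x)⁻¹ by rw [commutatorElement_def]; group, map_mul]
  rcases h4 with h4 | h4
  · rw [h4] at h2 h5
    rw [mul_assoc, h5, ← mul_assoc, h2, mul_assoc]
  · rw [h4] at h2 h5
    have h6 : σ (y * x)⁻¹ * N = -N * σ (y * x)⁻¹ := by
      rw [neg_mul, ← h5, mul_neg, neg_neg]
    rw [mul_assoc, h6, ← mul_assoc, mul_neg, h2, neg_mul N, neg_neg, mul_assoc]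

end CfsgLib.H2Der
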