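import Cfsg.Agent.Lib.H6Geo
import Cfsg.Agent.Lib.FT.BG1

/-! # The `2`-length is bounded by the exponent of a Sylow `2`-subgroup (Bryukhanova) -/

set_option autoImplicit false
set_option linter.unusedSectionVars false

namespace CfsgLib.H6Refl

open Module Subgroup Polynomial CfsgLib CfsgLib.H9 CfsgLib.Fpf Cfsg
open scoped commutatorElement

universe u v w

theorem Geo.commute_of_sq {F : Type*} [Field F] {W : Type*} [AddCommGroup W] [Module F W]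
    [FiniteDimensional F W] {Λ : Subgroup (Module.End F W)ˣ} {D : Set (Module.End F W)ˣ}
    (G : Geo Λ D) {u e : (Module.End F W)ˣ} (hu : u ∈ Λ) (he : e ∈ Λ) (ht : u * u ∈ D)
    (ht' : e * u * (e * u) ∈ D) {Z : Subgroup (Module.End F W)ˣ} (hZ : Z ≤ Λ)
    (hsq : ∀ a ∈ Z, a * a = 1) (hn : ∀ a ∈ Z, u * a * u⁻¹ ∈ Z) (hee : e * e ∈ Z) :
    Commute e (u * u) := by
  have h1 : e * u * e * u⁻¹ = e * u * (e * u) * (u * u)⁻¹ := by group
  have h2 := G.comm _ ht' _ ht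
  refine G.core hu he ht (G.swap hu ht hZ hsq hn _ hee) (hsq _ hee) ?_ ?_
  · rw [h1]; exact h2.mul_left (Commute.refl _).inv_left
  · rw [h1, inv_eq_of_mul_eq_one_right (G.sq _ ht), mul_assoc, ← mul_assoc (u * u), ← h2.eq,
      mul_assoc (e * u * (e * u)) (u * u), G.sq _ ht, mul_one, G.sq _ ht']

theorem mul_pow_mul_inv_mem {G : Type*} [Group G] {S : Subgroup G} {y s : G}
    (hy : y ∈ normalizer (S : Set G)) (hs : s ∈ S) (m : ℕ) : (s * y) ^ m * (y ^ m)⁻¹ ∈ S := by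
  induction m with
  | zero => simp
  | succ m ih =>
    have : (s * y) ^ (m + 1) * (y ^ (m + 1))⁻¹ =
        s * (y * ((s * y) ^ m * (y ^ m)⁻¹) * y⁻¹) := by
      rw [pow_succ', pow_succ']; group
    rw [this]
    exact mul_mem hs (conj_mem_of_mem_normalizer hy ih)

section geo
variable {k : Type u} [Field k] {V : Type v} [AddCommGroup V] [Module k V]
variable {G : Type w} [Group G] [Finite G] {ρ : G →* Module.End k V}
  [IsAlgClosed k] [FiniteDimensional k V] [CharP k 2]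

theorem exists_geo' (hρ : Function.Injective ρ) (hs : Group.IsSolvable G) (h0 : pCore 2 G = ⊥)
    {n : ℕ} (hexc : ∀ y : G, (∃ l, y ^ 2 ^ l = 1) → (ρ y - 1) ^ (2 ^ (n + 2) - 1) = 0)
    {B S P : Subgroup G} (hSB : S ≤ B) (hBS : B ≤ normalizer (S : Set G)) (hSP : S ≤ P)
    (hPB : P ≤ B) (hP : IsPGroup 2 P)
    (hgen : S ≤ closure {t | ∃ y ∈ B, (∃ l, y ^ 2 ^ l = 1) ∧ y ^ 2 ^ (n + 1) = t})
    {c : G} (hc : c ∈ S) (hc1 : c ≠ 1) :
    ∃ (F : Type) (_ : Field F) (W : Type w) (_ : AddCommGroup W) (_ : Module F W)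
      (_ : FiniteDimensional F W) (Γ : Subgroup G) (τ : G → (Module.End F W)ˣ)
      (Λ : Subgroup (Module.End F W)ˣ) (D : Set (Module.End F W)ˣ),
      S ≤ Γ ∧ (∀ a ∈ Γ, ∀ b ∈ Γ, τ (a * b) = τ a * τ b) ∧ (∀ a ∈ Γ, τ a⁻¹ = (τ a)⁻¹) ∧
      τ 1 = 1 ∧ (∀ a ∈ Γ, τ a ∈ Λ) ∧ τ c ≠ 1 ∧
      (∀ g ∈ P, g ^ 2 ^ (n + 1) ∈ Γ ∧ τ (g ^ 2 ^ (n + 1)) ∈ D ∧
        (τ (g ^ 2 ^ (n + 1)) ≠ 1 → g ^ 2 ^ n ∈ Γ)) ∧ Geo Λ D := by
  classical
  obtain ⟨F, _, W, _, _, _, Γ, σ, hS, -, h2, h3, h4, h5⟩ :=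
    exists_geo hρ hs h0 hexc hSB hBS hSP hPB hP hgen hc hc1
  have hτ : ∀ (a : G) (h : a ∈ Γ), (if h : a ∈ Γ then σ ⟨a, h⟩ else 1) = σ ⟨a, h⟩ :=
    fun a h => dif_pos h
  refine ⟨F, inferInstance, W, inferInstance, inferInstance, inferInstance, Γ,
    fun a => if h : a ∈ Γ then σ ⟨a, h⟩ else 1, _, _, hS, fun a ha b hb => ?_, fun a ha => ?_,
    ?_, fun a ha => ?_, ?_, fun g hg => ⟨h3 g hg, ?_, ?_⟩, h5⟩
  · simp only [hτ _ (mul_mem ha hb), hτ _ ha, hτ _ hb]; rw [← map_mul]; rfl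
  · simp only [hτ _ (inv_mem ha), hτ _ ha]; rw [← map_inv]; rfl
  · simp only [hτ _ (one_mem _)]; exact map_one σ
  · simp only [hτ _ ha]; exact ⟨_, rfl⟩
  · simp only [hτ _ (hS hc)]; exact h2
  · simp only [hτ _ (h3 g hg)]; exact ⟨_, ⟨g, hg, rfl⟩, rfl⟩
  · simp only [hτ _ (h3 g hg)]; exact h4 g hg _

theorem norm_mem_commutator (hρ : Function.Injective ρ) (hs : Group.IsSolvable G)
    (h0 : pCore 2 G = ⊥) {n : ℕ}
    (hexc : ∀ y : G, (∃ l, y ^ 2 ^ l = 1) → (ρ y - 1) ^ (2 ^ (n + 2) - 1) = 0)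
    {B S : Subgroup G} (hSB : S ≤ B) (hBS : B ≤ normalizer (S : Set G)) (hS : IsPGroup 2 S)
    (hZ : ⁅S, S⁆ ≤ centralizer (S : Set G)) (hZ2 : ∀ a ∈ ⁅S, S⁆, a ^ 2 = 1)
    (hΦ : ∀ s ∈ S, s ^ 2 ∈ ⁅S, S⁆)
    (hmin : ∀ U : Subgroup G, U < S → B ≤ normalizer (U : Set G) → U ≤ ⁅S, S⁆)
    (hHH : ∀ y ∈ B, (∃ l, y ^ 2 ^ l = 1) →
      (∀ s ∈ S, Commute ((s * y) ^ 2 ^ n * (y ^ 2 ^ n)⁻¹) (y ^ 2 ^ (n + 1))) →
      ∀ s ∈ S, ⁅y ^ 2 ^ (n + 1), s⁆ ∈ ⁅S, S⁆)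
    {x : G} (hx : x ∈ B) (hxl : ∃ l, x ^ 2 ^ l = 1) {s : G} (hsS : s ∈ S) :
    (s * x) ^ 2 ^ (n + 1) * (x ^ 2 ^ (n + 1))⁻¹ ∈ ⁅S, S⁆ := by
  by_contra hf
  have hS'S : ⁅S, S⁆ ≤ S := Cop.commutator_le_left_of_le_normalizer le_normalizer
  have hBS' : B ≤ normalizer ((⁅S, S⁆ : Subgroup G) : Set G) :=
    Cop.le_normalizer_commutator hBS hBS
  set P := S ⊔ zpowers x with hPd
  have hP : IsPGroup 2 P := by
    obtain ⟨l, hl⟩ := hxl
    exact IsPGroup.to_sup_of_normal_left' hS (IsPGroup.of_card_dvd_pow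
      (by rw [Nat.card_zpowers]; exact orderOf_dvd_of_pow_eq_one hl)) (zpowers_le.2 (hBS hx))
  have hPB : P ≤ B := sup_le hSB (zpowers_le.2 hx)
  have hSP : S ≤ P := le_sup_left
  have hxP : x ∈ P := mem_sup_right (mem_zpowers x)
  have hPl : ∀ g ∈ P, ∃ l, g ^ 2 ^ l = 1 := fun g hg =>
    (hP ⟨g, hg⟩).imp fun l h => congrArg Subtype.val h
  have hfS := mul_pow_mul_inv_mem (hBS hx) hsS (2 ^ (n + 1))
  set f := (s * x) ^ 2 ^ (n + 1) * (x ^ 2 ^ (n + 1))⁻¹ with hfd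
  have hgen : S ≤ closure {t | ∃ y ∈ B, (∃ l, y ^ 2 ^ l = 1) ∧ y ^ 2 ^ (n + 1) = t} := by
    set A := closure {a | ∃ b ∈ B, b * f * b⁻¹ = a} with hA
    have hAS : A ≤ S := (closure_le _).2 (by
      rintro _ ⟨b, hb, rfl⟩; exact conj_mem_of_mem_normalizer (hBS hb) hfS)
    have hfA : f ∈ A := subset_closure ⟨1, one_mem _, by simp⟩
    have hBA : B ≤ normalizer (A : Set G) := fun b hb => mem_normalizer_of_map_conj_eq
      (eq_of_le_of_card_le (by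
        rw [hA, MonoidHom.map_closure, closure_le]
        rintro _ ⟨_, ⟨g, hg, rfl⟩, rfl⟩
        exact subset_closure ⟨b * g, mul_mem hb hg, by simp [mul_assoc]⟩) (card_map_conj _ _).ge)
    have hAe : A = S := by
      by_contra hne
      exact hf (hmin A (lt_of_le_of_ne hAS hne) hBA hfA)
    rw [← hAe, hA, closure_le]
    rintro _ ⟨b, hb, rfl⟩
    have hc : ∀ y ∈ P, b * y ^ 2 ^ (n + 1) * b⁻¹ ∈
        closure {t | ∃ y ∈ B, (∃ l, y ^ 2 ^ l = 1) ∧ y ^ 2 ^ (n + 1) = t} := fun y hy =>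
      subset_closure ⟨b * y * b⁻¹, mul_mem (mul_mem hb (hPB hy)) (inv_mem hb),
        (hPl y hy).imp fun l h => by rw [conj_pow, h]; group, conj_pow⟩
    have := mul_mem (hc _ (mul_mem (hSP hsS) hxP)) (inv_mem (hc x hxP))
    rwa [show b * (s * x) ^ 2 ^ (n + 1) * b⁻¹ * (b * x ^ 2 ^ (n + 1) * b⁻¹)⁻¹ = b * f * b⁻¹ by
      rw [hfd]; group] at this
  have hgeo := fun c hc hc1 => exists_geo' hρ hs h0 hexc hSB hBS hSP hPB hP hgen (c := c) hc hc1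
  have hpow : ∀ y : G, y ^ 2 ^ (n + 1) = y ^ 2 ^ n * y ^ 2 ^ n := fun y => by
    rw [← pow_add, ← two_mul, ← pow_succ']
  have hpow' : ∀ y a : G, (a * y) ^ 2 ^ (n + 1) =
      (a * y) ^ 2 ^ n * (y ^ 2 ^ n)⁻¹ * y ^ 2 ^ n * ((a * y) ^ 2 ^ n * (y ^ 2 ^ n)⁻¹ * y ^ 2 ^ n) :=
    fun y a => by rw [hpow]; group
  have K1 : ∀ y ∈ P, ∀ a ∈ S, Commute ((a * y) ^ 2 ^ n * (y ^ 2 ^ n)⁻¹) (y ^ 2 ^ (n + 1)) := by
    intro y hy a ha
    have heS := mul_pow_mul_inv_mem (hBS (hPB hy)) ha (2 ^ n)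
    have ht' := hpow' y a
    set e := (a * y) ^ 2 ^ n * (y ^ 2 ^ n)⁻¹
    rw [← commutatorElement_eq_one_iff_commute]
    by_contra hc1
    have hcS : ⁅e, y ^ 2 ^ (n + 1)⁆ ∈ S := Cop.commutator_le_left_of_le_normalizer
      (zpowers_le.2 (hBS (hPB (pow_mem hy _)))) (commutator_mem_commutator heS (mem_zpowers _))
    obtain ⟨F, _, W, _, _, _, Γ, τ, Λ, D, hSΓ, hm, hi, h1, hΛ, hc, hD, Ge⟩ := hgeo _ hcS hc1
    obtain ⟨ht1, ht2, ht3⟩ := hD y hy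
    apply hc
    rw [commutatorElement_def, hm _ (mul_mem (mul_mem (hSΓ heS) ht1) (inv_mem (hSΓ heS))) _
      (inv_mem ht1), hm _ (mul_mem (hSΓ heS) ht1) _ (inv_mem (hSΓ heS)), hm _ (hSΓ heS) _ ht1,
      hi _ (hSΓ heS), hi _ ht1, ← commutatorElement_def, commutatorElement_eq_one_iff_commute]
    by_cases h2 : τ (y ^ 2 ^ (n + 1)) = 1
    · rw [h2]; exact Commute.one_right _
    have hu := ht3 h2
    have ht4 := (hD _ (mul_mem (hSP ha) hy)).2.1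
    have heu := mul_mem (hSΓ heS) hu
    rw [ht', hm _ heu _ heu, hm _ (hSΓ heS) _ hu] at ht4
    rw [hpow, hm _ hu _ hu] at ht2 ⊢
    let Z : Subgroup (Module.End F W)ˣ :=
      { carrier := τ '' (⁅S, S⁆ : Subgroup G)
        one_mem' := ⟨1, one_mem _, h1⟩
        mul_mem' := by
          rintro _ _ ⟨a, ha, rfl⟩ ⟨b, hb, rfl⟩
          exact ⟨a * b, mul_mem ha hb, hm _ (hSΓ (hS'S ha)) _ (hSΓ (hS'S hb))⟩
        inv_mem' := by
          rintro _ ⟨a, ha, rfl⟩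
          exact ⟨a⁻¹, inv_mem ha, hi _ (hSΓ (hS'S ha))⟩ }
    refine Ge.commute_of_sq (hΛ _ hu) (hΛ _ (hSΓ heS)) ht2 ht4 (Z := Z) ?_ ?_ ?_ ?_
    · rintro _ ⟨a, ha, rfl⟩
      exact hΛ _ (hSΓ (hS'S ha))
    · rintro _ ⟨a, ha, rfl⟩
      rw [← hm _ (hSΓ (hS'S ha)) _ (hSΓ (hS'S ha)), ← sq, hZ2 a ha, h1]
    · rintro _ ⟨a, ha, rfl⟩
      refine ⟨_, conj_mem_of_mem_normalizer (hBS' (hPB (pow_mem hy (2 ^ n)))) ha, ?_⟩
      rw [hm _ (mul_mem hu (hSΓ (hS'S ha))) _ (inv_mem hu), hm _ hu _ (hSΓ (hS'S ha)), hi _ hu]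
    · exact ⟨e * e, sq e ▸ hΦ e heS, hm _ (hSΓ heS) _ (hSΓ heS)⟩
  have K2 : ∀ y ∈ P, ∀ a ∈ S, ⁅y ^ 2 ^ (n + 1), a⁆ ∈ ⁅S, S⁆ := fun y hy =>
    hHH y (hPB hy) (hPl y hy) (K1 y hy)
  have hsxP : s * x ∈ P := mul_mem (hSP hsS) hxP
  have hxs : s⁻¹ * (s * x) = x := by group
  have K3 : f ∈ centralizer (S : Set G) := by
    intro b hb
    rw [eq_comm, ← commutatorElement_eq_one_iff_mul_comm]
    by_contra hc1
    obtain ⟨F, _, W, _, _, _, Γ, τ, Λ, D, hSΓ, hm, hi, h1, hΛ, hc, hD, Ge⟩ :=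
      hgeo _ (hS'S (commutator_mem_commutator hfS hb)) hc1
    have hcm : ∀ a ∈ Γ, ∀ b ∈ Γ, Commute a b → Commute (τ a) (τ b) := fun a ha b hb h => by
      rw [Commute, SemiconjBy, ← hm _ ha _ hb, ← hm _ hb _ ha, h.eq]
    have aux : ∀ y ∈ P, ∀ a ∈ S, ¬ Commute (τ b) (τ (y ^ 2 ^ (n + 1))) →
        Commute (τ ((a * y) ^ 2 ^ (n + 1)) * τ (y ^ 2 ^ (n + 1))) (τ b) := by
      intro y hy a ha hne
      have heS := mul_pow_mul_inv_mem (hBS (hPB hy)) ha (2 ^ n)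
      have ht' := hpow' y a
      have hK1 := K1 y hy a ha
      set e := (a * y) ^ 2 ^ n * (y ^ 2 ^ n)⁻¹
      obtain ⟨ht1, ht2, ht3⟩ := hD y hy
      have hu := ht3 fun h => hne (h ▸ Commute.one_right _)
      have ht4 := (hD _ (mul_mem (hSP ha) hy)).2.1
      have heu := mul_mem (hSΓ heS) hu
      have hbΓ := hSΓ hb
      have hg : τ b * τ (y ^ 2 ^ (n + 1)) * (τ b)⁻¹ * τ (y ^ 2 ^ (n + 1)) =
          τ ⁅y ^ 2 ^ (n + 1), b⁆⁻¹ := by
        rw [commutatorElement_inv, commutatorElement_def,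
          hm _ (mul_mem (mul_mem hbΓ ht1) (inv_mem hbΓ)) _ (inv_mem ht1),
          hm _ (mul_mem hbΓ ht1) _ (inv_mem hbΓ), hm _ hbΓ _ ht1, hi _ hbΓ, hi _ ht1,
          inv_eq_of_mul_eq_one_right (Ge.sq _ ht2)]
      have hgS := inv_mem (K2 y hy b hb)
      have hgc : ∀ c ∈ S, Commute (τ b * τ (y ^ 2 ^ (n + 1)) * (τ b)⁻¹ * τ (y ^ 2 ^ (n + 1)))
          (τ c) := fun c hc => hg ▸ hcm _ (hSΓ (hS'S hgS)) _ (hSΓ hc) (hZ hgS c hc).symm
      have h6 := hgc _ (conj_mem_of_mem_normalizer (hBS (hPB (pow_mem hy (2 ^ n)))) hb)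
      rw [hm _ (mul_mem hu hbΓ) _ (inv_mem hu), hm _ hu _ hbΓ, hi _ hu] at h6
      have h7 := hcm _ (hSΓ heS) _ ht1 hK1
      have h4 := hgc e heS
      have h5 := hgc b hb
      have hee : e * e ∈ ⁅S, S⁆ := sq e ▸ hΦ e heS
      have h3 := hcm _ (hSΓ (hS'S hee)) _ hbΓ (hZ hee b hb).symm
      have h2 : τ (e * e) * τ (e * e) = 1 := by
        rw [← hm _ (hSΓ (hS'S hee)) _ (hSΓ (hS'S hee)), ← sq, hZ2 _ hee, h1]
      rw [hm _ (hSΓ heS) _ (hSΓ heS)] at h2 h3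
      rw [ht', hm _ heu _ heu, hm _ (hSΓ heS) _ hu] at ht4 ⊢
      rw [hpow, hm _ hu _ hu] at ht2 h4 h5 h6 h7 hne ⊢
      exact Ge.commute_of_not_commute (hΛ _ hu) (hΛ _ (hSΓ heS)) (hΛ _ hbΓ) ht2 ht4 h7 h2 h3 h4 h5
        h6 hne
    obtain ⟨ht1, ht2, -⟩ := hD x hxP
    obtain ⟨ht1', ht2', -⟩ := hD _ hsxP
    have hτf : τ f = τ ((s * x) ^ 2 ^ (n + 1)) * τ (x ^ 2 ^ (n + 1)) := by
      rw [hfd, hm _ ht1' _ (inv_mem ht1), hi _ ht1, inv_eq_of_mul_eq_one_right (Ge.sq _ ht2)]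
    apply hc
    rw [commutatorElement_def, hm _ (mul_mem (mul_mem (hSΓ hfS) (hSΓ hb)) (inv_mem (hSΓ hfS))) _
      (inv_mem (hSΓ hb)), hm _ (mul_mem (hSΓ hfS) (hSΓ hb)) _ (inv_mem (hSΓ hfS)),
      hm _ (hSΓ hfS) _ (hSΓ hb), hi _ (hSΓ hfS), hi _ (hSΓ hb), ← commutatorElement_def,
      commutatorElement_eq_one_iff_commute, hτf]
    by_cases h2 : Commute (τ b) (τ (x ^ 2 ^ (n + 1)))
    · by_cases h3 : Commute (τ b) (τ ((s * x) ^ 2 ^ (n + 1)))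
      · exact h3.symm.mul_left h2.symm
      · have := aux _ hsxP _ (inv_mem hsS) h3
        rwa [hxs, (Ge.comm _ ht2 _ ht2').eq] at this
    · exact aux x hxP s hsS h2
  have hab : S ≤ centralizer (S : Set G) := by
    by_contra hcon
    refine hf (hmin (S ⊓ centralizer (S : Set G)) (lt_of_le_of_ne inf_le_left fun h =>
      hcon (h.ge.trans inf_le_right)) (fun b hb => ?_) ⟨hfS, K3⟩)
    exact Cop.le_normalizer_inf_centralizer hBS hBS hb
  have hS' : ⁅S, S⁆ = ⊥ := commutator_eq_bot_iff_le_centralizer.2 hab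
  obtain ⟨F, _, W, _, _, _, Γ, τ, Λ, D, hSΓ, hm, hi, h1, hΛ, hc, hD, Ge⟩ :=
    hgeo f hfS fun h => hf (h ▸ one_mem _)
  have aux : ∀ y ∈ P, ∀ a ∈ S, τ (y ^ 2 ^ (n + 1)) ≠ 1 →
      τ ((a * y) ^ 2 ^ (n + 1)) = τ (y ^ 2 ^ (n + 1)) := by
    intro y hy a ha hne
    have heS := mul_pow_mul_inv_mem (hBS (hPB hy)) ha (2 ^ n)
    have ht' := hpow' y a
    have hK1 := K1 y hy a ha
    set e := (a * y) ^ 2 ^ n * (y ^ 2 ^ n)⁻¹
    obtain ⟨ht1, ht2, ht3⟩ := hD y hy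
    have hu := ht3 hne
    have ht4 := (hD _ (mul_mem (hSP ha) hy)).2.1
    have heu := mul_mem (hSΓ heS) hu
    have h7 : Commute (τ e) (τ (y ^ 2 ^ (n + 1))) := by
      rw [Commute, SemiconjBy, ← hm _ (hSΓ heS) _ ht1, ← hm _ ht1 _ (hSΓ heS), hK1.eq]
    have hee : τ e * τ e = 1 := by
      rw [← hm _ (hSΓ heS) _ (hSΓ heS), ← sq, mem_bot.1 (hS'.le (hΦ e heS)), h1]
    rw [ht', hm _ heu _ heu, hm _ (hSΓ heS) _ hu] at ht4 ⊢
    rw [hpow, hm _ hu _ hu] at ht2 h7 hne ⊢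
    exact Ge.eq_of_sq_fix (hΛ _ (hSΓ heS)) ht2 ht4 hne h7 fun v _ => by rw [← mul_app, hee]; rfl
  obtain ⟨ht1, ht2, -⟩ := hD x hxP
  obtain ⟨ht1', ht2', -⟩ := hD _ hsxP
  apply hc
  rw [hfd, hm _ ht1' _ (inv_mem ht1), hi _ ht1, mul_inv_eq_one]
  by_cases h2 : τ (x ^ 2 ^ (n + 1)) = 1
  · by_contra h3
    have := aux _ hsxP _ (inv_mem hsS) fun h => h3 (h.trans h2.symm)
    rw [hxs] at this
    exact h3 this.symm
  · exact aux x hxP s hsS h2

end geo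

section config
variable {G : Type w} [Group G] [Finite G]

theorem exists_config_two (hs : Group.IsSolvable G) {L : Subgroup G} [L.Normal]
    (hL : ¬ L ≤ pPrimePCore 2 G) :
    ∃ S B A : Subgroup G, IsPGroup 2 S ∧ S ≤ B ∧ B ≤ normalizer (S : Set G) ∧
      ⁅S, S⁆ ≤ centralizer (S : Set G) ∧ (∀ a ∈ ⁅S, S⁆, a ^ 2 = 1) ∧ (∀ s ∈ S, s ^ 2 ∈ ⁅S, S⁆) ∧
      (∀ U : Subgroup G, U < S → B ≤ normalizer (U : Set G) → U ≤ ⁅S, S⁆) ∧ S ≠ ⊥ ∧
      A ≤ B ∧ A ≤ L ⊔ pPrimePCore 2 G ∧ ⁅S, A⁆ = S ∧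
      ∀ g : G, ∃ b ∈ B, b⁻¹ * g ∈ pPrimePCore 2 G := by
  have := FT.pPrimePCore_normal' (p := 2) (G := G)
  set P2 := pPrimePCore 2 G with hP2
  set π := QuotientGroup.mk' P2 with hπ
  have hπs : Function.Surjective π := QuotientGroup.mk'_surjective _
  have hLn : (L.map π).Normal := Normal.map inferInstance _ hπs
  obtain ⟨M, hM, hML⟩ := exists_isMinNormal_le (L.map π) (fun h => hL (by
    rwa [Subgroup.map_eq_bot_iff, QuotientGroup.ker_mk'] at h))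
  obtain ⟨r, hr, hMr⟩ := hM.exists_isPGroup inferInstance
  have := Fact.mk hr
  have hMn := hM.1
  have hr2 : r ≠ 2 := by
    rintro rfl
    have h1 : M.comap π ≤ P2 := FT.le_pPrimePCore_of_pSec fun x hx => by
      obtain ⟨a, ha⟩ := hMr ⟨π x, hx⟩
      have h2 : x ^ 2 ^ a ∈ P2 := by
        rw [← QuotientGroup.eq_one_iff]
        exact congrArg Subtype.val ha
      obtain ⟨b, hb⟩ := FT.pSec_pPrimePCore _ h2
      exact ⟨a + b, by rwa [pow_add, pow_mul]⟩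
    refine hM.2.1 (eq_bot_iff.2 fun m hm => ?_)
    obtain ⟨g, rfl⟩ := hπs m
    exact (QuotientGroup.eq_one_iff _).2 (h1 hm)
  obtain ⟨S₀, hS₀⟩ := IsSylowIn.exists_in (p := 2) P2
  set N := normalizer (S₀ : Set G) with hN
  obtain ⟨R, hR⟩ := IsSylowIn.exists_in (p := r) (N ⊓ M.comap π)
  have hF : ∀ g : G, ∃ k ∈ P2, k * g ∈ N := fun g =>
    hS₀.frattini_elem (le_normalizer_of_normal (H := P2) (mem_top g))
  have hmap : (N ⊓ M.comap π).map π = M := by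
    refine le_antisymm (map_le_iff_le_comap.2 inf_le_right) fun m hm => ?_
    obtain ⟨g, rfl⟩ := hπs m
    obtain ⟨k, hk, hkg⟩ := hF g
    have h1 : π (k * g) = π g := by
      rw [map_mul, show π k = 1 from (QuotientGroup.eq_one_iff _).2 hk, one_mul]
    exact ⟨k * g, mem_inf.2 ⟨hkg, by rw [mem_comap, h1]; exact hm⟩, h1⟩
  have hRM : R.map π = M := by
    have := hR.map π
    rw [hmap] at this
    exact (this.eq_of_le hMr this.le le_rfl).symm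
  set B₀ := N ⊓ normalizer (R : Set G) with hB₀
  have hRB : R ≤ B₀ := le_inf (hR.le.trans inf_le_left) le_normalizer
  have hne : ⁅S₀, R⁆ ≠ ⊥ := fun h => hM.2.1 (by
    rw [← hRM, Subgroup.map_eq_bot_iff, hπ, QuotientGroup.ker_mk']
    exact (Cop.commutator_eq_bot_iff_le_centralizer'.1 h).trans (FT.cent_le_pPrimePCore hS₀))
  obtain ⟨S, hSS, hBS, hSR, hmin⟩ := Cop.exists_minimal_action (B := B₀) inf_le_left hne
  have hS : IsPGroup 2 S := hS₀.isPGroup.to_le hSS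
  obtain ⟨m1, -, m3, m4, m5, m6, -⟩ := Cop.minimal_action hS hBS hRB inf_le_right
    (coprime_card_of_isPGroup_of_ne hr Nat.prime_two hr2 hR.isPGroup) hSR hmin
  refine ⟨S, S ⊔ B₀, R, hS, le_sup_left, sup_le le_normalizer hBS, m4, m5,
    fun s hs => m3.le (Cop.pow_mem_frattini_map hS hs),
    fun U hU h => m6 U hU (le_sup_right.trans h), fun h => hSR (by rw [h]; simp),
    hRB.trans le_sup_right, ?_, m1, fun g => ?_⟩
  · refine hR.le.trans (inf_le_right.trans ((comap_mono hML).trans ?_))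
    rw [comap_map_eq, hπ, QuotientGroup.ker_mk']
  · obtain ⟨k, hk, hkg⟩ := hF g
    obtain ⟨k', hk', hkg'⟩ := hR.frattini_elem (g := k * g) (inf_normalizer_le_normalizer_inf
      ⟨le_normalizer hkg, le_normalizer_of_normal (H := M.comap π) (mem_top _)⟩)
    obtain ⟨a, ha, hak⟩ : π k' ∈ R.map π := hRM ▸ hk'.2
    refine ⟨a⁻¹ * (k' * (k * g)), mem_sup_right (mul_mem (inv_mem (hRB ha))
      ⟨mul_mem hk'.1 hkg, hkg'⟩), ?_⟩
    rw [← QuotientGroup.eq_one_iff]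
    change π _ = 1
    simp only [map_mul, map_inv, hak, show π k = 1 from (QuotientGroup.eq_one_iff _).2 hk]
    group

theorem pCore_eq_bot_of_secRep {S B : Subgroup G} (hS : IsPGroup 2 S)
    (hBS : B ≤ normalizer (S : Set G)) (hne : S ≠ ⊥)
    (hmin : ∀ U : Subgroup G, U < S → B ≤ normalizer (U : Set G) → U ≤ ⁅S, S⁆)
    {k : Type*} [Field k] {W : Type*} [AddCommGroup W] [Module k W] {σ : B →* Module.End k W}
    {ι : G → W} (Sr : SecRep 2 B.subtype S ⁅S, S⁆ σ ι) {G' : Type*} [Group G'] [Finite G']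
    {π : B →* G'} {ρ' : G' →* Module.End k W} (hρ' : Function.Injective ρ')
    (hπ : Function.Surjective π) (h : ∀ g, ρ' (π g) = σ g) : pCore 2 G' = ⊥ := by
  obtain ⟨T, -, hT, hTm⟩ := exists_lift_isPGroup π (K := ⊤) (Q := pCore 2 G')
    (le_top.trans (Subgroup.map_top_of_surjective _ hπ).ge) (pCore_isPGroup 2)
  set T₀ := T.map B.subtype
  set T₁ := ((pCore 2 G').comap π).map B.subtype
  have hT₀ : T₀ ≤ normalizer (S : Set G) := (map_subtype_le _).trans hBS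
  have hH : IsPGroup 2 (S ⊔ T₀ : Subgroup G) :=
    IsPGroup.to_sup_of_normal_left' hS (hT.map _) hT₀
  have hBT : B ≤ normalizer (T₁ : Set G) := fun b hb => mem_normalizer_of_conj_mem (by
    rintro _ ⟨t, ht, rfl⟩
    exact ⟨⟨b, hb⟩ * t * ⟨b, hb⟩⁻¹, (inferInstance : ((pCore 2 G').comap π).Normal).conj_mem _ ht _,
      rfl⟩)
  have h1 : ⁅S, T₁⁆ ≤ ⁅S, S ⊔ T₀⁆ := by
    rw [commutator_comm, commutator_le]
    rintro _ ⟨t, ht, rfl⟩ a ha
    obtain ⟨t', ht', htt⟩ : π t ∈ T.map π := hTm ▸ ht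
    have h2 : ⁅B.subtype t, a⁆ * ⁅B.subtype t', a⁆⁻¹ ∈ ⁅S, S⁆ := by
      rw [← Sr.eq_iff (Sr.commutator_mem _ ha) (Sr.commutator_mem _ ha), Sr.map_commutator _ ha,
        Sr.map_commutator _ ha, ← h, ← h, htt]
    have h3 : ⁅B.subtype t', a⁆ ∈ ⁅S, S ⊔ T₀⁆ := by
      rw [commutator_comm]
      exact commutator_mem_commutator (mem_sup_right ⟨t', ht', rfl⟩) ha
    have := mul_mem (commutator_mono le_rfl le_sup_left h2) h3
    rwa [inv_mul_cancel_right] at this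
  have h2 : ⁅S, T₁⁆ ≤ ⁅S, S⁆ := hmin _ (lt_of_le_of_ne
    (Cop.commutator_le_left_of_le_normalizer ((map_subtype_le _).trans hBS)) fun h3 =>
      hne (eq_bot_of_le_commutator_of_isNilpotent hH.isNilpotent le_sup_left (h3.ge.trans h1)))
    (Cop.le_normalizer_commutator hBS hBT)
  refine eq_bot_iff.2 fun g hg => ?_
  obtain ⟨b, rfl⟩ := hπ g
  apply hρ'
  rw [h, map_one, Sr.rho_eq_one_iff]
  intro a ha
  rw [commutator_comm] at h2
  exact h2 (commutator_mem_commutator ⟨b, hg, rfl⟩ ha)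

theorem pow_eq_one_of_small {k : Type u} [Field k] {V : Type v} [AddCommGroup V] [Module k V]
    [IsAlgClosed k] [FiniteDimensional k V] [CharP k 2] {ρ : G →* Module.End k V}
    (hρ : Function.Injective ρ) (hs : Group.IsSolvable G) (h0 : pCore 2 G = ⊥) {n : ℕ} {y : G}
    (h : (ρ y - 1) ^ (2 ^ (n + 1) + (2 ^ n - 1)) = 0) : y ^ 2 ^ (n + 1) = 1 := by
  have h1 := Nat.one_le_two_pow (n := n)
  have hy : y ^ 2 ^ (n + 1 + 1) = 1 := pow_eq_one_of_exc hρ (by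
    obtain ⟨c, hc⟩ : ∃ c, 2 ^ (n + 1 + 1) - 1 = 2 ^ (n + 1) + (2 ^ n - 1) + c :=
      ⟨2 ^ n, by rw [pow_succ, pow_succ]; omega⟩
    rw [hc, pow_add, h, zero_mul])
  by_contra hne
  obtain ⟨f, hf1, hf2, hf3⟩ := exists_poly_of_sub_one_pow (k := k) h
  obtain ⟨q, d, j, m, hq, hd, hjm, -, h2, h3, -⟩ := hh_faithful ρ hρ (pPrimeCore 2 G)
    (natCast_ne_zero_of_coprime k 2 (pPrimeCore_coprime 2)) Nat.prime_two (pPrimeCore_coprime 2)
    hy (le_normalizer_of_normal (mem_top _)) (by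
      by_contra hcon
      push Not at hcon
      have h4 := inf_centralizer_pPrimeCore (isPSolvable_of_isSolvable hs) h0
        (S := zpowers (y ^ 2 ^ (n + 1))) (IsPGroup.of_card_dvd_pow (n := 1) (by
          rw [Nat.card_zpowers]
          exact orderOf_dvd_of_pow_eq_one (by rw [← pow_mul, ← pow_add, hy])))
      exact hne (mem_bot.1 (h4.le ⟨mem_zpowers _, fun g hg =>
        commutatorElement_eq_one_iff_mul_comm.1 (hcon g hg)⟩))) f hf1 hf2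
    (by rw [hf3, pow_succ, pow_succ]; omega)
  obtain ⟨-, h4⟩ := eq_one_of_pow_add_one_eq_two_pow hq.two_le hd h2
  obtain ⟨i, hi⟩ := Nat.exists_eq_add_of_le (show j ≤ n by omega)
  have h5 : 2 ^ j * (q ^ d + 1) = 2 ^ (n + 1 + 1) := by rw [h2, ← pow_add, hjm]
  have h6 : 2 ^ j ≤ 2 ^ n := Nat.pow_le_pow_right two_pos (by omega)
  rw [hf3, pow_succ] at h3
  rw [mul_add, pow_succ, pow_succ] at h5
  omega

end config

theorem pLengthLE_of_exc (n : ℕ) : ∀ {G : Type w} [Group G] [Finite G] {V : Type w}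
    [AddCommGroup V] [Module (AlgebraicClosure (ZMod 2)) V]
    [FiniteDimensional (AlgebraicClosure (ZMod 2)) V]
    {ρ : G →* Module.End (AlgebraicClosure (ZMod 2)) V}, Function.Injective ρ →
    Group.IsSolvable G → pCore 2 G = ⊥ →
    (∀ y : G, (∃ l, y ^ 2 ^ l = 1) → (ρ y - 1) ^ (2 ^ (n + 1) - 1) = 0) → PLengthLE 2 n G := by
  induction n with
  | zero =>
    intro G _ _ V _ _ _ ρ hρ _ _ h
    refine pLengthLE_zero_iff.2 (coprime_of_pExp_zero fun x l hx => hρ ?_)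
    have := h x ⟨l, hx⟩
    simpa [sub_eq_zero] using this
  | succ n ih =>
    intro G _ _ V _ _ _ ρ hρ hs h0 hexc
    have := FT.pPrimePCore_normal' (p := 2) (G := G)
    obtain ⟨L, ⟨Y, _, _, φ, rfl, hY⟩, hmin⟩ := (wellFounded_lt (α := Subgroup G)).has_min
      {L | ∃ (Y : Type w) (_ : Group Y) (_ : Finite Y) (φ : G →* Y), φ.ker = L ∧ PLengthLE 2 n Y}
      ⟨_, PUnit, inferInstance, inferInstance, 1, rfl, pLengthLE_of_coprime (by simp) n⟩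
    refine pLengthLE_succ_of_ker_le φ ?_ hY
    by_contra hL
    obtain ⟨S, B, A, hS, hSB, hBS, hZ, hZ2, hΦ, hm, hne, hAB, hAL, hSA, hsurj⟩ :=
      exists_config_two hs hL
    have hS'S : ⁅S, S⁆ ≤ S := Cop.commutator_le_left_of_le_normalizer le_normalizer
    obtain ⟨W, _, _, _, σ, ι, Sr⟩ := exists_secRep 2 B.subtype S ⁅S, S⁆ hS'S (fun g => hBS g.2)
      (fun g => Cop.le_normalizer_commutator hBS hBS g.2) le_rfl hΦ
    obtain ⟨G', _, _, π, ρ', hρ', hπ, hπρ⟩ := exists_faithful σ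
    have hs' : Group.IsSolvable G' := Group.isSolvable_of_surjective hπ
    have h0' := pCore_eq_bot_of_secRep hS hBS hne hm Sr hρ' hπ hπρ
    have hG' : PLengthLE 2 n G' := by
      refine ih hρ' hs' h0' fun y ⟨l, hl⟩ => ?_
      obtain ⟨x, rfl⟩ := hπ y
      obtain ⟨x, -, hx, l', hl'⟩ := exists_lift_pElement π x hl
      rw [← hx, hπρ, ← geom_eq_sub_one_pow (AlgebraicClosure (ZMod 2)), Sr.geom_eq_zero_iff]
      intro s hsS
      refine norm_mem_commutator hρ hs h0 hexc hSB hBS hS hZ hZ2 hΦ hm (fun y hy _ hc => ?_) x.2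
        ⟨l', congrArg Subtype.val hl'⟩ hsS
      have h1 : (π ⟨y, hy⟩) ^ 2 ^ (n + 1) = 1 := by
        refine pow_eq_one_of_small hρ' hs' h0' (Sr.ext fun a ha => ?_)
        obtain ⟨h2, h3⟩ := Sr.mul_pow ⟨y, hy⟩ ha (2 ^ n)
        have h4 := Sr.map_commutator (⟨y, hy⟩ ^ 2 ^ (n + 1)) h2
        rw [h3, geom_eq_sub_one_pow (AlgebraicClosure (ZMod 2)), map_pow,
          show B.subtype ⟨y, hy⟩ = y from rfl,
          commutatorElement_eq_one_iff_commute.2 (hc a ha).symm, Sr.map_one, map_pow] at h4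
        rw [pow_add, sub_one_pow_char_pow (AlgebraicClosure (ZMod 2)), hπρ, Module.End.mul_apply,
          LinearMap.sub_apply, Module.End.one_apply, ← h4]
        rfl
      have h2 : σ (⟨y, hy⟩ ^ 2 ^ (n + 1)) = 1 := by rw [← hπρ, map_pow, h1, map_one]
      exact (Sr.rho_eq_one_iff _).1 h2
    set πB : B →* G ⧸ pPrimePCore 2 G := (QuotientGroup.mk' _).comp B.subtype
    have hπB : Function.Surjective πB := fun z => by
      obtain ⟨g, rfl⟩ := QuotientGroup.mk'_surjective _ z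
      obtain ⟨b, hb, hbg⟩ := hsurj g
      exact ⟨⟨b, hb⟩, QuotientGroup.eq.2 hbg⟩
    have hker : πB.ker ≤ π.ker := by
      have h1 : (πB.ker.map π).Normal := Normal.map inferInstance _ hπ
      have h2 : πB.ker.map π ≤ pCore 2 G' := le_pCore (by
        rintro ⟨_, d, hd, rfl⟩
        obtain ⟨l, hl⟩ := FT.pSec_pPrimePCore _ ((QuotientGroup.eq_one_iff _).1 hd)
        refine ⟨l, Subtype.ext (hρ' ?_)⟩
        rw [SubmonoidClass.coe_pow, ← map_pow, hπρ, OneMemClass.coe_one, map_one,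
          Sr.rho_eq_one_iff]
        intro a ha
        have h3 : ⁅B.subtype (d ^ 2 ^ l), a⁆ ∈ S ⊓ pPrimeCore 2 G :=
          ⟨Sr.commutator_mem _ ha, commutator_le_left _ _
            (commutator_mem_commutator hl (mem_top a))⟩
        rw [disjoint_iff.1 (disjoint_of_coprime_natCard
          (Cop.coprime_card_of_isPGroup (pPrimeCore_coprime 2) hS).symm), mem_bot] at h3
        rw [h3]; exact one_mem _)
      rwa [h0', le_bot_iff, Subgroup.map_eq_bot_iff] at h2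
    set φ' := (πB.liftOfSurjective hπB ⟨π, hker⟩).comp (QuotientGroup.mk' (pPrimePCore 2 G))
    have hφ' : ∀ b : B, φ' b = π b := fun b =>
      πB.liftOfRightInverse_comp_apply _ (Function.rightInverse_surjInv hπB) ⟨π, hker⟩ b
    refine hmin (φ.prod φ').ker ⟨Y × G', inferInstance, inferInstance, _, rfl,
      pLengthLE_of_subdirect (MonoidHom.fst _ _) (MonoidHom.snd _ _) (by
        rw [eq_bot_iff]; rintro ⟨a, b⟩ ⟨ha, hb⟩; exact Prod.ext ha hb) hY hG'⟩ ?_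
    rw [MonoidHom.ker_prod]
    refine lt_of_le_of_ne inf_le_left fun h => ?_
    have h1 : A ≤ φ'.ker := hAL.trans (sup_le (h.ge.trans inf_le_right) fun g hg => by
      rw [MonoidHom.mem_ker, MonoidHom.comp_apply,
        show QuotientGroup.mk' _ g = 1 from (QuotientGroup.eq_one_iff _).2 hg, map_one])
    refine hne (eq_bot_of_le_commutator_of_isNilpotent hS.isNilpotent le_rfl (hSA.ge.trans ?_))
    rw [commutator_comm, commutator_le]
    intro a ha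
    have h2 : σ ⟨a, hAB ha⟩ = 1 := by rw [← hπρ, ← hφ', show φ' a = 1 from h1 ha, map_one]
    exact (Sr.rho_eq_one_iff _).1 h2

theorem pLengthLE_two_of_pExp {G : Type w} [Group G] [Finite G] (hs : Group.IsSolvable G) {e : ℕ}
    (h : PExp 2 e G) : PLengthLE 2 e G := by
  rcases e with _ | e
  · exact pLengthLE_zero_iff.2 (coprime_of_pExp_zero h)
  refine pLengthLE_of_quotient_coprime _ (pPrimeCore_coprime 2) ?_
  have h₁ := h.of_surjective _ (QuotientGroup.mk'_surjective (pPrimeCore 2 G))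
  refine pLengthLE_succ_of_quotient_isPGroup _ (pCore_isPGroup 2) ?_
  obtain ⟨W, _, _, _, ρ, ι, hρ, Sr⟩ := exists_coreRep (p := 2) (G := G ⧸ pPrimeCore 2 G)
    (isPSolvable_of_isSolvable inferInstance) (pPrimeCore_quotient_pPrimeCore 2)
  refine pLengthLE_of_exc e hρ inferInstance (pCore_quotient_pCore 2) fun y ⟨l, hl⟩ => ?_
  obtain ⟨x, rfl⟩ := QuotientGroup.mk'_surjective _ y
  rw [← geom_eq_sub_one_pow (AlgebraicClosure (ZMod 2))]
  refine (Sr.geom_eq_zero_iff x _).2 fun a ha => ?_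
  have key : ∀ z : G ⧸ pPrimeCore 2 G, QuotientGroup.mk' (pCore 2 _) z = QuotientGroup.mk' _ x →
      z ^ 2 ^ (e + 1) = 1 := fun z hz => by
    obtain ⟨m, hm⟩ := exists_pow_eq_one_of_pow_mem_pCore (x := z) (k := l) (by
      rw [← QuotientGroup.eq_one_iff]
      change QuotientGroup.mk' _ (z ^ 2 ^ l) = 1
      rw [map_pow, hz, hl])
    exact h₁ z m hm
  rw [MonoidHom.id_apply, key x rfl, key (a * x) (by
    rw [map_mul, show QuotientGroup.mk' _ a = 1 from (QuotientGroup.eq_one_iff _).2 ha, one_mul])]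
  simp

end CfsgLib.H6Refl
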