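import Cfsg.Agent.Lib.H2DerA
import Cfsg.Agent.Lib.H6TwoLen
import Cfsg.Agent.Lib.H5DerLen
import Cfsg.Agent.Lib.Regular

/-! # The `2`-length is bounded by the derived length of a Sylow `2`-subgroup -/

set_option autoImplicit false
set_option linter.unusedSectionVars false

namespace CfsgLib.H2Der

open Module Subgroup CfsgLib CfsgLib.H9 CfsgLib.Fpf CfsgLib.H6Refl Cfsg
open scoped commutatorElement

universe u v w

section vs
variable {k : Type u} [Field k] {V : Type v} [AddCommGroup V] [Module k V]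
variable {G : Type w} [Group G] [Finite G]

/-- the series `V_0 = V`, `V_{i+1} = [V_i, T^{(i)}]` -/
def Vs (ρ : G →* Module.End k V) (T : Subgroup G) : ℕ → Submodule k V
  | 0 => ⊤
  | i + 1 => Submodule.span k {w | ∃ t ∈ dser T i, ∃ v ∈ Vs ρ T i, ρ t v - v = w}

variable {ρ : G →* Module.End k V} {T : Subgroup G}

theorem sub_mem_succ {i : ℕ} {t : G} (ht : t ∈ dser T i) {v : V} (hv : v ∈ Vs ρ T i) :
    ρ t v - v ∈ Vs ρ T (i + 1) := Submodule.subset_span ⟨t, ht, v, hv, rfl⟩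

/-- elements acting trivially modulo `W` -/
def modSub (ρ : G →* Module.End k V) (W : Submodule k V) : Subgroup G where
  carrier := {g | ∀ v, ρ g v - v ∈ W}
  one_mem' := by intro v; simp
  mul_mem' := by
    intro a b ha hb v
    have := add_mem (ha (ρ b v)) (hb v)
    rwa [sub_add_sub_cancel, ← rho_mul_apply] at this
  inv_mem' := by
    intro a ha v
    have := neg_mem (ha (ρ a⁻¹ v))
    rwa [rho_apply_inv_apply, neg_sub] at this

theorem sub_mem_Vs (i : ℕ) : ∀ t ∈ dser T i, ∀ v, ρ t v - v ∈ Vs ρ T i := by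
  induction i with
  | zero => intro t _ v; exact Submodule.mem_top
  | succ i ih =>
    refine (commutator_le.2 fun x hx y hy v => ?_ : ⁅dser T i, dser T i⁆ ≤ modSub ρ _)
    set v' := ρ (y * x)⁻¹ v with hv'
    have h1 := sub_mem (sub_mem_succ hx (ih y hy v')) (sub_mem_succ hy (ih x hx v'))
    have h2 : v = ρ y (ρ x v') := by rw [← rho_mul_apply, hv', rho_apply_inv_apply]
    have h3 : ρ ⁅x, y⁆ v = ρ x (ρ y v') := by
      rw [hv', ← rho_mul_apply, ← rho_mul_apply, commutatorElement_def]; congr 2; group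
    rw [h3]
    convert h1 using 1
    rw [h2]
    simp only [map_sub, ← hv']
    abel

theorem dser_succ_le (i : ℕ) : dser T (i + 1) ≤ dser T i := commutator_le.2 fun x hx y hy =>
  mul_mem (mul_mem (mul_mem hx hy) (inv_mem hx)) (inv_mem hy)

theorem dser_anti {i j : ℕ} (h : i ≤ j) : dser T j ≤ dser T i := by
  induction h with
  | refl => exact le_rfl
  | step _ ih => exact (dser_succ_le _).trans ih

theorem exists_proj (hT : IsPGroup 2 T) {U : Submodule k V} {e : Module.End k V}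
    (he0 : ∀ y ∈ T, y ∉ stabSub ρ U → ∀ v ∈ U, e (ρ y v) = 0) (i : ℕ)
    (hi : ∀ j, j < i → ¬ dser T j ≤ stabSub ρ U) {u : V} (hu : u ∈ U) :
    ∃ v ∈ Vs ρ T i, ∀ y ∈ dser T i, e (ρ y v) = e (ρ y u) := by
  induction i with
  | zero => exact ⟨u, Submodule.mem_top, fun _ _ => rfl⟩
  | succ i ih =>
    obtain ⟨v, hv, h⟩ := ih fun j hj => hi j (by omega)
    have hlt : dser T i ⊓ stabSub ρ U < dser T i :=
      lt_of_le_of_ne inf_le_left fun h => hi i (by omega) (h.ge.trans inf_le_right)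
    obtain ⟨n, hn, hn'⟩ := SetLike.exists_of_lt
      (Regular.sup_commutator_lt (hT.to_le (dser_le T i)) hlt)
    refine ⟨-(ρ n v - v), neg_mem (sub_mem_succ hn hv), fun y hy => ?_⟩
    have hy' := dser_succ_le i hy
    have h1 : y * n ∉ stabSub ρ U := fun h => hn' (by
      have := mul_mem (inv_mem (mem_sup_right hy : y ∈ dser T i ⊓ stabSub ρ U ⊔ _))
        (mem_sup_left ⟨mul_mem hy' hn, h⟩)
      rwa [inv_mul_cancel_left] at this)
    rw [neg_sub, map_sub, map_sub, ← rho_mul_apply, h _ (mul_mem hy' hn), h y hy',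
      he0 _ (dser_le T i (mul_mem hy' hn)) h1 u hu, sub_zero]

theorem fix_of_not_le (hT : IsPGroup 2 T) {U : Submodule k V} {e : Module.End k V}
    (he1 : ∀ v ∈ U, e v = v) (he0 : ∀ y ∈ T, y ∉ stabSub ρ U → ∀ v ∈ U, e (ρ y v) = 0) {n : ℕ}
    (h0 : Vs ρ T (n + 2) = ⊥) (hn : ¬ dser T n ≤ stabSub ρ U) :
    dser T (n + 1) ≤ fixSub ρ U := by
  have key : ∀ x ∈ dser T (n + 1), ∀ u ∈ U, e (ρ x u) = u := fun x hx u hu => by
    obtain ⟨v, hv, h⟩ := exists_proj hT he0 (n + 1)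
      (fun j hj h => hn ((dser_anti (by omega)).trans h)) hu
    have h1 : ρ x v - v = 0 := (Submodule.mem_bot k).1 (h0 ▸ sub_mem_succ hx hv)
    have h2 := h 1 (one_mem _)
    simp only [map_one, Module.End.one_apply] at h2
    rw [← h x hx, sub_eq_zero.1 h1, h2, he1 u hu]
  intro x hx u hu
  by_cases hs : x ∈ stabSub ρ U
  · rw [← he1 _ (hs u hu), key x hx u hu]
  · rw [← key x hx u hu, he0 x (dser_le T _ hx) hs u hu, map_zero]

theorem dser_le_stab (hT : IsPGroup 2 T) {U : Submodule k V} {e : Module.End k V}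
    (he1 : ∀ v ∈ U, e v = v) (he0 : ∀ y ∈ T, y ∉ stabSub ρ U → ∀ v ∈ U, e (ρ y v) = 0) {n : ℕ}
    (h0 : Vs ρ T (n + 2) = ⊥) : dser T (n + 1) ≤ stabSub ρ U := by
  by_cases hn : dser T n ≤ stabSub ρ U
  · exact (dser_succ_le n).trans hn
  · intro x hx u hu
    rw [fix_of_not_le hT he1 he0 h0 hn hx u hu]; exact hu

theorem quad_of_not_le (hT : IsPGroup 2 T) {U : Submodule k V} {e : Module.End k V}
    (he1 : ∀ v ∈ U, e v = v) (he0 : ∀ y ∈ T, y ∉ stabSub ρ U → ∀ v ∈ U, e (ρ y v) = 0) {n : ℕ}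
    (h0 : Vs ρ T (n + 2) = ⊥) (hn : dser T n ≤ stabSub ρ U)
    (hi : ∀ j, j < n → ¬ dser T j ≤ stabSub ρ U) {x y : G} (hx : x ∈ dser T (n + 1))
    (hy : y ∈ dser T n) {u : V} (hu : u ∈ U) : ρ x (ρ y u - u) - (ρ y u - u) = 0 := by
  obtain ⟨v, hv, h⟩ := exists_proj hT he0 n hi hu
  have h1 : ρ x (ρ y v - v) - (ρ y v - v) = 0 :=
    (Submodule.mem_bot k).1 (h0 ▸ sub_mem_succ hx (sub_mem_succ hy hv))
  have hx' := dser_succ_le n hx
  have h2 := congrArg e h1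
  have h3 := h 1 (one_mem _)
  simp only [map_one, Module.End.one_apply] at h3
  rw [map_sub, map_sub, map_sub, map_sub, ← rho_mul_apply, h _ (mul_mem hx' hy), h _ hx', h _ hy,
    h3, he1 _ (hn (mul_mem hx' hy) u hu), he1 _ (hn hx' u hu), he1 _ (hn hy u hu), he1 _ hu,
    map_zero] at h2
  rw [map_sub, ← rho_mul_apply, h2]

theorem cubic {n : ℕ} (h0 : Vs ρ T (n + 2) = ⊥) {x y z : G} (hx : x ∈ dser T (n + 1))
    (hy : y ∈ dser T n) (hz : z ∈ dser T n) (v : V) :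
    ρ x (ρ y (ρ z v - v) - (ρ z v - v)) - (ρ y (ρ z v - v) - (ρ z v - v)) = 0 :=
  (Submodule.mem_bot k).1 (h0 ▸ sub_mem_succ hx (sub_mem_succ hy (sub_mem_Vs n z hz v)))

theorem Vs_map {G' : Type*} [Group G'] [Finite G'] {ρ' : G' →* Module.End k V} {π : G →* G'}
    (h : ∀ g, ρ' (π g) = ρ g) (i : ℕ) : Vs ρ' (T.map π) i = Vs ρ T i := by
  induction i with
  | zero => rfl
  | succ i ih =>
    simp only [Vs, ih, ← map_dser]
    congr 1
    ext w
    constructor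
    · rintro ⟨_, ⟨t, ht, rfl⟩, v, hv, rfl⟩
      exact ⟨t, ht, v, hv, by rw [h]⟩
    · rintro ⟨t, ht, v, hv, rfl⟩
      exact ⟨π t, ⟨t, ht, rfl⟩, v, hv, by rw [h]⟩

theorem Vs_le_span {ℓ : ℕ} {X : Type*} [Group X] [Finite X] {j : G →* X} {M N : Subgroup X}
    {ι : X → V} (S : SecRep ℓ j M N ρ ι) {T' : Subgroup X} (hM : M ≤ T') (hT : T.map j ≤ T')
    (i : ℕ) : Vs ρ T i ≤ Submodule.span k (ι '' (M ⊓ dser T' i : Subgroup X)) := by
  induction i with
  | zero =>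
    rw [show dser T' 0 = T' from rfl, inf_eq_left.2 hM, S.span]; exact le_top
  | succ i ih =>
    rw [Vs, Submodule.span_le]
    rintro _ ⟨t, ht, v, hv, rfl⟩
    have ht' : j t ∈ dser T' i := dser_mono hT i (map_dser j T i ▸ mem_map_of_mem j ht)
    have := (Submodule.span_le (p := (Submodule.span k
        (ι '' (M ⊓ dser T' (i + 1) : Subgroup X))).comap (ρ t - 1))).2 (by
      rintro _ ⟨a, ha, rfl⟩
      refine Submodule.subset_span ⟨⁅j t, a⁆, ⟨S.commutator_mem _ ha.1,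
        commutator_mem_commutator ht' ha.2⟩, S.map_commutator _ ha.1⟩) (ih hv)
    exact this

theorem Vs_succ_eq_bot {ℓ : ℕ} {X : Type*} [Group X] [Finite X] {j : G →* X} {M N : Subgroup X}
    {ι : X → V} (S : SecRep ℓ j M N ρ ι) {T' : Subgroup X} (hM : M ≤ T') (hT : T.map j ≤ T')
    {i : ℕ} (h : ∀ t ∈ dser T' i, ∀ a ∈ M ⊓ dser T' i, ⁅t, a⁆ ∈ N) : Vs ρ T (i + 1) = ⊥ := by
  rw [Vs, eq_bot_iff, Submodule.span_le]
  rintro _ ⟨t, ht, v, hv, rfl⟩
  have ht' : j t ∈ dser T' i := dser_mono hT i (map_dser j T i ▸ mem_map_of_mem j ht)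
  have := (Submodule.span_le (p := LinearMap.ker (ρ t - 1))).2 (by
    rintro _ ⟨a, ha, rfl⟩
    change ρ t (ι a) - ι a = 0
    rw [← S.map_commutator _ ha.1, S.eq_zero_iff _ (S.commutator_mem _ ha.1)]
    exact h _ ht' a ha) (Vs_le_span S hM hT i hv)
  exact this

end vs

section loc
variable {k : Type u} [Field k] {V : Type v} [AddCommGroup V] [Module k V]
variable {G : Type w} [Group G] [Finite G] {ρ : G →* Module.End k V} {Q R : Subgroup G}
  {ψ : G → k} {U : Submodule k V}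
  {F : Type*} [Field F] {W : Type*} [AddCommGroup W] [Module F W]

theorem fix_of_fix (P : Pack ρ Q R ψ U) (hQ2 : (Nat.card Q).Coprime 2) (hs : Group.IsSolvable Q)
    {Γ : Subgroup G} (hΓ : IsPGroup 2 Γ) (hΓQ : Γ ≤ normalizer (Q : Set G))
    (hΓU : Γ ≤ stabSub ρ U) {q : ℕ} {σ : Γ →* Module.End F W} {ι : G → W}
    (S : SecRep q Γ.subtype Q R σ ι) {U' : Submodule k V} (h1 : U' ≤ U) (h2 : U' ≠ ⊥)
    (Xs : Set Γ) (hinv : ∀ g ∈ Q, (∀ x ∈ Xs, Commute g x) → ∀ v ∈ U', ρ g v ∈ U') {y : Γ}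
    (hy : ∀ v ∈ U', ρ y v = v) (hc : ∀ x ∈ Xs, Commute (σ x) (σ y)) {g : G} (hg : g ∈ Q)
    (hx : ∀ x ∈ Xs, σ x (ι g) = ι g) : σ y (ι g) = ι g := by
  set X := (closure Xs).map Γ.subtype with hX
  have hXΓ : X ≤ Γ := map_subtype_le _
  have hcop : ∀ E : Subgroup G, E ≤ Q → (Nat.card X).Coprime (Nat.card E) := fun E hE =>
    (Cop.coprime_card_of_isPGroup (hQ2.coprime_dvd_left (card_dvd_of_le hE)) (hΓ.to_le hXΓ)).symm
  have PX := fix_pack P (hXΓ.trans hΓQ) (hXΓ.trans hΓU) (hcop Q le_rfl) hs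
  have hmem : ∀ m ∈ Q, (∀ x ∈ Xs, σ x (ι m) = ι m) → m ∈ Q ⊓ centralizer (X : Set G) ⊔ R := by
    intro m hm h
    rw [mem_fix_iff (pack_le_normalizer P (hXΓ.trans hΓQ) (hXΓ.trans hΓU)) P.le
      (pack_le_normalizer P le_normalizer (pack_le_stab P)) (hcop R P.le)
      (isSolvable_of_le hs P.le) hm]
    rintro _ ⟨b, hb, rfl⟩
    rw [← S.eq_zero_iff _ (S.commutator_mem _ hm), S.map_commutator _ hm, sub_eq_zero]
    clear hm
    induction hb using closure_induction with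
    | mem x hx => exact h x hx
    | one => simp
    | mul a b _ _ ha hb => rw [rho_mul_apply, hb, ha]
    | inv a _ ha =>
      conv_lhs => rw [← ha]
      exact rho_inv_apply_apply σ a _
  have hinv' : ∀ m ∈ Q ⊓ centralizer (X : Set G) ⊔ R, ∀ v ∈ U', ρ m v ∈ U' := by
    refine (sup_le (fun m hm => ?_) (fun r hr v hv => ?_) : _ ≤ stabSub ρ U')
    · exact hinv m hm.1 fun x hx => (hm.2 x ⟨x, subset_closure hx, rfl⟩).symm
    · rw [P.scal r hr v (h1 hv)]; exact U'.smul_mem _ hv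
  have PW := PX.mono h1 h2 hinv'
  have hg1 := hmem g hg hx
  have hg2 := hmem _ (S.conj_mem y hg) fun x hx' => by
    rw [S.conj y g hg, ← Module.End.mul_apply, (hc x hx').eq, Module.End.mul_apply, hx x hx']
  have h3 : ⁅Γ.subtype y, g⁆ ∈ R := PW.mem_of_scalar (mul_mem hg2 (inv_mem hg1)) 1 fun v hv => by
    have h4 : ∀ v ∈ U', ρ (y : G)⁻¹ v = v := (inv_mem (show (y : G) ∈ fixSub ρ U' from hy) :)
    have h5 := hinv' _ (inv_mem hg1) v hv
    rw [one_smul, commutatorElement_def, rho_mul_apply, rho_mul_apply, rho_mul_apply,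
      Subgroup.coe_subtype, h4 _ h5, rho_apply_inv_apply, hy v hv]
  rwa [← S.eq_zero_iff _ (S.commutator_mem _ hg), S.map_commutator _ hg, sub_eq_zero] at h3

theorem loc_of_pack [CharP k 2] (P : Pack ρ Q R ψ U) (hQ2 : (Nat.card Q).Coprime 2)
    (hs : Group.IsSolvable Q) {Γ : Subgroup G} (hΓ : IsPGroup 2 Γ)
    (hΓQ : Γ ≤ normalizer (Q : Set G)) (hΓU : Γ ≤ stabSub ρ U) {q : ℕ}
    {σ : Γ →* Module.End F W} {ι : G → W} (S : SecRep q Γ.subtype Q R σ ι) (h2 : (2 : F) ≠ 0)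
    (hker : ∀ y : Γ, σ y = 1 → ∀ v ∈ U, ρ y v = v) :
    Loc (restrictRep ρ Γ U fun _ hg => hΓU hg) σ := by
  set τ := restrictRep ρ Γ U fun _ hg => hΓU hg with hτ
  have hτv : ∀ (x : Γ) (v : U), (τ x v : V) = ρ x v := fun _ _ => rfl
  have hadd : ∀ (x : Γ), ∀ g ∈ Q, ∃ g' ∈ Q, ι g' = (1 + σ x) (ι g) := fun x g hg =>
    ⟨_, mul_mem hg (S.conj_mem x hg), by
      rw [S.map_mul _ hg _ (S.conj_mem x hg), S.conj x g hg]; rfl⟩
  have hne : ∀ N : Module.End k U, N ≠ 0 → (LinearMap.range N).map U.subtype ≠ ⊥ := fun N hN h =>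
    hN (LinearMap.ext fun u => Subtype.ext ((Submodule.mem_bot k).1
      (h ▸ Submodule.mem_map_of_mem (f := U.subtype) (LinearMap.mem_range_self N u))))
  have hfix : ∀ (N : Module.End k U) (y : Γ), (τ y - 1) * N = 0 →
      ∀ v ∈ (LinearMap.range N).map U.subtype, ρ y v = v := by
    rintro N y h _ ⟨_, ⟨u, rfl⟩, rfl⟩
    have := congrArg (fun f : Module.End k U => (f u : V)) h
    simpa [sub_eq_zero, hτv] using this
  refine ⟨fun x => ?_, fun x hx => ?_, fun y => ⟨fun h => ?_, fun h => ?_⟩,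
    fun x y h1 h3 h4 h5 => ?_, fun x₁ x₂ y h1 h3 h4 h5 h6 h7 h8 => ?_⟩
  · rw [← two_smul k, show (2 : k) = 0 from CharP.cast_eq_zero k 2, zero_smul]
  · rw [← two_smul F] at hx
    exact (smul_eq_zero.1 hx).resolve_left h2
  · ext v; exact hker y h v v.2
  · refine S.ext fun g hg => fix_of_fix P hQ2 hs hΓ hΓQ hΓU S le_rfl P.ne ∅
      (fun g hg _ => P.inv g hg) (fun v hv => ?_) (by simp) hg (by simp)
    rw [← hτv y ⟨v, hv⟩, h]; rfl
  · refine S.ext fun g hg => ?_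
    obtain ⟨g', hg', e⟩ := hadd x g hg
    have := fix_of_fix P hQ2 hs hΓ hΓQ hΓU S (Submodule.map_subtype_le _ _)
      (hne _ (sub_ne_zero.2 h1)) {x} (by
        rintro m hm hc _ ⟨_, ⟨u, rfl⟩, rfl⟩
        refine ⟨_, ⟨⟨ρ m u, P.inv m hm u u.2⟩, rfl⟩, ?_⟩
        simp only [Submodule.coe_subtype, LinearMap.sub_apply, Module.End.one_apply,
          Submodule.coe_sub, hτv, map_sub, ← rho_mul_apply, (hc x rfl).eq])
      (hfix _ y h3) (by rintro _ rfl; exact h5) hg' (by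
        rintro _ rfl
        rw [e, ← Module.End.mul_apply, mul_add, mul_one, h4, add_comm])
    rw [Module.End.mul_apply, ← e, LinearMap.sub_apply, this]; simp
  · refine S.ext fun g hg => ?_
    obtain ⟨g', hg', e⟩ := hadd x₂ g hg
    obtain ⟨g'', hg'', e'⟩ := hadd x₁ g' hg'
    rw [e, ← Module.End.mul_apply] at e'
    have := fix_of_fix P hQ2 hs hΓ hΓQ hΓU S (Submodule.map_subtype_le _ _)
      (hne _ h1) {x₁, x₂} (by
        rintro m hm hc _ ⟨_, ⟨u, rfl⟩, rfl⟩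
        refine ⟨_, ⟨⟨ρ m u, P.inv m hm u u.2⟩, rfl⟩, ?_⟩
        have c1 : ∀ v, ρ m (ρ x₁ v) = ρ x₁ (ρ m v) := fun v => by
          rw [← rho_mul_apply, ← rho_mul_apply, (hc x₁ (by simp)).eq]
        have c2 : ∀ v, ρ m (ρ x₂ v) = ρ x₂ (ρ m v) := fun v => by
          rw [← rho_mul_apply, ← rho_mul_apply, (hc x₂ (by simp)).eq]
        simp only [Submodule.coe_subtype, LinearMap.sub_apply, Module.End.one_apply,
          Module.End.mul_apply, Submodule.coe_sub, hτv, map_sub, c1, c2])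
      (hfix _ y h3) (by rintro _ (rfl | rfl); exacts [h7, h8]) hg'' (by
        rintro _ (rfl | rfl)
        · rw [e', ← Module.End.mul_apply, ← mul_assoc, mul_add (σ _), mul_one, h4,
            add_comm (σ _)]
        · rw [e', ← Module.End.mul_apply, ← mul_assoc, ((Commute.one_right _).add_right h6.symm).eq,
            mul_assoc, mul_add (σ _), mul_one, h5, add_comm (σ _)])
    rw [Module.End.mul_apply, ← e', LinearMap.sub_apply, this]; simp

theorem mem_comm_subgroupOf {Γ L : Subgroup G} (h : L ≤ Γ) (x : Γ) :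
    x ∈ ⁅L.subgroupOf Γ, L.subgroupOf Γ⁆ ↔ (x : G) ∈ ⁅L, L⁆ := by
  conv_rhs => rw [← map_subgroupOf_eq_of_le h, ← map_commutator]
  exact (mem_map_iff_mem Subtype.val_injective).symm

theorem loc_false [CharP k 2] (P : Pack ρ Q R ψ U) {q : ℕ} [hq : Fact q.Prime] (hq2 : q ≠ 2)
    (hQ : IsPGroup q Q) (hpow : ∀ g ∈ Q, g ^ q ∈ R) {e : Module.End k V} (he1 : ∀ v ∈ U, e v = v)
    {T S : Subgroup G} (he0 : ∀ y ∈ T, y ∉ stabSub ρ U → ∀ v ∈ U, e (ρ y v) = 0)
    (hT : IsPGroup 2 T) (hTQ : T ≤ normalizer (Q : Set G)) (hST : S ≤ T)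
    (hTS : T ≤ normalizer (S : Set G)) (hSU : S ≤ stabSub ρ U)
    (hZ2 : ∀ a ∈ ⁅S, S⁆, a ^ 2 = 1) (hΦ : ∀ s ∈ S, s ^ 2 ∈ ⁅S, S⁆) {n : ℕ}
    (h0 : Vs ρ T (n + 2) = ⊥) {t b : G} (ht : t ∈ dser T n) (hb : b ∈ S ⊓ dser T n) :
    ⁅t, b⁆ ∈ S ⊓ CommCalc.relCent R Q ⊔ ⁅S, S⁆ := by
  by_contra hK
  have hQ2 : (Nat.card Q).Coprime 2 := coprime_card_of_isPGroup_of_ne hq.out Nat.prime_two hq2 hQ
  have hs := isSolvable_of_isPGroup hQ
  set Γ := T ⊓ stabSub ρ U with hΓd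
  have hΓ : IsPGroup 2 Γ := hT.to_inf_left
  have hΓQ : Γ ≤ normalizer (Q : Set G) := inf_le_left.trans hTQ
  have hΓR := pack_le_normalizer P hΓQ inf_le_right
  have hSΓ : S ≤ Γ := le_inf hST hSU
  have haS : ⁅t, b⁆ ∈ S := by
    rw [commutatorElement_def]
    exact mul_mem (conj_mem_of_mem_normalizer (hTS (dser_le T n ht)) hb.1) (inv_mem hb.1)
  have haZ : ⁅t, b⁆ ∈ dser T (n + 1) := commutator_mem_commutator ht hb.2
  set D := Γ ⊓ CommCalc.relCent R Q with hD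
  have hΓD : Γ ≤ normalizer (D : Set G) :=
    (le_inf le_normalizer (le_normalizer_relCent hΓR hΓQ)).trans inf_normalizer_le_normalizer_inf
  have hDQ : ⁅Q, D⁆ ≤ fixSub ρ U := by
    rw [← Cop.commutator_commutator_eq (inf_le_left.trans hΓQ)
      (Cop.coprime_card_of_isPGroup hQ2 hΓ.to_inf_left).symm]
    exact ((commutator_mono ((le_relCent_iff (inf_le_left.trans hΓR)).1 inf_le_right) le_rfl).trans
      (pack_commutator_le_ker P (inf_le_left.trans hΓQ) (inf_le_left.trans inf_le_right))).trans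
      inf_le_right
  let U₀ : Submodule k V :=
    { carrier := {v | v ∈ U ∧ ∀ d ∈ D, ρ d v = v}
      zero_mem' := ⟨zero_mem _, fun _ _ => map_zero _⟩
      add_mem' := fun ha hb => ⟨add_mem ha.1 hb.1, fun d hd => by rw [map_add, ha.2 d hd, hb.2 d hd]⟩
      smul_mem' := fun c v hv => ⟨U.smul_mem c hv.1, fun d hd => by rw [map_smul, hv.2 d hd]⟩ }
  have hU₀ : U₀ ≤ U := fun v hv => hv.1
  have hne : U₀ ≠ ⊥ := by
    have : Nontrivial U := Submodule.nontrivial_iff_ne_bot.2 P.ne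
    obtain ⟨v, hv, h⟩ := H5.exists_fixed_of_charP (hΓ.to_inf_left (K := CommCalc.relCent R Q))
      (restrictRep ρ D U fun g hg => hg.1.2)
    intro h'
    have : (v : V) ∈ U₀ := ⟨v.2, fun d hd => congrArg Subtype.val (h ⟨d, hd⟩)⟩
    rw [h', Submodule.mem_bot] at this
    exact hv (Subtype.ext this)
  have P₀ : Pack ρ Q R ψ U₀ := P.mono hU₀ hne fun g hg v hv => ⟨P.inv g hg v hv.1, fun d hd => by
    have h1 := hDQ (commutator_mem_commutator (inv_mem hg) hd) v hv.1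
    have h2 : ρ d⁻¹ v = v := hv.2 _ (inv_mem hd)
    rw [commutatorElement_def, inv_inv, rho_mul_apply, h2, mul_assoc, rho_mul_apply] at h1
    rw [← rho_mul_apply, ← rho_apply_inv_apply ρ g (ρ (d * g) v), h1]⟩
  have hΓU : Γ ≤ stabSub ρ U₀ := fun g hg v hv => ⟨hg.2 v hv.1, fun d hd => by
    rw [← rho_mul_apply, show d * g = g * (g⁻¹ * d * g) by group, rho_mul_apply,
      hv.2 _ (conj_mem_of_mem_normalizer' (hΓD hg) hd)]⟩
  obtain ⟨W, _, _, _, σ, ι, Sr⟩ := exists_secRep q Γ.subtype Q R P.le (fun g => hΓQ g.2)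
    (fun g => hΓR g.2) (pack_commutator_le P) hpow
  have hF2 : (2 : AlgebraicClosure (ZMod q)) ≠ 0 := by
    have := natCast_ne_zero_of_coprime (AlgebraicClosure (ZMod q)) q
      ((Nat.coprime_primes Nat.prime_two hq.out).2 hq2.symm)
    exact_mod_cast this
  have hσD : ∀ y : Γ, σ y = 1 → (y : G) ∈ D := fun y h =>
    ⟨y.2, hΓR y.2, (Sr.rho_eq_one_iff y).1 h⟩
  have L := loc_of_pack P₀ hQ2 hs hΓ hΓQ hΓU Sr hF2 fun y h v hv => hv.2 _ (hσD y h)
  set τ := restrictRep ρ Γ U₀ fun _ hg => hΓU hg with hτ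
  have hτv : ∀ (x : Γ) (v : U₀), (τ x v : V) = ρ x v := fun _ _ => rfl
  have hK' : ∀ (h : ⁅t, b⁆ ∈ Γ), ∀ s : Γ, (s : G) ∈ ⁅S, S⁆ → σ (⟨_, h⟩ * s) ≠ 1 :=
    fun h s hs h1 => hK (by
      have h3 : ⁅t, b⁆ * (s : G) ∈ S ⊓ CommCalc.relCent R Q :=
        ⟨mul_mem haS (commutator_le_self S hs), (hσD _ h1).2⟩
      have h2 : _ ∈ S ⊓ CommCalc.relCent R Q ⊔ ⁅S, S⁆ :=
        mul_mem (mem_sup_left h3) (inv_mem (mem_sup_right hs))
      rwa [mul_inv_cancel_right] at h2)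
  have hn : dser T n ≤ stabSub ρ U := by
    by_contra hn
    refine hK' (hSΓ haS) 1 (one_mem _) ?_
    rw [mul_one, L.ker]
    ext v
    exact fix_of_not_le hT he1 he0 h0 hn haZ v v.2.1
  have hLΓ : dser T n ≤ Γ := le_inf (dser_le T n) hn
  refine L.false (S := S.subgroupOf Γ) (S' := (⁅S, S⁆ : Subgroup G).subgroupOf Γ)
    (Λ := (dser T n).subgroupOf Γ) (b := ⟨b, hLΓ hb.2⟩) (t := ⟨t, hLΓ ht⟩) hb.1 hb.2 ht
    (fun x hx y hy z hz => ?_) (fun s hs => ?_) (fun s hs => ?_) ?_ (fun s hs => hK' _ s hs)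
    (fun g => ?_) ?_
  · ext v
    have := cubic h0 ((mem_comm_subgroupOf hLΓ x).1 hx) hy hz v
    simp only [Module.End.mul_apply, LinearMap.sub_apply, Module.End.one_apply, Submodule.coe_sub,
      hτv, LinearMap.zero_apply, Submodule.coe_zero]
    exact this
  · have := hΦ s hs
    rw [sq] at this
    exact this
  · exact Subtype.ext ((sq (s : G)).symm.trans (hZ2 s hs))
  · exact fun x hx => (mem_comm_subgroupOf hSΓ x).1 hx
  · exact (mem_comm_subgroupOf hLΓ _).2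
      (conj_mem_of_mem_normalizer (le_normalizer_dser le_normalizer (n + 1) g.2.1) haZ)
  · by_cases hi : ∀ j, j < n → ¬ dser T j ≤ stabSub ρ U
    · left
      ext v
      have := quad_of_not_le hT he1 he0 h0 hn hi haZ hb.2 v.2.1
      simp only [Module.End.mul_apply, LinearMap.sub_apply, Module.End.one_apply,
        Submodule.coe_sub, hτv, LinearMap.zero_apply, Submodule.coe_zero]
      exact this
    · right
      push Not at hi
      obtain ⟨j, hj, h⟩ := hi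
      obtain ⟨m, rfl⟩ : ∃ m, n = m + 1 := ⟨n - 1, by omega⟩
      have hM : dser T m ≤ Γ := le_inf (dser_le T m) ((dser_anti (by omega)).trans h)
      exact ⟨(dser T m).subgroupOf Γ, (mem_comm_subgroupOf hM _).2 ht, fun g _ =>
        ⟨(conj_mem_of_mem_normalizer (hTS g.2.1) hb.1 : (g : G) * b * (g : G)⁻¹ ∈ S),
          (conj_mem_of_mem_normalizer (le_normalizer_dser le_normalizer (m + 1) g.2.1) hb.2 :
            (g : G) * b * (g : G)⁻¹ ∈ dser T (m + 1))⟩⟩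

end loc

end CfsgLib.H2Der
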