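import Cfsg.Agent.Lib.H2DerB

/-! # The `2`-length is bounded by the derived length of a Sylow `2`-subgroup (conclusion) -/

set_option autoImplicit false
set_option linter.unusedSectionVars false

namespace CfsgLib.H2Der

open Module Subgroup CfsgLib CfsgLib.H9 CfsgLib.Fpf CfsgLib.H6Refl Cfsg
open scoped commutatorElement

universe u v w

theorem comm_mem {k : Type u} [Field k] {V : Type v} [AddCommGroup V] [Module k V]
    {G : Type w} [Group G] [Finite G] {ρ : G →* Module.End k V}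
    [IsAlgClosed k] [FiniteDimensional k V] [CharP k 2]
    (hρ : Function.Injective ρ) (hs : Group.IsSolvable G) (h0 : pCore 2 G = ⊥) {n : ℕ}
    (hV : ∀ T : Subgroup G, IsPGroup 2 T → Vs ρ T (n + 2) = ⊥)
    {B S : Subgroup G} (hBS : B ≤ normalizer (S : Set G))
    (hZ2 : ∀ a ∈ ⁅S, S⁆, a ^ 2 = 1) (hΦ : ∀ s ∈ S, s ^ 2 ∈ ⁅S, S⁆)
    (hmin : ∀ U : Subgroup G, U < S → B ≤ normalizer (U : Set G) → U ≤ ⁅S, S⁆)
    {T : Subgroup G} (hT : IsPGroup 2 T) (hST : S ≤ T) (hTB : T ≤ B) {t b : G}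
    (ht : t ∈ dser T n) (hb : b ∈ S ⊓ dser T n) : ⁅t, b⁆ ∈ ⁅S, S⁆ := by
  by_contra hf
  have hS2 : IsPGroup 2 S := hT.to_le hST
  have hSB : S ≤ B := hST.trans hTB
  have haS : ⁅t, b⁆ ∈ S := by
    rw [commutatorElement_def]
    exact mul_mem (conj_mem_of_mem_normalizer (hBS (hTB (dser_le T n ht))) hb.1) (inv_mem hb.1)
  have hgen : ∀ K : Subgroup G, (∀ g ∈ B, g * ⁅t, b⁆ * g⁻¹ ∈ K) → S ≤ K := by
    intro K hK
    set A := closure {a | ∃ g ∈ B, g * ⁅t, b⁆ * g⁻¹ = a} with hA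
    have hAS : A ≤ S := (closure_le _).2 (by
      rintro _ ⟨g, hg, rfl⟩; exact conj_mem_of_mem_normalizer (hBS hg) haS)
    have hfA : ⁅t, b⁆ ∈ A := subset_closure ⟨1, one_mem _, by simp⟩
    have hBA : B ≤ normalizer (A : Set G) := fun c hc => mem_normalizer_of_map_conj_eq
      (eq_of_le_of_card_le (by
        rw [hA, MonoidHom.map_closure, closure_le]
        rintro _ ⟨_, ⟨g, hg, rfl⟩, rfl⟩
        exact subset_closure ⟨c * g, mul_mem hc hg, by simp [mul_assoc]⟩) (card_map_conj _ _).ge)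
    have hAe : A = S := by
      by_contra hne
      exact hf (hmin A (lt_of_le_of_ne hAS hne) hBA hfA)
    rw [← hAe, hA, closure_le]
    rintro _ ⟨g, hg, rfl⟩
    exact hK g hg
  obtain ⟨q, hq, hqA⟩ : ∃ q : ℕ, q.Prime ∧ ⁅pCore q G, S⁆ ≠ ⊥ := by
    by_contra hcon
    push Not at hcon
    have h1 : fittingSubgroup G ≤ centralizer (S : Set G) :=
      fitting_le_of_forall_pCore_le fun p hp =>
        commutator_eq_bot_iff_le_centralizer.1 (hcon p hp.out)
    have h2 : S ≤ pCore 2 G := le_pCore_of_le_fitting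
      ((le_centralizer_iff.1 h1).trans centralizer_fitting_le) hS2
    exact hf (mem_bot.1 (h0 ▸ h2 haS) ▸ one_mem _)
  have := Fact.mk hq
  have hq2 : q ≠ 2 := by
    rintro rfl
    exact hqA (by rw [h0]; simp)
  obtain ⟨Q, hQq, hBQ, hQA, hminQ⟩ := Cop.exists_minimal_action (B := B)
    (le_normalizer_of_normal (H := pCore q G)) hqA
  have hQ : IsPGroup q Q := (pCore_isPGroup q).to_le hQq
  obtain ⟨-, -, m3, m4, -, -, -⟩ := Cop.minimal_action hQ hBQ hSB hBS
    (coprime_card_of_isPGroup_of_ne Nat.prime_two hq hq2.symm hS2) hQA hminQ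
  have hQ2 : (Nat.card Q).Coprime 2 := coprime_card_of_isPGroup_of_ne hq Nat.prime_two hq2 hQ
  obtain ⟨R, ψ, U, e, Pk, he1, he0, hcR⟩ := exists_comp hρ (natCast_ne_zero_of_coprime k 2 hQ2) m4
    (hSB.trans hBQ) (Cop.coprime_card_of_isPGroup hQ2 hS2).symm hQA
  have hc : ∀ g ∈ B, T.map (MulAut.conj g).toMonoidHom ≤ B := by
    rintro g hg _ ⟨x, hx, rfl⟩
    exact mul_mem (mul_mem hg (hTB hx)) (inv_mem hg)
  have hd : ∀ g : G, ∀ m, ∀ x ∈ dser T m, g * x * g⁻¹ ∈ dser (T.map (MulAut.conj g).toMonoidHom) m :=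
    fun g m x hx => map_dser (MulAut.conj g).toMonoidHom T m ▸ mem_map_of_mem _ hx
  have hSU : S ≤ stabSub ρ U := hgen _ fun g hg =>
    dser_le_stab (hT.map _) he1 (fun y hy => he0 y (hBQ (hc g hg hy))) (hV _ (hT.map _))
      (hd g (n + 1) _ (commutator_mem_commutator ht hb.2))
  refine (Regular.sup_commutator_lt hS2 (K := S ⊓ CommCalc.relCent R Q)
    (lt_of_le_of_ne inf_le_left fun h => hcR hSU ((le_relCent_iff
      (pack_le_normalizer Pk (hSB.trans hBQ) hSU)).1 (h.ge.trans inf_le_right)))).not_ge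
    (hgen _ fun g hg => ?_)
  rw [conjugate_commutatorElement]
  refine loc_false Pk hq2 hQ
    (fun a ha => pack_commutator_le Pk (m3.le (Cop.pow_mem_frattini_map hQ ha))) he1
    (fun y hy => he0 y (hBQ (hc g hg hy))) (hT.map _) ((hc g hg).trans hBQ) (fun s hs => ?_)
    ((hc g hg).trans hBS) hSU hZ2 hΦ (hV _ (hT.map _)) (hd g n t ht)
    ⟨conj_mem_of_mem_normalizer (hBS hg) hb.1, hd g n b hb.2⟩
  exact ⟨g⁻¹ * s * g, hST (conj_mem_of_mem_normalizer' (hBS hg) hs), by simp [mul_assoc]⟩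

theorem pLengthLE_of_Vs (n : ℕ) : ∀ {G : Type w} [Group G] [Finite G] {V : Type w}
    [AddCommGroup V] [Module (AlgebraicClosure (ZMod 2)) V]
    [FiniteDimensional (AlgebraicClosure (ZMod 2)) V]
    {ρ : G →* Module.End (AlgebraicClosure (ZMod 2)) V}, Function.Injective ρ →
    Group.IsSolvable G → pCore 2 G = ⊥ →
    (∀ T : Subgroup G, IsPGroup 2 T → Vs ρ T (n + 1) = ⊥) → PLengthLE 2 n G := by
  induction n with
  | zero =>
    intro G _ _ V _ _ _ ρ hρ _ _ h
    refine pLengthLE_zero_iff.2 (coprime_of_pExp_zero fun x l hx => hρ ?_)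
    have h1 := h (zpowers x) (IsPGroup.of_card_dvd_pow
      (by rw [Nat.card_zpowers]; exact orderOf_dvd_of_pow_eq_one hx))
    rw [pow_zero, pow_one, map_one]
    ext v
    exact sub_eq_zero.1 ((Submodule.mem_bot _).1
      (h1 ▸ sub_mem_succ (i := 0) (mem_zpowers x) Submodule.mem_top))
  | succ n ih =>
    intro G _ _ V _ _ _ ρ hρ hs h0 hexc
    have := FT.pPrimePCore_normal' (p := 2) (G := G)
    obtain ⟨L, ⟨Y, _, _, φ, rfl, hY⟩, hmin⟩ := (wellFounded_lt (α := Subgroup G)).has_min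
      {L | ∃ (Y : Type w) (_ : Group Y) (_ : Finite Y) (φ : G →* Y), φ.ker = L ∧ PLengthLE 2 n Y}
      ⟨_, PUnit, inferInstance, inferInstance, 1, rfl, pLengthLE_of_coprime (by simp) n⟩
    refine pLengthLE_succ_of_ker_le φ ?_ hY
    by_contra hL
    obtain ⟨S, B, A, hS, hSB, hBS, hZ, hZ2, hΦ, hm, hne, hAB, hAL, hSA, hsurj⟩ :=
      exists_config_two hs hL
    have hS'S : ⁅S, S⁆ ≤ S := Cop.commutator_le_left_of_le_normalizer le_normalizer
    obtain ⟨W, _, _, _, σ, ι, Sr⟩ := exists_secRep 2 B.subtype S ⁅S, S⁆ hS'S (fun g => hBS g.2)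
      (fun g => Cop.le_normalizer_commutator hBS hBS g.2) le_rfl hΦ
    obtain ⟨G', _, _, π, ρ', hρ', hπ, hπρ⟩ := exists_faithful σ
    have hs' : Group.IsSolvable G' := Group.isSolvable_of_surjective hπ
    have h0' := pCore_eq_bot_of_secRep hS hBS hne hm Sr hρ' hπ hπρ
    have hG' : PLengthLE 2 n G' := by
      refine ih hρ' hs' h0' fun T' hT' => ?_
      obtain ⟨T₀, -, hT₀, rfl⟩ := exists_lift_isPGroup π (K := ⊤) (Q := T')
        (le_top.trans (Subgroup.map_top_of_surjective _ hπ).ge) hT'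
      rw [Vs_map hπρ]
      exact Vs_succ_eq_bot Sr (T' := S ⊔ T₀.map B.subtype) le_sup_left le_sup_right fun t ht a ha =>
        comm_mem hρ hs h0 hexc hBS hZ2 hΦ hm
          (IsPGroup.to_sup_of_normal_left' hS (hT₀.map _) ((map_subtype_le _).trans hBS))
          le_sup_left (sup_le hSB (map_subtype_le _)) ht ha
    set πB : B →* G ⧸ pPrimePCore 2 G := (QuotientGroup.mk' _).comp B.subtype
    have hπB : Function.Surjective πB := fun z => by
      obtain ⟨g, rfl⟩ := QuotientGroup.mk'_surjective _ z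
      obtain ⟨b, hb, hbg⟩ := hsurj g
      exact ⟨⟨b, hb⟩, QuotientGroup.eq.2 hbg⟩
    have hker : πB.ker ≤ π.ker := by
      have h1 : (πB.ker.map π).Normal := Normal.map inferInstance _ hπ
      have h2 : πB.ker.map π ≤ pCore 2 G' := le_pCore (by
        rintro ⟨_, d, hd, rfl⟩
        obtain ⟨l, hl⟩ := FT.pSec_pPrimePCore _ ((QuotientGroup.eq_one_iff _).1 hd)
        refine ⟨l, Subtype.ext (hρ' ?_)⟩
        rw [SubmonoidClass.coe_pow, ← map_pow, hπρ, OneMemClass.coe_one, map_one,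
          Sr.rho_eq_one_iff]
        intro a ha
        have h3 : ⁅B.subtype (d ^ 2 ^ l), a⁆ ∈ S ⊓ pPrimeCore 2 G :=
          ⟨Sr.commutator_mem _ ha, commutator_le_left _ _
            (commutator_mem_commutator hl (mem_top a))⟩
        rw [disjoint_iff.1 (disjoint_of_coprime_natCard
          (Cop.coprime_card_of_isPGroup (pPrimeCore_coprime 2) hS).symm), mem_bot] at h3
        rw [h3]; exact one_mem _)
      rwa [h0', le_bot_iff, Subgroup.map_eq_bot_iff] at h2
    set φ' := (πB.liftOfSurjective hπB ⟨π, hker⟩).comp (QuotientGroup.mk' (pPrimePCore 2 G))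
    have hφ' : ∀ b : B, φ' b = π b := fun b =>
      πB.liftOfRightInverse_comp_apply _ (Function.rightInverse_surjInv hπB) ⟨π, hker⟩ b
    refine hmin (φ.prod φ').ker ⟨Y × G', inferInstance, inferInstance, _, rfl,
      pLengthLE_of_subdirect (MonoidHom.fst _ _) (MonoidHom.snd _ _) (by
        rw [eq_bot_iff]; rintro ⟨a, b⟩ ⟨ha, hb⟩; exact Prod.ext ha hb) hY hG'⟩ ?_
    rw [MonoidHom.ker_prod]
    refine lt_of_le_of_ne inf_le_left fun h => ?_
    have h1 : A ≤ φ'.ker := hAL.trans (sup_le (h.ge.trans inf_le_right) fun g hg => by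
      rw [MonoidHom.mem_ker, MonoidHom.comp_apply,
        show QuotientGroup.mk' _ g = 1 from (QuotientGroup.eq_one_iff _).2 hg, map_one])
    refine hne (eq_bot_of_le_commutator_of_isNilpotent hS.isNilpotent le_rfl (hSA.ge.trans ?_))
    rw [commutator_comm, commutator_le]
    intro a ha
    have h2 : σ ⟨a, hAB ha⟩ = 1 := by rw [← hπρ, ← hφ', show φ' a = 1 from h1 ha, map_one]
    exact (Sr.rho_eq_one_iff _).1 h2

theorem pLengthLE_two_of_dser {G : Type w} [Group G] [Finite G] (hs : Group.IsSolvable G) {d : ℕ}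
    (h : ∀ T : Subgroup G, IsPGroup 2 T → dser T d = ⊥) : PLengthLE 2 d G := by
  rcases d with _ | e
  · refine pLengthLE_zero_iff.2 (coprime_of_pExp_zero fun x l hx => ?_)
    have h1 := h (zpowers x) (IsPGroup.of_card_dvd_pow
      (by rw [Nat.card_zpowers]; exact orderOf_dvd_of_pow_eq_one hx))
    rw [pow_zero, pow_one]
    exact mem_bot.1 (h1.le (mem_zpowers x))
  refine pLengthLE_of_quotient_coprime _ (pPrimeCore_coprime 2) ?_
  have h₁ : ∀ T : Subgroup (G ⧸ pPrimeCore 2 G), IsPGroup 2 T → dser T (e + 1) = ⊥ := fun T hT => by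
    obtain ⟨T₀, -, hT₀, rfl⟩ := exists_lift_isPGroup (QuotientGroup.mk' _) (K := ⊤) (Q := T)
      (le_top.trans (Subgroup.map_top_of_surjective _ (QuotientGroup.mk'_surjective _)).ge) hT
    rw [← map_dser, h T₀ hT₀, Subgroup.map_bot]
  refine pLengthLE_succ_of_quotient_isPGroup _ (pCore_isPGroup 2) ?_
  obtain ⟨W, _, _, _, ρ, ι, hρ, Sr⟩ := exists_coreRep (p := 2) (G := G ⧸ pPrimeCore 2 G)
    (isPSolvable_of_isSolvable inferInstance) (pPrimeCore_quotient_pPrimeCore 2)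
  refine pLengthLE_of_Vs e hρ inferInstance (pCore_quotient_pCore 2) fun T hT => ?_
  obtain ⟨T₀, -, hT₀, rfl⟩ := exists_lift_isPGroup (QuotientGroup.mk' _) (K := ⊤) (Q := T)
    (le_top.trans (Subgroup.map_top_of_surjective _ (QuotientGroup.mk'_surjective _)).ge) hT
  rw [Vs_map (ρ := ρ.comp (QuotientGroup.mk' _)) fun _ => rfl]
  refine Vs_succ_eq_bot Sr (T' := pCore 2 _ ⊔ T₀) le_sup_left (by rw [map_id]; exact le_sup_right)
    fun t ht a ha => ?_
  rw [mem_bot.1 ((h₁ _ ((pCore_isPGroup 2).to_sup_of_normal_left hT₀)).le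
    (commutator_mem_commutator ht ha.2))]
  exact one_mem _

end CfsgLib.H2Der
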