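import Mathlib
import Cfsg.Agent.Lib.H5CoverA
import Cfsg.Agent.Lib.Extraspecial

/-! A normal `p`-subgroup (`p` odd) acting coprimely on a finite abelian group has a vector whose
stabilizer lies in a smaller normal subgroup. -/

set_option autoImplicit false

namespace CfsgLib.H5.Cover

open Subgroup
open scoped commutatorElement Pointwise

theorem class_two {B : Type*} [Group B] [Finite B] {p : ℕ} [Fact p.Prime] (hp : p ≠ 2)
    (hB : IsPGroup p B)
    (hs : ∀ A : Subgroup B, A.Characteristic → IsMulCommutative A → IsCyclic A) (a b : B) :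
    ⁅a, b⁆ ∈ center B ∧ ⁅a, b⁆ ^ p = 1 := by
  obtain ⟨E, R, hR, hsup, hE, hc⟩ := PGrp.symplectic_type_structure hB hs
  have hc : IsCyclic R := hc.resolve_right fun h => hp h.1
  have hRc : R ≤ center B := by
    intro r hr
    rw [mem_center_iff]
    have : (⊤ : Subgroup B) ≤ centralizer {r} := by
      rw [← hsup]
      refine sup_le (fun e he => ?_) fun s hs => ?_
      · rw [mem_centralizer_singleton_iff]
        rw [hR] at hr
        exact hr e he
      · rw [mem_centralizer_singleton_iff]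
        have := hc.isMulCommutative
        exact setLike_mul_comm hs hr
    exact fun g => mem_centralizer_singleton_iff.1 (this (mem_top g))
  have hn : E ≤ normalizer (R : Set B) := fun e _ => by
    haveI : R.Normal := ⟨fun r hr g => by
      rw [mem_center_iff.1 (hRc hr) g]; simpa using hr⟩
    exact le_normalizer_of_normal (mem_top e)
  have hdec : ∀ g : B, ∃ e ∈ E, ∃ r ∈ R, e * r = g := fun g =>
    (mem_sup_iff_of_le_normalizer hn).1 (hsup ▸ mem_top g)
  obtain ⟨e, he, r, hr, rfl⟩ := hdec a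
  obtain ⟨f, hf, s, hs', rfl⟩ := hdec b
  have e1 : ⁅e * r, f * s⁆ = ⁅e, f⁆ := by
    have h1 := mem_center_iff.1 (hRc hr)
    have h2 := mem_center_iff.1 (hRc hs')
    simp only [commutatorElement_def, mul_inv_rev]
    calc e * r * (f * s) * (r⁻¹ * e⁻¹) * (s⁻¹ * f⁻¹)
        = e * (r * (f * s)) * r⁻¹ * e⁻¹ * s⁻¹ * f⁻¹ := by simp only [mul_assoc]
      _ = e * f * (s * e⁻¹) * s⁻¹ * f⁻¹ := by rw [← h1]; simp only [mul_assoc, mul_inv_cancel_left]
      _ = e * f * e⁻¹ * f⁻¹ := by rw [← h2]; simp only [mul_assoc, mul_inv_cancel_left]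
  rw [e1]
  rcases hE with rfl | hE
  · rw [mem_bot.1 he]; simp
  · have h1 := PGrp.IsExtraspecial.commutator_mem hE ⟨e, he⟩ ⟨f, hf⟩
    constructor
    · apply hRc
      rw [hR]
      intro g hg
      exact congrArg Subtype.val (mem_center_iff.1 h1 ⟨g, hg⟩)
    · have h2 := pow_card_eq_one' (x := (⟨_, h1⟩ : center E))
      rw [PGrp.IsExtraspecial.card_center hE] at h2
      exact congrArg (fun t : center E => ((t : E) : B)) h2

variable {H V : Type*} [Group H] [Finite H] [CommGroup V] [Finite V] [MulDistribMulAction H V]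

theorem base [Nontrivial V] {p : ℕ} [hpp : Fact p.Prime] (hp : p ≠ 2)
    (hV : (Nat.card V).Coprime p) (B : Subgroup H) [hBn : B.Normal] (hB : IsPGroup p B)
    (hsemi : ∀ A : Subgroup H, A.Normal → A ≤ B → (∀ a ∈ A, ∀ b ∈ A, a * b = b * a) →
      ∀ a ∈ A, ∀ w : V, w ≠ 1 → a • w = w → a = 1) :
    ∃ v : V, ∀ b ∈ B, b • v = v → b = 1 := by
  classical
  suffices h : ∃ v : V, ∀ b ∈ B, b ^ p = 1 → b • v = v → b = 1 by
    obtain ⟨v, hv⟩ := h
    refine ⟨v, fun b hb e => ?_⟩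
    obtain ⟨k, hk⟩ := hB ⟨b, hb⟩
    have hk' : b ^ p ^ k = 1 := congrArg Subtype.val hk
    clear hk
    induction k with
    | zero => simpa using hk'
    | succ k ih =>
      exact ih (hv _ (pow_mem hb _) (by rw [← pow_mul, ← pow_succ]; exact hk')
        (pow_mem (show b ∈ MulAction.stabilizer H v from e) _))
  have hZ : ∀ z ∈ B, (∀ g ∈ B, g * z = z * g) → ∀ w : V, w ≠ 1 → z • w = w → z = 1 := by
    intro z hz hc
    exact hsemi (B ⊓ centralizer (B : Set H)) inferInstance inf_le_left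
      (fun a ha b hb => hb.2 a ha.1) z ⟨hz, hc⟩
  by_cases hA : ∀ x ∈ B, x ^ p = 1 → ∀ g ∈ B, g * x = x * g
  · obtain ⟨v, hv⟩ := exists_ne (1 : V)
    exact ⟨v, fun b hb h1 h2 => hZ b hb (hA b hb h1) v hv h2⟩
  push Not at hA
  obtain ⟨x₀, hx₀, hx₀p, y₀, hy₀, hxy⟩ := hA
  have hcl : ∀ a ∈ B, ∀ b ∈ B, (∀ g ∈ B, g * ⁅a, b⁆ = ⁅a, b⁆ * g) ∧ ⁅a, b⁆ ^ p = 1 := by
    intro a ha b hb
    have := class_two hp hB (fun A _ hA => by
      have h1 : Frob.HasFPF (A.map B.subtype) := by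
        refine hasFPF_of _ (⊤ : Subgroup V) top_ne_bot (fun _ _ _ _ => mem_top _)
          fun g hg w _ hw e => hsemi _ inferInstance (map_subtype_le A) ?_ g hg w hw e
        rintro _ ⟨a, ha, rfl⟩ _ ⟨b, hb, rfl⟩
        exact congrArg Subtype.val (setLike_mul_comm ha hb)
      exact (h1.of_mulEquiv (A.equivMapOfInjective _ B.subtype_injective).symm).isCyclic_of_comm
        fun a b => mul_comm' a b) ⟨a, ha⟩ ⟨b, hb⟩
    exact ⟨fun g hg => congrArg Subtype.val (mem_center_iff.1 this.1 ⟨g, hg⟩),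
      congrArg Subtype.val this.2⟩
  obtain ⟨M, ⟨hMB, hMc, hMp, hxM⟩, hmax⟩ := exists_maximal_of_wellFoundedGT
    (fun M : Subgroup H => M ≤ B ∧ (∀ a ∈ M, ∀ b ∈ M, a * b = b * a) ∧ (∀ a ∈ M, a ^ p = 1) ∧
      x₀ ∈ M) ⟨zpowers x₀, zpowers_le.2 hx₀, by
        rintro _ ⟨i, rfl⟩ _ ⟨j, rfl⟩
        exact zpow_mul_comm x₀ i j, by
        rintro _ ⟨i, rfl⟩
        show (x₀ ^ i) ^ p = 1
        rw [← zpow_natCast, ← zpow_mul, mul_comm, zpow_mul, zpow_natCast, hx₀p, one_zpow],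
        mem_zpowers x₀⟩
  have hM1 : ∀ x ∈ B, x ^ p = 1 → (∀ m ∈ M, m * x = x * m) → x ∈ M := by
    intro x hx hxp hc
    have hn : zpowers x ≤ normalizer (M : Set H) := zpowers_le.2 (mem_normalizer_of_conj_mem
      fun m hm => by rw [← hc m hm]; simpa using hm)
    have hc' : ∀ m ∈ M, ∀ i : ℤ, Commute m (x ^ i) := fun m hm i =>
      Commute.zpow_right (hc m hm) i
    refine hmax (y := M ⊔ zpowers x) ⟨sup_le hMB (zpowers_le.2 hx), ?_, ?_, mem_sup_left hxM⟩
      le_sup_left (mem_sup_right (mem_zpowers x))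
    · intro a ha b hb
      obtain ⟨m, hm, _, ⟨i, rfl⟩, rfl⟩ := (mem_sup_iff_of_le_normalizer' hn).1 ha
      obtain ⟨n, hn', _, ⟨j, rfl⟩, rfl⟩ := (mem_sup_iff_of_le_normalizer' hn).1 hb
      exact Commute.mul_left (Commute.mul_right (hMc m hm n hn') (hc' m hm j))
        (Commute.mul_right (hc' n hn' i).symm (Commute.zpow_zpow_self x i j))
    · intro a ha
      obtain ⟨m, hm, _, ⟨i, rfl⟩, rfl⟩ := (mem_sup_iff_of_le_normalizer' hn).1 ha
      show (m * x ^ i) ^ p = 1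
      rw [(hc' m hm i).mul_pow, hMp m hm, one_mul, ← zpow_natCast, ← zpow_mul, mul_comm, zpow_mul,
        zpow_natCast, hxp, one_zpow]
  have hcM : ∀ a ∈ B, ∀ b ∈ B, ⁅a, b⁆ ∈ M := fun a ha b hb =>
    hM1 _ (commutator_le_left B B (commutator_mem_commutator ha hb)) (hcl a ha b hb).2
      fun m hm => (hcl a ha b hb).1 m (hMB hm)
  have hBM : B ≤ normalizer (M : Set H) := fun b hb => mem_normalizer_of_conj_mem fun m hm => by
    have : b * m * b⁻¹ = ⁅b, m⁆ * m := by simp [commutatorElement_def]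
    rw [this]
    exact mul_mem (hcM b hb m (hMB hm)) hm
  have hYZ : ∀ Y ∈ Om V M, ∀ z ∈ Y, (∀ g ∈ B, g * z = z * g) → z = 1 := by
    intro Y hY z hz hc
    obtain ⟨w, hw, h⟩ := hY.2.1
    exact hZ z (hMB (hY.1 hz)) hc w hw (h z hz)
  have hγ : ∀ Y ∈ Om V M, ∀ g ∈ B, Y.map (MulAut.conj g).toMonoidHom = Y →
      ∀ m ∈ M, m * g = g * m := by
    intro Y hY g hg e m hm
    have hgn := mem_normalizer_of_map_conj_eq e
    have h1 : ∀ y ∈ Y, Commute g y := by
      intro y hy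
      rw [← commutatorElement_eq_one_iff_commute]
      refine hYZ Y hY _ ?_ (hcl g hg y (hMB (hY.1 hy))).1
      exact mul_mem (conj_mem_of_mem_normalizer hgn hy) (Subgroup.inv_mem _ hy)
    set z := ⁅y₀, x₀⁆ with hz
    have hz1 : z ≠ 1 := fun e => hxy (commutatorElement_eq_one_iff_mul_comm.1 e)
    have hzc := (hcl y₀ hy₀ x₀ hx₀).1
    have hzM : z ∈ M := hcM y₀ hy₀ x₀ hx₀
    have hgz : ∀ j : ℤ, Commute g (z ^ j) := fun j => Commute.zpow_right (hzc g hg) j
    have hEM : zpowers m ⊔ zpowers z ≤ M := sup_le (zpowers_le.2 hm) (zpowers_le.2 hzM)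
    by_cases hE : ∀ e ∈ zpowers m ⊔ zpowers z, e ∈ Y → e = 1
    · have h2 : Frob.HasFPF (zpowers m ⊔ zpowers z : Subgroup H) := by
        refine hasFPF_of _ (fx V Y) ?_ (fun a ha => fx_inv a ?_) fun a ha w hw hw1 e =>
          hE a ha (Om.mem hY (hEM ha) hw1 hw e)
        · obtain ⟨w, hw, h⟩ := hY.2.1
          exact fun e => hw (mem_bot.1 (e ▸ h))
        · exact mem_normalizer_of_conj_mem fun y hy => by
            rw [hMc a (hEM ha) y (hY.1 hy)]; simpa using hy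
      obtain ⟨j, hj⟩ := h2.mem_zpowers_of_commute hpp.out
        (x := ⟨m, mem_sup_left (mem_zpowers m)⟩) (y := ⟨z, mem_sup_right (mem_zpowers z)⟩)
        (Subtype.ext (hMp m hm)) (Subtype.ext (hMp z hzM)) (fun e => hz1 (congrArg Subtype.val e))
        (Subtype.ext (hMc m hm z hzM))
      have hj' : z ^ j = m := congrArg Subtype.val hj
      rw [← hj']
      exact (hgz j).symm
    · push Not at hE
      obtain ⟨e, he, heY, he1⟩ := hE
      have hn : zpowers m ≤ normalizer (zpowers z : Set H) := zpowers_le.2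
        (mem_normalizer_of_conj_mem fun u hu => by
          rw [hMc m hm u (zpowers_le.2 hzM hu)]; simpa using hu)
      obtain ⟨_, ⟨i, rfl⟩, _, ⟨j, rfl⟩, rfl⟩ := (mem_sup_iff_of_le_normalizer hn).1 he
      have h3 : Commute g (m ^ i) := by
        have := (h1 _ heY).mul_right (hgz j).inv_right
        simpa using this
      have h4 : m ^ i ≠ 1 := by
        intro h
        simp only [h, one_mul] at heY he1
        exact he1 (hYZ Y hY _ heY fun a ha => Commute.zpow_right (hzc a ha) j)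
      have h5 : m ≠ 1 := fun h => h4 (by rw [h, one_zpow])
      obtain ⟨k, hk⟩ := Frob.mem_zpowers_of_mem_zpowers_of_prime hpp.out
        (orderOf_eq_prime (hMp m hm) h5) ⟨i, rfl⟩ h4
      have hk' : (m ^ i) ^ k = m := hk
      rw [← hk']
      exact (h3.zpow_right k).symm
  obtain ⟨Y₀, hY₀⟩ := om_nonempty (V := V) M
  let w : Subgroup H → V := fun Y => if h : Y ∈ Om V M ∧ Y ≠ Y₀ then h.1.2.1.choose else 1
  have hw1 : ∀ Y ∈ Om V M, ∀ y ∈ Y, y • w Y = w Y := by
    intro Y hY y hy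
    by_cases h : Y ≠ Y₀
    · simp only [w, dif_pos (And.intro hY h)]
      exact hY.2.1.choose_spec.2 y hy
    · simp only [w, dif_neg (fun h' : Y ∈ Om V M ∧ Y ≠ Y₀ => h h'.2), smul_one]
  have hw2 : ∀ Y ∈ Om V M, Y ≠ Y₀ → w Y ≠ 1 := by
    intro Y hY h
    simp only [w, dif_pos (And.intro hY h)]
    exact hY.2.1.choose_spec.1
  have hw3 : w Y₀ = 1 := by simp [w]
  obtain ⟨v, hv⟩ := exists_vec hV (hB.to_le hMB) hMc w hw1
  refine ⟨v, fun x hx hxp e => ?_⟩
  have h1 := hv x (hBM hx) e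
  have h2 : Y₀.map (MulAut.conj x).toMonoidHom = Y₀ := by
    by_contra h
    apply hw2 _ (Om.conj hY₀ (hBM hx)) h
    rw [← h1 Y₀ hY₀, hw3, smul_one]
  have hxM : x ∈ M := hM1 x hx hxp (hγ Y₀ hY₀ x hx h2)
  have h3 : ∀ Y ∈ Om V M, Y ≠ Y₀ → x ∈ Y := by
    intro Y hY h
    refine Om.mem hY hxM (hw2 Y hY h) (hw1 Y hY) ?_
    rw [h1 Y hY, map_conj_eq_of_mem_normalizer]
    exact mem_normalizer_of_conj_mem fun y hy => by
      rw [hMc x hxM y (hY.1 hy)]; simpa using hy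
  have h4 : ∀ g ∈ B, (∃ m ∈ M, m * g ≠ g * m) → g⁻¹ * x * g ∈ Y₀ := by
    rintro g hg ⟨m, hm, hne⟩
    exact mem_map_conj_iff.1 (h3 _ (Om.conj hY₀ (hBM hg)) fun h => hne (hγ Y₀ hY₀ g hg h m hm))
  by_cases hc : ∀ g ∈ B, g * x = x * g
  · have := h4 y₀ hy₀ ⟨x₀, ‹x₀ ∈ M›, fun h => hxy h.symm⟩
    rw [mul_assoc, ← hc y₀ hy₀, inv_mul_cancel_left] at this
    exact hYZ Y₀ hY₀ x this hc
  · exfalso
    push Not at hc
    obtain ⟨g, hg, hne⟩ := hc
    have h5 := h4 g hg ⟨x, hxM, fun h => hne h.symm⟩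
    have h6 := h4 g⁻¹ (Subgroup.inv_mem _ hg) ⟨x, hxM, fun h => hne (by
      have := (Commute.inv_right_iff.1 h).symm
      exact this)⟩
    obtain ⟨hc1, hc2⟩ := hcl g hg x hx
    set c := ⁅g, x⁆ with hc
    have e1 : g * x * g⁻¹ = c * x := by simp [hc, commutatorElement_def]
    have e2 : g⁻¹ * x * g = c⁻¹ * x := by
      have h7 : x = c⁻¹ * (g * x * g⁻¹) := by rw [e1]; simp
      have h8 : Commute g⁻¹ c := (hc1 g⁻¹ (Subgroup.inv_mem _ hg))
      have h9 : g⁻¹ * c⁻¹ = c⁻¹ * g⁻¹ := h8.inv_right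
      conv_lhs => rw [h7]
      simp only [← mul_assoc, h9]
      simp [mul_assoc]
    rw [inv_inv, e1] at h6
    rw [e2] at h5
    have h7 : c * c ∈ Y₀ := by
      have := mul_mem h6 (Subgroup.inv_mem _ h5)
      simpa [mul_assoc] using this
    have h8 : c * c = 1 := hYZ Y₀ hY₀ _ h7 fun a ha =>
      Commute.mul_right (hc1 a ha) (hc1 a ha)
    have h9 : orderOf c ∣ Nat.gcd 2 p :=
      Nat.dvd_gcd (orderOf_dvd_of_pow_eq_one (by rw [sq, h8])) (orderOf_dvd_of_pow_eq_one hc2)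
    rw [(Nat.coprime_primes Nat.prime_two hpp.out).2 hp.symm, Nat.dvd_one,
      orderOf_eq_one_iff] at h9
    exact hne (commutatorElement_eq_one_iff_mul_comm.1 h9)

/-- The conclusion of the main result. -/
def Concl (V : Type*) [CommGroup V] [MulDistribMulAction H V] (B : Subgroup H) : Prop :=
  ∃ v : V, ∃ B' : Subgroup H, B'.Normal ∧ ¬ B ≤ B' ∧ ∀ b ∈ B, b • v = v → b ∈ B'

theorem key_faithful.{u} {H V : Type u} [Group H] [Finite H] [CommGroup V] [Finite V]
    [MulDistribMulAction H V] [FaithfulSMul H V] {p : ℕ} [hpp : Fact p.Prime] (hp : p ≠ 2)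
    (ih : ∀ (V' H' : Type u) [CommGroup V'] [Finite V'] [Group H'] [Finite H']
      [MulDistribMulAction H' V'], Nat.card V' < Nat.card V → (Nat.card V').Coprime p →
      ∀ B : Subgroup H', B.Normal → (∀ b ∈ B, ∃ k : ℕ, ∀ v : V', b ^ p ^ k • v = v) →
      (∃ b ∈ B, ∃ v : V', b • v ≠ v) → Concl V' B)
    (hV : (Nat.card V).Coprime p) (B : Subgroup H) [hBn : B.Normal] (hB : IsPGroup p B)
    (hne : ∃ b ∈ B, ∃ v : V, b • v ≠ v) : Concl V B := by
  classical
  have hcop : (Nat.card V).Coprime (Nat.card B) := by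
    obtain ⟨k, hk⟩ := IsPGroup.iff_card.1 hB
    rw [hk]; exact hV.pow_right k
  have hres : ∀ (H₁ : Subgroup H) (W : Subgroup V) (h : ∀ g ∈ H₁, ∀ w ∈ W, g • w ∈ W), B ≤ H₁ →
      W ≠ ⊤ → (∃ b ∈ B, ∃ w ∈ W, b • w ≠ w) → ∃ v ∈ W, ∃ B' : Subgroup H,
        H₁ ≤ normalizer (B' : Set H) ∧ ¬ B ≤ B' ∧ ∀ b ∈ B, b • v = v → b ∈ B' := by
    rintro H₁ W h hle hW ⟨b, hb, w, hw, hbw⟩
    letI := resAct H₁ W h
    obtain ⟨v, B', hn, h1, h2⟩ := ih W H₁ (card_lt_of_ne_top hW)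
      (hV.coprime_dvd_left (card_subgroup_dvd_card W)) (B.subgroupOf H₁) inferInstance
      (fun b hb => by
        obtain ⟨k, hk⟩ := hB ⟨b, hb⟩
        have hk' : b ^ p ^ k = 1 := Subtype.ext (congrArg (fun t : B => (t : H)) hk)
        exact ⟨k, fun v => by rw [hk', one_smul]⟩)
      ⟨⟨b, hle hb⟩, hb, ⟨w, hw⟩, fun e => hbw (congrArg Subtype.val e)⟩
    refine ⟨v, v.2, B'.map H₁.subtype, fun g hg => mem_normalizer_of_conj_mem ?_, fun e => h1 ?_,
      fun b hb e => ⟨⟨b, hle hb⟩, h2 _ hb (Subtype.ext e), rfl⟩⟩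
    · rintro _ ⟨x, hx, rfl⟩
      exact ⟨_, hn.conj_mem x hx ⟨g, hg⟩, rfl⟩
    · intro x hx
      obtain ⟨y, hy, e'⟩ := e hx
      rwa [← Subtype.ext e']
  by_cases hfix : HasFix V B
  · obtain ⟨u, hu, hu'⟩ := hfix
    obtain ⟨v, -, B', hn, h1, h2⟩ := hres ⊤ (nmHom B).ker (fun g _ w hw => by
      have hw' : nm B w = 1 := hw
      show nm B (g • w) = 1
      rw [← smul_nm_of_norm (le_normalizer_of_normal (mem_top g)), hw', smul_one]) le_top
      (fun e => by
        have h1 : nm B u = 1 := (e ▸ mem_top u : u ∈ (nmHom B).ker)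
        rw [nm_of_fix hu'] at h1
        exact hu ((powCoprime hcop).injective (h1.trans (one_pow _).symm)))
      (by
        obtain ⟨b, hb, v, hv⟩ := hne
        refine ⟨b, hb, v ^ Nat.card B * (nm B v)⁻¹, ?_, fun e => hv ?_⟩
        · show nmHom B _ = 1
          rw [map_mul, map_pow, map_inv]
          show nm B v ^ _ * (nm B (nm B v))⁻¹ = 1
          rw [nm_of_fix fun y hy => smul_nm hy v, mul_inv_cancel]
        · rw [smul_mul', smul_inv', smul_nm hb, smul_pow', mul_left_inj] at e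
          exact (powCoprime hcop).injective e)
    exact ⟨v, B', normal_of_le_normalizer_top hn, h1, h2⟩
  have : Nontrivial V := by
    obtain ⟨b, -, v, hv⟩ := hne
    exact ⟨_, _, hv⟩
  by_cases hsemi : ∀ A : Subgroup H, A.Normal → A ≤ B → (∀ a ∈ A, ∀ b ∈ A, a * b = b * a) →
      ∀ a ∈ A, ∀ w : V, w ≠ 1 → a • w = w → a = 1
  · obtain ⟨v, hv⟩ := base hp hV B hB hsemi
    refine ⟨v, ⊥, inferInstance, fun e => ?_, fun b hb e => mem_bot.2 (hv b hb e)⟩
    obtain ⟨b, hb, w, hw⟩ := hne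
    exact hw (by rw [mem_bot.1 (e hb), one_smul])
  push Not at hsemi
  obtain ⟨A, hAn, hAB, hAc, a, ha, w₀, hw₀, haw, ha1⟩ := hsemi
  have hN : ∀ g : H, g ∈ normalizer (A : Set H) := fun g => le_normalizer_of_normal (mem_top g)
  by_cases hmv : ∃ b ∈ B, ∃ Y ∈ Om V A, Y.map (MulAut.conj b).toMonoidHom ≠ Y
  · letI : MulAction H (Subgroup H) :=
      { smul := fun g Y => Y.map (MulAut.conj g).toMonoidHom
        one_smul := map_conj_one
        mul_smul := map_conj_mul }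
    obtain ⟨Δ, hΔ, B', hn, h1, h2⟩ := exists_subset (Om V A) (fun g Y hY => Om.conj hY (hN g))
      B hB hmv
    let w : Subgroup H → V := fun Y => if h : Y ∈ Δ then (hΔ h).2.1.choose else 1
    obtain ⟨v, hv⟩ := exists_vec hV (hB.to_le hAB) hAc w fun Y _ y hy => by
      by_cases h : Y ∈ Δ
      · simp only [w, dif_pos h]
        exact (hΔ h).2.1.choose_spec.2 y hy
      · simp only [w, dif_neg h, smul_one]
    refine ⟨v, B', hn, h1, fun b hb e => h2 b hb fun Y hY => ?_⟩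
    by_contra h
    have h3 := hv b (hN b) e Y (hΔ hY)
    have h' : Y.map (MulAut.conj b).toMonoidHom ∉ Δ := h
    simp only [w, dif_pos hY, dif_neg h'] at h3
    exact (hΔ hY).2.1.choose_spec.1 (by rw [← inv_smul_smul b (hΔ hY).2.1.choose, h3, smul_one])
  push Not at hmv
  obtain ⟨Y₀, hY₀⟩ := om_nonempty (V := V) A
  obtain ⟨v₁, hv₁, B₁, hn, h1, h2⟩ := hres (normalizer (Y₀ : Set H)) (fx V Y₀) fx_inv
    (fun b hb => mem_normalizer_of_map_conj_eq (hmv b hb Y₀ hY₀))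
    (fun e => by
      have h1 : ∀ y ∈ Y₀, ∀ v : V, y • v = v := fun y hy v => (e ▸ mem_top v : v ∈ fx V Y₀) y hy
      have h2 := Om.mem hY₀ ha hw₀ (fun y hy => h1 y hy w₀) haw
      exact ha1 (eq_of_smul_eq_smul (α := V) fun v => by rw [h1 a h2, one_smul]))
    (by
      obtain ⟨w, hw, h⟩ := hY₀.2.1
      by_contra h'
      push Not at h'
      exact hfix ⟨w, hw, fun b hb => h' b hb w h⟩)
  let w : Subgroup H → V := fun Y =>
    if h : ∃ g : H, Y₀.map (MulAut.conj g).toMonoidHom = Y then h.choose • v₁ else 1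
  obtain ⟨v, hv⟩ := exists_vec hV (hB.to_le hAB) hAc w fun Y _ y hy => by
    by_cases h : ∃ g : H, Y₀.map (MulAut.conj g).toMonoidHom = Y
    · simp only [w, dif_pos h]
      have h3 := h.choose_spec
      rw [← h3, mem_map_conj_iff] at hy
      conv_rhs => rw [← hv₁ _ hy]
      simp [mul_smul]
    · simp only [w, dif_neg h, smul_one]
  refine ⟨v, B₁.normalCore, inferInstance, fun e => h1 (e.trans B₁.normalCore_le),
    fun b hb e g => ?_⟩
  have hY := Om.conj hY₀ (hN g⁻¹)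
  have h3 := hv b (hN b) e _ hY
  rw [hmv b hb _ hY] at h3
  have h : ∃ k : H, Y₀.map (MulAut.conj k).toMonoidHom = Y₀.map (MulAut.conj g⁻¹).toMonoidHom :=
    ⟨_, rfl⟩
  simp only [w, dif_pos h] at h3
  have h4 := h.choose_spec
  set k := h.choose
  have h5 : k⁻¹ * b * k ∈ B₁ := h2 _ (by simpa using hBn.conj_mem b hb k⁻¹) (by
    rw [mul_smul, mul_smul, h3, inv_smul_smul])
  have h6 : g * k ∈ normalizer (Y₀ : Set H) := mem_normalizer_of_map_conj_eq (by
    rw [map_conj_mul, h4, ← map_conj_mul, mul_inv_cancel, map_conj_one])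
  have := conj_mem_of_mem_normalizer (hn h6) h5
  simpa [mul_assoc] using this

theorem key.{u} {p : ℕ} [hpp : Fact p.Prime] (hp : p ≠ 2) (n : ℕ) :
    ∀ (V H : Type u) [CommGroup V] [Finite V] [Group H] [Finite H]
      [MulDistribMulAction H V], Nat.card V = n → (Nat.card V).Coprime p →
      ∀ B : Subgroup H, B.Normal → (∀ b ∈ B, ∃ k : ℕ, ∀ v : V, b ^ p ^ k • v = v) →
      (∃ b ∈ B, ∃ v : V, b • v ≠ v) → Concl V B := by
  induction n using Nat.strong_induction_on with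
  | _ n IH =>
  intro V H _ _ _ _ _ hn hV B hBn hB hne
  let φ := MulDistribMulAction.toMulAut H V
  have hs := φ.rangeRestrict_surjective
  haveI := hBn.map _ hs
  obtain ⟨v, B', h1, h2, h3⟩ := key_faithful (H := φ.range) (V := V) hp
    (fun V' H' _ _ _ _ _ h => IH _ (hn ▸ h) V' H' rfl) hV (B.map φ.rangeRestrict)
    (by
      rintro ⟨_, b, hb, rfl⟩
      obtain ⟨k, hk⟩ := hB b hb
      refine ⟨k, Subtype.ext (Subtype.ext ?_)⟩
      show φ b ^ p ^ k = 1
      rw [← map_pow]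
      ext v
      exact hk v)
    (by
      obtain ⟨b, hb, v, hv⟩ := hne
      exact ⟨_, ⟨b, hb, rfl⟩, v, hv⟩)
  exact ⟨v, B'.comap φ.rangeRestrict, inferInstance, fun e => h2 (map_le_iff_le_comap.2 e),
    fun b hb e => h3 _ ⟨b, hb, rfl⟩ e⟩

end CfsgLib.H5.Cover
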