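import Mathlib

/-! Homomorphisms out of cyclic extensions. -/

set_option autoImplicit false

namespace CfsgLib.H5
open Subgroup

variable {G : Type*} [Group G]

/-- Extend a homomorphism from a normal subgroup `M` to `M ⊔ ⟨b⟩ = G`. -/
theorem exists_hom_of_cyclic_ext {L : Type*} [Group L] {M : Subgroup G} [M.Normal] {b : G}
    (hb : M ⊔ zpowers b = ⊤) (f : M →* L) (y : L)
    (h1 : ∀ m : M, f (MulAut.conjNormal b m) = y * f m * y⁻¹)
    (h2 : ∀ (n : ℤ) (h : b ^ n ∈ M), f ⟨b ^ n, h⟩ = y ^ n) :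
    ∃ F : G →* L, (∀ m : M, F m = f m) ∧ F b = y := by
  have h3 : ∀ (n : ℤ) (m : M), f (MulAut.conjNormal (b ^ n) m) = y ^ n * f m * (y ^ n)⁻¹ := by
    intro n
    induction n with
    | zero => simp
    | succ n ih => intro m; rw [zpow_add_one, map_mul, MulAut.mul_apply, ih, h1]; group
    | pred n ih =>
      intro m
      have := h1 (MulAut.conjNormal b⁻¹ m)
      rw [← MulAut.mul_apply, ← map_mul, mul_inv_cancel, map_one, MulAut.one_apply] at this
      rw [zpow_sub_one, map_mul, MulAut.mul_apply, ih, this]; group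
  have h4 : ∀ (m m' : M) (n n' : ℤ), (m : G) * b ^ n = m' * b ^ n' →
      f m * y ^ n = f m' * y ^ n' := by
    intro m m' n n' h
    have e : b ^ (n - n') = ((m⁻¹ * m' : M) : G) := by
      rw [zpow_sub, eq_inv_mul_of_mul_eq h]; simp [mul_assoc]
    have := h2 (n - n') (e ▸ SetLike.coe_mem _)
    rw [show (⟨b ^ (n - n'), _⟩ : M) = m⁻¹ * m' from Subtype.ext e, map_mul, map_inv, zpow_sub,
      inv_mul_eq_iff_eq_mul] at this
    rw [this]; group
  have h5 : ∀ g : G, ∃ (m : M) (n : ℤ), (m : G) * b ^ n = g := fun g => by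
    obtain ⟨m, hm, _, ⟨n, rfl⟩, e⟩ := mem_sup_of_normal_left.mp (hb.ge (mem_top g))
    exact ⟨⟨m, hm⟩, n, e⟩
  choose μ ν hμ using h5
  refine ⟨MonoidHom.mk' (fun g => f (μ g) * y ^ ν g) fun g k => ?_, fun m => ?_, ?_⟩
  · rw [h4 (μ (g * k)) (μ g * MulAut.conjNormal (b ^ ν g) (μ k)) _ (ν g + ν k) (by
      rw [hμ]; conv_lhs => rw [← hμ g, ← hμ k]
      rw [coe_mul, MulAut.conjNormal_apply]; group), map_mul, h3]
    group
  · simpa using h4 (μ m) m (ν m) 0 (by simp [hμ])
  · simpa using h4 (μ b) 1 (ν b) 1 (by simp [hμ])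

/-- The automorphism fixing a normal subgroup `M` of prime index and sending `b` to `b a`. -/
theorem exists_mulAut_of_index_prime [Finite G] {p : ℕ} (hp : p.Prime) {M : Subgroup G} [M.Normal]
    (hM : M.index = p) {a b : G} (hb : b ∉ M) (ha : a ∈ M) (ha' : a ∈ centralizer (M : Set G))
    (h : (b * a) ^ p = b ^ p) : ∃ α : MulAut G, (∀ m ∈ M, α m = m) ∧ α b = b * a := by
  have h0 : ∀ c ∉ M, M ⊔ zpowers c = ⊤ := fun c hc => by
    have := index_dvd_of_le (le_sup_left : M ≤ M ⊔ zpowers c)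
    rw [hM, Nat.dvd_prime hp] at this
    refine index_eq_one.mp (this.resolve_right fun e => hc ?_)
    have h1 := relIndex_mul_index (le_sup_left : M ≤ M ⊔ zpowers c)
    rw [e, hM, Nat.mul_eq_right hp.ne_zero, relIndex_eq_one] at h1
    exact h1 (mem_sup_right (mem_zpowers c))
  obtain ⟨F, h1, h2⟩ := exists_hom_of_cyclic_ext (h0 b hb) M.subtype (b * a) (fun m => by
    have := ha' m m.2
    simp only [coe_subtype, MulAut.conjNormal_apply]
    rw [mul_assoc b a, ← this]; group) fun n hn => by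
      have := Fact.mk hp
      have h1 : orderOf (b : G ⧸ M) = p := orderOf_eq_prime
        (by rw [← hM, index_eq_card, pow_card_eq_one']) (mt (QuotientGroup.eq_one_iff b).mp hb)
      obtain ⟨k, rfl⟩ : (p : ℤ) ∣ n := by
        rwa [← h1, orderOf_dvd_iff_zpow_eq_one, ← QuotientGroup.mk_zpow, QuotientGroup.eq_one_iff]
      simp [zpow_mul, h]
  have h3 : Function.Surjective F := MonoidHom.range_eq_top.mp (top_le_iff.mp
    ((h0 (b * a) (mt (mul_mem_cancel_right ha).mp hb)).ge.trans (sup_le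
      (fun m hm => ⟨m, h1 ⟨m, hm⟩⟩) (zpowers_le.mpr ⟨b, h2⟩))))
  exact ⟨MulEquiv.ofBijective F (Finite.surjective_iff_bijective.mp h3), fun m hm => h1 ⟨m, hm⟩, h2⟩

end CfsgLib.H5
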