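import Mathlib
import Cfsg.Agent.Lib.FT.U4b
import Cfsg.Agent.Lib.FT.Wielandt
import Cfsg.Agent.Lib.H1Amb
import Cfsg.Agent.Lib.H1Misc
import Cfsg.Agent.Lib.CoprimeGen
import Cfsg.Agent.Lib.PGroupRankOne
import Cfsg.Agent.Lib.OrderType

/-! Solvable groups without elements of order a product of three primes from a set: tools. -/

set_option autoImplicit false

namespace CfsgLib.H5.FourP

open Subgroup Cfsg CfsgLib.FT CfsgLib.FT.BGN CfsgLib.FT.U4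
open scoped commutatorElement

variable {G : Type*} [Group G]

/-- Elementary abelian of order `r ^ 2`. -/
structure E2 (r : ℕ) (A : Subgroup G) : Prop where
  comm : IsMulCommutative A
  pow : ∀ a ∈ A, a ^ r = 1
  card : Nat.card A = r ^ 2

/-- `H` has `r`-rank at least two. -/
def Rk2 (r : ℕ) (H : Subgroup G) : Prop := ∃ A ≤ H, E2 r A

/-- All primes dividing `|K|` lie in `π`. -/
def PG (π : Set ℕ) (K : Subgroup G) : Prop := ∀ t : ℕ, t.Prime → t ∣ Nat.card K → t ∈ π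

theorem Rk2.mono {r : ℕ} {H K : Subgroup G} (h : Rk2 r H) (hle : H ≤ K) : Rk2 r K :=
  let ⟨A, h1, h2⟩ := h; ⟨A, h1.trans hle, h2⟩

theorem E2.pg {r : ℕ} {A : Subgroup G} (h : E2 r A) : IsPGroup r A := IsPGroup.of_card h.card

theorem E2.le_cent {r : ℕ} {A : Subgroup G} (h : E2 r A) : A ≤ 𝐂(A) := fun a ha =>
  mem_cent.2 fun b hb => congrArg Subtype.val (h.comm.is_comm.comm ⟨b, hb⟩ ⟨a, ha⟩)

theorem E2.cent1 {r : ℕ} {A : Subgroup G} (h : E2 r A) {a : G} (ha : a ∈ A) : A ≤ 𝐂[a] :=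
  h.le_cent.trans (cent_le_cent1 ha)

theorem E2.orderOf {r : ℕ} (hr : r.Prime) {A : Subgroup G} (h : E2 r A) {a : G} (ha : a ∈ A)
    (h1 : a ≠ 1) : orderOf a = r := by
  have := Fact.mk hr
  exact orderOf_eq_prime (h.pow a ha) h1

theorem E2.not_cyclic {r : ℕ} (hr : r.Prime) {A : Subgroup G} (h : E2 r A) : ¬ IsCyclic A := by
  have := Fact.mk hr
  refine PGrp.not_isCyclic_of_isElementaryAbelian (p := r) ⟨h.comm, h.pow⟩ ?_
  rw [h.card]; nlinarith [hr.two_le]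

theorem E2.conj {r : ℕ} {A : Subgroup G} (h : E2 r A) (g : G) : E2 r (g •ᶜ A) :=
  ⟨isMulCommutative_conj h.comm g, by
    rintro _ ⟨a, ha, rfl⟩
    rw [← map_pow, h.pow a ha, map_one], by rw [card_map_conj, h.card]⟩

theorem comm_of_le_cent {Q : Subgroup G} (h : Q ≤ 𝐂(Q)) : IsMulCommutative Q :=
  ⟨⟨fun a b => Subtype.ext (mem_cent.1 (h b.2) a a.2)⟩⟩

theorem pg_zpowers {r : ℕ} {a : G} (h : orderOf a = r) : IsPGroup r (zpowers a) :=
  isPGroup_of_card_eq (by rw [Nat.card_zpowers, h])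

theorem ne_one_of_prime {r : ℕ} (hr : r.Prime) {a : G} (h : orderOf a = r) : a ≠ 1 :=
  fun e => hr.one_lt.ne' (by rw [← h, e, orderOf_one])

theorem cent1_eq {r : ℕ} (hr : r.Prime) {a x : G} (h : orderOf a = r) (hx : x ∈ zpowers a)
    (h1 : x ≠ 1) : 𝐂[x] = 𝐂[a] := by
  rw [cent1_eq_of_card_prime (X := zpowers a) (by rwa [Nat.card_zpowers, h]) hx h1, cent_zpowers]

variable [Finite G]

theorem norm_inf {g : G} {A B : Subgroup G} (h1 : g ∈ 𝐍(A)) (h2 : g ∈ 𝐍(B)) :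
    g ∈ 𝐍(A ⊓ B) := mem_normalizer_of_conj_mem fun _ ha =>
  ⟨conj_mem_of_mem_normalizer h1 ha.1, conj_mem_of_mem_normalizer h2 ha.2⟩

theorem norm_inf1 {g a : G} {A : Subgroup G} (h1 : g ∈ 𝐍(A)) (h2 : g ∈ 𝐂[a]) :
    g ∈ 𝐍(A ⊓ 𝐂[a]) := norm_inf h1 (le_normalizer h2)

theorem cop {p q : ℕ} (hp : p.Prime) (hq : q.Prime) (hne : p ≠ q)
    {A B : Subgroup G} (hA : IsPGroup p A) (hB : IsPGroup q B) :
    (Nat.card A).Coprime (Nat.card B) := by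
  have := Fact.mk hp
  have := Fact.mk hq
  exact IsPGroup.coprime_card_of_ne p q hne A B hA hB

theorem exists_order {r : ℕ} (hr : r.Prime) {Y : Subgroup G} (hY : IsPGroup r Y) (h1 : Y ≠ ⊥) :
    ∃ b ∈ Y, orderOf b = r := by
  have := Fact.mk hr
  obtain ⟨g, hg⟩ := exists_prime_orderOf_dvd_card' (G := Y) r
    (hY.card_eq_or_dvd.resolve_left fun h0 => h1 (card_eq_one.1 h0))
  exact ⟨g, g.2, by rwa [orderOf_coe]⟩

theorem center_ne_bot {r : ℕ} (hr : r.Prime) {Y : Subgroup G} (hY : IsPGroup r Y) (h1 : Y ≠ ⊥) :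
    Y ⊓ 𝐂(Y) ≠ ⊥ := by
  have := Fact.mk hr
  have := (nontrivial_iff_ne_bot Y).2 h1
  have := hY.center_nontrivial
  obtain ⟨z, hz⟩ := exists_ne (1 : center Y)
  refine ne_bot_of_mem (x := ((z : Y) : G)) ⟨(z : Y).2, mem_cent.2 fun a ha => ?_⟩
    fun e => hz (Subtype.ext (Subtype.ext e))
  exact congrArg Subtype.val (mem_center_iff.1 z.2 ⟨a, ha⟩)

theorem e2_sup {r : ℕ} (hr : r.Prime) {a b : G} (ha : orderOf a = r) (hb : orderOf b = r)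
    (hc : b ∈ 𝐂[a]) (h : a ∉ zpowers b) : E2 r (zpowers a ⊔ zpowers b) := by
  have hn : zpowers a ≤ 𝐍(zpowers b) := by
    refine le_trans ?_ (cent_le_norm _)
    rw [cent_zpowers]; exact zpowers_le.2 (mem_cent1_comm.1 hc)
  refine ⟨comm_of_le_cent ?_, fun x hx => ?_, ?_⟩
  · rw [cent_sup, cent_zpowers, cent_zpowers]
    exact sup_le (zpowers_le.2 ⟨self_mem_cent1 a, mem_cent1_comm.1 hc⟩)
      (zpowers_le.2 ⟨hc, self_mem_cent1 b⟩)
  · obtain ⟨_, ⟨i, rfl⟩, _, ⟨j, rfl⟩, rfl⟩ := (mem_sup_iff_of_le_normalizer hn).1 hx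
    have h1 : Commute a b := mem_cent1'.1 hc
    simp only
    rw [(h1.zpow_zpow i j).mul_pow, ← zpow_natCast, ← zpow_natCast, ← zpow_mul, ← zpow_mul,
      mul_comm i, mul_comm j, zpow_mul, zpow_mul, zpow_natCast, zpow_natCast, ← ha,
      pow_orderOf_eq_one, ha, ← hb, pow_orderOf_eq_one]
    simp
  · rw [card_sup_of_disjoint hn, Nat.card_zpowers, Nat.card_zpowers, ha, hb, pow_two]
    exact (inf_eq_bot_or_le_of_card_prime (by rwa [Nat.card_zpowers, ha]) _).resolve_right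
      fun h1 => h (h1 (mem_zpowers a))

theorem mem_of_not_rk2 {r : ℕ} (hr : r.Prime) {Y : Subgroup G} (h : ¬ Rk2 r Y) {a b : G}
    (ha : a ∈ Y) (hb : b ∈ Y) (ha' : a ^ r = 1) (hb' : orderOf b = r) (hc : b ∈ 𝐂[a]) :
    a ∈ zpowers b := by
  have := Fact.mk hr
  by_contra h1
  exact h ⟨_, sup_le (zpowers_le.2 ha) (zpowers_le.2 hb),
    e2_sup hr (orderOf_eq_prime ha' fun e => h1 (e ▸ one_mem _)) hb' hc h1⟩

theorem E2.eq_sup {s : ℕ} (hs : s.Prime) {B : Subgroup G} (h : E2 s B) {c c' : G} (hc : c ∈ B)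
    (hc' : c' ∈ B) (h1 : c ≠ 1) (h2 : c' ∉ zpowers c) : zpowers c' ⊔ zpowers c = B :=
  eq_of_le_of_card_le (sup_le (zpowers_le.2 hc') (zpowers_le.2 hc)) (by
    rw [h.card, (e2_sup hs (h.orderOf hs hc' fun e => h2 (e ▸ one_mem _)) (h.orderOf hs hc h1)
      (h.cent1 hc' hc) h2).card])

theorem E2.cent_eq {s : ℕ} (hs : s.Prime) {B : Subgroup G} (h : E2 s B) {c c' : G} (hc : c ∈ B)
    (hc' : c' ∈ B) (h1 : c ≠ 1) (h2 : c' ∉ zpowers c) : 𝐂[c] ⊓ 𝐂[c'] = 𝐂(B) := by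
  rw [← h.eq_sup hs hc hc' h1 h2, cent_sup, cent_zpowers, cent_zpowers, inf_comm]

theorem E2.exists_notMem {r : ℕ} (hr : r.Prime) {A : Subgroup G} (h : E2 r A) (u : G) :
    ∃ a ∈ A, a ∉ zpowers u := by
  by_contra hc
  push Not at hc
  exact h.not_cyclic hr (isCyclic_of_le' (C := zpowers u) inferInstance hc)

theorem cyclic_of_comm {r : ℕ} (hr : r.Prime) {Y : Subgroup G} (hY : IsPGroup r Y)
    (hc : IsMulCommutative Y) (h : ¬ Rk2 r Y) : IsCyclic Y := by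
  have := Fact.mk hr
  by_contra hn
  obtain ⟨E, h1, h2, h3⟩ := PGrp.exists_isElementaryAbelian_card_sq_le hY hc hn
  exact h ⟨E, h1, h2.1, h2.2, h3⟩

theorem cyclic_of_odd {r : ℕ} (hr : r.Prime) (h2 : r ≠ 2) {Y : Subgroup G} (hY : IsPGroup r Y)
    (h : ¬ Rk2 r Y) : IsCyclic Y := by
  have := Fact.mk hr
  refine PGrp.isCyclic_of_odd_of_comm_isCyclic hY h2 fun A hA => ?_
  have h3 := cyclic_of_comm hr ((hY.to_subgroup A).map Y.subtype) (Subgroup.map_isMulCommutative _ _)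
    fun h3 => h (h3.mono (map_subtype_le A))
  exact (A.equivMapOfInjective _ Y.subtype_injective).isCyclic.2 h3

theorem E2.fix {p r : ℕ} (hp : p.Prime) (hr : r.Prime) (hne : r ≠ p) {A V : Subgroup G}
    (h : E2 r A) (hV : IsPGroup p V) (hn : A ≤ 𝐍(V)) (h1 : V ≠ ⊥) :
    ∃ a ∈ A, a ≠ 1 ∧ V ⊓ 𝐂[a] ≠ ⊥ :=
  Cop.exists_centralizer_ne_bot_of_not_isCyclic h.comm (h.not_cyclic hr) hn
    (cop hr hp hne h.pg hV) h1

theorem E2.gen {p r : ℕ} (hp : p.Prime) (hr : r.Prime) (hne : r ≠ p) {A V K : Subgroup G}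
    (h : E2 r A) (hV : IsPGroup p V) (hn : A ≤ 𝐍(V)) (hK : ∀ a ∈ A, a ≠ 1 → V ⊓ 𝐂[a] ≤ K) :
    V ≤ K :=
  Cop.le_of_centralizer_le_of_not_isCyclic h.comm (h.not_cyclic hr) hn (cop hr hp hne h.pg hV) hK

theorem frob {p q r : ℕ} (hp : p.Prime) (hq : q.Prime) (hr : r.Prime) (hqp : q ≠ p) (hrp : r ≠ p)
    {V K : Subgroup G} {c : G} (hV : IsPGroup p V) (hK : IsPGroup q K) (hc : orderOf c = r)
    (hcK : c ∈ 𝐍(K)) (h1 : K ⊓ 𝐂[c] = ⊥) (hKV : K ≤ 𝐍(V)) (hcV : c ∈ 𝐍(V)) (h2 : V ⊓ 𝐂[c] = ⊥) :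
    K ≤ 𝐂(V) := by
  have := Fact.mk hp
  refine Frobenius_Wielandt_cent (R := zpowers c) (zpowers_le.2 hcK)
    (fun x hx hx1 => by rw [cent1_eq hr hc hx hx1, h1]) hKV (zpowers_le.2 hcV)
    (Cop.solvable_of_isPGroup hV) (cop hq hp hqp hK hV) (cop hr hp hrp (pg_zpowers hc) hV)
    (by simpa using ne_one_of_prime hr hc) (by rw [cent_zpowers, h2])

theorem frob2 {p q r s : ℕ} (hp : p.Prime) (hq : q.Prime) (hr : r.Prime) (hs : s.Prime)
    (hqp : q ≠ p) (hrp : r ≠ p) (hsp : s ≠ p) (hrs : r ≠ s)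
    {V K : Subgroup G} {b c : G} (hV : IsPGroup p V) (hK : IsPGroup q K) (hb : orderOf b = r)
    (hc : orderOf c = s) (hbc : c ∈ 𝐂[b]) (hbK : b ∈ 𝐍(K)) (hcK : c ∈ 𝐍(K)) (h1 : K ⊓ 𝐂[b] = ⊥)
    (h1' : K ⊓ 𝐂[c] = ⊥) (hKV : K ≤ 𝐍(V)) (hbV : b ∈ 𝐍(V)) (hcV : c ∈ 𝐍(V))
    (h2 : V ⊓ 𝐂[b] ⊓ 𝐂[c] = ⊥) : K ≤ 𝐂(V) := by
  have := Fact.mk hp
  have hcc : zpowers b ≤ 𝐂(zpowers c) := by
    rw [cent_zpowers]; exact zpowers_le.2 (mem_cent1_comm.1 hbc)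
  have hn : zpowers b ≤ 𝐍(zpowers c) := hcc.trans (cent_le_norm _)
  refine Frobenius_Wielandt_cent (R := zpowers b ⊔ zpowers c)
    (sup_le (zpowers_le.2 hbK) (zpowers_le.2 hcK)) (fun x hx hx1 => ?_) hKV
    (sup_le (zpowers_le.2 hbV) (zpowers_le.2 hcV)) (Cop.solvable_of_isPGroup hV)
    (cop hq hp hqp hK hV) ?_ (ne_bot_of_mem (mem_sup_left (mem_zpowers b)) (ne_one_of_prime hr hb))
    (by rw [cent_sup, cent_zpowers, cent_zpowers, ← inf_assoc, h2])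
  · obtain ⟨u, hu, v, hv, rfl⟩ := (mem_sup_iff_of_le_normalizer hn).1 hx
    by_cases hu1 : u = 1
    · rw [hu1, one_mul] at hx1 ⊢
      rw [cent1_eq hs hc hv hx1, h1']
    · have h3 : u ∈ zpowers (u * v) := mem_zpowers_mul_of_coprime (mem_cent.1 (hcc hu) v hv).symm
        (Nat.Coprime.coprime_dvd_left (hb ▸ orderOf_dvd_of_mem_zpowers hu)
          (Nat.Coprime.coprime_dvd_right (hc ▸ orderOf_dvd_of_mem_zpowers hv)
            ((Nat.coprime_primes hr hs).2 hrs)))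
      rw [eq_bot_iff, ← h1, ← cent1_eq hr hb hu hu1]
      exact inf_le_inf_left _ (cent1_le_cent1 h3)
  · exact Nat.Coprime.coprime_dvd_left (card_sup_dvd_mul hn)
      (Nat.Coprime.mul_left (cop hr hp hrp (pg_zpowers hb) hV) (cop hs hp hsp (pg_zpowers hc) hV))

/-- A power of an element of `⟨u, c⟩ \ ⟨c⟩` has the form `u c'`. -/
theorem exists_mul_mem {u c a : G} (hu : (orderOf u).Prime) (hc : c ∈ 𝐂[u])
    (ha : a ∈ zpowers u ⊔ zpowers c) (ha' : a ∉ zpowers c) :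
    ∃ c' ∈ zpowers c, u * c' ∈ zpowers a := by
  have hcc : zpowers c ≤ 𝐂(zpowers u) := by rw [cent_zpowers]; exact zpowers_le.2 hc
  obtain ⟨u', hu', c₀, hc₀, rfl⟩ :=
    (mem_sup_iff_of_le_normalizer' (hcc.trans (cent_le_norm _))).1 ha
  have h1 : u' ≠ 1 := by
    rintro rfl
    exact ha' (by simpa using hc₀)
  have h2 := zpowers_eq_of_card_prime (X := zpowers u) (by rwa [Nat.card_zpowers]) hu' h1
  obtain ⟨n, hn⟩ : u ∈ zpowers u' := h2 ▸ mem_zpowers u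
  have h3 : Commute u' c₀ := mem_cent.1 (hcc hc₀) u' hu'
  refine ⟨c₀ ^ n, zpow_mem hc₀ n, n, ?_⟩
  simp only at hn ⊢
  rw [h3.mul_zpow, hn]

theorem pc {r : ℕ} (hr : r.Prime) {T : Subgroup G} (hT : IsPGroup r T) {a : G}
    (ha : IsPGroup r (zpowers a)) (hn : a ∈ 𝐍(T)) (h : ¬ T ≤ 𝐂[a]) :
    ∃ y ∈ T, y ∉ 𝐂[a] ∧ y * a * y⁻¹ ∈ 𝐂[a] ∧ y ∈ 𝐍(T ⊓ 𝐂[a]) := by
  have := Fact.mk hr
  have hX : IsPGroup r ↥(zpowers a ⊔ T) :=
    H1.isPGroup_sup_of_le_normalizer ha hT (zpowers_le.2 hn)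
  have hlt : (zpowers a ⊔ T) ⊓ 𝐂[a] < zpowers a ⊔ T :=
    lt_of_le_of_ne inf_le_left fun e => h (le_sup_right.trans (inf_eq_left.1 e))
  obtain ⟨g, hg, hg'⟩ := SetLike.exists_of_lt (lt_inf_normalizer_of_isPGroup hX hlt)
  have hg1 := hg.1
  rw [sup_comm] at hg1
  obtain ⟨y, hy, b, hb, rfl⟩ := (mem_sup_iff_of_le_normalizer' (zpowers_le.2 hn)).1 hg1
  have hb' : b ∈ (zpowers a ⊔ T) ⊓ 𝐂[a] := ⟨mem_sup_left hb, zpowers_le_cent1 a hb⟩
  have h1 : y ∈ 𝐍((zpowers a ⊔ T) ⊓ 𝐂[a]) :=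
    (Subgroup.mul_mem_cancel_right _ (le_normalizer hb')).1 hg.2
  refine ⟨y, hy, fun h2 => hg' ⟨hg.1, mul_mem h2 hb'.2⟩,
    (conj_mem_of_mem_normalizer h1 ⟨mem_sup_left (mem_zpowers a), self_mem_cent1 a⟩).2,
    mem_normalizer_of_conj_mem fun x hx => mem_inf.2 ⟨mul_mem (mul_mem hy hx.1) (inv_mem hy),
      (conj_mem_of_mem_normalizer h1 ⟨mem_sup_right hx.1, hx.2⟩).2⟩⟩

theorem cent_of_norm_prime {r : ℕ} (hr : r.Prime) {u a : G} (hu : orderOf u = r)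
    (ha : IsPGroup r (zpowers a)) (hn : a ∈ 𝐍(zpowers u)) : a ∈ 𝐂[u] := by
  have := Fact.mk hr
  have h1 := H1.card_modEq_card_inf_centralizer_elem ha hn
  rcases inf_eq_bot_or_le_of_card_prime (X := zpowers u) (by rwa [Nat.card_zpowers, hu]) 𝐂[a]
    with h | h
  · rw [h, card_bot, Nat.card_zpowers, hu] at h1
    exact absurd ((Nat.modEq_iff_dvd' hr.one_le).1 h1.symm) (Nat.not_dvd_of_pos_of_lt
      (by have := hr.two_le; omega) (by have := hr.two_le; omega))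
  · exact mem_cent1_comm.1 (h (mem_zpowers u))

theorem pCore_eq_bot {π : Set ℕ} {K : Subgroup G} (h : PG π K) {t : ℕ} (ht : t.Prime)
    (h1 : t ∉ π) : pCoreOf t K = ⊥ := by
  have := Fact.mk ht
  by_contra h2
  exact h1 (h t ht (((H1.pCoreOf_isPGroup K).card_eq_or_dvd.resolve_left
    fun h0 => h2 (card_eq_one.1 h0)).trans (card_dvd_of_le (H1.pCoreOf_le K))))

variable [Group.IsSolvable G]

theorem exists_core {π : Set ℕ} {K : Subgroup G} (h : PG π K) (h1 : K ≠ ⊥) :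
    ∃ t ∈ π, pCoreOf t K ≠ ⊥ := by
  by_contra hc
  push Not at hc
  have h2 : fittingOf K ≤ ⊥ := H1.fittingOf_le_of_forall fun t ht => by
    by_cases h3 : t ∈ π
    · exact (hc t h3).le
    · exact (pCore_eq_bot h ht.out h3).le
  have h3 := cent_sub_Fitting (H := K) inferInstance
  rw [le_bot_iff.1 h2] at h3
  exact h1 (le_bot_iff.1 (le_trans (le_inf le_rfl fun x _ => mem_cent.2 fun a ha => by
    rw [mem_bot.1 ha]; simp) h3))

theorem le_core {π : Set ℕ} {K A : Subgroup G} (h : PG π K) {r : ℕ} (hr : r.Prime)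
    (hA : IsPGroup r A) (hAK : A ≤ K) (hc : ∀ t ∈ π, pCoreOf t K ≤ 𝐂(A)) : A ≤ pCoreOf r K := by
  have := Fact.mk hr
  refine H1.le_pCoreOf_of_le_fittingOf (le_trans (le_inf hAK ?_)
    (cent_sub_Fitting (H := K) inferInstance)) hA
  refine le_centralizer_iff.1 (H1.fittingOf_le_of_forall fun t ht => ?_)
  by_cases h3 : t ∈ π
  · exact hc t h3
  · rw [pCore_eq_bot h ht.out h3]; exact bot_le

theorem exists_hall (π : Set ℕ) (H : Subgroup G) : ∃ K ≤ H, PG π K ∧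
    ∀ t ∈ π, t.Prime → (Rk2 t H → Rk2 t K) ∧ pCoreOf t H ≤ K ∧ (t ∣ Nat.card H → t ∣ Nat.card K) := by
  obtain ⟨K, hK⟩ := Hall.exists_isPiHallOf (M := H) inferInstance π
  refine ⟨K, hK.1, fun t ht hd => hallOf_pi hK t ht hd, fun t ht htp => ⟨?_, ?_, ?_⟩⟩
  · rintro ⟨A, h1, h2⟩
    have := Fact.mk htp
    obtain ⟨g, -, hg⟩ := Hall.exists_conj_le_hallOf inferInstance
      (isPiSubgroup_of_isPGroup h2.pg ht) h1 hK
    exact ⟨_, hg, h2.conj g⟩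
  · have := Fact.mk htp
    exact le_hallOf_of_le_normalizer hK (isPiSubgroup_of_isPGroup (H1.pCoreOf_isPGroup H) ht)
      (H1.pCoreOf_le H) (hK.1.trans (H1.le_normalizer_pCoreOf H))
  · exact hallOf_dvd hK htp ht

end CfsgLib.H5.FourP
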