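import Cfsg.Agent.Lib.H5FourA

/-! Solvable groups without elements of order a product of three primes from a set:
action on a direct product of a `p`-group and a `q`-group. -/

set_option autoImplicit false

namespace CfsgLib.H5.FourP

open Subgroup Cfsg CfsgLib.FT CfsgLib.FT.BGN CfsgLib.FT.U4
open scoped commutatorElement

variable {G : Type*} [Group G]

/-- No three commuting nontrivial elements whose orders are powers of `p`, `q`, `r`. -/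
def NT (G : Type*) [Group G] (p q r : ℕ) : Prop :=
  ∀ a b c : G, IsPGroup p (zpowers a) → IsPGroup q (zpowers b) → IsPGroup r (zpowers c) →
    a ≠ 1 → b ≠ 1 → c ≠ 1 → a ∈ 𝐂[b] → a ∈ 𝐂[c] → b ∈ 𝐂[c] → False

theorem NT.s12 {p q r : ℕ} (h : NT G p q r) : NT G q p r :=
  fun a b c ha hb hc a1 b1 c1 h1 h2 h3 => h b a c hb ha hc b1 a1 c1 (mem_cent1_comm.1 h1) h3 h2

theorem NT.s23 {p q r : ℕ} (h : NT G p q r) : NT G p r q :=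
  fun a b c ha hb hc a1 b1 c1 h1 h2 h3 => h a c b ha hc hb a1 c1 b1 h2 h1 (mem_cent1_comm.1 h3)

theorem pz {p : ℕ} {V : Subgroup G} (hV : IsPGroup p V) {a : G} (ha : a ∈ V) :
    IsPGroup p (zpowers a) := hV.to_le (zpowers_le.2 ha)

theorem NT.bot {p q r : ℕ} (h : NT G p q r) {V : Subgroup G} (hV : IsPGroup p V) {b c : G}
    (hb : IsPGroup q (zpowers b)) (hc : IsPGroup r (zpowers c)) (b1 : b ≠ 1) (c1 : c ≠ 1)
    (hbc : b ∈ 𝐂[c]) : V ⊓ 𝐂[b] ⊓ 𝐂[c] = ⊥ :=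
  eq_bot_of_forall fun a ha => by
    by_contra h1
    exact h a b c (pz hV ha.1.1) hb hc h1 b1 c1 ha.1.2 ha.2 hbc

/-- Four distinct primes, no three of which are joined. -/
structure D4 (G : Type*) [Group G] (p q r s : ℕ) : Prop where
  hp : p.Prime
  hq : q.Prime
  hr : r.Prime
  hs : s.Prime
  pq : p ≠ q
  pr : p ≠ r
  ps : p ≠ s
  qr : q ≠ r
  qs : q ≠ s
  rs : r ≠ s
  pqr : NT G p q r
  pqs : NT G p q s
  prs : NT G p r s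
  qrs : NT G q r s

theorem D4.s12 {p q r s : ℕ} (h : D4 G p q r s) : D4 G q p r s :=
  ⟨h.hq, h.hp, h.hr, h.hs, h.pq.symm, h.qr, h.qs, h.pr, h.ps, h.rs, h.pqr.s12, h.pqs.s12, h.qrs,
    h.prs⟩

theorem D4.s23 {p q r s : ℕ} (h : D4 G p q r s) : D4 G p r q s :=
  ⟨h.hp, h.hr, h.hq, h.hs, h.pr, h.pq, h.ps, h.qr.symm, h.rs, h.qs, h.pqr.s23, h.prs, h.pqs,
    h.qrs.s12⟩

theorem D4.s34 {p q r s : ℕ} (h : D4 G p q r s) : D4 G p q s r :=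
  ⟨h.hp, h.hq, h.hs, h.hr, h.pq, h.ps, h.pr, h.qs, h.qr, h.rs.symm, h.pqs, h.pqr, h.prs.s23,
    h.qrs.s23⟩

/-- `K` acts on `V × W`. -/
structure P2 (p q r s : ℕ) (V W K : Subgroup G) : Prop where
  d : D4 G p q r s
  V1 : V ≠ ⊥
  W1 : W ≠ ⊥
  Vp : IsPGroup p V
  Wq : IsPGroup q W
  WV : W ≤ 𝐂(V)
  KV : K ≤ 𝐍(V)
  KW : K ≤ 𝐍(W)
  pg : PG {r, s} K
  rkr : Rk2 r K
  rks : Rk2 s K

namespace P2

variable {p q r s : ℕ} {V W K : Subgroup G} (h : P2 p q r s V W K)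
include h

theorem s12 : P2 q p r s W V K :=
  ⟨h.d.s12, h.W1, h.V1, h.Wq, h.Vp, le_centralizer_iff.1 h.WV, h.KW, h.KV, h.pg, h.rkr, h.rks⟩

theorem s34 : P2 p q s r V W K :=
  ⟨h.d.s34, h.V1, h.W1, h.Vp, h.Wq, h.WV, h.KV, h.KW, Set.pair_comm r s ▸ h.pg, h.rks, h.rkr⟩

theorem not_both {a : G} (ha : IsPGroup r (zpowers a)) (h1 : a ≠ 1) (hV : V ⊓ 𝐂[a] ≠ ⊥)
    (hW : W ⊓ 𝐂[a] ≠ ⊥) : False := by
  obtain ⟨v, hv, hv1⟩ := exists_ne_one hV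
  obtain ⟨w, hw, hw1⟩ := exists_ne_one hW
  exact h.d.pqr v w a (pz h.Vp hv.1) (pz h.Wq hw.1) ha hv1 hw1 h1
    (mem_cent1_comm.1 (cent_le_cent1 hv.1 (h.WV hw.1))) hv.2 hw.2

variable [Finite G]

theorem step1a {B Y : Subgroup G} (hB : E2 s B) (hBK : B ≤ K) (hY : IsPGroup r Y) (hYK : Y ≤ K)
    (hn : B ≤ 𝐍(Y)) {c₀ : G} (hc₀ : c₀ ∈ B) (h1 : c₀ ≠ 1) (hYc : Y ≤ 𝐂[c₀])
    (hYB : Y ⊓ 𝐂(B) = ⊥) (hY1 : Y ≠ ⊥) : Y ≤ 𝐂(V) := by
  have d := h.d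
  by_contra hnt
  have key : ∀ c ∈ B, c ∉ zpowers c₀ → Y ⊓ 𝐂[c] = ⊥ := fun c hc hc' => by
    rw [← hYB, ← hB.cent_eq d.hs hc₀ hc h1 hc', ← inf_assoc, inf_eq_left.2 hYc]
  have hne : ∀ c, c ∉ zpowers c₀ → c ≠ 1 := fun c hc e => hc (e ▸ one_mem _)
  have hVt : ∀ c ∈ B, c ∉ zpowers c₀ → V ⊓ 𝐂[c] ≠ ⊥ := fun c hc hc' h0 =>
    hnt (frob d.hp d.hr d.hs d.pr.symm d.ps.symm h.Vp hY (hB.orderOf d.hs hc (hne c hc')) (hn hc)
      (key c hc hc') (hYK.trans h.KV) (h.KV (hBK hc)) h0)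
  have hWt : ∀ c ∈ B, c ∉ zpowers c₀ → W ⊓ 𝐂[c] = ⊥ := fun c hc hc' => by
    by_contra h0
    exact h.s34.not_both (pz hB.pg hc) (hne c hc') (hVt c hc hc') h0
  have hW : W ≤ 𝐂[c₀] := hB.gen d.hq d.hs d.qs.symm h.Wq (hBK.trans h.KW) fun c hc hc1 => by
    by_cases h2 : c ∈ zpowers c₀
    · rw [cent1_eq d.hs (hB.orderOf d.hs hc₀ h1) h2 hc1]; exact inf_le_right
    · rw [hWt c hc h2]; exact bot_le
  obtain ⟨c, hc, hc'⟩ := hB.exists_notMem d.hs c₀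
  have h2 := frob d.hq d.hr d.hs d.qr.symm d.qs.symm h.Wq hY (hB.orderOf d.hs hc (hne c hc'))
    (hn hc) (key c hc hc') (hYK.trans h.KW) (h.KW (hBK hc)) (hWt c hc hc')
  obtain ⟨y, hy, hy1⟩ := exists_ne_one hY1
  refine h.W1 ?_
  rw [← d.qrs.bot h.Wq (pz hY hy) (pz hB.pg hc₀) hy1 h1 (hYc hy), inf_assoc]
  exact (inf_eq_left.2 (le_inf (fun w hw => mem_cent1.2 (mem_cent.1 (h2 hy) w hw)) hW)).symm

theorem step1 {B Y : Subgroup G} (hB : E2 s B) (hBK : B ≤ K) (hY : IsPGroup r Y) (hYK : Y ≤ K)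
    (hn : B ≤ 𝐍(Y)) (hc : IsMulCommutative Y) : Y ≤ 𝐂(B) := by
  have d := h.d
  refine hB.gen d.hr d.hs d.rs.symm hY hn fun c₀ hc₀ h1 => ?_
  have hn' : B ≤ 𝐍(Y ⊓ 𝐂[c₀]) := fun b hb => norm_inf1 (hn hb) (hB.cent1 hc₀ hb)
  have hle : ⁅Y ⊓ 𝐂[c₀], B⁆ ≤ Y ⊓ 𝐂[c₀] := comm_le_left hn'
  rw [← commutator_eq_bot_iff_le_centralizer]
  by_contra hY1
  have hY' : IsPGroup r ↥⁅Y ⊓ 𝐂[c₀], B⁆ := hY.to_le (hle.trans inf_le_left)
  have hYB := Cop.commutator_inf_centralizer_eq_bot hn'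
    (cop d.hs d.hr d.rs.symm hB.pg (hY.to_le inf_le_left)) 
    (comm_of_le_cent fun a ha => mem_cent.2 fun b hb =>
      congrArg Subtype.val (hc.is_comm.comm ⟨b, hb.1⟩ ⟨a, ha.1⟩))
  have hnn : B ≤ 𝐍(⁅Y ⊓ 𝐂[c₀], B⁆) := normalizer_commutator_ge_right _ _
  have hle' := hle.trans (inf_le_left.trans hYK)
  have h2 := h.step1a hB hBK hY' hle' hnn hc₀ h1 (hle.trans inf_le_right) hYB hY1
  have h3 := h.s12.step1a hB hBK hY' hle' hnn hc₀ h1 (hle.trans inf_le_right) hYB hY1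
  obtain ⟨y, hy, hy1⟩ := exists_ne_one hY1
  refine h.not_both (pz hY' hy) hy1 ?_ ?_
  · rw [inf_eq_left.2 fun v hv => mem_cent1.2 (mem_cent.1 (h2 hy) v hv)]; exact h.V1
  · rw [inf_eq_left.2 fun v hv => mem_cent1.2 (mem_cent.1 (h3 hy) v hv)]; exact h.W1

theorem fpf {B : Subgroup G} (hB : E2 s B) (hBK : B ≤ K) {z : G} (hz : IsPGroup r (zpowers z))
    (h1 : z ≠ 1) (hzB : z ∈ 𝐂(B)) : V ⊓ 𝐂[z] = ⊥ := by
  have d := h.d
  by_contra h0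
  obtain ⟨c, hc, hc1, h2⟩ := hB.fix d.hp d.hs d.ps.symm (h.Vp.to_le inf_le_left)
    (fun b hb => norm_inf1 (h.KV (hBK hb)) (mem_cent1.2 (mem_cent.1 hzB b hb))) h0
  exact h2 (d.prs.bot h.Vp hz (pz hB.pg hc) h1 hc1 (cent_le_cent1 hc hzB))

theorem fusion_aux {u e y u' : G} (hu : orderOf u = r) (huK : u ∈ K) (huV : V ⊓ 𝐂[u] = ⊥)
    (he : e ^ r = 1) (heK : e ∈ K) (heu : e ∈ 𝐂[u]) (he' : e ∉ zpowers u) (hy : y ∈ K)
    (hyu : y ∈ 𝐂[u]) (hu' : u' ∈ zpowers u) (h1 : u' ≠ 1) (hr : y * e * y⁻¹ = e * u') :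
    V ⊓ 𝐂[e] ≠ ⊥ := by
  have d := h.d
  have := Fact.mk d.hr
  have heo : orderOf e = r := orderOf_eq_prime he fun e1 => he' (e1 ▸ one_mem _)
  have hA := e2_sup d.hr heo hu (mem_cent1_comm.1 heu) he'
  obtain ⟨a, ha, ha1, h2⟩ := hA.fix d.hp d.hr d.pr.symm h.Vp
    ((sup_le (zpowers_le.2 heK) (zpowers_le.2 huK)).trans h.KV) h.V1
  have ha' : a ∉ zpowers u := fun h3 => h2 (by rw [cent1_eq d.hr hu h3 ha1, huV])
  obtain ⟨u'', hu'', h3⟩ := exists_mul_mem (heo ▸ d.hr) (mem_cent1_comm.1 heu) ha ha'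
  have h4 : ∀ n : ℕ, y ^ n * e * (y ^ n)⁻¹ = e * u' ^ n := by
    intro n
    induction n with
    | zero => simp
    | succ n ih =>
      have h5 : y * u' ^ n * y⁻¹ = u' ^ n :=
        conj_eq_of_mem_cent1 (cent1_le_cent1 (pow_mem hu' n) hyu)
      calc y ^ (n + 1) * e * (y ^ (n + 1))⁻¹ = y * (y ^ n * e * (y ^ n)⁻¹) * y⁻¹ := by group
        _ = (y * e * y⁻¹) * (y * u' ^ n * y⁻¹) := by rw [ih]; group
        _ = e * u' ^ (n + 1) := by rw [hr, h5]; group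
  rw [← zpowers_eq_of_card_prime (X := zpowers u) (by rw [Nat.card_zpowers, hu]; exact d.hr) hu' h1]
    at hu''
  obtain ⟨n, rfl⟩ := mem_powers_iff_mem_zpowers.2 hu''
  intro h0
  refine h2 (eq_bot_iff.2 ((inf_le_inf_left _ (cent1_le_cent1 h3)).trans ?_))
  simp only
  rw [← h4, cent1_conj, ← map_conj_eq_of_mem_normalizer (h.KV (pow_mem hy n)), ← map_conj_inf, h0]
  simp

theorem core (hT : pCoreOf r K ≠ ⊥) : ∃ u, (∀ a ∈ pCoreOf r K, a ^ r = 1 → a ∈ zpowers u) ∧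
    (∀ B ≤ K, E2 s B → B ≤ 𝐂[u]) ∧ ∀ a ∈ K, a ^ r = 1 → pCoreOf r K ≤ 𝐂[a] := by
  have d := h.d
  have := Fact.mk d.hr
  have hTp := H1.pCoreOf_isPGroup (p := r) K
  have hTK := H1.pCoreOf_le (p := r) K
  have hKT := H1.le_normalizer_pCoreOf (p := r) K
  generalize pCoreOf r K = T at *
  have hZn : K ≤ 𝐍(T ⊓ 𝐂(T)) := H1.le_normalizer_inf hKT (H1.le_normalizer_centralizer hKT)
  have hZp : IsPGroup r ↥(T ⊓ 𝐂(T)) := hTp.to_le inf_le_left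
  have hZc : T ⊓ 𝐂(T) ≤ 𝐂(T ⊓ 𝐂(T)) := inf_le_right.trans (centralizer_le inf_le_left)
  have hZB : ∀ B ≤ K, E2 s B → T ⊓ 𝐂(T) ≤ 𝐂(B) := fun B hBK hB =>
    h.step1 hB hBK hZp (inf_le_left.trans hTK) (hBK.trans hZn) (comm_of_le_cent hZc)
  obtain ⟨B, hBK, hB⟩ := h.rks
  have hrk : ¬ Rk2 r (T ⊓ 𝐂(T)) := by
    rintro ⟨A, h1, hA⟩
    obtain ⟨a, ha, ha1, h2⟩ := hA.fix d.hp d.hr d.pr.symm h.Vp
      (h1.trans (inf_le_left.trans (hTK.trans h.KV))) h.V1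
    exact h2 (h.fpf hB hBK (pz hA.pg ha) ha1 (hZB B hBK hB (h1 ha)))
  obtain ⟨u, huZ, hu⟩ := exists_order d.hr hZp (center_ne_bot d.hr hTp hT)
  have hu1 := ne_one_of_prime d.hr hu
  have hmem : ∀ a ∈ T ⊓ 𝐂(T), a ^ r = 1 → a ∈ zpowers u := fun a ha ha' =>
    mem_of_not_rk2 d.hr hrk ha huZ ha' hu (cent_le_cent1 ha (hZc huZ))
  have hTu : T ≤ 𝐂[u] := fun x hx => mem_cent1.2 (mem_cent.1 huZ.2 x hx)
  have hfus : ∀ e ∈ K, e ^ r = 1 → e ∈ 𝐂[u] → ∀ y ∈ T, y ∉ 𝐂[e] →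
      y * e * y⁻¹ * e⁻¹ ∉ zpowers u := by
    intro e heK he heu y hy hye h1
    have h2 : e ∉ zpowers u := fun h2 => hye (cent1_le_cent1 h2 (hTu hy))
    have he1 : e ≠ 1 := fun e1 => h2 (by rw [e1]; exact one_mem _)
    have h3 : y * e * y⁻¹ * e⁻¹ ≠ 1 := fun h3 =>
      hye (mem_cent1_of_conj_eq (mul_inv_eq_one.1 h3))
    have h4 : y * e * y⁻¹ = e * (y * e * y⁻¹ * e⁻¹) := by
      rw [mem_cent1.1 (cent1_le_cent1 h1 heu)]; group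
    exact h.not_both (IsPGroup.of_card (n := 1) (by
        rw [Nat.card_zpowers, pow_one]
        exact orderOf_eq_prime he he1)) he1
      (h.fusion_aux hu (hTK huZ.1) (h.fpf hB hBK (pg_zpowers hu) hu1 (hZB B hBK hB huZ)) he heK heu
        h2 (hTK hy) (hTu hy) h1 h3 h4)
      (h.s12.fusion_aux hu (hTK huZ.1) (h.s12.fpf hB hBK (pg_zpowers hu) hu1 (hZB B hBK hB huZ)) he
        heK heu h2 (hTK hy) (hTu hy) h1 h3 h4)
  have h3a : ∀ a ∈ T, a ^ r = 1 → T ≤ 𝐂[a] := by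
    by_contra hc
    push Not at hc
    obtain ⟨a, ⟨ha, har, hna⟩, hmax⟩ := Set.exists_max_image
      {a : G | a ∈ T ∧ a ^ r = 1 ∧ ¬ T ≤ 𝐂[a]} (fun a => Nat.card ↥(T ⊓ 𝐂[a])) (Set.toFinite _) hc
    obtain ⟨y, hy, hya, -, hyn⟩ := pc d.hr hTp (pz hTp ha) (le_normalizer ha) hna
    set D := T ⊓ 𝐂[a] with hD
    have hcD : IsMulCommutative ↥(D ⊓ 𝐂(D)) :=
      comm_of_le_cent (inf_le_right.trans (centralizer_le inf_le_left))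
    have hE : ∀ x, x ∈ omegaOne r (D ⊓ 𝐂(D)) ↔ x ∈ D ⊓ 𝐂(D) ∧ x ^ r = 1 :=
      fun x => PGrp.mem_omegaOne_of_comm hcD
    have hyE : y ∈ 𝐍(omegaOne r (D ⊓ 𝐂(D))) := mem_normalizer_of_conj_mem fun x hx =>
      (hE _).2 ⟨conj_mem_of_mem_normalizer (norm_inf hyn (norm_le_norm_cent D hyn)) ((hE x).1 hx).1,
        by rw [conj_pow, ((hE x).1 hx).2]; group⟩
    have hET : omegaOne r (D ⊓ 𝐂(D)) ≤ T := fun x hx => ((hE x).1 hx).1.1.1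
    obtain ⟨e, he, hey, h1, -⟩ := pc d.hr (hTp.to_le hET) (pz hTp hy) hyE fun h1 =>
      hya (mem_cent1_comm.1 (h1 ((hE a).2 ⟨⟨⟨ha, self_mem_cent1 a⟩,
        mem_cent.2 fun x hx => mem_cent1.1 hx.2⟩, har⟩)))
    have h2 : y * e * y⁻¹ * e⁻¹ ∈ omegaOne r (D ⊓ 𝐂(D)) :=
      mul_mem (conj_mem_of_mem_normalizer hyE he) (inv_mem he)
    have h3 : y * e * y⁻¹ * e⁻¹ ∈ 𝐂[y] := by
      have : y * e * y⁻¹ * e⁻¹ = y * (e * y * e⁻¹)⁻¹ := by group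
      rw [this]; exact mul_mem (self_mem_cent1 y) (inv_mem h1)
    refine hfus e (hTK (hET he)) ((hE e).1 he).2 (hTu (hET he)) y hy
      (fun h4 => hey (mem_cent1_comm.1 h4)) (hmem _ ⟨hET h2, ?_⟩ ((hE _).1 h2).2)
    by_contra h4
    have h5 := hmax _ ⟨hET h2, ((hE _).1 h2).2, fun h5 =>
      h4 (mem_cent.2 fun x hx => mem_cent1.1 (h5 hx))⟩
    refine absurd h5 (not_le.2 (card_lt_card_of_lt (lt_of_le_of_ne (le_inf inf_le_left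
      fun x hx => mem_cent1.2 (mem_cent.1 ((hE _).1 h2).1.2 x hx)) fun e1 => hya ?_)))
    have : y ∈ D := e1 ▸ ⟨hy, mem_cent1_comm.1 h3⟩
    exact this.2
  have hmemT : ∀ a ∈ T, a ^ r = 1 → a ∈ zpowers u := fun a ha ha' =>
    hmem a ⟨ha, mem_cent.2 fun x hx => mem_cent1.1 (h3a a ha ha' hx)⟩ ha'
  refine ⟨u, hmemT, fun B' hB'K hB' b hb => mem_cent1.2 (mem_cent.1 (hZB B' hB'K hB' huZ) b hb),
    fun a ha har => ?_⟩
  by_contra hna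
  have hap : IsPGroup r (zpowers a) := fun g => ⟨1, Subtype.ext (by
    obtain ⟨_, k, rfl⟩ := g
    simp only [pow_one, SubgroupClass.coe_pow, OneMemClass.coe_one]
    rw [← zpow_natCast, ← zpow_mul, mul_comm, zpow_mul, zpow_natCast, har, one_zpow])⟩
  obtain ⟨y, hy, hya, h1, -⟩ := pc d.hr hTp hap (hKT ha) hna
  refine hfus a ha har (cent_of_norm_prime d.hr hu hap (mem_normalizer_of_conj_mem fun x hx => ?_))
    y hy hya (hmemT _ ?_ ?_)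
  · refine hmemT _ (conj_mem_of_mem_normalizer (hKT ha) (zpowers_le.2 huZ.1 hx)) ?_
    rw [conj_pow, orderOf_dvd_iff_pow_eq_one.1 (hu ▸ orderOf_dvd_of_mem_zpowers hx)]; group
  · have : y * a * y⁻¹ * a⁻¹ = y * (a * y⁻¹ * a⁻¹) := by group
    rw [this]; exact mul_mem hy (conj_mem_of_mem_normalizer (hKT ha) (inv_mem hy))
  · have h2 : Commute (y * a * y⁻¹) a⁻¹ := Commute.inv_right (mem_cent1.1 h1)
    rw [h2.mul_pow, conj_pow, inv_pow, har]; group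

variable [Group.IsSolvable G]

theorem two (hT : pCoreOf r K ≠ ⊥) : pCoreOf s K ≠ ⊥ ∧ s = 2 := by
  have d := h.d
  have := Fact.mk d.hs
  obtain ⟨u, h1, -, h3⟩ := h.core hT
  obtain ⟨A, hAK, hA⟩ := h.rkr
  obtain ⟨a, ha, ha'⟩ := hA.exists_notMem d.hr u
  have key : ¬ pCoreOf s K ≤ 𝐂(A) := fun h4 => by
    refine ha' (h1 a (le_core h.pg d.hr hA.pg hAK ?_ ha) (hA.pow a ha))
    rintro t (rfl | rfl)
    · exact fun x hx => mem_cent.2 fun b hb => mem_cent1'.1 (h3 b (hAK hb) (hA.pow b hb) hx)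
    · exact h4
  have hS : pCoreOf s K ≠ ⊥ := fun e => key (e ▸ bot_le)
  refine ⟨hS, ?_⟩
  by_contra h2
  obtain ⟨u', h4, h5, -⟩ := h.s34.core hS
  refine key (commutator_eq_bot_iff_le_centralizer.1
    (Cop.commutator_eq_bot_of_centralizes_omega_odd h2 (H1.pCoreOf_isPGroup K)
      (hAK.trans (H1.le_normalizer_pCoreOf K)) ?_ fun x hx hx' => ?_))
  · rw [hA.card]; exact ((Nat.coprime_primes d.hr d.hs).2 d.rs).pow_left 2
  · exact mem_cent.2 fun b hb => mem_cent1.1 (cent1_le_cent1 (h4 x hx hx') (h5 A hAK hA hb))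

theorem false : False := by
  have hK : K ≠ ⊥ := by
    obtain ⟨A, hAK, hA⟩ := h.rkr
    obtain ⟨a, ha, ha'⟩ := hA.exists_notMem h.d.hr 1
    exact ne_bot_of_mem (hAK ha) fun e => ha' (by rw [e]; exact one_mem _)
  obtain ⟨t, ht | ht, h1⟩ := exists_core h.pg hK
  · subst ht
    obtain ⟨h2, h3⟩ := h.two h1
    exact h.d.rs ((h.s34.two h2).2.trans h3.symm)
  · obtain rfl : t = s := ht
    obtain ⟨h2, h3⟩ := h.s34.two h1
    exact h.d.rs (h3.trans (h.two h2).2.symm)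

end P2

end CfsgLib.H5.FourP
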