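import Cfsg.Agent.Lib.H5FourB
import Cfsg.Agent.Lib.FrobZGroup

/-! Solvable groups without elements of order a product of three primes from a set:
faithful action on a `p`-group. -/

set_option autoImplicit false

namespace CfsgLib.H5.FourP

open Subgroup Cfsg CfsgLib.FT CfsgLib.FT.BGN CfsgLib.FT.U4
open scoped commutatorElement

variable {G : Type*} [Group G]

/-- `H` acts faithfully on `V`. -/
structure P1 (p q r s : ℕ) (V H : Subgroup G) : Prop where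
  d : D4 G p q r s
  V1 : V ≠ ⊥
  Vp : IsPGroup p V
  HV : H ≤ 𝐍(V)
  faith : H ⊓ 𝐂(V) = ⊥
  pg : PG {q, r, s} H
  rkq : Rk2 q H
  rkr : Rk2 r H
  rks : Rk2 s H

namespace P1

variable {p q r s : ℕ} {V H : Subgroup G} (h : P1 p q r s V H)
include h

theorem s23 : P1 p r q s V H :=
  ⟨h.d.s23, h.V1, h.Vp, h.HV, h.faith, Set.insert_comm q r {s} ▸ h.pg, h.rkr, h.rkq, h.rks⟩

theorem s34 : P1 p q s r V H :=
  ⟨h.d.s34, h.V1, h.Vp, h.HV, h.faith, Set.pair_comm r s ▸ h.pg, h.rkq, h.rks, h.rkr⟩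

theorem eq_bot {Y : Subgroup G} (h1 : Y ≤ H) (h2 : Y ≤ 𝐂(V)) : Y = ⊥ :=
  eq_bot_iff.2 (h.faith ▸ le_inf h1 h2)

variable [Finite G]

/-- A `q`-subgroup normalized by commuting elements of orders `r` and `s`. -/
theorem A1 {U : Subgroup G} (hU : IsPGroup q U) (hUH : U ≤ H) {b c : G} (hb : orderOf b = r)
    (hc : orderOf c = s) (hbH : b ∈ H) (hcH : c ∈ H) (hbc : b ∈ 𝐂[c]) (hcU : c ∈ 𝐍(U))
    (h1 : U ⊓ 𝐂[b] ≠ ⊥) : V ⊓ 𝐂[b] = ⊥ ∧ V ⊓ 𝐂[c] ≠ ⊥ := by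
  have d := h.d
  have b1 := ne_one_of_prime d.hr hb
  have c1 := ne_one_of_prime d.hs hc
  have hU' : IsPGroup q ↥(U ⊓ 𝐂[b]) := hU.to_le inf_le_left
  have hcn : c ∈ 𝐍(U ⊓ 𝐂[b]) := norm_inf1 hcU (mem_cent1_comm.1 hbc)
  have h0 := d.qrs.bot hU (pg_zpowers hb) (pg_zpowers hc) b1 c1 hbc
  constructor
  · have h2 := frob d.hp d.hq d.hs d.pq.symm d.ps.symm (V := V ⊓ 𝐂[b]) (h.Vp.to_le inf_le_left) hU'
      hc hcn h0 (fun u hu => norm_inf1 (h.HV (hUH hu.1)) hu.2)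
      (norm_inf1 (h.HV hcH) (mem_cent1_comm.1 hbc))
      (d.prs.bot h.Vp (pg_zpowers hb) (pg_zpowers hc) b1 c1 hbc)
    obtain ⟨u, hu, hu1⟩ := exists_ne_one h1
    rw [← d.pqr.s23.bot h.Vp (pg_zpowers hb) (pz hU hu.1) b1 hu1 (mem_cent1_comm.1 hu.2)]
    exact (inf_eq_left.2 fun v hv => mem_cent1.2 (mem_cent.1 (h2 hu) v hv)).symm
  · intro h2
    exact h1 (h.eq_bot (inf_le_left.trans hUH) (frob d.hp d.hq d.hs d.pq.symm d.ps.symm h.Vp hU' hc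
      hcn h0 ((inf_le_left.trans hUH).trans h.HV) (h.HV hcH) h2))

theorem A2 {U : Subgroup G} (hU : IsPGroup q U) (hUH : U ≤ H) (hUc : IsMulCommutative U) {b c : G}
    (hb : orderOf b = r) (hc : orderOf c = s) (hbH : b ∈ H) (hcH : c ∈ H) (hbc : b ∈ 𝐂[c])
    (hbU : b ∈ 𝐍(U)) (hcU : c ∈ 𝐍(U)) (h1 : U ⊓ 𝐂[c] = ⊥) : U ≤ 𝐂[b] := by
  have d := h.d
  have hle : ⁅U, zpowers b⁆ ≤ U := comm_le_left (zpowers_le.2 hbU)
  have h2 := Cop.commutator_inf_centralizer_eq_bot (zpowers_le.2 hbU)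
    (cop d.hr d.hq d.qr.symm (pg_zpowers hb) hU) hUc
  rw [cent_zpowers] at h2
  rw [← cent_zpowers, ← commutator_eq_bot_iff_le_centralizer]
  refine h.eq_bot (hle.trans hUH) (frob2 d.hp d.hq d.hr d.hs d.pq.symm d.pr.symm d.ps.symm d.rs h.Vp
    (hU.to_le hle) hb hc (mem_cent1_comm.1 hbc) (normalizer_commutator_ge_right _ _ (mem_zpowers b))
    (Cop.le_normalizer_commutator (zpowers_le.2 hcU) ?_ (mem_zpowers c)) h2
    (eq_bot_iff.2 ((inf_le_inf_right _ hle).trans h1.le)) ((hle.trans hUH).trans h.HV) (h.HV hbH)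
    (h.HV hcH) (d.prs.bot h.Vp (pg_zpowers hb) (pg_zpowers hc) (ne_one_of_prime d.hr hb)
      (ne_one_of_prime d.hs hc) hbc))
  refine le_trans ?_ (cent_le_norm _)
  rw [cent_zpowers]; exact zpowers_le.2 (mem_cent1_comm.1 hbc)

theorem stepA {U : Subgroup G} (hU : IsPGroup q U) (hUH : U ≤ H) (hUc : IsMulCommutative U)
    (hU1 : U ≠ ⊥) (hn : H ≤ 𝐍(U)) {b c : G} (hb : orderOf b = r) (hc : orderOf c = s)
    (hbH : b ∈ H) (hcH : c ∈ H) (hbc : b ∈ 𝐂[c]) :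
    (V ⊓ 𝐂[b] = ⊥ ∧ U ⊓ 𝐂[c] = ⊥ ∧ V ⊓ 𝐂[c] ≠ ⊥) ∨
      (U ≤ 𝐂[c] ∧ V ⊓ 𝐂[c] = ⊥ ∧ U ⊓ 𝐂[b] = ⊥ ∧ V ⊓ 𝐂[b] ≠ ⊥) := by
  by_cases h1 : U ⊓ 𝐂[c] = ⊥
  · have h2 := h.A2 hU hUH hUc hb hc hbH hcH hbc (hn hbH) (hn hcH) h1
    obtain ⟨h3, h4⟩ := h.A1 hU hUH hb hc hbH hcH hbc (hn hcH) (by rwa [inf_eq_left.2 h2])
    exact Or.inl ⟨h3, h1, h4⟩
  · obtain ⟨h3, h4⟩ := h.s34.A1 hU hUH hc hb hcH hbH (mem_cent1_comm.1 hbc) (hn hbH) h1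
    have h5 : U ⊓ 𝐂[b] = ⊥ := by
      by_contra h5
      exact h4 (h.A1 hU hUH hb hc hbH hcH hbc (hn hcH) h5).1
    exact Or.inr ⟨h.s34.A2 hU hUH hUc hc hb hcH hbH (mem_cent1_comm.1 hbc) (hn hcH) (hn hbH) h5,
      h3, h5, h4⟩

section U

variable {U : Subgroup G} (hU : IsPGroup q U) (hUH : U ≤ H) (hUc : IsMulCommutative U)
    (hU1 : U ≠ ⊥) (hn : H ≤ 𝐍(U))
include hU hUH hUc hU1 hn

theorem B1 {B Y : Subgroup G} (hB : E2 s B) (hBH : B ≤ H) (hY : IsPGroup r Y) (hYH : Y ≤ H) :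
    Y ⊓ 𝐂(B) = ⊥ := by
  have d := h.d
  by_contra h0
  obtain ⟨b, hb, hbo⟩ := exists_order d.hr (hY.to_le inf_le_left) h0
  obtain ⟨c, hc, hc1, h1⟩ := hB.fix d.hq d.hs d.qs.symm hU (hBH.trans hn) hU1
  obtain ⟨c', hc', hc1', h1'⟩ := hB.fix d.hp d.hs d.ps.symm h.Vp (hBH.trans h.HV) h.V1
  rcases h.stepA hU hUH hUc hU1 hn hbo (hB.orderOf d.hs hc hc1) (hYH hb.1) (hBH hc)
    (cent_le_cent1 hc hb.2) with h2 | h2
  · exact h1 h2.2.1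
  rcases h.stepA hU hUH hUc hU1 hn hbo (hB.orderOf d.hs hc' hc1') (hYH hb.1) (hBH hc')
    (cent_le_cent1 hc' hb.2) with h3 | h3
  · exact h2.2.2.2 h3.1
  · exact h1' h3.2.1

theorem B3 {c : G} (hc : orderOf c = s) (hcH : c ∈ H) : ¬ Rk2 r (H ⊓ 𝐂[c]) := by
  have d := h.d
  rintro ⟨A, hAH, hA⟩
  obtain ⟨a, ha, ha1, h1⟩ := hA.fix d.hq d.hr d.qr.symm hU ((hAH.trans inf_le_left).trans hn) hU1
  obtain ⟨a', ha', ha1', h1'⟩ := hA.fix d.hp d.hr d.pr.symm h.Vp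
    ((hAH.trans inf_le_left).trans h.HV) h.V1
  rcases h.stepA hU hUH hUc hU1 hn (hA.orderOf d.hr ha' ha1') hc (hAH ha').1 hcH (hAH ha').2
    with h2 | h2
  · exact h1' h2.1
  rcases h.stepA hU hUH hUc hU1 hn (hA.orderOf d.hr ha ha1) hc (hAH ha).1 hcH (hAH ha).2
    with h3 | h3
  · exact h3.2.2 h2.2.1
  · exact h1 h3.2.2.1

theorem B2 {K : Subgroup G} (hKH : K ≤ H) (hrk : Rk2 s K) (hT : pCoreOf r K ≠ ⊥) : s < r := by
  have d := h.d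
  obtain ⟨B, hBK, hB⟩ := hrk
  have hTp := H1.pCoreOf_isPGroup (p := r) K
  have hTK := H1.pCoreOf_le (p := r) K
  have hKT := H1.le_normalizer_pCoreOf (p := r) K
  generalize pCoreOf r K = T at *
  have hZn : K ≤ 𝐍(T ⊓ 𝐂(T)) := H1.le_normalizer_inf hKT (H1.le_normalizer_centralizer hKT)
  have hZp : IsPGroup r ↥(T ⊓ 𝐂(T)) := hTp.to_le inf_le_left
  obtain ⟨c, hc, hc1, h1⟩ := hB.fix d.hr d.hs d.rs.symm hZp (hBK.trans hZn)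
    (center_ne_bot d.hr hTp hT)
  have hle : T ⊓ 𝐂(T) ⊓ 𝐂[c] ≤ T := inf_le_left.trans inf_le_left
  have hcy : IsCyclic ↥(T ⊓ 𝐂(T) ⊓ 𝐂[c]) := cyclic_of_comm d.hr (hTp.to_le hle)
    (comm_of_le_cent ((inf_le_left.trans inf_le_right).trans (centralizer_le hle))) fun h2 =>
      h.B3 hU hUH hUc hU1 hn (hB.orderOf d.hs hc hc1) (hKH (hBK hc))
        (h2.mono (le_inf (hle.trans (hTK.trans hKH)) inf_le_right))
  refine lt_of_le_of_ne (not_lt.1 fun hlt => h1 ?_) d.rs.symm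
  rw [← h.B1 hU hUH hUc hU1 hn hB (hBK.trans hKH) (hTp.to_le hle) (hle.trans (hTK.trans hKH))]
  refine (inf_eq_left.2 (le_centralizer_iff.1 fun x hx => ?_)).symm
  by_cases hx1 : x = 1
  · rw [hx1]; exact one_mem _
  exact H4.mem_centralizer_of_isCyclic_of_lt (k := 1) d.hs d.hr hlt (hTp.to_le hle)
    (by rw [pow_one]; exact hB.orderOf d.hs hx hx1) (norm_inf1 (hZn (hBK hx)) (hB.cent1 hc hx))

end U

variable [Group.IsSolvable G]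

theorem M (hQ : pCoreOf q H ≠ ⊥) {K : Subgroup G} (hKH : K ≤ H) (hpg : PG {r, s} K)
    (hrr : Rk2 r K) (hrs : Rk2 s K) (hT : pCoreOf r K ≠ ⊥) :
    s < r ∧ pCoreOf s K = ⊥ ∧ pCoreOf r K ≤ 𝐂(pCoreOf q H) ∧ Rk2 r (pCoreOf r K) ∧
      ¬ Rk2 q (pCoreOf q H) ∧ pCoreOf r K ≤ ⁅H, H⁆ := by
  have d := h.d
  have hQp := H1.pCoreOf_isPGroup (p := q) H
  have hQH := H1.pCoreOf_le (p := q) H
  have hHQ := H1.le_normalizer_pCoreOf (p := q) H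
  generalize pCoreOf q H = Q at *
  have hn : H ≤ 𝐍(Q ⊓ 𝐂(Q)) := H1.le_normalizer_inf hHQ (H1.le_normalizer_centralizer hHQ)
  have hU : IsPGroup q ↥(Q ⊓ 𝐂(Q)) := hQp.to_le inf_le_left
  have hUH : Q ⊓ 𝐂(Q) ≤ H := inf_le_left.trans hQH
  have hUc : IsMulCommutative ↥(Q ⊓ 𝐂(Q)) :=
    comm_of_le_cent (inf_le_right.trans (centralizer_le inf_le_left))
  have hU1 := center_ne_bot d.hq hQp hQ
  generalize Q ⊓ 𝐂(Q) = U at *
  have hsr := h.B2 hU hUH hUc hU1 hn hKH hrs hT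
  have hS : pCoreOf s K = ⊥ := by
    by_contra h1
    exact absurd (h.s34.B2 hU hUH hUc hU1 hn hKH hrr h1) (not_lt.2 hsr.le)
  have hr2 : r ≠ 2 := by have := d.hs.two_le; omega
  obtain ⟨B, hBK, hB⟩ := hrs
  have hBH := hBK.trans hKH
  have hline : ∀ c ∈ B, c ≠ 1 → ∃ c' ∈ B, c' ∉ zpowers c ∧ pCoreOf r K ⊓ 𝐂[c'] ≠ ⊥ := by
    intro c hc hc1
    by_contra hcon
    push Not at hcon
    have h1 : pCoreOf r K ≤ 𝐂[c] := hB.gen d.hr d.hs d.rs.symm (H1.pCoreOf_isPGroup K)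
      (hBK.trans (H1.le_normalizer_pCoreOf K)) fun c' hc' hc1' => by
        by_cases h2 : c' ∈ zpowers c
        · rw [cent1_eq d.hs (hB.orderOf d.hs hc hc1) h2 hc1']; exact inf_le_right
        · rw [hcon c' hc' h2]; exact bot_le
    have h2 := le_core hpg d.hs (pz hB.pg hc) (zpowers_le.2 (hBK hc)) (by
      rintro t (rfl | rfl)
      · rwa [cent_zpowers]
      · rw [hS]; exact bot_le)
    rw [hS] at h2
    exact hc1 (mem_bot.1 (h2 (mem_zpowers c)))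
  have hTp := H1.pCoreOf_isPGroup (p := r) K
  have hTH := (H1.pCoreOf_le (p := r) K).trans hKH
  have hBT := hBK.trans (H1.le_normalizer_pCoreOf (p := r) K)
  generalize pCoreOf r K = T at *
  have hTB := h.B1 hU hUH hUc hU1 hn hB hBH hTp hTH
  have hne : ∀ {c c' : G}, c' ∉ zpowers c → c' ≠ 1 := fun hc e => hc (e ▸ one_mem _)
  have hY : ∀ c ∈ B, c ≠ 1 → ∀ c' ∈ B, c' ∉ zpowers c → T ⊓ 𝐂[c] ⊓ 𝐂[c'] = ⊥ :=
    fun c hc hc1 c' hc' h1 => by rw [inf_assoc, hB.cent_eq d.hs hc hc' hc1 h1, hTB]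
  have hfr : ∀ {t : ℕ} {X : Subgroup G}, t.Prime → r ≠ t → s ≠ t → IsPGroup t X → H ≤ 𝐍(X) →
      ∀ c ∈ B, c ≠ 1 → ∀ c' ∈ B, c' ∉ zpowers c → X ⊓ 𝐂[c'] = ⊥ → T ⊓ 𝐂[c] ≤ 𝐂(X) :=
    fun ht h1 h2 hX hHX c hc hc1 c' hc' h3 h4 => frob ht d.hr d.hs h1 h2 hX (hTp.to_le inf_le_left)
      (hB.orderOf d.hs hc' (hne h3)) (norm_inf1 (hBT hc') (hB.cent1 hc hc')) (hY c hc hc1 c' hc' h3)
      ((inf_le_left.trans hTH).trans hHX) (hHX (hBH hc')) h4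
  have C1 : ∀ c ∈ B, c ≠ 1 → T ⊓ 𝐂[c] ≠ ⊥ → V ⊓ 𝐂[c] ≠ ⊥ := by
    intro c hc hc1 h1
    obtain ⟨b, hb, hbo⟩ := exists_order d.hr (hTp.to_le inf_le_left) h1
    rcases h.stepA hU hUH hUc hU1 hn hbo (hB.orderOf d.hs hc hc1) (hTH hb.1) (hBH hc) hb.2
      with h2 | h2
    · exact h2.2.2
    exfalso
    obtain ⟨c', hc', h3, h4⟩ := hline c hc hc1
    obtain ⟨b', hb', hbo'⟩ := exists_order d.hr (hTp.to_le inf_le_left) h4
    rcases h.stepA hU hUH hUc hU1 hn hbo' (hB.orderOf d.hs hc' (hne h3)) (hTH hb'.1) (hBH hc') hb'.2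
      with h5 | h5
    · have h6 := hfr d.hq d.qr.symm d.qs.symm hU hn c hc hc1 c' hc' h3 h5.2.1 hb
      refine hU1 ?_
      rw [← h2.2.2.1]
      exact (inf_eq_left.2 fun u hu => mem_cent1.2 (mem_cent.1 h6 u hu)).symm
    · exact h1 (h.eq_bot (inf_le_left.trans hTH)
        (hfr d.hp d.pr.symm d.ps.symm h.Vp h.HV c hc hc1 c' hc' h3 h5.2.1))
  have C2 : ∀ c ∈ B, c ≠ 1 → T ⊓ 𝐂[c] ≠ ⊥ → Q ⊓ 𝐂[c] = ⊥ := by
    intro c hc hc1 h1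
    obtain ⟨b, hb, hbo⟩ := exists_order d.hr (hTp.to_le inf_le_left) h1
    have b1 := ne_one_of_prime d.hr hbo
    have h2 := frob d.hp d.hq d.hr d.pq.symm d.pr.symm (V := V ⊓ 𝐂[c]) (K := Q ⊓ 𝐂[c])
      (h.Vp.to_le inf_le_left) (hQp.to_le inf_le_left) hbo (norm_inf1 (hHQ (hTH hb.1)) hb.2)
      (d.qrs.s23.bot hQp (pz hB.pg hc) (pg_zpowers hbo) hc1 b1 (mem_cent1_comm.1 hb.2))
      (fun u hu => norm_inf1 (h.HV (hQH hu.1)) hu.2) (norm_inf1 (h.HV (hTH hb.1)) hb.2)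
      (d.prs.s23.bot h.Vp (pz hB.pg hc) (pg_zpowers hbo) hc1 b1 (mem_cent1_comm.1 hb.2))
    by_contra h3
    obtain ⟨u, hu, hu1⟩ := exists_ne_one h3
    refine C1 c hc hc1 h1 ?_
    rw [← d.pqs.s23.bot h.Vp (pz hB.pg hc) (pz hQp hu.1) hc1 hu1 (mem_cent1_comm.1 hu.2)]
    exact (inf_eq_left.2 fun v hv => mem_cent1.2 (mem_cent.1 (h2 hu) v hv)).symm
  have C3 : T ≤ 𝐂(Q) := hB.gen d.hr d.hs d.rs.symm hTp hBT fun c hc hc1 => by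
    obtain ⟨c', hc', h3, h4⟩ := hline c hc hc1
    exact hfr d.hq d.qr.symm d.qs.symm hQp hHQ c hc hc1 c' hc' h3 (C2 c' hc' (hne h3) h4)
  have C4 : Rk2 r T := by
    by_contra h1
    have hcy := le_cent_of_isCyclic (cyclic_of_odd d.hr hr2 hTp h1)
    obtain ⟨c₀, hc₀, h0⟩ := hB.exists_notMem d.hs 1
    obtain ⟨c, hc, h2, h3⟩ := hline c₀ hc₀ (hne h0)
    obtain ⟨c', hc', h4, h5⟩ := hline c hc (hne h2)
    obtain ⟨b, hb, hbo⟩ := exists_order d.hr (hTp.to_le inf_le_left) h3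
    obtain ⟨b', hb', hbo'⟩ := exists_order d.hr (hTp.to_le inf_le_left) h5
    have h6 := mem_of_not_rk2 d.hr h1 hb.1 hb'.1 (hbo ▸ pow_orderOf_eq_one b) hbo'
      (cent_le_cent1 hb.1 (hcy hb'.1))
    exact ne_one_of_prime d.hr hbo (eq_one_of_mem_inf (hY c hc (hne h2) c' hc' h4) hb
      (zpowers_le.2 hb'.2 h6))
  refine ⟨hsr, hS, C3, C4, ?_, ?_⟩
  · rintro ⟨E, hEQ, hE⟩
    obtain ⟨A, hAT, hA⟩ := C4
    obtain ⟨u, hu, hu1, h1⟩ := hE.fix d.hp d.hq d.pq.symm h.Vp ((hEQ.trans hQH).trans h.HV) h.V1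
    obtain ⟨a, ha, ha1, h2⟩ := hA.fix d.hp d.hr d.pr.symm (h.Vp.to_le inf_le_left)
      (fun a ha => norm_inf1 (h.HV (hTH (hAT ha))) (cent_le_cent1 (hEQ hu) (C3 (hAT ha)))) h1
    exact h2 (d.pqr.bot h.Vp (pz hE.pg hu) (pz hA.pg ha) hu1 ha1
      (mem_cent1_comm.1 (cent_le_cent1 (hEQ hu) (C3 (hAT ha)))))
  · have := Fact.mk d.hr
    have h1 := Cop.commutator_sup_centralizer hBT (cop d.hs d.hr d.rs.symm hB.pg hTp)
      (Or.inr inferInstance)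
    rw [hTB, sup_bot_eq] at h1
    exact h1 ▸ commutator_mono hTH hBH

theorem false_aux (hQ : pCoreOf q H ≠ ⊥) {K : Subgroup G} (hKH : K ≤ H) (hpg : PG {r, s} K)
    (hrr : Rk2 r K) (hrs : Rk2 s K) (hle : pCoreOf s H ≤ K) (hT : pCoreOf r K ≠ ⊥) : False := by
  have d := h.d
  obtain ⟨h1, h2, h3, h4, -, h6⟩ := h.M hQ hKH hpg hrr hrs hT
  have hS : pCoreOf s H = ⊥ := eq_bot_iff.2 (h2 ▸ H1.pCoreOf_le_pCoreOf hKH hle)
  have key : pCoreOf r H ≤ 𝐂(pCoreOf r K) → pCoreOf r K ≤ pCoreOf r H := fun h7 =>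
    le_core h.pg d.hr (H1.pCoreOf_isPGroup K) ((H1.pCoreOf_le K).trans hKH) (by
      rintro t (rfl | rfl | rfl)
      · exact le_centralizer_iff.1 h3
      · exact h7
      · rw [hS]; exact bot_le)
  have hR : pCoreOf r H ≠ ⊥ := fun e => hT (eq_bot_iff.2 (e ▸ key (e ▸ bot_le)))
  obtain ⟨K', hK'H, hpg', h7⟩ := exists_hall {q, s} H
  obtain ⟨h8, h9, -⟩ := h7 q (Or.inl rfl) d.hq
  have h10 := (h.s23.M hR hK'H hpg' (h8 h.rkq) ((h7 s (Or.inr rfl) d.hs).1 h.rks) fun e =>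
    hQ (eq_bot_iff.2 (e ▸ H1.pCoreOf_le_pCoreOf hK'H h9))).2.2.2.2.1
  have := cyclic_of_odd d.hr (by have := d.hs.two_le; omega) (H1.pCoreOf_isPGroup H) h10
  exact h10 (h4.mono (key (le_centralizer_iff.1 (h6.trans
    (Frob.commutator_le_centralizer_of_isCyclic (H1.le_normalizer_pCoreOf H)
      (H1.le_normalizer_pCoreOf H))))))

theorem false_of_core (hQ : pCoreOf q H ≠ ⊥) : False := by
  have d := h.d
  obtain ⟨K, hKH, hpg, h1⟩ := exists_hall {r, s} H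
  obtain ⟨h2, h3, -⟩ := h1 r (Or.inl rfl) d.hr
  obtain ⟨h4, h5, -⟩ := h1 s (Or.inr rfl) d.hs
  have hK : K ≠ ⊥ := by
    obtain ⟨A, hAK, hA⟩ := h2 h.rkr
    obtain ⟨a, ha, ha'⟩ := hA.exists_notMem d.hr 1
    exact ne_bot_of_mem (hAK ha) fun e => ha' (by rw [e]; exact one_mem _)
  obtain ⟨t, ht | ht, h6⟩ := exists_core hpg hK
  · subst ht
    exact h.false_aux hQ hKH hpg (h2 h.rkr) (h4 h.rks) h5 h6
  · obtain rfl : t = s := ht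
    exact h.s34.false_aux hQ hKH (Set.pair_comm r t ▸ hpg) (h4 h.rks) (h2 h.rkr) h3 h6

theorem false : False := by
  have hK : H ≠ ⊥ := by
    obtain ⟨A, hAK, hA⟩ := h.rkr
    obtain ⟨a, ha, ha'⟩ := hA.exists_notMem h.d.hr 1
    exact ne_bot_of_mem (hAK ha) fun e => ha' (by rw [e]; exact one_mem _)
  obtain ⟨t, ht | ht | ht, h6⟩ := exists_core h.pg hK
  · subst ht
    exact h.false_of_core h6
  · subst ht
    exact h.s23.false_of_core h6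
  · obtain rfl : t = s := ht
    exact h.s34.s23.false_of_core h6

end P1

end CfsgLib.H5.FourP
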