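import Mathlib
import Cfsg.Agent.Lib.FT.BG4a
import Cfsg.Agent.Lib.BurnsideBasis
import Cfsg.Agent.Lib.Extraspecial

/-! Bounds for the number of generators of `p`-groups: groups whose elements of order `p` are
central, and `p`-groups acting on an elementary abelian `p`-group. -/

set_option autoImplicit false

namespace CfsgLib.H5.Gen

open Subgroup
open scoped commutatorElement

theorem pc_commutator.{u} {p : ℕ} [hp : Fact p.Prime] (hp2 : p ≠ 2) (G : Type u) [Group G]
    [Finite G] : IsPGroup p G → (∀ x : G, x ^ p = 1 → x ∈ center G) →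
      ∀ x g : G, (x ^ p) ^ p = 1 → ⁅x, g⁆ ^ p = 1 := by
  refine card_induction (P := fun G _ _ => IsPGroup p G → (∀ x : G, x ^ p = 1 → x ∈ center G) →
      ∀ x g : G, (x ^ p) ^ p = 1 → ⁅x, g⁆ ^ p = 1) ?_ G
  intro G _ _ ih hG hc x g hx
  rcases eq_top_or_exists_le_coatom (zpowers x) with h | ⟨M, hM, hle⟩
  · obtain ⟨i, rfl⟩ : g ∈ zpowers x := h ▸ mem_top g
    rw [commutatorElement_eq_one_iff_commute.2 (Commute.self_zpow x i), one_pow]
  have hn := BurnsideBasis.coatom_normal hG hM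
  have hxM : x ∈ M := hle (mem_zpowers x)
  have h1 := ih M (card_lt_of_ne_top hM.1) (hG.to_subgroup M) (fun y hy =>
    mem_center_iff.2 fun z => Subtype.ext (mem_center_iff.1 (hc y (congrArg Subtype.val hy)) z))
    ⟨x, hxM⟩ ⟨(g * x * g⁻¹)⁻¹, M.inv_mem (hn.conj_mem x hxM g)⟩ (Subtype.ext hx)
  have h2 : ⁅x, (g * x * g⁻¹)⁻¹⁆ ^ p = 1 := congrArg Subtype.val h1
  have h3 : ⁅(g * x * g⁻¹)⁻¹, x⁆ ^ p = 1 := by rw [← commutatorElement_inv, inv_pow, h2, inv_one]
  have h4 := mem_center_iff.1 (hc _ h3)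
  have e : ⁅x, g⁆ = x * (g * x * g⁻¹)⁻¹ := by simp [commutatorElement_def, mul_assoc]
  rw [e, PGrp.mul_pow_prime_eq_of_odd (hp.out.odd_of_ne_two hp2) (h4 _).symm (h4 _).symm h3,
    inv_pow, conj_pow, mem_center_iff.1 (hc _ hx) g]
  simp

theorem pc_index.{u} {p : ℕ} [hp : Fact p.Prime] (hp2 : p ≠ 2) (G : Type u) [Group G]
    [Finite G] : IsPGroup p G → (∀ x : G, x ^ p = 1 → x ∈ center G) →
      ∀ W : Subgroup G, (∀ x : G, x ∈ W ↔ x ^ p = 1) → (frattini G).index ≤ Nat.card W := by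
  refine card_induction (P := fun G _ _ => IsPGroup p G → (∀ x : G, x ^ p = 1 → x ∈ center G) →
      ∀ W : Subgroup G, (∀ x : G, x ∈ W ↔ x ^ p = 1) → (frattini G).index ≤ Nat.card W) ?_ G
  intro G _ _ ih hG hc W hW
  rcases subsingleton_or_nontrivial G with hs | hs
  · rw [Subsingleton.elim (frattini G) ⊤, index_top]
    exact Nat.card_pos
  have hWc : W ≤ center G := fun x hx => hc x ((hW x).1 hx)
  haveI : W.Normal := ⟨fun x hx g => by
    rw [mem_center_iff.1 (hWc hx) g]; simpa using hx⟩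
  have hWb : W ≠ ⊥ := by
    obtain ⟨x, hx⟩ := exists_prime_orderOf_dvd_card' p
      ((hG.card_eq_or_dvd).resolve_left (Finite.one_lt_card (α := G)).ne')
    intro e
    have : x ∈ W := (hW x).2 (hx ▸ pow_orderOf_eq_one x)
    rw [e, mem_bot] at this
    rw [this, orderOf_one] at hx
    exact hp.out.one_lt.ne hx
  have hpc := pc_commutator hp2 G hG hc
  have hmul : ∀ x y : G, x ^ p ∈ W → (x * y) ^ p = x ^ p * y ^ p := by
    intro x y hx
    have h1 : ⁅y, x⁆ ^ p = 1 := by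
      rw [← commutatorElement_inv, inv_pow, hpc x y ((hW _).1 hx), inv_one]
    have h2 := mem_center_iff.1 (hc _ h1)
    exact PGrp.mul_pow_prime_eq_of_odd (hp.out.odd_of_ne_two hp2) (h2 _).symm (h2 _).symm h1
  let U : Subgroup G :=
    { carrier := {x | x ^ p ∈ W}
      one_mem' := by simp
      mul_mem' := fun {a b} ha hb => by
        show (a * b) ^ p ∈ W
        rw [hmul a b ha]; exact W.mul_mem ha hb
      inv_mem' := fun {a} ha => by
        show a⁻¹ ^ p ∈ W
        rw [inv_pow]; exact W.inv_mem ha }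
  have hWU : W ≤ U := fun x hx => W.pow_mem hx p
  let f : U →* G :=
    { toFun := fun x => (x : G) ^ p
      map_one' := by simp
      map_mul' := fun a b => hmul a b a.2 }
  have hfk : f.ker = W.subgroupOf U := by
    ext x; exact (hW x).symm
  have h1 := ih (G ⧸ W) (card_quotient_lt hWb) (hG.to_quotient W) (by
    intro x hx
    obtain ⟨x, rfl⟩ := QuotientGroup.mk_surjective x
    rw [mem_center_iff]
    intro g
    obtain ⟨g, rfl⟩ := QuotientGroup.mk_surjective g
    have h1 : x ^ p ∈ W := (QuotientGroup.eq_one_iff _).1 hx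
    have h2 : ⁅x, g⁆ ∈ W := (hW _).2 (hpc x g ((hW _).1 h1))
    have h3 : ⁅(x : G ⧸ W), (g : G ⧸ W)⁆ = 1 := (QuotientGroup.eq_one_iff _).2 h2
    exact (commutatorElement_eq_one_iff_mul_comm.1 h3).symm) (U.map (QuotientGroup.mk' W)) (by
    intro x
    obtain ⟨x, rfl⟩ := QuotientGroup.mk_surjective x
    constructor
    · rintro ⟨y, hy, e⟩
      rw [← show ((y : G ⧸ W)) = x from e]
      exact (QuotientGroup.eq_one_iff _).2 hy
    · intro h
      exact ⟨x, (QuotientGroup.eq_one_iff (N := W) (x ^ p)).1 h, rfl⟩)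
  rw [← BurnsideBasis.map_frattini_of_surjective hG _ (QuotientGroup.mk'_surjective W),
    index_map, QuotientGroup.ker_mk', MonoidHom.range_eq_top.2 (QuotientGroup.mk'_surjective W),
    index_top, mul_one] at h1
  have h2 : Nat.card (U.map (QuotientGroup.mk' W)) = Nat.card f.range := by
    rw [← relIndex_ker, QuotientGroup.ker_mk', relIndex, ← hfk, index_ker]
  have h3 : f.range ≤ frattini G ⊓ W := by
    rintro _ ⟨x, rfl⟩
    exact ⟨BurnsideBasis.pow_mem_frattini hG _, x.2⟩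
  have h4 := card_le_of_le h3
  have h5 := relIndex_mul_index (le_sup_left : frattini G ≤ frattini G ⊔ W)
  rw [relIndex_sup_left] at h5
  have h6 := card_inf_mul_relIndex (frattini G) W
  rw [← h5, ← h6, mul_comm]
  exact Nat.mul_le_mul_right _ (by omega)

variable {G : Type*} [Group G] [Finite G] {p : ℕ} [hp : Fact p.Prime]

theorem step (hG : IsPGroup p G) {W W' : Subgroup G} [W.Normal] [W'.Normal]
    (hc : ∀ a ∈ W, ∀ b ∈ W, a * b = b * a) (hle : W' ≤ W) (hcard : Nat.card W = p * Nat.card W') :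
    ∃ (N₁ N₂ : Subgroup G) (r : ℕ), N₁ ≤ N₂ ∧ N₂ ≤ W' ∧ (∀ x ∈ N₂, ∀ g, ⁅x, g⁆ ∈ N₁) ∧
      Nat.card N₂ = p ^ r * Nat.card N₁ ∧
      (∀ U : Subgroup G, (∀ x ∈ W, ∀ g, ⁅x, g⁆ ∈ U) → N₂ ≤ U) ∧
      (_root_.commutator G ⊔ centralizer (W : Set G)).index =
        p ^ r * (_root_.commutator G ⊔ centralizer (W' : Set G)).index := by
  have hne : ¬ W ≤ W' := fun h => by
    have h1 := card_le_of_le h
    have h2 := hp.out.two_le
    have h3 : 0 < Nat.card W' := Nat.card_pos
    nlinarith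
  obtain ⟨v, hv, hv', hvp, hvc⟩ := PGrp.exists_central_mod_pow_mem hG W' W hne
  have hW : W' ⊔ zpowers v = W := eq_of_le_of_card_le (sup_le hle (zpowers_le.2 hv))
    (by rw [PGrp.card_sup_zpowers_of_pow_mem W' hv' hvp, hcard])
  set N := centralizer (W' : Set G) with hN
  have hvc' : ∀ g, ⁅g, v⁆ ∈ W' := fun g => by
    rw [← commutatorElement_inv]; exact W'.inv_mem (hvc g)
  let f : N →* G :=
    { toFun := fun n => ⁅(n : G), v⁆
      map_one' := by simp
      map_mul' := fun a b => by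
        have h1 := a.2 _ (hvc' b)
        have h2 := hc _ (hle (hvc' a)) _ (hle (hvc' b))
        rw [h2, coe_mul]
        calc ⁅(a : G) * b, v⁆ = a * ⁅(b : G), v⁆ * (a : G)⁻¹ * ⁅(a : G), v⁆ := by
              simp [commutatorElement_def, mul_assoc]
          _ = _ := by rw [← h1]; simp }
  have hf : ∀ n : N, f n = ⁅(n : G), v⁆ := fun _ => rfl
  set L := _root_.commutator G ⊔ centralizer (W : Set G) with hL
  have hCN : centralizer (W : Set G) ≤ N := centralizer_le hle
  have hker : f.ker ≤ L.subgroupOf N := by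
    intro n hn
    refine mem_sup_right (?_ : (n : G) ∈ centralizer (W : Set G))
    have : W ≤ centralizer {(n : G)} := by
      rw [← hW]
      refine sup_le (fun w hw => mem_centralizer_singleton_iff.2 (n.2 w hw)) (zpowers_le.2 ?_)
      exact mem_centralizer_singleton_iff.2 (commutatorElement_eq_one_iff_mul_comm.1 hn).symm
    exact fun w hw => mem_centralizer_singleton_iff.1 (this hw)
  obtain ⟨r, hr⟩ := (hG.to_subgroup N).index (L.subgroupOf N)
  refine ⟨(L.subgroupOf N).map f, f.range, r, map_le_range _ _, ?_, ?_, ?_, ?_, ?_⟩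
  · rintro _ ⟨n, rfl⟩; exact hvc' n
  · rintro _ ⟨n, rfl⟩ g
    have hn' : g * n * g⁻¹ ∈ N := (inferInstance : N.Normal).conj_mem _ n.2 g
    refine ⟨n * ⟨_, hn'⟩⁻¹, mem_sup_left ?_, ?_⟩
    · have : ((n * ⟨_, hn'⟩⁻¹ : N) : G) = ⁅(n : G), g⁆ := by simp [commutatorElement_def, mul_assoc]
      rw [coe_subtype, this]
      exact commutator_mem_commutator (mem_top _) (mem_top _)
    · rw [map_mul, map_inv, hf, hf]
      have h1 : g * ⁅(n : G), v⁆ * g⁻¹ = ⁅g * n * g⁻¹, v⁆ := by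
        have h2 : g * v * g⁻¹ = ⁅g, v⁆ * v := by simp [commutatorElement_def]
        have h3 := hn' _ (hvc' g)
        have h4 : g * ⁅(n : G), v⁆ * g⁻¹ = ⁅g * n * g⁻¹, g * v * g⁻¹⁆ := by
          simp [commutatorElement_def, mul_assoc]
        have h5 := hc _ (hle (hvc' g)) _ (hle (hvc' (g * n * g⁻¹)))
        rw [h4, h2]
        generalize g * n * g⁻¹ = m at h3 h5
        generalize ⁅g, v⁆ = w at h3 h5
        calc ⁅m, w * v⁆ = (m * w) * v * m⁻¹ * v⁻¹ * w⁻¹ := by
              simp [commutatorElement_def, mul_assoc]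
          _ = (w * ⁅m, v⁆) * w⁻¹ := by rw [← h3]; simp [commutatorElement_def, mul_assoc]
          _ = ⁅m, v⁆ := by rw [h5]; simp
      rw [← h1]
      simp [commutatorElement_def (⁅(n : G), v⁆), mul_assoc]
  · have h1 := card_mul_relIndex (map_le_range f (L.subgroupOf N))
    rw [← h1, mul_comm, ← hr]
    congr 1
    rw [← index_comap, comap_map_eq, sup_eq_left.2 hker]
  · rintro U hU _ ⟨n, rfl⟩
    rw [hf, ← commutatorElement_inv]
    exact U.inv_mem (hU v hv n)
  · have h1 : _root_.commutator G ⊔ N = L ⊔ N := by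
      rw [hL, sup_assoc, sup_eq_right.2 hCN]
    rw [h1, ← relIndex_mul_index (le_sup_left : L ≤ L ⊔ N), relIndex_sup_left, ← hr]
    rfl

theorem core (hG : IsPGroup p G) (m : ℕ) : ∀ W : Subgroup G, W.Normal →
    (∀ a ∈ W, ∀ b ∈ W, a * b = b * a) → Nat.card W = p ^ m →
    ∃ d, (_root_.commutator G ⊔ centralizer (W : Set G)).index = p ^ d ∧ 4 * d ≤ m ^ 2 ∧
      ∀ (V₁ V₂ : Subgroup G) (r : ℕ), V₁ ≤ V₂ → V₂ ≤ W → (∀ x ∈ V₂, ∀ g, ⁅x, g⁆ ∈ V₁) →
        Nat.card V₂ = p ^ r * Nat.card V₁ → m ≤ 2 * r → d + r ^ 2 ≤ r * m := by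
  have h1p := hp.out.one_lt
  have hpow : ∀ {a b : ℕ}, p ^ a ≤ p ^ b → a ≤ b := fun h => (Nat.pow_le_pow_iff_right h1p).1 h
  have hrle : ∀ (V₁ V₂ W : Subgroup G) (r m : ℕ), V₂ ≤ W → Nat.card V₂ = p ^ r * Nat.card V₁ →
      Nat.card W = p ^ m → r ≤ m := by
    intro V₁ V₂ W r m h1 h2 h3
    have h4 := card_le_of_le h1
    have h5 : 0 < Nat.card V₁ := Nat.card_pos
    rw [h2, h3] at h4
    exact hpow (le_trans (Nat.le_mul_of_pos_right _ h5) h4)
  induction m with
  | zero =>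
    intro W _ _ hW
    have : W = ⊥ := card_eq_one.1 hW
    subst this
    refine ⟨0, ?_, by simp, fun V₁ V₂ r _ h2 _ h4 _ => ?_⟩
    · rw [pow_zero, index_eq_one, eq_top_iff]
      refine fun g _ => mem_sup_right fun w hw => ?_
      rw [mem_bot.1 hw, one_mul, mul_one]
    have := hrle V₁ V₂ ⊥ r 0 h2 h4 hW
    simp at this
    simp [this]
  | succ m ih =>
    intro W hWn hc hW
    obtain ⟨d, hd⟩ := hG.index (_root_.commutator G ⊔ centralizer (W : Set G))
    have key : ∀ M : Subgroup G, M.Normal → M < W → ∃ (W' : Subgroup G) (d' r' : ℕ), M ≤ W' ∧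
        W' ≤ W ∧ Nat.card W' = p ^ m ∧ d = r' + d' ∧ 4 * d' ≤ m ^ 2 ∧
        (m ≤ 2 * r' → d' + r' ^ 2 ≤ r' * m) ∧
        (∀ U : Subgroup G, (∀ x ∈ W, ∀ g, ⁅x, g⁆ ∈ U) → p ^ r' ≤ Nat.card U) ∧
        ∀ (V₁ V₂ : Subgroup G) (r : ℕ), V₁ ≤ V₂ → V₂ ≤ W' → (∀ x ∈ V₂, ∀ g, ⁅x, g⁆ ∈ V₁) →
          Nat.card V₂ = p ^ r * Nat.card V₁ → m ≤ 2 * r → d' + r ^ 2 ≤ r * m := by
      intro M hMn hM
      obtain ⟨j, hj⟩ := IsPGroup.iff_card.1 (hG.to_subgroup M)
      have h1 := card_lt_card_of_lt hM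
      rw [hj, hW, Nat.pow_lt_pow_iff_right h1p] at h1
      obtain ⟨W', hn, h2, h3, h4⟩ := PGrp.exists_normal_card_eq_pow_between hG M W hM.le m
        (by rw [hj]; exact Nat.pow_le_pow_right h1p.le (by omega))
        (by rw [hW]; exact Nat.pow_le_pow_right h1p.le (by omega))
      obtain ⟨d', e1, e2, e3⟩ := ih W' hn (fun a ha b hb => hc a (h3 ha) b (h3 hb)) h4
      obtain ⟨N₁, N₂, r', f1, f2, f3, f4, f5, f6⟩ := step hG hc h3 (by rw [hW, h4, pow_succ'])
      refine ⟨W', d', r', h2, h3, h4, ?_, e2, e3 N₁ N₂ r' f1 f2 f3 f4, fun U hU => ?_, e3⟩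
      · rw [hd, e1, ← pow_add] at f6
        exact Nat.pow_right_injective hp.out.two_le f6
      · refine le_trans ?_ (card_le_of_le (f5 U hU))
        rw [f4]
        exact Nat.le_mul_of_pos_right _ Nat.card_pos
    refine ⟨d, hd, ?_, fun V₁ V₂ r h1 h2 h3 h4 h5 => ?_⟩
    · obtain ⟨W', d', r', -, -, -, e1, e2, e3, -, -⟩ := key ⊥ inferInstance (bot_lt_iff_ne_bot.2
        fun e => by
          rw [e, card_bot] at hW
          exact (Nat.one_lt_pow (by omega) h1p).ne hW)
      by_cases h : m ≤ 2 * r'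
      · have := e3 h
        nlinarith [sq_nonneg ((m : ℤ) + 1 - 2 * r')]
      · nlinarith
    · have hn1 : V₁.Normal := PGrp.normal_of_commutator_mem fun x hx g => h3 x (h1 hx) g
      have hn2 : V₂.Normal := PGrp.normal_of_commutator_mem fun x hx g => h1 (h3 x hx g)
      rcases h2.lt_or_eq with h | rfl
      · obtain ⟨W', d', r', f1, -, -, e1, -, e3, -, e4⟩ := key V₂ hn2 h
        have e5 := e4 V₁ V₂ r h1 f1 h3 h4 (by omega)
        by_cases h' : r' ≤ r
        · nlinarith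
        · have := e3 (by omega)
          nlinarith
      · obtain ⟨r, rfl⟩ : ∃ s, r = s + 1 := ⟨r - 1, by omega⟩
        obtain ⟨s, hs⟩ := IsPGroup.iff_card.1 (hG.to_subgroup V₁)
        have e0 : m + 1 = r + 1 + s := by
          rw [hW, hs, ← pow_add] at h4
          exact Nat.pow_right_injective hp.out.two_le h4
        obtain ⟨W', d', r', f1, f2, f3, e1, e2, -, e3, e4⟩ := key V₁ hn1 (lt_of_le_of_ne h1
          fun e => by
            rw [e, hW] at hs
            have := Nat.pow_right_injective hp.out.two_le hs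
            omega)
        have e5 : r' ≤ s := hpow (hs ▸ e3 V₁ h3)
        by_cases h' : m ≤ 2 * r
        · have := e4 V₁ W' r f1 le_rfl (fun x hx g => h3 x (f2 hx) g)
            (by rw [f3, hs, ← pow_add]; congr 1; omega) h'
          nlinarith
        · have e6 : m = 2 * r + 1 := by omega
          have e7 : s = r + 1 := by omega
          subst e6 e7
          have : d' ≤ r ^ 2 + r := by nlinarith
          nlinarith

end CfsgLib.H5.Gen
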