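import Mathlib
import Cfsg.Agent.Lib.H5Thompson
import Cfsg.Agent.Lib.H5NilpotentMaximal
import Cfsg.Agent.Lib.CoprimeSylow
import Cfsg.Agent.Lib.ClassSize
import Cfsg.Agent.Lib.CommCalc
import Cfsg.Agent.Lib.FrobTransport
import Cfsg.Agent.Lib.CoreElements
import Cfsg.Agent.Lib.CoreSolvable
import Cfsg.Agent.Lib.PGroupBasic
import Cfsg.Agent.Lib.FrobFPFStruct

/-! Normal subgroups whose non-central elements have maximal centralizers. -/

set_option autoImplicit false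

namespace CfsgLib.H5
open Subgroup Cfsg
open scoped commutatorElement

variable {G : Type*} [Group G] [Finite G]

theorem centerOf_le_thompsonAOf (P : Subgroup G) : centerOf P ≤ thompsonSubgroupAOf P := by
  obtain ⟨A, hA⟩ := exists_mem_maxAbelianSubgroups P
  obtain ⟨h1, h2⟩ := map_subtype_mem_iff.mp hA
  refine le_sup_right.trans ((eq_of_le_of_card_le (le_sup_left (a := A.map P.subtype)
    (b := centerOf P)) (h2 _ (sup_le (map_subtype_le A) (centerOf_le P)) (isMulCommutative_sup h1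
      (centerOf_isMulCommutative P) ((map_subtype_le A).trans (le_centralizer_centerOf P))))).ge.trans
    (le_thompsonAOf (map_subtype_le A) h1 h2))

/-- If `N` has a normal `p`-complement for all `p ≠ q` then its Sylow `q`-subgroups are normal. -/
theorem IsSylowIn.normal_of_forall_hnpc {N P : Subgroup G} [hN : N.Normal] {q : ℕ} [Fact q.Prime]
    (hP : IsSylowIn q P N) (h : ∀ p : ℕ, p.Prime → p ≠ q → HasNormalPComplement p N) :
    P.Normal := by
  refine ⟨fun x hx g => ?_⟩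
  have h1 : ∀ y ∈ N, (∃ k, orderOf y = q ^ k) → ∀ p : ℕ, p.Prime → p ≠ q →
      y ∈ (pResidual p N).map N.subtype := fun y hy ⟨k, hk⟩ p hp hpq =>
    ⟨⟨y, hy⟩, PRes.mem_pResidual_of_coprime (by
      rw [orderOf_mk, hk]; exact ((Nat.coprime_primes Fact.out hp).mpr hpq.symm).pow_left k), rfl⟩
  have h2 := hN.conj_mem x (hP.le hx) g
  obtain ⟨k, hk⟩ := (isPiNum_singleton_iff (n := Nat.card (P ⊔ zpowers (g * x * g⁻¹) : Subgroup G))
    (Fact.out : q.Prime) Nat.card_pos.ne').mp fun p hp hd => by_contra fun hpq => by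
      have := Fact.mk hp
      refine hp.coprime_iff_not_dvd.mp (PCompl.hnpc_iff_coprime_pResidual.mp (h p hp hpq)).symm
        (card_map_subtype N _ ▸ hd.trans (card_dvd_of_le (sup_le (fun y hy => h1 y (hP.le hy)
          (orderOf_eq_pow_of_mem_isPGroup hP.isPGroup hy) p hp hpq) (zpowers_le.mpr
            (h1 _ h2 ?_ p hp hpq)))))
      rw [Frob.orderOf_conj_eq]
      exact orderOf_eq_pow_of_mem_isPGroup hP.isPGroup hx
  exact (hP.eq_of_le (IsPGroup.of_card hk) le_sup_left (sup_le hP.le (zpowers_le.mpr h2))).le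
    (mem_sup_right (mem_zpowers _))

section
variable {N : Subgroup G} [hN : N.Normal]
  (h : ∀ x : G, x ∈ N → x ∉ centralizer (N : Set G) → IsCoatom (centralizer ({x} : Set G)))
include h

omit hN in
theorem maxCent_eq_of_coprime {a b : G} (ha : a ∈ N) (ha1 : a ∉ centralizer (N : Set G))
    (hb : b ∈ N) (hb1 : b ∉ centralizer (N : Set G)) (hc : Commute a b)
    (hco : (orderOf a).Coprime (orderOf b)) : centralizer ({a} : Set G) = centralizer {b} := by
  have h1 := h (a * b) (mul_mem ha hb) fun h' =>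
    ha1 (zpowers_le.mpr h' (mem_zpowers_mul_of_coprime hc hco))
  have h2 := Frob.centralizer_mul_of_coprime hc hco
  rw [(h1.le_iff.mp (h2.le.trans inf_le_left)).resolve_left (h a ha ha1).1,
    (h1.le_iff.mp (h2.le.trans inf_le_right)).resolve_left (h b hb hb1).1]

omit hN in
theorem maxCent_commute {a b c : G} (ha : a ∈ N) (ha1 : a ∉ centralizer (N : Set G))
    (hb : b ∈ N) (hc : Commute a b) (hco : (orderOf a).Coprime (orderOf b))
    (hc1 : c ∈ N) (hc2 : c ∈ centralizer ({a} : Set G)) : c * b = b * c := by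
  by_cases hb1 : b ∈ centralizer (N : Set G)
  · exact hb1 c hc1
  · exact mem_centralizer_singleton_iff.mp (maxCent_eq_of_coprime h ha ha1 hb hb1 hc hco ▸ hc2)

theorem maxCent_exists_abelian (hna : ¬ N ≤ centralizer (N : Set G)) :
    ∃ V : Subgroup G, V.Normal ∧ V ≤ N ∧ IsMulCommutative V ∧ ¬ V ≤ centralizer (N : Set G) := by
  by_contra! h0
  have hB : ∀ (p : ℕ) [Fact p.Prime], ∀ x ∈ N, x ∉ centralizer (N : Set G) →
      (∃ k, orderOf x = p ^ k) → ∃ P D : Subgroup G, Group.IsNilpotent D ∧ IsSylowIn p P N ∧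
        ¬ P.Normal ∧ N ⊓ centralizer (centerOf P : Set G) ≤ D ∧
        N ⊓ normalizer (thompsonSubgroupAOf P : Set G) ≤ D := by
    rintro p hp x hx hx1 ⟨k, hk⟩
    have hD : Group.IsNilpotent (N ⊓ centralizer {x} : Subgroup G) :=
      isNilpotent_of_forall_commute fun r s a b hr hs hrs ⟨i, hi⟩ ⟨j, hj⟩ => Subtype.ext (by
        rw [← orderOf_coe] at hi hj
        by_cases hrp : r = p
        · exact maxCent_commute h hx hx1 b.2.1 (mem_centralizer_singleton_iff.mp b.2.2).symm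
            (hk ▸ hj ▸ Nat.coprime_pow_primes _ _ hp.out hs (hrp ▸ hrs)) a.2.1 a.2.2
        · exact (maxCent_commute h hx hx1 a.2.1 (mem_centralizer_singleton_iff.mp a.2.2).symm
            (hk ▸ hi ▸ Nat.coprime_pow_primes _ _ hp.out hr (Ne.symm hrp)) b.2.1 b.2.2).symm)
    obtain ⟨P, hxP, hP⟩ := IsSylowIn.exists_ge (H := N ⊓ centralizer {x})
      (isPGroup_zpowers_iff.mpr ⟨k, hk⟩)
      (zpowers_le.mpr ⟨hx, mem_centralizer_singleton_iff.mpr rfl⟩)
    have h1 : centralizer {x} ≤ normalizer (P : Set G) := fun c hc =>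
      mem_normalizer_of_conj_mem fun y hy => le_of_isSylowIn_of_isNilpotent hP hD
        (hP.isPGroup.map _) (hP.map_conj_of_mem_normalizer (inf_normalizer_le_normalizer_inf
          ⟨le_normalizer_of_normal (mem_top c), le_normalizer hc⟩)).le (conj_mem_map_conj hy)
    have h2 : ∀ U : Subgroup G, x ∈ U → U ≤ P → ¬ U.Normal := fun U hxU hUP hU =>
      hx1 (h0 (centerOf U) (normal_of_le_normalizer_top (le_normalizer_of_normal.trans
        (normalizer_le_normalizer_centerOf U))) ((centerOf_le U).trans (hUP.trans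
          (hP.le.trans inf_le_left))) (centerOf_isMulCommutative U)
        ⟨hxU, fun y hy => mem_centralizer_singleton_iff.mp (hP.le (hUP hy)).2⟩)
    have h3 : ∀ U : Subgroup G, x ∈ U → U ≤ P → normalizer (P : Set G) ≤ normalizer (U : Set G) →
        normalizer (U : Set G) = centralizer {x} := fun U hxU hUP hU =>
      ((h x hx hx1).le_iff.mp (h1.trans hU)).resolve_left
        (mt normalizer_eq_top_iff.mp (h2 U hxU hUP))
    have hxP' := hxP (mem_zpowers x)
    have h4 : x ∈ centerOf P :=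
      ⟨hxP', fun y hy => mem_centralizer_singleton_iff.mp (hP.le hy).2⟩
    refine ⟨P, _, hD, Cop.isPiHallOf_singleton_iff.mp (Cop.sylowOf_of_sylowOf_normalizer
      (Cop.isPiHallOf_singleton_iff.mpr (h3 P hxP' le_rfl le_rfl ▸ hP))), h2 P hxP' le_rfl,
      inf_le_inf_left _ (centralizer_le (Set.singleton_subset_iff.mpr h4)), ?_⟩
    rw [h3 _ (centerOf_le_thompsonAOf P h4) (thompsonAOf_le P)
      (normalizer_le_normalizer_thompsonAOf P)]
  have hC : ∀ p : ℕ, p.Prime → (p ≠ 2 ∨ ∀ x ∈ N, (∃ k, orderOf x = p ^ k) →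
      x ∈ centralizer (N : Set G)) → HasNormalPComplement p N := by
    intro p hp hp2
    have := Fact.mk hp
    by_cases h1 : ∀ x ∈ N, (∃ k, orderOf x = p ^ k) → x ∈ centralizer (N : Set G)
    · obtain ⟨S⟩ : Nonempty (Sylow p N) := inferInstance
      refine PCompl.hnpc_of_sylow_le_center S fun s hs => mem_center_iff.mpr fun g => Subtype.ext
        (h1 s s.2 ?_ g g.2)
      rw [orderOf_coe]; exact orderOf_eq_pow_of_mem_isPGroup S.isPGroup' hs
    have hp2 := hp2.resolve_right h1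
    push Not at h1
    obtain ⟨x, hx, hxo, hx1⟩ := h1
    obtain ⟨P, D, hD, hP, -, h2, h3⟩ := hB p x hx hx1 hxo
    obtain ⟨S, rfl⟩ := hP.exists_sylow_map
    have hd : Disjoint (S : Subgroup N) N.subtype.ker := by rw [ker_subtype]; exact disjoint_bot_right
    refine thompson_normal_p_complement hp2 S
      (hnpc_of_map_le N.subtype N.subtype_injective
        ((le_inf (map_subtype_le _) ?_).trans h2) PCompl.hnpc_of_isNilpotent)
      (hnpc_of_map_le N.subtype N.subtype_injective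
        ((le_inf (map_subtype_le _) ?_).trans h3) PCompl.hnpc_of_isNilpotent)
    · rw [centerOf_map _ _ hd]; exact map_centralizer_le' _ _
    · rw [thompsonAOf_map _ _ hd]; exact le_normalizer_map _
  obtain ⟨q, hq, x, hx, hx1, hxo, h1⟩ : ∃ q : ℕ, q.Prime ∧ ∃ x ∈ N, x ∉ centralizer (N : Set G) ∧
      (∃ k, orderOf x = q ^ k) ∧ ∀ p : ℕ, p.Prime → p ≠ q → HasNormalPComplement p N := by
    by_cases h1 : ∀ x ∈ N, (∃ k, orderOf x = 2 ^ k) → x ∈ centralizer (N : Set G)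
    · by_contra! h2
      refine hna (le_of_forall_primePow_mem fun x hx q k hq hk => by_contra fun hx1 => ?_)
      obtain ⟨p, hp, -, h3⟩ := h2 q hq x hx hx1 ⟨k, hk⟩
      exact h3 (hC p hp ((ne_or_eq p 2).imp_right fun e => by rw [e]; exact h1))
    · push Not at h1
      obtain ⟨x, hx, hxo, hx1⟩ := h1
      exact ⟨2, Nat.prime_two, x, hx, hx1, hxo, fun p hp hp2 => hC p hp (Or.inl hp2)⟩
  have := Fact.mk hq
  obtain ⟨P, -, -, hP, h2, -⟩ := hB q x hx hx1 hxo
  exact h2 (IsSylowIn.normal_of_forall_hnpc hP h1)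

theorem maxCent_structure (hna : ¬ N ≤ centralizer (N : Set G)) :
    (∃ p : ℕ, p.Prime ∧ (∀ a ∈ N, ∀ b ∈ N, ⁅a, b⁆ ∈ centralizer (N : Set G)) ∧
      ∀ a ∈ N, a ^ p ∈ centralizer (N : Set G)) ∨
    ∃ (V : Subgroup G) (x : G) (p q : ℕ), p.Prime ∧ q.Prime ∧ p ≠ q ∧ V.Normal ∧ V ≤ N ∧
      IsMulCommutative V ∧ N ⊓ centralizer (N : Set G) < V ∧ x ∈ N ∧ x ∉ V ∧
      x ^ p ∈ centralizer (N : Set G) ∧ N ≤ V ⊔ zpowers x ∧
      (∀ v ∈ V, v ^ q ∈ centralizer (N : Set G)) ∧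
      (∀ v ∈ V, ⁅v, x⁆ ∈ centralizer (N : Set G) → v ∈ centralizer (N : Set G)) ∧
      ∀ W : Subgroup G, W.Normal → N ⊓ centralizer (N : Set G) ≤ W → W ≤ V →
        W = N ⊓ centralizer (N : Set G) ∨ W = V := by
  obtain ⟨V0, hV0n, hV0N, hV0c, hV0⟩ := maxCent_exists_abelian h hna
  set Z := N ⊓ centralizer (N : Set G) with hZ
  obtain ⟨V, hVn, hZV, hVle, hmin⟩ := exists_chief_above (L := Z) (N := V0 ⊔ Z)
    (lt_of_le_of_ne le_sup_right fun e => hV0 (le_sup_left.trans (e.ge.trans inf_le_right)))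
  have hVN : V ≤ N := hVle.trans (sup_le hV0N inf_le_left)
  have hVc : IsMulCommutative V := PGrp.isMulCommutative_of_le hVle (PGrp.isMulCommutative_sup hV0c
    (PGrp.isMulCommutative_iff_forall.mpr fun a ha b hb => hb.2 a ha.1)
    (inf_le_right.trans (centralizer_le hV0N)))
  have hc := PGrp.isMulCommutative_iff_forall.mp hVc
  have hZc : centralizer (N : Set G) ≤ centralizer V := centralizer_le hVN
  have h1 : ∀ y ∈ N, y ∉ centralizer (V : Set G) → ∀ g : G, ∃ v ∈ V,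
      ∃ d ∈ centralizer ({y} : Set G), v * d = g := fun y hy hy1 g =>
    mem_sup_of_normal_left.mp ((((h y hy (mt (@hZc y) hy1)).le_iff.mp
      (le_sup_right (a := V))).resolve_right fun e => hy1 fun v hv =>
        mem_centralizer_singleton_iff.mp (e.le (mem_sup_left hv))).ge (mem_top g))
  have h2 : ∀ y ∈ N, y ∉ centralizer (V : Set G) → ∀ a ∈ N, a ∈ centralizer (V : Set G) →
      (∀ d ∈ N, d ∈ centralizer ({y} : Set G) → d * a = a * d) → a ∈ Z := by
    intro y hy hy1 a ha ha1 ha2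
    refine ⟨ha, fun g hg => ?_⟩
    obtain ⟨v, hv, d, hd, rfl⟩ := h1 y hy hy1 g
    rw [mul_assoc, ha2 d ((mul_mem_cancel_left (hVN hv)).mp hg) hd, ← mul_assoc, ha1 v hv, mul_assoc]
  have h3 : ∀ y ∈ N, y ∉ centralizer (V : Set G) → ∀ g : G, ∃ v ∈ V, ⁅g, y⁆ = ⁅v, y⁆ :=
      fun y hy hy1 g => by
    obtain ⟨v, hv, d, hd, rfl⟩ := h1 y hy hy1 g
    exact ⟨v, hv, by rw [CommCalc.comm_mul_left, commutatorElement_eq_one_iff_mul_comm.mpr
      (mem_centralizer_singleton_iff.mp hd), mul_one, mul_inv_cancel, one_mul]⟩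
  obtain ⟨y0, hy0, hy01⟩ : ∃ y ∈ N, y ∉ centralizer (V : Set G) := by
    by_contra! h0
    exact hZV.not_ge fun v hv => ⟨hVN hv, fun g hg => (h0 g hg v hv).symm⟩
  have h4 : ∀ (U : Subgroup G), (∀ y ∈ N, y ∉ centralizer (V : Set G) → y ∈ U) → N ≤ U := by
    intro U hU a ha
    by_cases ha1 : a ∈ centralizer (V : Set G)
    · exact (mul_mem_cancel_right (hU y0 hy0 hy01)).mp
        (hU _ (mul_mem ha hy0) (mt (mul_mem_cancel_left ha1).mp hy01))
    · exact hU a ha ha1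
  have h5 : ∀ (U : Subgroup G) [U.Normal], (∀ y ∈ N, y ∉ centralizer (V : Set G) → ∀ v ∈ V,
      ⁅v, y⁆ ∈ U) → ∀ a ∈ N, ∀ g : G, ⁅g, a⁆ ∈ U := by
    intro U _ hU a ha g
    have := h4 ((center (G ⧸ U)).comap (QuotientGroup.mk' U)) (fun y hy hy1 =>
      mem_center_iff.mpr fun g => by
        obtain ⟨g, rfl⟩ := QuotientGroup.mk'_surjective U g
        obtain ⟨v, hv, e⟩ := h3 y hy hy1 g
        rw [← commutatorElement_eq_one_iff_mul_comm, ← map_commutatorElement, e]
        exact (QuotientGroup.eq_one_iff _).mpr (hU y hy hy1 v hv)) ha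
    rw [← QuotientGroup.eq_one_iff, ← QuotientGroup.mk'_apply, map_commutatorElement,
      commutatorElement_eq_one_iff_mul_comm]
    exact mem_center_iff.mp this _
  have h6 := h5 V fun y _ _ v hv => commutator_le_left V ⊤ (commutator_mem_commutator hv (mem_top y))
  have hs := QuotientGroup.mk'_surjective Z
  have hker : ∀ a : G, QuotientGroup.mk' Z a = 1 ↔ a ∈ Z := fun a => QuotientGroup.eq_one_iff a
  have hcm : V = (V.map (QuotientGroup.mk' Z)).comap (QuotientGroup.mk' Z) := by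
    rw [comap_map_eq, QuotientGroup.ker_mk', sup_eq_left.mpr hZV.le]
  have hm : IsMinNormal (V.map (QuotientGroup.mk' Z)) := ⟨hVn.map _ hs, fun e => hZV.not_ge (by
    rwa [Subgroup.map_eq_bot_iff, QuotientGroup.ker_mk'] at e), fun K hK hKV =>
      (hmin (K.comap (QuotientGroup.mk' Z)) (hK.comap _) (fun a ha => by
        rw [mem_comap, (hker a).mpr ha]; exact one_mem _) (hcm ▸ comap_mono hKV)).imp
        (fun e => by rw [← map_comap_eq_self_of_surjective hs K, e, Subgroup.map_eq_bot_iff,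
          QuotientGroup.ker_mk']) fun e => by rw [← map_comap_eq_self_of_surjective hs K, e]⟩
  obtain ⟨q, hq, -, hq1⟩ := hm.exists_isElementaryAbelian (Cop.solvable_map
    (isSolvable_of_comm fun a b => Subtype.ext (hc a a.2 b b.2)) _)
  have h7 : ∀ v ∈ V, v ^ q ∈ Z := fun v hv =>
    (hker _).mp (map_pow (QuotientGroup.mk' Z) v q ▸ hq1 _ (mem_map_of_mem _ hv))
  by_cases hA : ∀ y ∈ N, ∀ v ∈ V, ⁅v, y⁆ ∈ Z
  · have h8 := h5 Z fun y hy _ => hA y hy
    have h9 : ∀ y ∈ N, y ∉ centralizer (V : Set G) → y ^ q ∈ Z := fun y hy hy1 =>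
      h2 y hy hy1 _ (pow_mem hy q) (fun v hv => by
        rw [← commutatorElement_eq_one_iff_mul_comm,
          CommCalc.comm_pow_right ((hA y hy v hv).2 y hy),
          ← CommCalc.comm_pow_left ((hA y hy v hv).2 v (hVN hv)),
          commutatorElement_eq_one_iff_mul_comm]
        exact ((h7 v hv).2 y hy).symm) fun d _ hd =>
        (Commute.pow_right (mem_centralizer_singleton_iff.mp hd) q)
    refine Or.inl ⟨q, hq, fun a _ b hb => (h8 b hb a).2, fun a ha => ?_⟩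
    by_cases ha1 : a ∈ centralizer (V : Set G)
    · have := (hker _).mpr (h9 _ (mul_mem ha hy0) (mt (mul_mem_cancel_left ha1).mp hy01))
      rw [map_pow, map_mul, Commute.mul_pow (commutatorElement_eq_one_iff_commute.mp
        (map_commutatorElement (QuotientGroup.mk' Z) a y0 ▸ (hker _).mpr (h8 y0 hy0 a))),
        ← map_pow, ← map_pow, (hker _).mpr (h9 y0 hy0 hy01), mul_one] at this
      exact ((hker _).mp this).2
    · exact (h9 a ha ha1).2
  have hR : ∀ y : G, y ∈ (centralizer ((V.map (QuotientGroup.mk' Z) : Subgroup _) :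
      Set (G ⧸ Z))).comap (QuotientGroup.mk' Z) ↔ ∀ v ∈ V, ⁅v, y⁆ ∈ Z := fun y =>
    ⟨fun hy v hv => (hker _).mp (by
      rw [map_commutatorElement, commutatorElement_eq_one_iff_mul_comm]
      exact hy _ (mem_map_of_mem _ hv)), by
      rintro hy _ ⟨v, hv, rfl⟩
      rw [← commutatorElement_eq_one_iff_mul_comm, ← map_commutatorElement]
      exact (hker _).mpr (hy v hv)⟩
  obtain ⟨x, hx, p, k, hp, hk, hx1⟩ : ∃ x ∈ N, ∃ p k : ℕ, p.Prime ∧ orderOf x = p ^ k ∧
      ¬ ∀ v ∈ V, ⁅v, x⁆ ∈ Z := by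
    by_contra! h0
    exact hA fun y hy => (hR y).mp (le_of_forall_primePow_mem
      (fun x hx p k hp hk => (hR x).mpr (h0 x hx p k hp hk)) hy)
  have hx2 : x ∉ centralizer (V : Set G) := fun hx2 => hx1 fun v hv => by
    rw [commutatorElement_eq_one_iff_mul_comm.mpr (hx2 v hv)]; exact one_mem _
  have h8 : ∀ v ∈ V, ⁅v, x⁆ ∈ Z → v ∈ Z := by
    have hn : (V.map (QuotientGroup.mk' Z) ⊓ centralizer {QuotientGroup.mk' Z x}).Normal := by
      refine ⟨?_⟩
      rintro _ ⟨⟨v, hv, rfl⟩, hv1⟩ g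
      obtain ⟨g, rfl⟩ := hs g
      obtain ⟨u, hu, d, hd, rfl⟩ := h1 x hx hx2 g
      have e : u * d * v * (u * d)⁻¹ = d * v * d⁻¹ := by
        calc _ = u * (d * v * d⁻¹) * u⁻¹ := by group
          _ = _ := by rw [hc u hu _ (hVn.conj_mem v hv d)]; group
      rw [← map_inv, ← map_mul, ← map_mul, e]
      refine mem_inf.mpr ⟨mem_map_of_mem _ (hVn.conj_mem v hv d), ?_⟩
      have hd' := Frob.map_centralizer_singleton_le (QuotientGroup.mk' Z) x (mem_map_of_mem _ hd)
      rw [map_mul, map_mul, map_inv]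
      exact mul_mem (mul_mem hd' hv1) (inv_mem hd')
    intro v hv hv1
    rcases hm.2.2 _ hn inf_le_left with e | e
    · refine (hker _).mp (e.le ⟨mem_map_of_mem _ hv, mem_centralizer_singleton_iff.mpr ?_⟩)
      rw [← commutatorElement_eq_one_iff_mul_comm, ← map_commutatorElement]
      exact (hker _).mpr hv1
    · refine absurd (fun w hw => (hker _).mp ?_) hx1
      rw [map_commutatorElement, commutatorElement_eq_one_iff_mul_comm]
      exact mem_centralizer_singleton_iff.mp (e.ge (mem_map_of_mem _ hw)).2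
  have := Fact.mk hp
  have hpq : p ≠ q := by
    rintro rfl
    have := hm.1
    have h9 : IsPGroup p (V.map (QuotientGroup.mk' Z) ⊔ zpowers (QuotientGroup.mk' Z x) :
        Subgroup _) := IsPGroup.to_sup_of_normal_left
      (isPGroup_of_isElementaryAbelian ⟨PGrp.isMulCommutative_iff_forall.mpr (by
        rintro _ ⟨a, ha, rfl⟩ _ ⟨b, hb, rfl⟩; rw [← map_mul, ← map_mul, hc a ha b hb]), hq1⟩)
      (MonoidHom.map_zpowers (QuotientGroup.mk' Z) x ▸ (isPGroup_zpowers_iff.mpr ⟨k, hk⟩).map _)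
    refine inf_centralizer_ne_bot_of_isNilpotent h9.isNilpotent le_sup_left le_normalizer_of_normal
      hm.2.1 (eq_bot_iff.mpr ?_)
    rintro _ ⟨⟨v, hv, rfl⟩, hv1⟩
    refine (hker _).mpr (h8 v hv ((hker _).mp ?_))
    rw [map_commutatorElement, commutatorElement_eq_one_iff_mul_comm]
    exact (hv1 _ (mem_sup_right (mem_zpowers _))).symm
  obtain ⟨v, hv, hv1, j, hj⟩ : ∃ v ∈ V, v ∉ Z ∧ ∃ j, orderOf v = q ^ j := by
    by_contra! h0
    refine hZV.not_ge (le_of_forall_primePow_mem fun v hv r j hr hj => by_contra fun hv1 => ?_)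
    by_cases hrq : r = q
    · exact h0 v hv hv1 j (hrq ▸ hj)
    · exact hv1 (zpowers_le.mpr (h7 v hv) (mem_zpowers_pow_iff.mpr
        (hj ▸ Nat.coprime_pow_primes 1 j hq hr (Ne.symm hrq) ▸ by rw [pow_one])))
  have hv2 : v ∉ centralizer (N : Set G) := fun h => hv1 ⟨hVN hv, h⟩
  have h9 : ∀ y ∈ N, y ∈ centralizer ({v} : Set G) → y ∈ centralizer (V : Set G) := by
    intro y hy hy1
    by_contra hy2
    have hn : (V ⊓ centralizer {y}).Normal := ⟨fun a ha g => by
      obtain ⟨u, hu, d, hd, rfl⟩ := h1 y hy hy2 g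
      have e : u * d * a * (u * d)⁻¹ = d * a * d⁻¹ := by
        calc _ = u * (d * a * d⁻¹) * u⁻¹ := by group
          _ = _ := by rw [hc u hu _ (hVn.conj_mem a ha.1 d)]; group
      rw [e]
      exact mem_inf.mpr ⟨hVn.conj_mem a ha.1 d,
        mul_mem (mul_mem hd (mem_inf.mp ha).2) (inv_mem hd)⟩⟩
    rcases hmin _ hn (fun z hz => ⟨hZV.le hz, mem_centralizer_singleton_iff.mpr
      (hz.2 y hy).symm⟩) inf_le_left with e | e
    · exact hv1 (e.le ⟨hv, mem_centralizer_singleton_iff.mpr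
        (mem_centralizer_singleton_iff.mp hy1).symm⟩)
    · exact hy2 fun u hu => mem_centralizer_singleton_iff.mp (e.ge hu).2
  have h10 : N ⊓ centralizer (V : Set G) ≤ V := by
    intro c hc1
    obtain ⟨u, hu, d, hd, rfl⟩ := h1 x hx hx2 c
    have hd1 : d ∈ N ⊓ centralizer (V : Set G) :=
      (mul_mem_cancel_left (show u ∈ N ⊓ centralizer (V : Set G) from
        ⟨hVN hu, fun w hw => hc w hw u hu⟩)).mp hc1
    refine mul_mem hu (hZV.le (le_of_forall_primePow_mem (H := N ⊓ centralizer (V : Set G) ⊓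
      centralizer {x}) (fun e he r i hr hi => ?_) ⟨hd1, hd⟩))
    by_cases hrp : r = p
    · by_contra he1
      exact hx2 (h9 x hx (maxCent_eq_of_coprime h he.1.1 (fun h => he1 ⟨he.1.1, h⟩) (hVN hv) hv2
        (he.1.2 v hv).symm (hi ▸ hj ▸ Nat.coprime_pow_primes _ _ hr hq (hrp ▸ hpq)) ▸
          mem_centralizer_singleton_iff.mpr (mem_centralizer_singleton_iff.mp he.2).symm))
    · exact h2 x hx hx2 e he.1.1 he.1.2 fun d hd hd1 => maxCent_commute h hx (mt (@hZc x) hx2) he.1.1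
        (mem_centralizer_singleton_iff.mp he.2).symm
        (hk ▸ hi ▸ Nat.coprime_pow_primes _ _ hp hr (Ne.symm hrp)) hd hd1
  have h11 : ∀ y ∈ N, y ∉ V → N ≤ V ⊔ zpowers y := by
    intro y hy hy1 a ha
    have hn : (V ⊔ zpowers y).Normal := PGrp.normal_sup_zpowers_of_central_mod V fun g => by
      rw [← commutatorElement_inv]; exact inv_mem (h6 y hy g)
    obtain ⟨u, hu, d, hd, rfl⟩ := mem_sup_of_normal_left.mp ((((h v (hVN hv) hv2).le_iff.mp
      (le_sup_right (a := V ⊔ zpowers y))).resolve_right fun e => hy1 (h10 ⟨hy, h9 y hy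
        (e.le (mem_sup_left (mem_sup_right (mem_zpowers y))))⟩)).ge (mem_top a))
    have hd1 := (mul_mem_cancel_left (sup_le hVN (zpowers_le.mpr hy) hu)).mp ha
    exact mul_mem hu (mem_sup_left (h10 ⟨hd1, h9 d hd1 hd⟩))
  have hx3 : x ∉ V := fun hx3 => hx2 fun w hw => hc w hw x hx3
  have h12 : x ^ p ∈ V := by
    by_contra h0
    obtain ⟨u, hu, _, ⟨i, rfl⟩, e⟩ := mem_sup_of_normal_left.mp (h11 _ (pow_mem hx p) h0 hx)
    have h13 : IsPGroup p (zpowers (x : G ⧸ V)) :=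
      MonoidHom.map_zpowers (QuotientGroup.mk' V) x ▸ (isPGroup_zpowers_iff.mpr ⟨k, hk⟩).map _
    obtain ⟨l, hl⟩ := isPGroup_zpowers_iff.mp h13
    have h14 : (x : G ⧸ V) ∈ zpowers ((x : G ⧸ V) ^ p) := ⟨i, by
      conv_rhs => rw [← e]
      simp [(QuotientGroup.eq_one_iff u).mpr hu]⟩
    rw [mem_zpowers_pow_iff, hl] at h14
    rw [Nat.eq_zero_of_not_pos fun hl0 => hp.one_lt.ne' ((Nat.coprime_self p).mp
      ((Nat.coprime_pow_right_iff hl0 p p).mp h14)), pow_zero, orderOf_eq_one_iff,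
      QuotientGroup.eq_one_iff] at hl
    exact hx3 hl
  exact Or.inr ⟨V, x, p, q, hp, hq, hpq, hVn, hVN, hVc, hZV, hx, hx3, (h2 x hx hx2 _ (hVN h12)
    (fun w hw => hc w hw _ h12) fun d _ hd =>
      Commute.pow_right (mem_centralizer_singleton_iff.mp hd) p).2, h11 x hx hx3,
    fun w hw => (h7 w hw).2, fun w hw hw1 => (h8 w hw ⟨hVN (h6 x hx w), hw1⟩).2, hmin⟩

theorem maxCent_quotient {H : Type*} [Group H] (f : N →* H) (hf : Function.Surjective f)
    (hker : ∀ a : N, f a = 1 ↔ (a : G) ∈ centralizer (N : Set G)) :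
    (∃ p : ℕ, p.Prime ∧ IsElementaryAbelian p (⊤ : Subgroup H)) ∨
    ∃ (K Q : Subgroup H) (p q : ℕ), p.Prime ∧ q.Prime ∧ p ≠ q ∧ Frob.IsFrobeniusPair K Q ∧
      Nat.card Q = p ∧ IsElementaryAbelian q K ∧ (N = ⊤ → IsMinNormal K) := by
  have h0 : ∀ p : ℕ, (∀ a ∈ N, ∀ b ∈ N, ⁅a, b⁆ ∈ centralizer (N : Set G)) →
      (∀ a ∈ N, a ^ p ∈ centralizer (N : Set G)) → IsElementaryAbelian p (⊤ : Subgroup H) :=
    fun p h1 h2 => ⟨PGrp.isMulCommutative_iff_forall.mpr fun a _ b _ => by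
      obtain ⟨a, rfl⟩ := hf a
      obtain ⟨b, rfl⟩ := hf b
      rw [← commutatorElement_eq_one_iff_mul_comm, ← map_commutatorElement]
      exact (hker _).mpr (h1 a a.2 b b.2), fun a _ => by
      obtain ⟨a, rfl⟩ := hf a
      rw [← map_pow]
      exact (hker _).mpr (h2 a a.2)⟩
  by_cases hna : N ≤ centralizer (N : Set G)
  · exact Or.inl ⟨2, Nat.prime_two, h0 2 (fun a _ b hb => hna (commutator_le_right ⊤ N
      (commutator_mem_commutator (mem_top a) hb))) fun a ha => hna (pow_mem ha 2)⟩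
  rcases maxCent_structure h hna with ⟨p, hp, h1, h2⟩ |
    ⟨V, x, p, q, hp, hq, hpq, hVn, hVN, hVc, hZV, hx, hxV, hxp, hsup, hVq, hfix, hmin⟩
  · exact Or.inl ⟨p, hp, h0 p h1 h2⟩
  have := Fact.mk hp
  have hn : ((V.subgroupOf N).map f).Normal := Normal.map inferInstance f hf
  have hx1 : f ⟨x, hx⟩ ≠ 1 := fun e => hxV (hZV.le ⟨hx, (hker _).mp e⟩)
  have ho : orderOf (f ⟨x, hx⟩) = p :=
    orderOf_eq_prime (by rw [← map_pow]; exact (hker _).mpr hxp) hx1
  have hK : (V.subgroupOf N).map f ≠ ⊥ := fun e => hZV.not_ge fun v hv =>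
    ⟨hVN hv, (hker ⟨v, hVN hv⟩).mp (e.le (mem_map_of_mem f hv))⟩
  refine Or.inr ⟨(V.subgroupOf N).map f, zpowers (f ⟨x, hx⟩), p, q, hp, hq, hpq,
    Frob.isFrobeniusPair_of_sup_eq_top (eq_top_iff.mpr fun a _ => ?_) hK
      (mt zpowers_eq_bot.mp hx1) ?_, by rw [Nat.card_zpowers, ho],
    ⟨PGrp.isMulCommutative_iff_forall.mpr ?_, ?_⟩, ?_⟩
  · obtain ⟨⟨a, ha⟩, rfl⟩ := hf a
    obtain ⟨v, hv, _, ⟨i, rfl⟩, rfl⟩ := mem_sup_of_normal_left.mp (hsup ha)
    rw [show (⟨_, ha⟩ : N) = ⟨v, hVN hv⟩ * ⟨x, hx⟩ ^ i from rfl, map_mul, map_zpow]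
    exact mul_mem (mem_sup_left (mem_map_of_mem f hv)) (mem_sup_right ⟨i, rfl⟩)
  · rintro y hy hy1 _ ⟨v, hv, rfl⟩ hc
    obtain ⟨i, hi⟩ := Frob.mem_zpowers_of_mem_zpowers_of_prime hp ho hy hy1
    refine (hker v).mpr (hfix v hv ((hker ⁅v, ⟨x, hx⟩⁆).mp ?_))
    rw [map_commutatorElement, commutatorElement_eq_one_iff_commute, ← hi]
    exact (Commute.zpow_left hc i).symm
  · rintro _ ⟨a, ha, rfl⟩ _ ⟨b, hb, rfl⟩
    rw [← map_mul, ← map_mul]
    exact congrArg f (Subtype.ext (PGrp.isMulCommutative_iff_forall.mp hVc a ha b hb))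
  · rintro _ ⟨a, ha, rfl⟩
    rw [← map_pow]
    exact (hker _).mpr (hVq a ha)
  · rintro rfl
    refine ⟨hn, hK, fun W hW hWK => (hmin ((W.comap f).map (⊤ : Subgroup G).subtype)
      ((hW.comap f).map _ fun g => ⟨⟨g, mem_top g⟩, rfl⟩) (fun z hz => ⟨⟨z, hz.1⟩, by
        change f _ ∈ W
        rw [(hker ⟨z, hz.1⟩).mpr hz.2]; exact one_mem _, rfl⟩) ?_).imp (fun e => ?_) fun e => ?_⟩
    · rintro _ ⟨a, ha, rfl⟩
      obtain ⟨b, hb, e⟩ := hWK ha
      rw [← mul_inv_eq_one, ← map_inv, ← map_mul] at e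
      exact (mul_mem_cancel_left hb).mp (hZV.le ⟨mem_top _, (hker _).mp e⟩) |> inv_mem_iff.mp
    · refine eq_bot_iff.mpr fun w hw => ?_
      obtain ⟨w, rfl⟩ := hf w
      exact (hker w).mpr (e.le (mem_map_of_mem _ hw)).2
    · refine hWK.antisymm ?_
      rintro _ ⟨a, ha, rfl⟩
      obtain ⟨b, hb, e⟩ := e.ge ha
      exact Subtype.ext e ▸ hb

end

end CfsgLib.H5
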