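import Mathlib
import Cfsg.Agent.Lib.H5MaxClass

/-! Uniform elements in `p`-groups of maximal class. -/

set_option autoImplicit false

namespace CfsgLib.H5

open Subgroup Cfsg CfsgLib
open scoped commutatorElement Pointwise

variable {G : Type*} [Group G] [Finite G] {p : ℕ} [hp : Fact p.Prime]

local notation "L" => Subgroup.lowerCentralSeries (⊤ : Subgroup G)

/-- A `p`-group is not the union of at most `p` proper subgroups. -/
theorem exists_not_mem_of_card_le (hG : IsPGroup p G) {ι : Type*} (s : Finset ι) (hs : s.card ≤ p)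
    (H : ι → Subgroup G) (hH : ∀ i ∈ s, H i ≠ ⊤) : ∃ g : G, ∀ i ∈ s, g ∉ H i := by
  classical
  rcases hs.lt_or_eq with hs | hs
  · exact exists_not_mem_of_card_lt hG s hs H hH
  by_contra hcon
  push Not at hcon
  have hcov : ⋃ i ∈ s, (fun _ => (1 : G)) i • (H i : Set G) = Set.univ :=
    Set.eq_univ_of_forall fun g => by
      obtain ⟨i, hi, h⟩ := hcon g
      exact Set.mem_biUnion hi (by simpa using h)
  have h1 := Subgroup.one_le_sum_inv_index_of_leftCoset_cover hcov
  have h2 : ∑ i ∈ s, ((H i).index : ℚ)⁻¹ ≤ 1 := by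
    refine (Finset.sum_le_card_nsmul s _ (p : ℚ)⁻¹ fun i hi => ?_).trans_eq ?_
    · obtain ⟨k, hk⟩ := hG.index (H i)
      have h3 : p ≤ (H i).index := by
        by_contra h3
        rcases PGrp.eq_one_or_eq_prime_of_le hk (not_le.1 h3).le with h1 | h1
        · exact hH i hi (index_eq_one.1 h1)
        · omega
      exact inv_anti₀ (by exact_mod_cast hp.out.pos) (by exact_mod_cast h3)
    · rw [hs, nsmul_eq_mul, mul_inv_cancel₀ (by exact_mod_cast hp.out.ne_zero)]
  have h3 := Subgroup.pairwiseDisjoint_leftCoset_cover_of_sum_inv_index_eq_one hcov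
    (le_antisymm h2 h1)
  obtain ⟨i, hi, j, hj, hij⟩ := Finset.one_lt_card.1 (hs ▸ hp.out.one_lt)
  have h4 := h3 (show i ∈ _ from Finset.mem_coe.2 (Finset.mem_filter.2 ⟨hi, inferInstance⟩))
    (show j ∈ _ from Finset.mem_coe.2 (Finset.mem_filter.2 ⟨hj, inferInstance⟩)) hij
  exact Set.disjoint_left.1 h4 (show (1 : G) ∈ _ by simp) (by simp)

namespace MaxCl

variable {n : ℕ} (h : MaxCl p n G)
include h

theorem twoStep_add {i : ℕ} (h1 : 1 ≤ i) (hi : i + p + 2 ≤ n) :
    twoStep G (i + (p - 1)) = twoStep G i := by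
  have h2 := hp.out.two_le
  obtain ⟨a, ha, ha'⟩ := SetLike.not_le_iff_exists.1 (h.lcs_not_le (i := i) (by omega))
  have ha1 := lcs_one_le_twoStep (G := G)
  have h3 := h.pow_not_mem (by omega) i (by omega) a ha (ha1 _ (lcs_le_of_le h1 ha)) ha'
  have h4 : twoStep G i ≤ twoStep G (i + (p - 1)) := fun x hx => by
    have hu := mem_twoStep.1 hx _ ha
    have h5 := h.hp_twoStep (by omega) (by omega) hu (ha1 _ (lcs_le_of_le h1 ha))
    refine h.mem_twoStep_of (by omega) (h.pow_mem_lcs_add_pred (by omega) ha)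
      (by rwa [show i + (p - 1) + 1 = i + p by omega]) ?_
    rw [← comm_pow_congr rfl (lcs_le_of_le (by omega) h5)]
    exact lcs_le_of_le (by omega) (h.pow_mem_lcs_add_pred (by omega) hu)
  refine le_antisymm (fun s hs => ?_) h4
  by_contra hs'
  exact h.twoStep_ne_top (i := i + (p - 1)) (by omega) (eq_top_iff.2 (le_of_card_le_mul
    (h.isPGroup.to_subgroup ⊤) le_top (h.card_le_mul_card_twoStep h1) (mem_top s) hs' h4 hs))

theorem not_mem_twoStep {s : G} (hs : ∀ j, 1 ≤ j → j ≤ p - 1 → j + 3 ≤ n → s ∉ twoStep G j)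
    (j : ℕ) : 1 ≤ j → j + 3 ≤ n → s ∉ twoStep G j := by
  have h2 := hp.out.two_le
  induction j using Nat.strong_induction_on with
  | _ j ih =>
    intro h1 hj
    by_cases h3 : j ≤ p - 1
    · exact hs j h1 h3 hj
    · obtain ⟨i, rfl⟩ : ∃ i, j = i + (p - 1) := ⟨j - (p - 1), by omega⟩
      rw [h.twoStep_add (by omega) (by omega)]
      exact ih i (by omega) (by omega) (by omega)

theorem card_centralizer_of_uniform {s : G} (hs1 : s ∉ L 1)
    (hs : ∀ j, 1 ≤ j → j + 3 ≤ n → s ∉ twoStep G j) :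
    Nat.card (centralizer ({s} : Set G)) = p ^ 2 := by
  have h2 := hp.out.two_le
  have h3 := h.three_le
  have hP := h.isPGroup
  refine le_antisymm ?_ (PGrp.sq_le_card_centralizer hP
    (h.card ▸ Nat.pow_le_pow_right hp.out.pos (by omega)) s)
  have h4 : ∀ j, j + 3 ≤ n → L 1 ⊓ centralizer {s} ≤ L (j + 1) := by
    intro j
    induction j with
    | zero => exact fun _ => inf_le_left
    | succ j ih =>
      intro hj c hc
      by_contra hc'
      refine hs (j + 1) (by omega) hj (h.mem_twoStep_of (by omega) (ih (by omega) hc) hc' ?_)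
      rw [commutatorElement_eq_one_iff_mul_comm.2 (mem_centralizer_singleton_iff.1 hc.2).symm]
      exact one_mem _
  have h5 := card_le_of_le (h4 (n - 3) (by omega))
  rw [h.card_lcs (by omega), show n - 1 - (n - 3 + 1) = 1 by omega, pow_one] at h5
  have h6 : centralizer {s} ≤ L 1 ⊔ zpowers s := fun y hy => by
    by_contra hy'
    refine h.comm_not_mem_two le_sup_left hy' (mem_sup_right (mem_zpowers s)) hs1 ?_
    rw [commutatorElement_eq_one_iff_mul_comm.2 (mem_centralizer_singleton_iff.1 hy)]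
    exact one_mem _
  have h7 : (L 1).relIndex (L 1 ⊔ zpowers s) ≤ p := by
    have h8 := card_mul_relIndex (le_sup_left : L 1 ≤ L 1 ⊔ zpowers s)
    rw [PGrp.card_sup_zpowers_of_pow_mem (L 1) hs1 (h.pow_mem_lcs le_rfl h2 h3 s), mul_comm p] at h8
    exact (Nat.eq_of_mul_eq_mul_left Nat.card_pos h8).le
  rw [← card_inf_mul_relIndex (L 1), sq]
  exact Nat.mul_le_mul h5 ((relIndex_le_of_le_right h6 index_ne_zero_of_finite).trans h7)

/-- Uniform elements exist outside any proper subgroup. -/
theorem exists_not_mem_card_centralizer {H : Subgroup G} (hH : H ≠ ⊤) :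
    ∃ x ∉ H, Nat.card (centralizer ({x} : Set G)) = p ^ 2 := by
  have h2 := hp.out.two_le
  obtain ⟨s, hs⟩ := exists_not_mem_of_card_le h.isPGroup
    ((Finset.range p).filter fun j => j + 3 ≤ n)
    ((Finset.card_filter_le _ _).trans (Finset.card_range p).le)
    (fun j => if j = 0 then H ⊔ L 1 else twoStep G j) fun j hj => by
      split_ifs
      · exact fun h' => hH (frattini_nongenerating (eq_top_iff.2 (h'.ge.trans
          (sup_le_sup_left (PGrp.commutator_le_frattini h.isPGroup) H))))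
      · exact h.twoStep_ne_top (Finset.mem_filter.1 hj).2
  have h0 := hs 0 (Finset.mem_filter.2 ⟨Finset.mem_range.2 (by omega), h.three_le⟩)
  rw [if_pos rfl] at h0
  refine ⟨s, fun h' => h0 (mem_sup_left h'), h.card_centralizer_of_uniform
    (fun h' => h0 (mem_sup_right h')) (h.not_mem_twoStep fun j h1 hj hn => ?_)⟩
  have := hs j (Finset.mem_filter.2 ⟨Finset.mem_range.2 (by omega), hn⟩)
  rwa [if_neg (by omega)] at this

end MaxCl

/-- Uniform elements, stated with `nilpotencyClass`. -/
theorem exists_not_mem_card_centralizer_of_maxClass {n : ℕ} (hG : Nat.card G = p ^ n) (hn : 3 ≤ n)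
    (hmax : Group.nilpotencyClass G = n - 1) {H : Subgroup G} (hH : H ≠ ⊤) :
    ∃ x ∉ H, Nat.card (centralizer ({x} : Set G)) = p ^ 2 :=
  MaxCl.exists_not_mem_card_centralizer ⟨hG, hn,
    (PGrp.nilpotencyClass_eq_iff_lowerCentralSeries_ne_bot hG (by omega)).1 hmax⟩ hH

end CfsgLib.H5
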