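import Mathlib

/-! Integer lemmas for a `3 × 3` grid of exceptional characters. -/

set_option autoImplicit false

namespace CfsgLib.H5.Nine

open Finset

theorem three_ones {a b c : ℤ} (h : a + b + c = 3) (ha : a ≠ 0) (hb : b ≠ 0) (hc : c ≠ 0)
    (h9 : a ^ 2 + b ^ 2 + c ^ 2 ≤ 9) (h8 : a ^ 2 + b ^ 2 + c ^ 2 ≤ 8 ∨ a = 1 ∨ b = 1 ∨ c = 1) :
    a = 1 ∧ b = 1 ∧ c = 1 := by
  have h1 : -3 ≤ a ∧ a ≤ 3 := by constructor <;> nlinarith [sq_nonneg b, sq_nonneg c]
  have h2 : -3 ≤ b ∧ b ≤ 3 := by constructor <;> nlinarith [sq_nonneg a, sq_nonneg c]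
  obtain rfl : c = 3 - a - b := by linarith
  obtain ⟨h3, h4⟩ := h1
  obtain ⟨h5, h6⟩ := h2
  interval_cases a <;> interval_cases b <;> simp_all

variable {I : Type*} [Fintype I] [DecidableEq I]

theorem supp3 (v t d : I → ℤ) (o : I) (h1 : ∑ x, v x * v x = 3) (h2 : ∑ x, v x * t x = 3)
    (h3 : ∑ x, t x * t x = 9) (ho : t o = 1) (ho' : v o = 0 ∨ v o = 1) (hd : ∀ x, d x ≠ 0)
    (h4 : ∑ x, v x * d x = 0) (h5 : ∑ x with t x = 0, v x * d x = 0) (x : I) :
    v x = 0 ∨ v x = t x ∧ t x * t x = 1 := by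
  have h6 : ∀ x, v x ≠ 0 → v x * v x = 1 := fun x hx => by
    have := single_le_sum (f := fun x => v x * v x) (fun i _ => mul_self_nonneg _) (mem_univ x)
    rw [h1] at this
    have h7 : -1 ≤ v x ∧ v x ≤ 1 := by constructor <;> nlinarith
    obtain ⟨h8, h9⟩ := h7
    interval_cases v x <;> simp_all
  have h7 : ∀ g : I → ℤ, ∑ x, v x * g x = ∑ x with v x ≠ 0, v x * g x := fun g => by
    symm
    apply sum_filter_of_ne
    intro x _ h e
    exact h (by rw [e, zero_mul])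
  have h8 : (univ.filter fun x => v x ≠ 0).card = 3 := by
    rw [h7, sum_congr rfl fun x hx => h6 x (mem_filter.1 hx).2] at h1
    simp only [sum_const, nsmul_eq_mul, mul_one] at h1
    exact_mod_cast h1
  obtain ⟨α, β, γ, hab, hac, hbc, hs⟩ := card_eq_three.1 h8
  have hm : ∀ y, v y ≠ 0 ↔ y = α ∨ y = β ∨ y = γ := fun y => by
    have := Finset.ext_iff.1 hs y
    simpa using this
  have h9 : ∀ g : I → ℤ, ∑ x, v x * g x = v α * g α + v β * g β + v γ * g γ := fun g => by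
    rw [h7, hs, sum_insert (by simp [hab, hac]), sum_pair hbc, add_assoc]
  have ha := (hm α).2 (by simp)
  have hb := (hm β).2 (by simp)
  have hc := (hm γ).2 (by simp)
  have h10 : ∑ x with t x = 0, v x * d x = ∑ x, v x * (if t x = 0 then d x else 0) := by
    rw [sum_filter]; simp
  rw [h10, h9] at h5
  rw [h9] at h2 h4
  have hda := mul_ne_zero ha (hd α)
  have hdb := mul_ne_zero hb (hd β)
  have hdc := mul_ne_zero hc (hd γ)
  have h11 : t α ≠ 0 ∧ t β ≠ 0 ∧ t γ ≠ 0 := by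
    by_cases e1 : t α = 0 <;> by_cases e2 : t β = 0 <;> by_cases e3 : t γ = 0 <;>
      simp only [e1, e2, e3, if_true, if_false, mul_zero, add_zero, zero_add] at h2 h5 <;>
      first | omega | exact ⟨e1, e2, e3⟩
  have sq : ∀ y, v y ≠ 0 → (v y * t y) ^ 2 = t y * t y := fun y hy => by
    rw [mul_pow, sq, h6 y hy, one_mul, sq]
  have le : ∀ s : Finset I, ∑ y ∈ s, t y * t y ≤ 9 := fun s =>
    h3 ▸ sum_le_sum_of_subset_of_nonneg (subset_univ s) fun i _ _ => mul_self_nonneg _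
  have h12 := le {α, β, γ}
  rw [sum_insert (by simp [hab, hac]), sum_pair hbc] at h12
  obtain ⟨e1, e2, e3⟩ := three_ones h2 (mul_ne_zero ha h11.1) (mul_ne_zero hb h11.2.1)
    (mul_ne_zero hc h11.2.2) (by rw [sq α ha, sq β hb, sq γ hc]; linarith) (by
      rw [sq α ha, sq β hb, sq γ hc]
      rcases ho' with e | e
      · have h13 := le {o, α, β, γ}
        have h14 := mt (hm o).2 (not_not.2 e)
        rw [sum_insert (by simpa using h14), sum_insert (by simp [hab, hac]), sum_pair hbc,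
          ho] at h13
        left; linarith
      · right
        rcases (hm o).1 (by omega) with rfl | rfl | rfl <;> simp [e, ho])
  refine or_iff_not_imp_left.2 fun hx => ?_
  have h13 : v x * t x = 1 := by rcases (hm x).1 hx with rfl | rfl | rfl <;> assumption
  have h14 := h6 x hx
  have h15 : v x = t x := mul_left_cancel₀ hx (h14.trans h13.symm)
  exact ⟨h15, h15 ▸ h14⟩

theorem grid (r c : Fin 3 → I → ℤ) (t : I → ℤ) (hr : ∀ y, ∑ j, r j y = t y)
    (hc : ∀ y, ∑ i, c i y = t y) (h1 : ∀ j y, r j y = 0 ∨ r j y = t y ∧ t y * t y = 1)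
    (h2 : ∀ i y, c i y = 0 ∨ c i y = t y ∧ t y * t y = 1)
    (hrc : ∀ i j, ∑ y, r j y * c i y = 1) :
    ∃ x : Fin 3 → Fin 3 → I, (∀ i j, t (x i j) * t (x i j) = 1) ∧
      (∀ i j k, r k (x i j) = if k = j then t (x i j) else 0) ∧
      (∀ i j k, c k (x i j) = if k = i then t (x i j) else 0) ∧
      (∀ i j y, r j y ≠ 0 → c i y ≠ 0 → y = x i j) ∧
      (∀ (g : I → ℚ) j, ∑ y, r j y * g y = ∑ i, t (x i j) * g (x i j)) ∧
      (∀ (g : I → ℚ) i, ∑ y, c i y * g y = ∑ j, t (x i j) * g (x i j)) := by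
  have uniq : ∀ (r : Fin 3 → I → ℤ), (∀ y, ∑ j, r j y = t y) →
      (∀ j y, r j y = 0 ∨ r j y = t y ∧ t y * t y = 1) →
      ∀ y j k, r j y ≠ 0 → r k y = if k = j then t y else 0 := fun r hr h1 y j k hj => by
    have e := hr y
    rw [Fin.sum_univ_three] at e
    have a0 := h1 0 y
    have a1 := h1 1 y
    have a2 := h1 2 y
    have : t y ≠ 0 := fun h => by have := ((h1 j y).resolve_left hj).2; simp [h] at this
    fin_cases j <;> fin_cases k <;> simp at hj ⊢ <;> omega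
  have ex : ∀ (r : Fin 3 → I → ℤ), (∀ y, ∑ j, r j y = t y) → ∀ y, t y ≠ 0 → ∃ j, r j y ≠ 0 :=
    fun r hr y hy => by
      by_contra! h
      exact hy (by rw [← hr]; simp [h])
  have h3 : ∀ i j, ∃ x, (r j x ≠ 0 ∧ c i x ≠ 0) ∧ ∀ y, r j y ≠ 0 ∧ c i y ≠ 0 → y = x := by
    intro i j
    have h4 : ∑ y, r j y * c i y = ∑ y with r j y ≠ 0 ∧ c i y ≠ 0, 1 := by
      rw [sum_filter]
      refine sum_congr rfl fun y _ => ?_
      split_ifs with h
      · rw [((h1 j y).resolve_left h.1).1, ((h2 i y).resolve_left h.2).1,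
          ((h1 j y).resolve_left h.1).2]
      · rcases not_and_or.1 h with h | h <;> simp [not_not.1 h]
    rw [hrc, sum_const, nsmul_eq_mul, mul_one] at h4
    obtain ⟨x, hx⟩ := card_eq_one.1 (by exact_mod_cast h4.symm :
      (univ.filter fun y => r j y ≠ 0 ∧ c i y ≠ 0).card = 1)
    have h5 : ∀ y, r j y ≠ 0 ∧ c i y ≠ 0 ↔ y = x := fun y => by
      simpa using Finset.ext_iff.1 hx y
    exact ⟨x, (h5 x).2 rfl, fun y => (h5 y).1⟩
  choose x hx hx' using h3
  have hr' := fun i j k => uniq r hr h1 (x i j) j k (hx i j).1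
  have hc' := fun i j k => uniq c hc h2 (x i j) i k (hx i j).2
  have ht : ∀ i j, t (x i j) * t (x i j) = 1 := fun i j => ((h1 j _).resolve_left (hx i j).1).2
  have ht0 : ∀ i j, t (x i j) ≠ 0 := fun i j h => by simpa [h] using ht i j
  refine ⟨x, ht, hr', hc', fun i j y a b => hx' i j y ⟨a, b⟩, fun g j => ?_, fun g i => ?_⟩
  · rw [← sum_subset (subset_univ (univ.image fun i => x i j)), sum_image]
    · exact sum_congr rfl fun i _ => by rw [hr', if_pos rfl]
    · intro i _ k _ e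
      by_contra hne
      have := hc' k j i
      rw [if_neg hne, ← show x i j = x k j from e] at this
      exact (hx i j).2 this
    · intro y _ hy
      by_contra h
      have h4 : r j y ≠ 0 := fun e => h (by simp [e])
      have h5 := (h1 j y).resolve_left h4
      obtain ⟨i, hi⟩ := ex c hc y (h5.1 ▸ h4)
      exact hy (mem_image.2 ⟨i, mem_univ _, (hx' i j y ⟨h4, hi⟩).symm⟩)
  · rw [← sum_subset (subset_univ (univ.image fun j => x i j)), sum_image]
    · exact sum_congr rfl fun j _ => by rw [hc', if_pos rfl]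
    · intro j _ k _ e
      by_contra hne
      have := hr' i k j
      rw [if_neg hne, ← show x i j = x i k from e] at this
      exact (hx i j).1 this
    · intro y _ hy
      by_contra h
      have h4 : c i y ≠ 0 := fun e => h (by simp [e])
      have h5 := (h2 i y).resolve_left h4
      obtain ⟨j, hj⟩ := ex r hr y (h5.1 ▸ h4)
      exact hy (mem_image.2 ⟨j, mem_univ _, (hx' i j y ⟨hj, h4⟩).symm⟩)

theorem tri {p q r A B C : ℚ} (hp : p ≠ 0) (hq : q ≠ 0) (hr : r ≠ 0) (h : p + q + r = 0)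
    (h' : A + B + C = 0) :
    A ^ 2 / p + B ^ 2 / q + C ^ 2 / r = -(A * q - B * p) ^ 2 / (p * q * r) := by
  obtain rfl : r = -(p + q) := by linarith
  obtain rfl : C = -(A + B) := by linarith
  have : p + q ≠ 0 := neg_ne_zero.1 hr
  field_simp
  ring

theorem alone {d e : Fin 3 → Fin 3 → ℚ} (hd : ∀ i j, d i j ≠ 0) (d0 : d 0 0 = 1) (e0 : e 0 0 = 1)
    (dr : ∀ i, ∑ j, d i j = 0) (dc : ∀ j, ∑ i, d i j = 0) (er : ∀ i, ∑ j, e i j = 0)
    (ec : ∀ j, ∑ i, e i j = 0) (h1 : ∀ j, ∑ i, e i j ^ 2 / d i j = 0)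
    (h2 : ∑ j, e 0 j ^ 2 / d 0 j = ∑ j, e 1 j ^ 2 / d 1 j) (h3 : ∑ j, e 0 j ^ 2 / d 0 j ≠ 0) :
    d 1 0 = 1 ∧ d 1 1 = d 0 1 := by
  simp only [Fin.sum_univ_three] at *
  have h4 : ∀ j, e 0 j * d 1 j = e 1 j * d 0 j := fun j => by
    have := h1 j
    rw [tri (hd _ _) (hd _ _) (hd _ _) (dc j) (ec j), div_eq_zero_iff] at this
    have h5 := this.resolve_right (mul_ne_zero (mul_ne_zero (hd _ _) (hd _ _)) (hd _ _))
    linarith [pow_eq_zero_iff (two_ne_zero) |>.1 (neg_eq_zero.1 h5)]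
  obtain ⟨α, hα⟩ : ∃ α : Fin 3 → ℚ, ∀ j, e 0 j = α j * d 0 j ∧ e 1 j = α j * d 1 j :=
    ⟨fun j => e 0 j / d 0 j, fun j => by
      have := hd 0 j
      constructor <;> field_simp
      linarith [h4 j]⟩
  have a0 : α 0 = 1 := by have := (hα 0).1; rw [e0, d0] at this; linarith
  have f : ∀ a x : ℚ, x ≠ 0 → (a * x) ^ 2 / x = a ^ 2 * x := fun a x hx => by field_simp
  have r0 := er 0
  have r1 := er 1
  have s0 := dr 0
  have s1 := dr 1
  simp only [(hα _).1, (hα _).2, f _ _ (hd _ _), a0, d0] at h2 h3 r0 r1 s0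
  obtain e2 : d 0 2 = -1 - d 0 1 := by linarith
  obtain e3 : d 1 2 = -d 1 0 - d 1 1 := by linarith
  rw [e2] at h2 h3 r0
  rw [e3] at h2 r1
  have h5 : (α 2 - α 1) * (d 1 1 - d 1 0 * d 0 1) = 0 := by linear_combination d 1 0 * r0 - r1
  rcases mul_eq_zero.1 h5 with h6 | h6
  · have h7 : α 1 = α 2 := by linarith
    have h8 : α 2 = 1 := by rw [h7] at r0; linarith
    exact absurd (by rw [h7, h8]; ring) h3
  · have h7 : d 1 1 = d 1 0 * d 0 1 := by linarith
    have h8 : d 1 0 = 1 := mul_right_cancel₀ h3 (by rw [h7] at h2; linear_combination -h2)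
    exact ⟨h8, by rw [h7, h8, one_mul]⟩

theorem fused {d e : Fin 3 → Fin 3 → ℤ} {k : ℚ} (hd : ∀ i j, d i j ≠ 0) (d0 : d 0 0 = 1)
    (e0 : e 0 0 = 1) (dr : ∀ i, ∑ j, d i j = 0) (dc : ∀ j, ∑ i, d i j = 0)
    (er : ∀ i, ∑ j, e i j = 0) (ec : ∀ j, ∑ i, e i j = 0) (d1 : d 1 0 = 1) (d2 : d 1 1 = d 0 1)
    (e1 : |e 1 0| ≤ 1)
    (h0 : k * ∑ i, (e i 0 : ℚ) ^ 2 / d i 0 = 8) (h1 : k * ∑ i, (e i 1 : ℚ) ^ 2 / d i 1 = 2)
    (h2 : k * ∑ i, (e i 2 : ℚ) ^ 2 / d i 2 = -1) (h3 : k * ∑ j, (e 2 j : ℚ) ^ 2 / d 2 j = 0) :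
    False := by
  simp only [Fin.sum_univ_three] at *
  have hd' : ∀ i j, (d i j : ℚ) ≠ 0 := fun i j => by exact_mod_cast hd i j
  have hk : k ≠ 0 := fun h => by simp [h] at h0
  rw [tri (hd' _ _) (hd' _ _) (hd' _ _) (by exact_mod_cast dc _) (by exact_mod_cast ec _)]
    at h0 h1 h2
  rw [tri (hd' _ _) (hd' _ _) (hd' _ _) (by exact_mod_cast dr _) (by exact_mod_cast er _)] at h3
  have a1 : d 2 0 = -2 := by linarith [dc 0]
  have a2 : d 2 1 = -2 * d 0 1 := by linarith [dc 1]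
  have a3 : d 0 2 = -1 - d 0 1 := by linarith [dr 0]
  have a4 : d 1 2 = -1 - d 0 1 := by linarith [dr 1]
  have a5 : d 2 2 = 2 + 2 * d 0 1 := by linarith [dr 2]
  have b1 : e 2 0 = -1 - e 1 0 := by linarith [ec 0]
  have b2 : e 2 1 = -e 0 1 - e 1 1 := by linarith [ec 1]
  have b3 : e 0 2 = -1 - e 0 1 := by linarith [er 0]
  have b4 : e 1 2 = -e 1 0 - e 1 1 := by linarith [er 1]
  have c1 := hd' 0 1
  have c2 := hd' 0 2
  have h4 := pow_eq_zero_iff two_ne_zero |>.1 (neg_eq_zero.1 ((div_eq_zero_iff.1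
    ((mul_eq_zero.1 h3).resolve_left hk)).resolve_right
      (mul_ne_zero (mul_ne_zero (hd' _ _) (hd' _ _)) (hd' _ _))))
  rw [d0, d1, a1, e0] at h0
  rw [d2, a2] at h1
  rw [a3, a4, a5, b3, b4] at h2
  rw [a1, a2, b1, b2] at h4
  rw [a3] at c2
  generalize d 0 1 = y at *
  generalize e 1 0 = p at *
  generalize e 0 1 = q at *
  generalize e 1 1 = s at *
  push_cast at h0 h1 h2 h4 c2
  have c3 : (2 : ℚ) + 2 * y ≠ 0 := fun h => c2 (by linarith)
  have g0 : k * (1 - p) ^ 2 = 16 := by linear_combination 2 * h0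
  have g1 : k * (q - s) ^ 2 = 4 * y := by field_simp at h1; linarith
  have g2 : k * (1 - p + (q - s)) ^ 2 = 2 * (1 + y) := by
    have c4 : (1 : ℚ) + y ≠ 0 := fun h => c2 (by linarith)
    field_simp at h2
    linear_combination -h2
  have g3 : (7 * (1 - p) ^ 2 + 16 * (1 - p) * (q - s) + 4 * (q - s) ^ 2 : ℚ) = 0 :=
    mul_left_cancel₀ hk (by linear_combination 8 * g2 - g0 - 4 * g1)
  have g4 : (1 - p + 2 * (q - s)) * (7 * (1 - p) + 2 * (q - s)) = 0 := by
    have : ((1 - p + 2 * (q - s)) * (7 * (1 - p) + 2 * (q - s)) : ℚ) = 0 := by linarith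
    exact_mod_cast this
  have g5 : (1 + p) * y = q + s := by
    have : ((1 + p) * y : ℚ) = q + s := by linarith
    exact_mod_cast this
  have g6 : p ≠ 1 := fun h => by simp [h] at g0
  obtain ⟨g7, g8⟩ := abs_le.1 e1
  interval_cases p <;> rcases mul_eq_zero.1 g4 with h | h <;> omega

end CfsgLib.H5.Nine
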