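import Mathlib
import Cfsg.Agent.Lib.H5NineA
import Cfsg.Agent.Lib.Kazarin
import Cfsg.Agent.Lib.CharBurnside

/-! Exceptional characters for a trivial intersection set in `S₃ × S₃`. -/

set_option autoImplicit false

namespace CfsgLib.H5.Nine

open Finset Cfsg DihedralGroup
open scoped ComplexConjugate

/-- the symmetric group of degree three -/
abbrev D3 := DihedralGroup 3

/-- `S₃ × S₃` -/
abbrev SS := D3 × D3

/-- the sign -/
def sg : D3 → ℤ
  | .r _ => 1
  | .sr _ => -1

/-- the natural action -/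
def act : D3 → ZMod 3 → ZMod 3
  | .r i, x => x + i
  | .sr i, x => -x - i

/-- signed irreducible characters -/
def mu (i : Fin 3) (s : D3) : ℤ :=
  if i = 0 then 1 else if i = 1 then sg s else 1 - (univ.filter fun x => act s x = x).card

/-- the sum of the signed characters -/
def lam (s : D3) : ℤ := ∑ i, mu i s

theorem gen_mu (i : Fin 3) : IsGeneralizedCharacter D3 fun s => (mu i s : ℂ) := by
  have h0 : IsGeneralizedCharacter D3 1 := isIrrCharacter_one.isCharacter.isGeneralizedCharacter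
  fin_cases i
  · convert h0 using 2
    simp [mu]
  · let f : D3 →* ℤ := ⟨⟨sg, rfl⟩, by decide⟩
    exact (isIrrCharacter_of_hom
      ((Int.castRingHom ℂ).toMonoidHom.comp f)).isCharacter.isGeneralizedCharacter
  · letI : MulAction D3 (ZMod 3) := { smul := act, one_smul := by decide, mul_smul := by decide }
    convert h0.sub (isCharacter_perm (G := D3) (ZMod 3)).isGeneralizedCharacter using 2 with s
    simp only [mu, Pi.sub_apply, Pi.one_apply, Nat.card_eq_fintype_card, Fintype.card_subtype]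
    push_cast
    rfl

/-- rows -/
def RR (j : Fin 3) (s : SS) : ℤ := lam s.1 * mu j s.2

/-- columns -/
def CC (i : Fin 3) (s : SS) : ℤ := mu i s.1 * lam s.2

/-- generalized characters supported on the `3`-singular elements -/
def Good (f : SS → ℤ) : Prop :=
  IsGeneralizedCharacter SS (fun s => (f s : ℂ)) ∧ ∀ s, s ^ 2 = 1 → f s = 0

theorem gen_lam : IsGeneralizedCharacter D3 fun s => (lam s : ℂ) := by
  convert isGeneralizedCharacter_sum univ _ fun i _ => gen_mu i using 2
  simp [lam]

theorem good_RR (j : Fin 3) : Good (RR j) := by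
  refine ⟨?_, by revert j; decide⟩
  convert (gen_lam.comp (MonoidHom.fst D3 D3)).mul ((gen_mu j).comp (MonoidHom.snd D3 D3)) using 2
  simp [RR]

theorem good_CC (i : Fin 3) : Good (CC i) := by
  refine ⟨?_, by revert i; decide⟩
  convert ((gen_mu i).comp (MonoidHom.fst D3 D3)).mul (gen_lam.comp (MonoidHom.snd D3 D3)) using 2
  simp [CC]

theorem exists_int_of_sq {G : Type*} [Group G] [Finite G] {χ : G → ℂ} (h : IsCharacter G χ) {g : G}
    (hg : g ^ 2 = 1) : ∃ n : ℤ, χ g = n := by
  obtain ⟨n, ρ, rfl⟩ := h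
  obtain ⟨b, ε, h1, -, h2⟩ := exists_eigenbasis_rep ρ g
  have h3 : ∀ i, ∃ m : ℤ, ε i = m := fun i => by
    obtain ⟨k, hk⟩ := orderOf_dvd_of_pow_eq_one hg
    have : ε i ^ 2 = 1 := by rw [hk, pow_mul, h1, one_pow]
    rcases sq_eq_one_iff.1 this with h | h
    exacts [⟨1, by simp [h]⟩, ⟨-1, by simp [h]⟩]
  choose m hm using h3
  exact ⟨∑ i, m i, by simpa [hm] using h2 1⟩

open scoped Classical in
/-- indicator function of a class -/
noncomputable def ind {G : Type*} [Group G] (τ x : G) : ℂ := if IsConj τ x then 1 else 0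

open scoped Classical in
theorem ind_class {G : Type*} [Group G] (τ : G) : IsClassFunction G (ind τ) :=
  fun _ y => if_congr ⟨fun h => h.trans (isConj_iff.mpr ⟨y, rfl⟩).symm,
    fun h => h.trans (isConj_iff.mpr ⟨y, rfl⟩)⟩ rfl rfl

variable {G : Type*} [Group G] [Fintype G]

/-- number of ways to write `g` as a product of two conjugates of `τ` -/
noncomputable def cl2 (τ g : G) : ℂ := ∑ x, ind τ x * ind τ (x⁻¹ * g)

theorem cl2_class (τ : G) : IsClassFunction G (cl2 τ) := fun g h => by
  refine (Fintype.sum_equiv (MulAut.conj h).toEquiv _ _ fun x => ?_).symm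
  simp only [MulEquiv.toEquiv_eq_coe, EquivLike.coe_coe, MulAut.conj_apply]
  rw [ind_class τ x h, ← ind_class τ (x⁻¹ * g) h]
  congr 2
  group

theorem inner_cl2 (τ : G) {χ : G → ℂ} (hχ : IsIrrCharacter G χ) :
    conj (classInner (cl2 τ) χ) =
      ((Subgroup.centralizer ({τ} : Set G)).index : ℂ) ^ 2 / Nat.card G * (χ τ ^ 2 / χ 1) := by
  have h0 : ∀ x, conj (ind τ x) = ind τ x := fun x => by unfold ind; split_ifs <;> simp
  have h1 : ∑ g, conj (cl2 τ g * conj (χ g)) = ∑ y, ind τ y * ∑ x, ind τ x * χ (x * y) := by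
    simp only [cl2, map_mul, map_sum, Complex.conj_conj, h0, sum_mul, mul_sum]
    rw [sum_comm, eq_comm, sum_comm]
    refine sum_congr rfl fun x _ => Fintype.sum_equiv (Equiv.mulLeft x) _ _ fun y => ?_
    simp only [Equiv.coe_mulLeft, inv_mul_cancel_left]
    ring
  have h2 : ∑ x, ind τ x * χ x = (Subgroup.centralizer ({τ} : Set G)).index * χ τ := by
    convert Chr.sum_indicator_isConj_mul hχ.isCharacter.isClassFunction τ using 3
    unfold ind
    congr
  rw [classInner, map_mul, map_sum, h1]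
  simp only [hχ.sum_classFun_mul (ind_class τ), mul_left_comm _ (_ / _), ← mul_sum, h2]
  simp
  ring

variable (φ : SS →* G) (hφ : Function.Injective φ)

/-- induced function -/
noncomputable def th (f : SS → ℤ) : G → ℂ :=
  indFun φ.range fun n => (f ((MonoidHom.ofInjective hφ).symm n) : ℂ)

theorem th_gen {f : SS → ℤ} (hf : Good f) : IsGeneralizedCharacter G (th φ hφ f) :=
  (hf.1.comp (MonoidHom.ofInjective hφ).symm.toMonoidHom).indFun

theorem inner_th (f : SS → ℤ) {F : G → ℂ} (hF : IsClassFunction G F) :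
    classInner (th φ hφ f) F = (∑ s, f s * conj (F (φ s))) / 36 := by
  classical
  rw [th, classInner_indFun_left _ _ hF, classInner, div_eq_inv_mul,
    ← Nat.card_congr (MonoidHom.ofInjective hφ).toEquiv]
  refine congrArg₂ _ ?_ ?_
  · rw [Nat.card_prod, nat_card]; norm_num
  · refine (Fintype.sum_equiv (MonoidHom.ofInjective hφ).toEquiv _ _ fun s => ?_).symm
    rw [MulEquiv.toEquiv_eq_coe, MulEquiv.coe_toEquiv, MulEquiv.symm_apply_apply]
    rfl

theorem th_eq_zero {f : SS → ℤ} (hf : Good f) {g : G} (hg : g ^ 2 = 1) : th φ hφ f g = 0 := by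
  refine indFun_eq_zero _ _ fun x hx => ?_
  obtain ⟨s, hs⟩ := hx
  have : (MonoidHom.ofInjective hφ).symm ⟨_, s, hs⟩ = s :=
    (MulEquiv.symm_apply_eq _).2 (Subtype.ext hs.symm)
  rw [this, hf.2 s (hφ (by 
    rw [map_pow, hs, map_one, show (x⁻¹ * g * x) ^ 2 = x⁻¹ * g ^ 2 * x by simp [sq, mul_assoc], hg]
    simp)), Int.cast_zero]

variable (hTI : ∀ (x : G) (s s' : SS), x⁻¹ * φ s * x = φ s' → s' ^ 2 ≠ 1 → x ∈ φ.range)
include hTI

theorem th_apply {f : SS → ℤ} (hf : Good f) (s : SS) : th φ hφ f (φ s) = f s := by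
  have := indFun_apply_of_TI φ.range
    (hf.1.comp (MonoidHom.ofInjective hφ).symm.toMonoidHom).isClassFunction
    (MonoidHom.ofInjective hφ s) fun x hx hx' => by
      obtain ⟨s', hs⟩ := hx'
      have : (MonoidHom.ofInjective hφ).symm ⟨_, s', hs⟩ = s' :=
        (MulEquiv.symm_apply_eq _).2 (Subtype.ext hs.symm)
      simp only [Function.comp, MulEquiv.coe_toMonoidHom, this]
      rw [hf.2 s' (by_contra fun h => hx (hTI x s s' hs.symm h)), Int.cast_zero]
  simp only [Function.comp, MulEquiv.coe_toMonoidHom, MulEquiv.symm_apply_apply] at this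
  exact this

include hφ in
theorem cl2_apply {τ : G} (hτ : τ ^ 2 = 1) (A : SS → Prop) [DecidablePred A]
    (hA : ∀ s, IsConj τ (φ s) ↔ A s) {s : SS} (hs : s ^ 2 ≠ 1) :
    cl2 τ (φ s) = ((univ.filter fun x => A x ∧ A (x⁻¹ * s)).card : ℤ) := by
  classical
  have h1 : ∀ x, IsConj τ x → x * x = 1 := fun x hx => by
    obtain ⟨c, rfl⟩ := isConj_iff.1 hx
    rw [← sq, conj_pow, hτ]; simp
  rw [cl2, ← sum_subset (subset_univ (univ.map ⟨φ, hφ⟩)), sum_map, card_filter]
  · push_cast
    refine sum_congr rfl fun x _ => ?_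
    simp only [Function.Embedding.coeFn_mk, ← map_inv, ← map_mul, ind, hA]
    by_cases h : A x <;> simp [h]
  · intro x _ hx
    by_contra h
    have h0 : ∀ y, ind τ y ≠ 0 → IsConj τ y := fun y hy => by_contra fun e => hy (if_neg e)
    have h2 := h1 _ (h0 _ (right_ne_zero_of_mul h))
    obtain ⟨y, hy⟩ := hTI x s s⁻¹ (by
      rw [map_inv, eq_inv_iff_mul_eq_one, ← h2, inv_eq_of_mul_eq_one_left (h1 x (h0 _ (left_ne_zero_of_mul h)))]
      group) (by simpa using hs)
    exact hx (mem_map.2 ⟨y, mem_univ _, hy⟩)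

end CfsgLib.H5.Nine
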