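import Mathlib
import Cfsg.Agent.Lib.H5NineB

/-! The grid of nine exceptional characters. -/

set_option autoImplicit false

namespace CfsgLib.H5.Nine

open Finset Cfsg DihedralGroup
open scoped ComplexConjugate

variable {G : Type*} [Group G] [Fintype G] (φ : SS →* G) (hφ : Function.Injective φ)

/-- multiplicities in the induced character -/
noncomputable def co {f : SS → ℤ} (hf : Good f) : IrrCharacter G → ℤ :=
  (th_gen φ hφ hf).exists_coeff.choose

theorem co_eq {f : SS → ℤ} (hf : Good f) (χ : IrrCharacter G) :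
    (co φ hφ hf χ : ℂ) = classInner (th φ hφ f) χ :=
  ((th_gen φ hφ hf).exists_coeff.choose_spec.1 χ).symm

theorem co_eq' {f : SS → ℤ} (hf : Good f) (χ : IrrCharacter G) :
    (co φ hφ hf χ : ℂ) = (∑ s, f s * conj (χ.1 (φ s))) / 36 :=
  (co_eq φ hφ hf χ).trans (inner_th φ hφ f χ.2.isCharacter.isClassFunction)

theorem comb {f : Fin 3 → SS → ℤ} (hf : ∀ j, Good (f j)) (m : Fin 3 → ℤ) (s₀ : SS)
    (h1 : ∀ s, ∑ j, m j * f j s ≠ 0 → ∃ g, g * s₀ * g⁻¹ = s) (h2 : ∑ s, ∑ j, m j * f j s = 36)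
    (χ : IrrCharacter G) : χ.1 (φ s₀) = (∑ j, m j * co φ hφ (hf j) χ : ℤ) := by
  have h3 : ((∑ j, m j * co φ hφ (hf j) χ : ℤ) : ℂ) =
      (∑ s, (∑ j, m j * f j s : ℤ) * conj (χ.1 (φ s₀))) / 36 := by
    push_cast
    simp only [co_eq', ← mul_div_assoc, ← sum_div, mul_sum, ← mul_assoc]
    rw [sum_comm]
    refine congrArg (· / 36) (sum_congr rfl fun s _ => ?_)
    rw [← sum_mul]
    by_cases h : ∑ j, m j * f j s = 0
    · have : ∑ j, (m j * f j s : ℂ) = 0 := by exact_mod_cast h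
      rw [this, zero_mul, zero_mul]
    · obtain ⟨g, rfl⟩ := h1 s h
      rw [map_mul, map_mul, map_inv, χ.2.isCharacter.isClassFunction]
  rw [← sum_mul, ← Int.cast_sum, h2] at h3
  rw [← Complex.conj_conj (χ.1 _), ← map_intCast (starRingEnd ℂ), h3]
  congr 1
  push_cast
  ring

theorem sum_co_apply {f : SS → ℤ} (hf : Good f) {g : G} (hg : g ^ 2 = 1)
    (e : IrrCharacter G → ℤ) (he : ∀ χ : IrrCharacter G, χ.1 g = e χ) :
    ∑ χ, co φ hφ hf χ * e χ = 0 := by
  have := (th_gen φ hφ hf).isClassFunction.apply_eq_sum_irr g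
  rw [th_eq_zero φ hφ hf hg] at this
  simp only [← co_eq φ hφ hf, he] at this
  exact_mod_cast this.symm

theorem co_one {f : SS → ℤ} (hf : Good f) {n : ℤ} (h : ∑ s, f s = 36 * n) :
    co φ hφ hf ⟨1, isIrrCharacter_one⟩ = n := by
  have := co_eq' φ hφ hf ⟨1, isIrrCharacter_one⟩
  simp only [Pi.one_apply, map_one, mul_one, ← Int.cast_sum, h] at this
  push_cast at this
  rw [mul_div_cancel_left₀ _ (by norm_num)] at this
  exact_mod_cast this

theorem sum_co_block {f : SS → ℤ} (hf : Good f) (P : IrrCharacter G → Prop) [DecidablePred P]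
    (hP : ∀ y : G, 3 ∣ orderOf y → ∑ χ with P χ, χ.1 1 * χ.1 y = 0)
    (d : IrrCharacter G → ℤ) (hd : ∀ χ : IrrCharacter G, χ.1 1 = d χ) :
    ∑ χ with P χ, co φ hφ hf χ * d χ = 0 := by
  have h1 : ∑ χ with P χ, (co φ hφ hf χ * d χ : ℂ) =
      (∑ s, f s * conj (∑ χ with P χ, χ.1 1 * χ.1 (φ s))) / 36 := by
    simp only [co_eq', map_sum, map_mul, hd, map_intCast, mul_sum, div_mul_eq_mul_div, ← sum_div,
      sum_mul]
    rw [sum_comm]
    exact congrArg (· / 36) (sum_congr rfl fun s _ => sum_congr rfl fun χ _ => by ring)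
  rw [sum_eq_zero (s := univ), zero_div] at h1
  · exact_mod_cast h1
  intro s _
  by_cases hs : s ^ 2 = 1
  · rw [hf.2 s hs, Int.cast_zero, zero_mul]
  rw [hP, map_zero, mul_zero]
  rw [orderOf_injective φ hφ]
  by_contra h
  have h6 : orderOf s ∣ 3 * 2 := orderOf_dvd_of_pow_eq_one ((by decide : ∀ s : SS, s ^ (3 * 2) = 1) s)
  exact hs (orderOf_dvd_iff_pow_eq_one.1
    ((Nat.prime_three.coprime_iff_not_dvd.2 h).symm.dvd_of_dvd_mul_left h6))

variable (hTI : ∀ (x : G) (s s' : SS), x⁻¹ * φ s * x = φ s' → s' ^ 2 ≠ 1 → x ∈ φ.range)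
include hTI

theorem sum_co_mul {f f' : SS → ℤ} (hf : Good f) (hf' : Good f') {n : ℤ}
    (h : ∑ s, f s * f' s = 36 * n) : ∑ χ, co φ hφ hf χ * co φ hφ hf' χ = n := by
  have h1 := classInner_eq_sum_irr (th_gen φ hφ hf).isClassFunction (th φ hφ f')
  rw [inner_th φ hφ f (th_gen φ hφ hf').isClassFunction] at h1
  simp only [← co_eq φ hφ hf, ← co_eq φ hφ hf', th_apply φ hφ hTI hf', map_intCast,
    ← Int.cast_mul, ← Int.cast_sum, h] at h1
  push_cast at h1
  rw [mul_div_cancel_left₀ _ (by norm_num)] at h1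
  exact_mod_cast h1.symm

theorem sum_co_cl2 {f : SS → ℤ} (hf : Good f) {τ : G} (hτ : τ ^ 2 = 1) (A : SS → Prop)
    [DecidablePred A] (hA : ∀ s, IsConj τ (φ s) ↔ A s) (d e : IrrCharacter G → ℤ)
    (hd : ∀ χ : IrrCharacter G, χ.1 1 = d χ) (he : ∀ χ : IrrCharacter G, χ.1 τ = e χ) :
    ((Subgroup.centralizer ({τ} : Set G)).index : ℚ) ^ 2 / Nat.card G *
      ∑ χ, co φ hφ hf χ * ((e χ : ℚ) ^ 2 / d χ) =
      (∑ s, f s * (univ.filter fun x => A x ∧ A (x⁻¹ * s)).card : ℤ) / 36 := by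
  have h1 := classInner_eq_sum_irr (th_gen φ hφ hf).isClassFunction (cl2 τ)
  rw [inner_th φ hφ f (cl2_class τ)] at h1
  simp only [← co_eq φ hφ hf, fun χ : IrrCharacter G => inner_cl2 τ χ.2, hd, he,
    mul_left_comm (co φ hφ hf _ : ℂ), ← mul_sum] at h1
  rw [sum_congr rfl (g := fun s => ((f s * (univ.filter fun x => A x ∧ A (x⁻¹ * s)).card : ℤ) : ℂ))
    fun s _ => by
      by_cases hs : s ^ 2 = 1
      · simp [hf.2 s hs]
      · rw [cl2_apply φ hφ hTI hτ A hA hs, map_intCast, Int.cast_mul]] at h1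
  refine Rat.cast_injective (α := ℂ) ?_
  push_cast at h1 ⊢
  exact h1.symm

include hφ in
theorem data (h3 : ¬ 3 ∣ (Subgroup.centralizer ({φ (r 1, r 1)} : Set G)).index) :
    ∃ (x : Fin 3 → Fin 3 → IrrCharacter G) (t d : Fin 3 → Fin 3 → ℤ),
      (∀ i j, t i j * t i j = 1) ∧ (∀ i j, t i j * (x i j).1 1 = d i j) ∧ (∀ i j, d i j ≠ 0) ∧
      d 0 0 = 1 ∧ (∀ i, ∑ j, d i j = 0) ∧ (∀ j, ∑ i, d i j = 0) ∧
      (∀ i j, t i j * (x i j).1 (φ (r 1, 1)) = mu j 1) ∧
      (∀ i j, t i j * (x i j).1 (φ (1, r 1)) = mu i 1) ∧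
      ∀ τ : G, τ ^ 2 = 1 → ∀ (A : SS → Prop) [DecidablePred A], (∀ s, IsConj τ (φ s) ↔ A s) →
        ∃ (e : Fin 3 → Fin 3 → ℤ) (k : ℚ), k ≠ 0 ∧ (∀ i j, |e i j| ≤ |d i j|) ∧ e 0 0 = 1 ∧
          (∀ i, ∑ j, e i j = 0) ∧ (∀ j, ∑ i, e i j = 0) ∧
          (∀ j, k * ∑ i, (e i j : ℚ) ^ 2 / d i j =
            (∑ s, RR j s * (univ.filter fun x => A x ∧ A (x⁻¹ * s)).card : ℤ) / 36) ∧
          (∀ i, k * ∑ j, (e i j : ℚ) ^ 2 / d i j =
            (∑ s, CC i s * (univ.filter fun x => A x ∧ A (x⁻¹ * s)).card : ℤ) / 36) := by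
  classical
  set R : Fin 3 → IrrCharacter G → ℤ := fun j => co φ hφ (good_RR j) with hR
  set C : Fin 3 → IrrCharacter G → ℤ := fun i => co φ hφ (good_CC i) with hC
  set t : IrrCharacter G → ℤ := fun χ => ∑ j, R j χ with ht
  have ht1 : ∀ χ : IrrCharacter G, χ.1 (φ (r 1, r 1)) = t χ := fun χ => by
    simpa [ht, hR] using comb φ hφ good_RR (fun _ => 1) (r 1, r 1) (by decide) (by decide) χ
  have ht2 : ∀ χ, ∑ i, C i χ = t χ := fun χ => by
    have := comb φ hφ good_CC (fun _ => 1) (r 1, r 1) (by decide) (by decide) χ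
    rw [ht1] at this
    simpa using (Int.cast_injective this).symm
  choose d hd0 hd using fun χ : IrrCharacter G => χ.2.exists_nat_one
  have hd' : ∀ χ : IrrCharacter G, χ.1 1 = ((d χ : ℤ) : ℂ) := fun χ => by simp [hd]
  have hd1 : ∀ χ, (d χ : ℤ) ≠ 0 := fun χ => by exact_mod_cast (hd0 χ).ne'
  have hRR : ∀ j k, ∑ χ, R j χ * R k χ = if j = k then 3 else 0 := fun j k =>
    sum_co_mul φ hφ hTI _ _ (by revert j k; decide)
  have hCC : ∀ j k, ∑ χ, C j χ * C k χ = if j = k then 3 else 0 := fun j k =>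
    sum_co_mul φ hφ hTI _ _ (by revert j k; decide)
  have hRC : ∀ i j, ∑ χ, R j χ * C i χ = 1 := fun i j =>
    sum_co_mul φ hφ hTI _ _ (by revert i j; decide)
  have hRt : ∀ j, ∑ χ, R j χ * t χ = 3 := fun j => by
    simp only [← ht2, mul_sum]
    rw [sum_comm]
    simp [hRC]
  have hCt : ∀ i, ∑ χ, C i χ * t χ = 3 := fun i => by
    simp only [ht, mul_sum]
    rw [sum_comm]
    simp [hRC, mul_comm (C i _)]
  have htt : ∑ χ, t χ * t χ = 9 := by
    conv_lhs => enter [2, χ, 1]; rw [ht]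
    simp only [sum_mul]
    rw [sum_comm]
    simp [hRt]
  set o : IrrCharacter G := ⟨1, isIrrCharacter_one⟩ with ho
  have hRo : ∀ j, R j o = if j = 0 then 1 else 0 := fun j =>
    co_one φ hφ _ (by revert j; decide)
  have hCo : ∀ j, C j o = if j = 0 then 1 else 0 := fun j =>
    co_one φ hφ _ (by revert j; decide)
  have hto : t o = 1 := by simp [ht, hRo]
  obtain ⟨K, _, ψ, hψ⟩ := Chr.exists_residue_hom Nat.prime_three
  have hP : ∀ y : G, 3 ∣ orderOf y → ∑ χ with t χ = 0, χ.1 1 * χ.1 y = 0 := fun y hy => by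
    let a : IrrCharacter G → integralClosure ℤ ℂ := fun χ =>
      ⟨_, χ.2.isIntegral_index_mul_div (φ (r 1, r 1))⟩
    rw [← Chr.sum_block_eq_zero ψ Nat.prime_three hψ a (Chr.class_central_mem_specRing _) 0 hy]
    refine sum_congr (filter_congr fun χ _ => ⟨fun h => ?_, fun h => ?_⟩) fun _ _ => rfl
    · rw [show a χ = 0 from Subtype.ext (by simp [a, ht1, h]), map_zero]
    · have h1 : a χ * (d χ : ℤ) =
          (((Subgroup.centralizer ({φ (r 1, r 1)} : Set G)).index * t χ : ℤ) :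
            integralClosure ℤ ℂ) := Subtype.ext (by
        have := χ.2.one_ne_zero
        simp only [a, MulMemClass.coe_mul, SubringClass.coe_intCast, ← hd', ht1]
        push_cast
        field_simp)
      have h2 := congrArg ψ h1
      rw [map_mul, h, zero_mul, map_intCast] at h2
      have : CharP K 3 := (CharP.charP_iff_prime_eq_zero Nat.prime_three).mpr (by rw [← hψ, map_natCast])
      have h4 := (Int.prime_three.dvd_or_dvd ((CharP.intCast_eq_zero_iff K 3 _).1 h2.symm)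
        ).resolve_left (by exact_mod_cast h3)
      have h5 : χ ≠ o := fun e => by rw [e, hto] at h4; omega
      have h6 : ∑ y ∈ {χ, o}, t y * t y ≤ 9 :=
        htt ▸ sum_le_sum_of_subset_of_nonneg (subset_univ _) fun i _ _ => mul_self_nonneg _
      rw [sum_pair h5, hto] at h6
      obtain ⟨n, hn⟩ := h4
      rw [hn] at h6 ⊢
      by_contra h7
      have := Int.one_le_abs (z := n) (by omega)
      nlinarith [abs_mul_abs_self n]
  obtain ⟨x, x1, x2, x3, x4, x5, x6⟩ := grid R C t (fun _ => rfl) ht2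
    (fun j => supp3 _ t _ o (by simpa using hRR j j) (hRt j) htt hto
      (by rw [hRo]; split_ifs <;> simp) hd1 (sum_co_apply φ hφ _ (one_pow 2) _ hd')
      (sum_co_block φ hφ _ _ hP _ hd'))
    (fun j => supp3 _ t _ o (by simpa using hCC j j) (hCt j) htt hto
      (by rw [hCo]; split_ifs <;> simp) hd1 (sum_co_apply φ hφ _ (one_pow 2) _ hd')
      (sum_co_block φ hφ _ _ hP _ hd')) hRC
  have xo : x 0 0 = o := (x4 0 0 o (by simp [hRo]) (by simp [hCo])).symm
  have row : ∀ {g : G}, g ^ 2 = 1 → ∀ e : IrrCharacter G → ℤ, (∀ χ : IrrCharacter G, χ.1 g = e χ) →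
      t (x 0 0) * e (x 0 0) = 1 ∧ (∀ i, ∑ j, t (x i j) * e (x i j) = 0) ∧
        ∀ j, ∑ i, t (x i j) * e (x i j) = 0 := fun hg e he => by
    refine ⟨?_, fun i => ?_, fun j => ?_⟩
    · have : (1 : ℂ) = e o := he o
      rw [xo, hto, one_mul]
      exact_mod_cast this.symm
    · have h1 := x6 (fun χ => e χ) i
      have h2 : ∑ χ, C i χ * e χ = 0 := sum_co_apply φ hφ _ hg e he
      rw [← h2]
      exact_mod_cast h1.symm
    · have h1 := x5 (fun χ => e χ) j
      have h2 : ∑ χ, R j χ * e χ = 0 := sum_co_apply φ hφ _ hg e he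
      rw [← h2]
      exact_mod_cast h1.symm
  have ht0 : ∀ i j, t (x i j) ≠ 0 := fun i j h => by simpa [h] using x1 i j
  have x1' : ∀ i j, (t (x i j) : ℂ) * t (x i j) = 1 := fun i j => by exact_mod_cast x1 i j
  obtain ⟨d1, d2, d3⟩ := row (one_pow 2) _ hd'
  refine ⟨x, fun i j => t (x i j), fun i j => t (x i j) * d (x i j), x1, fun i j => by simp [hd],
    fun i j => mul_ne_zero (ht0 i j) (hd1 _), d1, d2, d3, fun i j => ?_, fun i j => ?_,
    fun τ hτ A _ hA => ?_⟩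
  · rw [comb φ hφ good_RR (fun j => mu j 1) (r 1, 1) (by decide) (by decide)]
    simp only [show ∀ k y, co φ hφ (good_RR k) y = R k y from fun _ _ => rfl, x2, mul_ite,
      mul_zero, sum_ite_eq', mem_univ, if_true, Int.cast_mul]
    rw [mul_left_comm, x1', mul_one]
  · rw [comb φ hφ good_CC (fun j => mu j 1) (1, r 1) (by decide) (by decide)]
    simp only [show ∀ k y, co φ hφ (good_CC k) y = C k y from fun _ _ => rfl, x3, mul_ite,
      mul_zero, sum_ite_eq', mem_univ, if_true, Int.cast_mul]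
    rw [mul_left_comm, x1', mul_one]
  choose e he using fun χ : IrrCharacter G => exists_int_of_sq χ.2.isCharacter hτ
  obtain ⟨e1, e2, e3⟩ := row hτ e he
  have h4 : ∀ i j, ((t (x i j) * e (x i j) : ℤ) : ℚ) ^ 2 / (t (x i j) * d (x i j) : ℤ) =
      t (x i j) * ((e (x i j) : ℚ) ^ 2 / (d (x i j) : ℤ)) := fun i j => by
    have h5 : (t (x i j) : ℚ) ≠ 0 := by exact_mod_cast ht0 i j
    have h6 : ((d (x i j) : ℤ) : ℚ) ≠ 0 := by exact_mod_cast hd1 (x i j)
    push_cast at h6 ⊢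
    field_simp
  refine ⟨fun i j => t (x i j) * e (x i j),
    ((Subgroup.centralizer ({τ} : Set G)).index : ℚ) ^ 2 / Nat.card G, ?_, fun i j => ?_, e1, e2,
    e3, fun j => ?_, fun i => ?_⟩
  · exact div_ne_zero (pow_ne_zero _ (by exact_mod_cast Subgroup.index_ne_zero_of_finite))
      (by exact_mod_cast Nat.card_pos.ne')
  · rw [abs_mul, abs_mul]
    refine mul_le_mul_of_nonneg_left ?_ (abs_nonneg _)
    have := (x i j).2.isCharacter.norm_le τ
    rw [he, hd', Complex.norm_intCast, Complex.norm_intCast] at this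
    exact_mod_cast this
  · simp only [h4]
    rw [← x5 fun χ => (e χ : ℚ) ^ 2 / (d χ : ℤ)]
    exact sum_co_cl2 φ hφ hTI _ hτ A hA _ e hd' he
  · simp only [h4]
    rw [← x6 fun χ => (e χ : ℚ) ^ 2 / (d χ : ℤ)]
    exact sum_co_cl2 φ hφ hTI _ hτ A hA _ e hd' he

end CfsgLib.H5.Nine
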