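import Mathlib
import Cfsg.Agent.Lib.H5NineC
import Cfsg.Agent.Lib.SylowIn
import Cfsg.Agent.Lib.FrobFPFStruct
import Cfsg.Agent.Lib.H5SylowIn

/-! A Sylow `3`-normalizer `S₃ × S₃` containing the centralizers of its `3`-elements. -/

set_option autoImplicit false

namespace CfsgLib.H5.Nine

open Finset Cfsg DihedralGroup Subgroup
open scoped ComplexConjugate commutatorElement

variable {G : Type*} [Group G] [Fintype G] (φ : SS →* G) (hφ : Function.Injective φ)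
  (hTI : ∀ (x : G) (s s' : SS), x⁻¹ * φ s * x = φ s' → s' ^ 2 ≠ 1 → x ∈ φ.range)
  (T : Sylow 3 G) (hT : ∀ g, g ∈ (T : Subgroup G) ↔ ∃ i j, φ (r i, r j) = g)

include hT in
omit [Fintype G] in
theorem comm_T {x y : G} (hx : x ∈ (T : Subgroup G)) (hy : y ∈ (T : Subgroup G)) :
    x * y = y * x := by
  obtain ⟨i, j, rfl⟩ := (hT x).1 hx
  obtain ⟨k, l, rfl⟩ := (hT y).1 hy
  rw [← map_mul, ← map_mul]
  simp [add_comm]

include hφ hTI hT

theorem not_conj : ¬ IsConj (φ (sr 0, 1)) (φ (1, sr 0)) := fun h => by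
  obtain ⟨x, hx⟩ := isConj_iff.1 h
  have h3 : ∀ g : G, g ^ 3 = 1 → IsPGroup 3 (zpowers g) := fun g hg => IsPGroup.of_card_dvd_pow
    (n := 1) (by rw [Nat.card_zpowers]; exact orderOf_dvd_of_pow_eq_one hg)
  obtain ⟨S, h1, h2⟩ := IsSylowIn.exists_ge (H := centralizer {φ (1, sr 0)})
    (h3 (φ (r 1, 1)) (by rw [← map_pow, ← map_one φ]; congr 1))
    (zpowers_le.2 (mem_centralizer_singleton_iff.2 (by rw [← map_mul, ← map_mul]; congr 1)))
  obtain ⟨c, -, hc⟩ := h2.exists_conj_le (h3 (x * φ (1, r 1) * x⁻¹) (by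
      rw [conj_pow, ← map_pow, show ((1, r 1) : SS) ^ 3 = 1 by decide]; simp))
    (zpowers_le.2 (mem_centralizer_singleton_iff.2 (by
      rw [← hx, conj_mul, conj_mul, ← map_mul, ← map_mul]; congr 3)))
  have h4 : c * (x * φ (1, r 1) * x⁻¹) * c⁻¹ ∈ S := hc (mem_map_of_mem _ (mem_zpowers _))
  obtain ⟨y, -, hy⟩ := (IsSylowIn.sylow_top T).exists_conj_le h2.isPGroup le_top
  have h5 := comm_T φ T hT (hy (mem_map_of_mem _ h4)) (hy (mem_map_of_mem _ (h1 (mem_zpowers _))))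
  rw [← map_mul, ← map_mul] at h5
  obtain ⟨s, hs⟩ := hTI _ (r 1, 1) (r 1, 1) (by
    rw [mul_assoc, ← (MulAut.conj y).injective h5, inv_mul_cancel_left]) (by decide)
  obtain ⟨g, hg⟩ := hTI (c * x) s (1, r 1) (by rw [hs]; group) (by decide)
  have h6 := mem_centralizer_singleton_iff.1 (h2.le h4)
  rw [show c * (x * φ (1, r 1) * x⁻¹) * c⁻¹ = c * x * φ (1, r 1) * (c * x)⁻¹ by group, ← hg,
    ← map_inv, ← map_mul, ← map_mul, ← map_mul, ← map_mul] at h6
  exact (by decide : ∀ g : SS, g * (1, r 1) * g⁻¹ * (1, sr 0) ≠ (1, sr 0) * (g * (1, r 1) * g⁻¹))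
    g (hφ h6)

theorem eq_top_of_ker {K L : Subgroup G} [K.Normal] [L.Normal] (hKa : φ (r 1, 1) ∉ K)
    (hKb : φ (1, r 1) ∈ K) (hLa : φ (r 1, 1) ∈ L) (hLb : φ (1, r 1) ∉ L) : φ.range = ⊤ := by
  have h1 : ∀ s : SS, φ s ∈ K ⊓ L → s = 1 := fun s hs => by
    have h2 : ∀ i j, φ (r i, r j) ∈ K ⊓ L → i = 0 ∧ j = 0 := fun i j h => by
      constructor
      · by_contra hi
        obtain ⟨m, n, e⟩ := (by decide : ∀ i j : ZMod 3, i ≠ 0 → ∃ m n : Fin 3,
          ((r 1, 1) : SS) = (r i, r j) ^ m.1 * (1, r 1) ^ n.1) i j hi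
        exact hKa (by rw [e, map_mul, map_pow, map_pow]
                      exact mul_mem (pow_mem h.1 _) (pow_mem hKb _))
      · by_contra hj
        obtain ⟨m, n, e⟩ := (by decide : ∀ i j : ZMod 3, j ≠ 0 → ∃ m n : Fin 3,
          ((1, r 1) : SS) = (r i, r j) ^ m.1 * (r 1, 1) ^ n.1) i j hj
        exact hLb (by rw [e, map_mul, map_pow, map_pow]
                      exact mul_mem (pow_mem h.2 _) (pow_mem hLa _))
    by_contra hs1
    obtain ⟨i, j, hij, e | ⟨g, e⟩⟩ := (by decide : ∀ s : SS, s ≠ 1 → ∃ i j : ZMod 3,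
      ¬ (i = 0 ∧ j = 0) ∧ ((r i, r j) = s ∨ ∃ g : SS, (r i, r j) = g * s * g⁻¹ * s⁻¹)) s hs1
    · exact hij (h2 i j (e ▸ hs))
    · refine hij (h2 i j ?_)
      rw [e, map_mul, map_mul, map_mul, map_inv, map_inv]
      exact mul_mem (Normal.conj_mem inferInstance _ hs _) (Subgroup.inv_mem _ hs)
  have h2 : K ⊓ L = ⊥ := by
    by_contra hne
    have h3 := (Frob.hasFPF_of_fpf (H := T) le_normalizer_of_normal hne fun t ht ht1 k hk e => by
      obtain ⟨i, j, rfl⟩ := (hT t).1 ht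
      obtain ⟨s, rfl⟩ := hTI k (r i, r j) (r i, r j) (by rw [mul_assoc, e, inv_mul_cancel_left])
        ((by decide : ∀ i j : ZMod 3, ((r i, r j) : SS) ≠ 1 → ((r i, r j) : SS) ^ 2 ≠ 1) i j
          fun h => ht1 (by rw [h, map_one]))
      rw [h1 s hk, map_one]).isCyclic_of_comm fun a b => Subtype.ext (comm_T φ T hT a.2 b.2)
    obtain ⟨⟨g, hg⟩, hg'⟩ := h3.exists_generator
    obtain ⟨i, j, rfl⟩ := (hT g).1 hg
    have h4 : ∀ k l, ∃ n : Fin 3, ((r i, r j) : SS) ^ n.1 = (r k, r l) := fun k l => by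
      obtain ⟨n, hn⟩ := (Submonoid.mem_powers_iff _ _).1 (mem_powers_iff_mem_zpowers.2
        (hg' ⟨_, (hT _).2 ⟨k, l, rfl⟩⟩))
      refine ⟨⟨n % 3, Nat.mod_lt _ (by norm_num)⟩, ?_⟩
      rw [← pow_eq_pow_mod n ((by decide : ∀ i j : ZMod 3, ((r i, r j) : SS) ^ 3 = 1) i j)]
      exact hφ (by rw [map_pow]; exact congrArg Subtype.val hn)
    exact (by decide : ∀ i j : ZMod 3, ¬ ∀ k l : ZMod 3, ∃ n : Fin 3,
      ((r i, r j) : SS) ^ n.1 = (r k, r l)) i j h4
  refine eq_top_iff.2 fun g _ => ?_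
  obtain ⟨s, hs⟩ := hTI (g * φ (1, r 1) * g⁻¹) (r 1, 1) (r 1, 1) (by
    rw [mul_assoc, ← (commute_of_normal_of_disjoint K L inferInstance inferInstance
      (disjoint_iff.2 h2) _ _ (Normal.conj_mem inferInstance _ hKb g) hLa).eq,
      inv_mul_cancel_left]) (by decide)
  exact hTI g s (1, r 1) (by rw [hs]; group) (by decide)

theorem main (hw : ¬ IsConj (φ (1, sr 0)) (φ (sr 0, sr 0))) : φ.range = ⊤ := by
  obtain ⟨x, t, d, x1, x2, d0, d1, d2, d3, x3, x4, H⟩ := data φ hφ hTI fun h =>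
    T.not_dvd_index (h.trans (index_dvd_of_le fun g hg =>
      mem_centralizer_singleton_iff.2 (comm_T φ T hT hg ((hT _).2 ⟨1, 1, rfl⟩))))
  have huv := not_conj φ hφ hTI T hT
  have c1 : ∀ {s s' : SS}, (∃ g, g * s * g⁻¹ = s') → IsConj (φ s) (φ s') := fun ⟨g, hg⟩ =>
    isConj_iff.2 ⟨φ g, by rw [← hg, map_mul, map_mul, map_inv]⟩
  have c2 : ∀ {s s' : SS}, s ^ 2 = 1 → s ≠ 1 → IsConj (φ s) (φ s') →
      (sg s'.1 = -1 ∧ s'.2 = 1 ∧ ∃ g, g * (sr 0, 1) * g⁻¹ = s') ∨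
      (s'.1 = 1 ∧ sg s'.2 = -1 ∧ ∃ g, g * (1, sr 0) * g⁻¹ = s') ∨
      (sg s'.1 = -1 ∧ sg s'.2 = -1 ∧ ∃ g, g * (sr 0, sr 0) * g⁻¹ = s') := fun {s s'} h1 h2 h => by
    obtain ⟨c, hc⟩ := isConj_iff.1 h
    have h3 : s' ^ 2 = 1 := hφ (by rw [map_pow, ← hc, conj_pow, ← map_pow, h1]; simp)
    have h4 : s' ≠ 1 := fun e => h2 (hφ (by simpa [e] using hc))
    clear hc h
    revert s'
    decide
  have q : ∀ {s : SS}, s ^ 2 = 1 → φ s ^ 2 = 1 := fun h => by rw [← map_pow, h, map_one]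
  have d0' : ∀ i j, (d i j : ℚ) ≠ 0 := fun i j => by exact_mod_cast d0 i j
  obtain ⟨e, k, k0, -, e1, e2, e3, e4, e5⟩ := H _ (q (s := (1, sr 0)) (by decide))
    (fun s => s.1 = 1 ∧ sg s.2 = -1) fun s => ⟨fun h => by
      rcases c2 (by decide) (by decide) h with h1 | h1 | h1
      exacts [absurd ((c1 h1.2.2).trans h.symm) huv, ⟨h1.1, h1.2.1⟩,
        absurd (h.trans (c1 h1.2.2).symm) hw], fun h => c1 (by revert s; decide)⟩
  obtain ⟨f1, f2⟩ := alone (d := fun i j => d i j) (e := fun i j => e i j) d0'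
    (by exact_mod_cast d1) (by exact_mod_cast e1) (fun i => by exact_mod_cast d2 i)
    (fun i => by exact_mod_cast d3 i) (fun i => by exact_mod_cast e2 i)
    (fun i => by exact_mod_cast e3 i)
    (fun j => (mul_eq_zero.1 ((e4 j).trans (by
      rw [div_eq_zero_iff, Int.cast_eq_zero]; left; revert j; decide))).resolve_left k0)
    (mul_left_cancel₀ k0 (by rw [e5, e5]; congr 2))
    (fun h => by
      have := e5 0
      rw [h, mul_zero, eq_comm, div_eq_zero_iff, Int.cast_eq_zero] at this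
      exact this.elim (by decide) (by norm_num))
  replace f1 : d 1 0 = 1 := by exact_mod_cast f1
  replace f2 : d 1 1 = d 0 1 := by exact_mod_cast f2
  clear e1 e2 e3 e4 e5 k0
  by_cases hu : IsConj (φ (sr 0, 1)) (φ (sr 0, sr 0))
  · obtain ⟨e, k, -, e0, e1, e2, e3, e4, e5⟩ := H _ (q (s := (sr 0, 1)) (by decide))
      (fun s => sg s.1 = -1 ∧ (s.2 = 1 ∨ sg s.2 = -1)) fun s => ⟨fun h => by
        rcases c2 (by decide) (by decide) h with h1 | h1 | h1
        exacts [⟨h1.1, Or.inl h1.2.1⟩, absurd (h.trans (c1 h1.2.2).symm) huv,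
          ⟨h1.1, Or.inr h1.2.1⟩], fun ⟨h1, h2⟩ => h2.elim (fun h2 => c1 (by revert s; decide))
            fun h2 => hu.trans (c1 (by revert s; decide))⟩
    have g : ∀ {a : ℤ} (b : ℤ), a = 36 * b → (a : ℚ) / 36 = b := fun b h => by
      rw [h]; push_cast; ring
    exact (fused d0 d1 e1 d2 d3 e2 e3 f1 f2 (by simpa [f1] using e0 1 0)
      ((e4 0).trans (g 8 (by decide))) ((e4 1).trans (g 2 (by decide)))
      ((e4 2).trans (g (-1) (by decide))) ((e5 2).trans (g 0 (by decide)))).elim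
  obtain ⟨e, k, k0, -, e1, e2, e3, e4, e5⟩ := H _ (q (s := (sr 0, 1)) (by decide))
    (fun s => sg s.1 = -1 ∧ s.2 = 1) fun s => ⟨fun h => by
      rcases c2 (by decide) (by decide) h with h1 | h1 | h1
      exacts [⟨h1.1, h1.2.1⟩, absurd (h.trans (c1 h1.2.2).symm) huv,
        absurd (h.trans (c1 h1.2.2).symm) hu], fun h => c1 (by revert s; decide)⟩
  obtain ⟨f3, -⟩ := alone (d := fun i j => d j i) (e := fun i j => e j i) (fun i j => d0' j i)
    (by exact_mod_cast d1) (by exact_mod_cast e1) (fun i => by exact_mod_cast d3 i)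
    (fun i => by exact_mod_cast d2 i) (fun i => by exact_mod_cast e3 i)
    (fun i => by exact_mod_cast e2 i)
    (fun j => (mul_eq_zero.1 ((e5 j).trans (by
      rw [div_eq_zero_iff, Int.cast_eq_zero]; left; revert j; decide))).resolve_left k0)
    (mul_left_cancel₀ k0 (by rw [e4, e4]; congr 2))
    (fun h => by
      have := e4 0
      rw [h, mul_zero, eq_comm, div_eq_zero_iff, Int.cast_eq_zero] at this
      exact this.elim (by decide) (by norm_num))
  replace f3 : d 0 1 = 1 := by exact_mod_cast f3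
  have g1 : d 2 0 = -2 := by have := d3 0; rw [Fin.sum_univ_three] at this; omega
  have g2 : d 0 2 = -2 := by have := d2 0; rw [Fin.sum_univ_three] at this; omega
  have ker : ∀ i j (g : G) (n : ℤ), t i j * (x i j).1 g = n →
      (g ∈ charKer (x i j).2.isCharacter ↔ n = d i j) := fun i j g n h => by
    have h0 : (t i j : ℂ) ≠ 0 := fun h => by simpa [Int.cast_eq_zero.1 h] using x1 i j
    rw [mem_charKer, ← mul_right_inj' h0, h, x2, Int.cast_inj]
  have := charKer_normal (x 2 0).2.isCharacter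
  have := charKer_normal (x 0 2).2.isCharacter
  refine eq_top_of_ker φ hφ hTI T hT (K := charKer (x 2 0).2.isCharacter)
    (L := charKer (x 0 2).2.isCharacter) ?_ ?_ ?_ ?_
  · rw [ker _ _ _ _ (x3 2 0), g1]; decide
  · rw [ker _ _ _ _ (x4 2 0), g1]; decide
  · rw [ker _ _ _ _ (x3 0 2), g2]; decide
  · rw [ker _ _ _ _ (x4 0 2), g2]; decide

theorem main' : φ.range = ⊤ := by
  by_cases hw : IsConj (φ (1, sr 0)) (φ (sr 0, sr 0))
  · have e : (φ.comp (MulEquiv.prodComm (M := D3) (N := D3)).toMonoidHom).range = φ.range := by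
      rw [MonoidHom.range_comp, MonoidHom.range_eq_top.2 (MulEquiv.surjective _),
        ← MonoidHom.range_eq_map]
    rw [← e]
    exact main _ (hφ.comp (MulEquiv.injective _)) (fun x s s' h h' => e ▸ hTI x s.swap s'.swap h
      fun h'' => h' (congrArg Prod.swap h'')) T
      (fun g => (hT g).trans ⟨fun ⟨i, j, h⟩ => ⟨j, i, h⟩, fun ⟨i, j, h⟩ => ⟨j, i, h⟩⟩)
      fun h => not_conj φ hφ hTI T hT (h.trans hw.symm)
  · exact main φ hφ hTI T hT hw

end CfsgLib.H5.Nine
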