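import Mathlib

/-! Automorphisms of alternating groups preserving three-cycles are induced by permutations;
automorphisms of prime power order `q ^ a` with `n < 3 q` are inner. -/

set_option autoImplicit false
set_option linter.unusedSectionVars false
set_option linter.style.haveILetI false

namespace CfsgLib.H6Alt
open Equiv Equiv.Perm Subgroup MulAction
open scoped Pointwise commutatorElement

variable {α : Type*} [Fintype α] [DecidableEq α]

theorem stab_le_closure (i : α) : stabilizer (alternatingGroup α) i ≤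
    closure {c : alternatingGroup α | (c : Perm α).IsThreeCycle ∧ c • i = i} := by
  intro g hg
  have hgi : (g : Perm α) i = i := hg
  have h1 : ∀ x, (g : Perm α) x ≠ i ↔ x ≠ i := fun x => by
    rw [ne_eq, ne_eq, ← (g : Perm α).apply_eq_iff_eq (x := x) (y := i), hgi]
  have h2 : ∀ x, (g : Perm α) x ≠ x → x ≠ i := fun x hx e => hx (by rw [e, hgi])
  have h3 : subtypePerm (g : Perm α) h1 ∈ closure {c : Perm {x // x ≠ i} | c.IsThreeCycle} := by
    rw [closure_three_cycles_eq_alternating, mem_alternatingGroup, sign_subtypePerm _ h1 h2]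
    exact g.2
  have h4 : (closure {c : Perm {x // x ≠ i} | c.IsThreeCycle}).map ofSubtype ≤
      (closure {c : alternatingGroup α | (c : Perm α).IsThreeCycle ∧ c • i = i}).map
        (alternatingGroup α).subtype := by
    rw [MonoidHom.map_closure, closure_le]
    rintro _ ⟨c, hc, rfl⟩
    have h5 : (ofSubtype c).IsThreeCycle := by
      rw [IsThreeCycle, cycleType_ofSubtype]; exact hc
    exact ⟨⟨_, h5.mem_alternatingGroup⟩, subset_closure ⟨h5,
      ofSubtype_apply_of_not_mem c (by simp)⟩, rfl⟩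
  obtain ⟨g', hg', e⟩ := h4 ⟨_, h3, ofSubtype_subtypePerm h1 h2⟩
  rwa [← Subtype.ext (a2 := g) e]

theorem exists_invariant {U : Subgroup (alternatingGroup α)} (hU : U ≠ ⊤)
    (hg : U ≤ closure {c | c ∈ U ∧ (c : Perm α).IsThreeCycle})
    {c₀ : alternatingGroup α} (h0 : c₀ ∈ U) (h3 : (c₀ : Perm α).IsThreeCycle) :
    ∃ T : Set α, T.Nonempty ∧ Tᶜ.Nonempty ∧ U ≤ stabilizer (alternatingGroup α) T := by
  by_contra hc
  have key : ∀ T : Set α, T.Nonempty → (∀ c ∈ U, (c : Perm α).IsThreeCycle → c • T ⊆ T) →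
      T = Set.univ := by
    intro T hT h
    by_contra hne
    refine hc ⟨T, hT, Set.nonempty_compl.2 hne, hg.trans ((closure_le _).2 fun c hc => ?_)⟩
    exact (mem_stabilizer_set_iff_smul_set_subset T.toFinite).2 (h c hc.1 hc.2)
  have hprim : IsPreprimitive (U.map (alternatingGroup α).subtype) α :=
    { exists_smul_eq := fun x y => by
        have : y ∈ orbit (U.map (alternatingGroup α).subtype) x := by
          rw [key _ ⟨x, mem_orbit_self x⟩ fun c hc _ => ?_]
          · trivial
          · rintro _ ⟨_, ⟨g, rfl⟩, rfl⟩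
            exact ⟨⟨c, c, hc, rfl⟩ * g, rfl⟩
        exact this
      isTrivialBlock_of_isBlock := fun {B} hB => by
        rcases B.subsingleton_or_nontrivial with h | ⟨a, ha, b, hb, hab⟩
        · exact Or.inl h
        refine Or.inr (key B ⟨a, ha⟩ fun c hc h3 => ?_)
        rcases hB.smul_eq_or_disjoint ⟨c, c, hc, rfl⟩ with h | h
        · exact h.le
        exfalso
        have h1 : ∀ x ∈ B, (c : Perm α) x ∉ B := fun x hx =>
          Set.disjoint_left.1 h ⟨x, hx, rfl⟩
        have h2 : ∀ x ∈ B, x ∈ (c : Perm α).support := fun x hx =>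
          mem_support.2 fun e => h1 x hx (e.symm ▸ hx)
        have h4 : ({a, b, (c : Perm α) a, (c : Perm α) b} : Finset α) ⊆ (c : Perm α).support := by
          intro x hx
          simp only [Finset.mem_insert, Finset.mem_singleton] at hx
          rcases hx with rfl | rfl | rfl | rfl
          exacts [h2 _ ha, h2 _ hb, apply_mem_support.2 (h2 _ ha), apply_mem_support.2 (h2 _ hb)]
        have h5 := Finset.card_le_card h4
        have n1 : a ≠ (c : Perm α) a := fun e => h1 a ha (e ▸ ha)
        have n2 : a ≠ (c : Perm α) b := fun e => h1 b hb (e ▸ ha)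
        have n3 : b ≠ (c : Perm α) a := fun e => h1 a ha (e ▸ hb)
        have n4 : b ≠ (c : Perm α) b := fun e => h1 b hb (e ▸ hb)
        have n5 : (c : Perm α) a ≠ (c : Perm α) b := fun e => hab ((c : Perm α).injective e)
        rw [h3.card_support, Finset.card_insert_of_notMem (by simp [hab, n1, n2]),
          Finset.card_insert_of_notMem (by simp [n3, n4]), Finset.card_pair n5] at h5
        omega }
  have h := alternatingGroup_le_of_isPreprimitive_of_isThreeCycle_mem hprim h3 ⟨c₀, h0, rfl⟩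
  refine hU (eq_top_iff.2 fun g _ => ?_)
  obtain ⟨g', hg', e⟩ := h g.2
  rwa [← Subtype.ext (a2 := g) e]

theorem exists_fixed {U : Subgroup (alternatingGroup α)} (hU : IsCoatom U)
    (hg : U ≤ closure {c | c ∈ U ∧ (c : Perm α).IsThreeCycle})
    {c₀ : alternatingGroup α} (h0 : c₀ ∈ U) (h3 : (c₀ : Perm α).IsThreeCycle) :
    ∃ j : α, U ≤ stabilizer (alternatingGroup α) j := by
  obtain ⟨T, hT, hT', h⟩ := exists_invariant hU.1 hg h0 h3
  rcases T.subsingleton_or_nontrivial with h1 | h1
  · obtain ⟨j, hj⟩ := hT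
    exact ⟨j, by rwa [h1.eq_singleton_of_mem hj, stabilizer_singleton] at h⟩
  rcases Tᶜ.subsingleton_or_nontrivial with h2 | h2
  · obtain ⟨j, hj⟩ := hT'
    exact ⟨j, by rwa [← stabilizer_compl, h2.eq_singleton_of_mem hj, stabilizer_singleton] at h⟩
  exfalso
  have e : U = stabilizer (alternatingGroup α) T := by
    rcases h.lt_or_eq with h | h
    · exact absurd (hU.2 _ h) (alternatingGroup.stabilizer_ne_top hT h2)
    · exact h
  classical
  haveI : Nontrivial T := h1.coe_sort
  let ψ : stabilizer (alternatingGroup α) T →* ℤˣ :=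
    sign.comp (toPermHom (stabilizer (alternatingGroup α) T) T)
  obtain ⟨π, hπ⟩ := sign_surjective T (-1)
  obtain ⟨g, rfl⟩ := alternatingGroup.stabilizer.surjective_toPerm h2 π
  have h4 : closure {c | c ∈ U ∧ (c : Perm α).IsThreeCycle} ≤ ψ.ker.map (Subgroup.subtype _) := by
    rw [closure_le]
    intro c hc
    refine ⟨⟨c, h hc.1⟩, ?_, rfl⟩
    have h5 : (⟨c, h hc.1⟩ : stabilizer (alternatingGroup α) T) ^ 3 = 1 :=
      Subtype.ext (Subtype.ext (by
        change (c : Perm α) ^ 3 = 1
        rw [← hc.2.orderOf, pow_orderOf_eq_one]))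
    have h6 := congrArg ψ h5
    rw [map_pow, map_one, pow_succ, Int.units_sq, one_mul] at h6
    exact h6
  obtain ⟨g', hg', e'⟩ := h4 (hg (e.ge g.2))
  obtain rfl : g' = g := Subtype.ext e'
  have h5 : ψ g' = -1 := hπ
  rw [MonoidHom.mem_ker.1 hg'] at h5
  exact absurd h5 (by decide)

theorem exists_three (h4 : 4 ≤ Nat.card α) (i j : α) (hij : j ≠ i) :
    ∃ c : alternatingGroup α, (c : Perm α).IsThreeCycle ∧ c • i = i ∧ c • j ≠ j := by
  have h : 1 < (({i, j} : Finset α)ᶜ).card := by
    rw [Finset.card_compl, Finset.card_pair hij.symm, ← Nat.card_eq_fintype_card]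
    omega
  obtain ⟨a, ha, b, hb, hab⟩ := Finset.one_lt_card.1 h
  simp only [Finset.mem_compl, Finset.mem_insert, Finset.mem_singleton, not_or] at ha hb
  have h3 := isThreeCycle_swap_mul_swap_same (Ne.symm ha.2) (Ne.symm hb.2) hab
  refine ⟨⟨_, h3.mem_alternatingGroup⟩, h3, ?_, ?_⟩
  · change (swap j a * swap j b) i = i
    rw [Perm.mul_apply, swap_apply_of_ne_of_ne hij.symm (Ne.symm hb.1),
      swap_apply_of_ne_of_ne hij.symm (Ne.symm ha.1)]
  · change (swap j a * swap j b) j ≠ j
    rw [Perm.mul_apply, swap_apply_left, swap_apply_of_ne_of_ne hb.2 hab.symm]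
    exact hb.2

theorem eq_of_stab (h4 : 4 ≤ Nat.card α) {i j : α}
    (h : ∀ g : alternatingGroup α, g • i = i → g • j = j) : j = i := by
  by_contra hij
  obtain ⟨c, -, h1, h2⟩ := exists_three h4 i j hij
  exact h2 (h c h1)

theorem exists_perm_of_threeCycle (h4 : 4 ≤ Nat.card α) (φ : MulAut (alternatingGroup α))
    (hφ : ∀ c : alternatingGroup α, (c : Perm α).IsThreeCycle → (φ c : Perm α).IsThreeCycle) :
    ∃ σ : Perm α, ∀ g : alternatingGroup α, (φ g : Perm α) = σ * g * σ⁻¹ := by
  haveI := alternatingGroup.isPreprimitive_of_three_le_card α (by omega)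
  haveI : Nontrivial α := Finite.one_lt_card_iff_nontrivial.1 (by omega)
  have hco : ∀ i : α, IsCoatom (stabilizer (alternatingGroup α) i) := fun i =>
    IsPreprimitive.isCoatom_stabilizer_of_isPreprimitive _ i
  have h1 : ∀ i : α, ∃ j : α, ∀ g : alternatingGroup α, g • i = i ↔ φ g • j = j := by
    intro i
    have hc : IsCoatom ((stabilizer (alternatingGroup α) i).map φ.toMonoidHom) :=
      (OrderIso.isCoatom_iff φ.mapSubgroup _).2 (hco i)
    obtain ⟨k, hk⟩ := exists_ne i
    obtain ⟨c₀, h0, h0', -⟩ := exists_three h4 i k hk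
    obtain ⟨j, hj⟩ := exists_fixed hc ((map_mono (stab_le_closure i)).trans (by
      rw [MonoidHom.map_closure]
      refine closure_mono ?_
      rintro _ ⟨c, hc, rfl⟩
      exact ⟨⟨c, hc.2, rfl⟩, hφ c hc.1⟩)) ⟨c₀, h0', rfl⟩ (hφ c₀ h0)
    have e : (stabilizer (alternatingGroup α) i).map φ.toMonoidHom =
        stabilizer (alternatingGroup α) j := by
      rcases hj.lt_or_eq with h | h
      · exact absurd (hc.2 _ h) (hco j).1
      · exact h
    refine ⟨j, fun g => ⟨fun h => hj ⟨g, h, rfl⟩, fun h => ?_⟩⟩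
    obtain ⟨g', hg', e'⟩ := e.ge h
    rwa [← φ.injective e']
  choose f hf using h1
  have hinj : Function.Injective f := fun i i' e =>
    (eq_of_stab h4 fun g hg => (hf i' g).2 (e ▸ (hf i g).1 hg)).symm
  have h2 : ∀ (g : alternatingGroup α) (i : α), φ g • f i = f (g • i) := by
    intro g i
    refine eq_of_stab h4 fun x hx => ?_
    obtain ⟨y, rfl⟩ := φ.surjective x
    have h3 := (hf _ y).2 hx
    have h5 := (hf i (g⁻¹ * y * g)).1 (by rw [mul_smul, mul_smul, h3, inv_smul_smul])
    rw [map_mul, map_mul, map_inv, mul_smul, mul_smul, inv_smul_eq_iff] at h5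
    exact h5
  refine ⟨Equiv.ofBijective f hinj.bijective_of_finite, fun g => ?_⟩
  rw [eq_mul_inv_iff_mul_eq]
  exact Equiv.ext fun i => h2 g i

theorem isConj_alt_of_three (h5 : 5 ≤ Nat.card α) {x y : alternatingGroup α}
    (hx : orderOf x = 3) (h : (x : Perm α).cycleType = (y : Perm α).cycleType) : IsConj x y := by
  obtain ⟨π, hπ⟩ := isConj_iff.1 (isConj_of_cycleType_eq h)
  by_cases hs : π ∈ alternatingGroup α
  · exact isConj_iff.2 ⟨⟨π, hs⟩, Subtype.ext hπ⟩
  have hx' : orderOf (x : Perm α) = 3 := by rw [orderOf_coe, hx]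
  have : ¬ centralizer {(x : Perm α)} ≤ alternatingGroup α := by
    rw [centralizer_le_alternating_iff]
    rintro ⟨-, h1, h2⟩
    obtain ⟨k, hk⟩ := cycleType_prime_order (hx' ▸ Nat.prime_three)
    have h3 := h2 3
    rw [hk, hx'] at h1 h3
    rw [Multiset.count_replicate_self] at h3
    rw [Multiset.sum_replicate, ← Nat.card_eq_fintype_card, smul_eq_mul] at h1
    omega
  obtain ⟨z, hz, hz'⟩ := SetLike.not_le_iff_exists.1 this
  refine isConj_iff.2 ⟨⟨π * z, ?_⟩, Subtype.ext ?_⟩
  · rw [mem_alternatingGroup] at hs hz' ⊢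
    rw [Perm.sign_mul, Int.units_ne_iff_eq_neg.1 hs, Int.units_ne_iff_eq_neg.1 hz']
    rfl
  · change π * z * x * (π * z)⁻¹ = y
    rw [mul_assoc π, mem_centralizer_singleton_iff.1 hz, ← hπ]
    group

theorem threeCycle_of_pow (h5 : 5 ≤ Nat.card α) {q a : ℕ} (hq : q.Prime)
    (hn : Nat.card α < 3 * q) {φ : MulAut (alternatingGroup α)} (hφ : φ ^ q ^ a = 1)
    (c : alternatingGroup α) (hc : (c : Perm α).IsThreeCycle) : (φ c : Perm α).IsThreeCycle := by
  have ho : ∀ ψ : MulAut (alternatingGroup α), orderOf (ψ c) = 3 := fun ψ => by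
    rw [ψ.orderOf_eq, ← orderOf_coe, hc.orderOf]
  have h1 : ∀ j : ℕ, ∃ k, ((φ ^ j) c : Perm α).cycleType = Multiset.replicate (k + 1) 3 ∧
      k < Nat.card α / 3 := fun j => by
    have h2 : orderOf ((φ ^ j) c : Perm α) = 3 := by rw [orderOf_coe, ho]
    obtain ⟨k, hk⟩ := cycleType_prime_order (h2 ▸ Nat.prime_three)
    rw [h2] at hk
    have h3 := sum_cycleType_le ((φ ^ j) c : Perm α)
    rw [hk, Multiset.sum_replicate, ← Nat.card_eq_fintype_card, smul_eq_mul] at h3
    exact ⟨k, hk, by omega⟩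
  choose k hk hk' using h1
  obtain ⟨i, hi, j, hj, hij, e⟩ := Finset.exists_ne_map_eq_of_card_lt_of_maps_to
    (s := Finset.range (Nat.card α / 3 + 1)) (t := Finset.range (Nat.card α / 3)) (by simp)
    (f := k) fun j _ => by simpa using hk' j
  wlog hlt : i < j generalizing i j
  · exact this j hj i hi hij.symm e.symm (by omega)
  obtain ⟨d, rfl⟩ := Nat.exists_eq_add_of_lt hlt
  have h2 : IsConj ((φ ^ i) c) ((φ ^ (i + d + 1)) c) :=
    isConj_alt_of_three h5 (ho _) (by rw [hk, hk, e])
  have h3 : IsConj c ((φ ^ (d + 1)) c) := by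
    have := (φ ^ i).symm.toMonoidHom.map_isConj h2
    simpa [add_assoc, pow_add] using this
  have h4 : ∀ m : ℕ, IsConj c (((φ ^ (d + 1)) ^ m) c) := by
    intro m
    induction m with
    | zero => exact IsConj.refl c
    | succ m ih =>
      rw [pow_succ', MulAut.mul_apply]
      exact h3.trans ((φ ^ (d + 1)).toMonoidHom.map_isConj ih)
  have h6 : φ ∈ zpowers (φ ^ (d + 1)) := by
    rw [mem_zpowers_pow_iff]
    refine Nat.Coprime.coprime_dvd_right (orderOf_dvd_of_pow_eq_one hφ) (Nat.Coprime.pow_right _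
      ((Nat.coprime_comm.1 ((Nat.Prime.coprime_iff_not_dvd hq).2 fun h => ?_))))
    have := Nat.le_of_dvd (by omega) h
    rw [Finset.mem_range] at hj
    omega
  obtain ⟨m, hm⟩ := mem_powers_iff_mem_zpowers.2 h6
  have h7 := h4 m
  rw [show (φ ^ (d + 1)) ^ m = φ from hm] at h7
  have h8 := (alternatingGroup α).subtype.map_isConj h7
  rw [IsThreeCycle, ← hc.cycleType]
  exact (isConj_iff_cycleType_eq.1 h8).symm

theorem eq_one_of_comm (h4 : 4 ≤ Nat.card α) {σ : Perm α}
    (h : ∀ g : alternatingGroup α, σ * g = g * σ) : σ = 1 := by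
  ext i
  refine eq_of_stab h4 fun g hg => ?_
  have := congrArg (fun π : Perm α => π i) (h g)
  change σ ((g : Perm α) i) = (g : Perm α) (σ i) at this
  rw [show (g : Perm α) i = i from hg] at this
  exact this.symm

/-- A `q`-subgroup of the symmetric group of degree `< q²` is abelian. -/
theorem comm_of_card_lt {q : ℕ} [hq : Fact q.Prime] (hn : Nat.card α < q ^ 2)
    {Y : Subgroup (Perm α)} (hY : IsPGroup q Y) (a b : Y) : a * b = b * a := by
  rw [← commutatorElement_eq_one_iff_mul_comm]
  refine Subtype.ext (Equiv.ext fun x => ?_)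
  obtain ⟨k, hk⟩ := hY.index (stabilizer Y x)
  have h1 : (stabilizer Y x).index ≤ Nat.card α := by
    rw [index_stabilizer]
    exact Set.ncard_le_card _
  have h2 : k < 2 := (Nat.pow_lt_pow_iff_right hq.out.one_lt).1 (by omega)
  have h3 : ⁅a, b⁆ ∈ stabilizer Y x := by
    interval_cases k
    · rw [index_eq_one.1 (hk.trans (pow_zero q))]
      trivial
    · rw [pow_one] at hk
      obtain ⟨m, hm⟩ := IsPGroup.iff_card.1 hY
      haveI : (stabilizer Y x).Normal := normal_of_index_eq_minFac_card (by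
        rw [hm, hq.out.pow_minFac, hk]
        rintro rfl
        have := (stabilizer Y x).index_dvd_card
        rw [hk, hm, pow_zero] at this
        exact hq.out.ne_one (Nat.dvd_one.1 this))
      haveI := isCyclic_of_prime_card (α := Y ⧸ stabilizer Y x) hk
      rw [← QuotientGroup.eq_one_iff, ← QuotientGroup.mk'_apply, map_commutatorElement,
        commutatorElement_eq_one_iff_mul_comm]
      exact IsCyclic.commGroup.mul_comm _ _
  exact h3

theorem comm_of_aut {q : ℕ} [hq : Fact q.Prime] (h5 : 5 ≤ Nat.card α) (hn : Nat.card α < 3 * q)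
    (hn' : Nat.card α < q ^ 2) {Y : Subgroup (MulAut (alternatingGroup α))} (hY : IsPGroup q Y)
    (a b : Y) : a * b = b * a := by
  let ρ : Perm α →* MulAut (alternatingGroup α) := MulAut.conjNormal
  have hρ : Function.Injective ρ := (injective_iff_map_eq_one ρ).2 fun σ h =>
    eq_one_of_comm (by omega) fun g => by
      have := congrArg (fun ψ : MulAut (alternatingGroup α) => (ψ g : Perm α)) h
      exact mul_inv_eq_iff_eq_mul.1 this
  have h1 : ∀ y : Y, ∃ σ, ρ σ = y := fun y => by
    obtain ⟨k, hk⟩ := hY y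
    obtain ⟨σ, hσ⟩ := exists_perm_of_threeCycle (by omega) (y : MulAut (alternatingGroup α))
      (threeCycle_of_pow h5 hq.out hn (congrArg Subtype.val hk))
    exact ⟨σ, MulEquiv.ext fun g => Subtype.ext (hσ g).symm⟩
  obtain ⟨σ, hσ⟩ := h1 a
  obtain ⟨τ, hτ⟩ := h1 b
  have := comm_of_card_lt hn' (hY.comap_of_injective ρ hρ) ⟨σ, by rw [mem_comap, hσ]; exact a.2⟩
    ⟨τ, by rw [mem_comap, hτ]; exact b.2⟩
  refine Subtype.ext ?_
  rw [Subgroup.coe_mul, Subgroup.coe_mul, ← hσ, ← hτ, ← map_mul, ← map_mul]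
  exact congrArg (fun x => ρ x.1) this

end CfsgLib.H6Alt
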