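import Mathlib
import Cfsg.Agent.S3909
import Cfsg.Agent.Lib.SylowIn
import Cfsg.Agent.Lib.SchurZassenhausConj
import Cfsg.Agent.Lib.CoreSolvable
import Cfsg.Agent.Lib.CoreElements
import Cfsg.Agent.Lib.ClassSize2
import Cfsg.Agent.Lib.PGroupRankOne
import Cfsg.Agent.Lib.FT.Main

/-! Groups whose abelian subgroups of equal order are conjugate: quotients. -/

set_option autoImplicit false
set_option linter.unusedSectionVars false
set_option linter.style.haveILetI false

namespace CfsgLib.H6B

open Subgroup Cfsg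
open scoped commutatorElement

/-- abelian subgroups of the same order are conjugate -/
def BG (G : Type*) [Group G] : Prop :=
  ∀ A B : Subgroup G, IsMulCommutative A → IsMulCommutative B → Nat.card A = Nat.card B →
    ∃ g : G, B = A.map (MulAut.conj g).toMonoidHom

variable {G : Type*} [Group G] [Finite G] {p : ℕ}

omit [Finite G] in
theorem map_map_conj {Q : Type*} [Group Q] (f : G →* Q) (A : Subgroup G) (g : G) :
    (A.map (MulAut.conj g).toMonoidHom).map f = (A.map f).map (MulAut.conj (f g)).toMonoidHom := by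
  rw [map_map, map_map]
  congr 1
  ext x
  simp

theorem BG.mem (h : BG G) {M : Subgroup G} [M.Normal] {a m : G} (hm : m ∈ M)
    (e : orderOf m = orderOf a) : a ∈ M :=
  (Cfsg.Agent.S3909.result h M).1 a ⟨m, hm, e⟩

theorem BG.no_quat (h : BG G) (hs : Group.IsSolvable G) {T : Subgroup G} {k : ℕ} (hk : 2 ≤ k)
    (e : T ≃* QuaternionGroup (2 ^ k)) : False := by
  let f : QuaternionGroup (2 ^ k) →* G := T.subtype.comp e.symm.toMonoidHom
  have hf : Function.Injective f := T.subtype_injective.comp e.symm.injective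
  have h4 : ∀ i, orderOf (f (QuaternionGroup.xa i)) = 4 := fun i => by
    rw [orderOf_injective f hf, QuaternionGroup.orderOf_xa]
  have hc : ⁅(QuaternionGroup.xa 0 : QuaternionGroup (2 ^ k)),
      (QuaternionGroup.xa 1 : QuaternionGroup (2 ^ k))⁆ = QuaternionGroup.a 1 ^ 2 := by
    have e1 : (QuaternionGroup.xa 0 : QuaternionGroup (2 ^ k)) * QuaternionGroup.xa 1 =
        QuaternionGroup.a 1 ^ 2 * (QuaternionGroup.xa 1 * QuaternionGroup.xa 0) := by
      simp only [pow_two, QuaternionGroup.xa_mul_xa, QuaternionGroup.a_mul_a]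
      congr 1
      ring
    rw [commutatorElement_def, e1]
    group
  have ho : 4 ∣ orderOf ⁅f (QuaternionGroup.xa 0), f (QuaternionGroup.xa 1)⁆ := by
    rw [← map_commutatorElement, orderOf_injective f hf, hc,
      orderOf_pow_of_dvd two_ne_zero (by rw [QuaternionGroup.orderOf_a_one]; simp),
      QuaternionGroup.orderOf_a_one, Nat.mul_div_cancel_left _ two_pos]
    exact pow_dvd_pow 2 hk
  obtain ⟨y, hy, hy4⟩ := Frob.exists_orderOf_eq_mem_zpowers ho
  have key : ∀ n, ∀ g : G, orderOf g = 4 → g ∈ derivedSeries G n := by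
    intro n
    induction n with
    | zero => exact fun g _ => mem_top g
    | succ n ih =>
      intro g hg
      exact h.mem (zpowers_le.2 (commutator_mem_commutator (ih _ (h4 0)) (ih _ (h4 1))) hy)
        (hy4.trans hg.symm)
  refine not_isSolvable_of_mem_derivedSeries (g := y) ?_ (fun n => key n y hy4) hs
  rintro rfl
  simp at hy4

theorem comm_of_cyc [hp : Fact p.Prime] {H M T : Subgroup G} (hMH : M ≤ H)
    (hM : ∀ m ∈ M, m ^ p = 1) (hc : ∀ a ∈ H, ∀ b ∈ H, a * b * a⁻¹ * b⁻¹ ∈ M)
    (hT : IsSylowIn p T H) (hcyc : IsCyclic T) (hne : ¬ T ≤ M) :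
    ∀ a ∈ H, ∀ b ∈ H, a * b = b * a := by
  obtain ⟨y, rfl⟩ : ∃ y : G, T = zpowers y := by
    obtain ⟨y, hy⟩ := (isCyclic_iff_exists_zpowers_eq_top.1 hcyc)
    have := congrArg (Subgroup.map T.subtype) hy
    rw [MonoidHom.map_zpowers, ← MonoidHom.range_eq_map, range_subtype] at this
    exact ⟨y, this.symm⟩
  have hy : y ∈ H := hT.le (mem_zpowers y)
  have hMT : M ≤ zpowers y := by
    have hMp : IsPGroup p M := fun m => ⟨1, Subtype.ext (by simpa using hM m m.2)⟩
    obtain ⟨x, hx, e⟩ := hT.exists_conj_le hMp hMH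
    intro m hm
    refine e ⟨x⁻¹ * m * x, ?_, by simp [mul_assoc]⟩
    have := M.mul_mem (hc x⁻¹ (H.inv_mem hx) m (hMH hm)) hm
    simpa using this
  have hpw : ∀ a ∈ H, ∀ b ∈ H, (∀ m ∈ M, Commute m b) → Commute a (b ^ p) := fun a ha b hb h => by
    have h1 := hc a ha b hb
    have h2 : a * b ^ p * a⁻¹ = b ^ p := by
      rw [← conj_pow, show a * b * a⁻¹ = (a * b * a⁻¹ * b⁻¹) * b by group, (h _ h1).mul_pow,
        hM _ h1, one_mul]
    exact mul_inv_eq_iff_eq_mul.1 h2
  have hMc : ∀ m ∈ M, ∀ a ∈ H, Commute m a := fun m hm a ha => by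
    obtain ⟨j, rfl⟩ := mem_powers_iff_mem_zpowers.2 (hMT hm)
    by_cases hj : p ∣ j
    · obtain ⟨i, rfl⟩ := hj
      simp only [pow_mul]
      exact ((hpw a ha y hy fun m hm => commute_of_mem_zpowers (hMT hm) (mem_zpowers y)).pow_right
        i).symm
    · obtain ⟨k, hk⟩ := orderOf_eq_pow_of_mem_isPGroup hT.isPGroup (mem_zpowers y)
      refine absurd (zpowers_le.2 (zpowers_le.2 hm ?_)) hne
      exact mem_zpowers_pow_iff.2 (by
        rw [hk]; exact (Nat.Coprime.pow_right k ((hp.out.coprime_iff_not_dvd).2 hj).symm))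
  have key : ∀ x ∈ H, ∀ q k : ℕ, q.Prime → orderOf x = q ^ k →
      x ∈ zpowers y ∨ ∀ a ∈ H, Commute a x := fun x hx q k hq ho => by
    by_cases hqp : q = p
    · subst hqp
      obtain ⟨g, hg, e⟩ := hT.exists_conj_le (isPGroup_zpowers_iff.2 ⟨k, ho⟩) (zpowers_le.2 hx)
      have h1 : g * x * g⁻¹ ∈ zpowers y := e ⟨x, mem_zpowers x, rfl⟩
      have h2 := (zpowers y).mul_mem ((zpowers y).inv_mem (hMT (hc g hg x hx))) h1
      exact Or.inl (by simpa [mul_assoc] using h2)
    · refine Or.inr fun a ha => ?_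
      have h1 : x ∈ zpowers (x ^ p) := mem_zpowers_pow_iff.2 (by
        rw [ho]; exact Nat.Coprime.pow_right k ((Nat.coprime_primes hp.out hq).2 (Ne.symm hqp)))
      obtain ⟨j, hj⟩ := h1
      rw [← hj]
      exact (hpw a ha x hx fun m hm => hMc m hm x hx).zpow_right j
  have h1 : H ≤ centralizer (zpowers y : Set G) := le_of_forall_primePow_mem
    fun x hx q k hq ho t ht => by
      rcases key x hx q k hq ho with h | h
      · exact commute_of_mem_zpowers ht h
      · exact h t (hT.le ht)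
  have h2 : H ≤ centralizer (H : Set G) := le_of_forall_primePow_mem
    fun x hx q k hq ho t ht => by
      rcases key x hx q k hq ho with h | h
      · exact (h1 ht x h).symm
      · exact h t ht
  exact fun a ha b hb => h2 hb a ha

theorem exists_lift_coprime {M : Subgroup G} [M.Normal] (A : Subgroup (G ⧸ M))
    (hc : (Nat.card M).Coprime (Nat.card A)) :
    ∃ B : Subgroup G, M ⊓ B = ⊥ ∧ B.map (QuotientGroup.mk' M) = A ∧ Nat.card B = Nat.card A := by
  have hMH : M ≤ A.comap (QuotientGroup.mk' M) := fun m hm => by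
    rw [mem_comap, (QuotientGroup.eq_one_iff (N := M) m).2 hm |> fun e => (show
      QuotientGroup.mk' M m = 1 from e)]
    exact A.one_mem
  have hr : M.relIndex (A.comap (QuotientGroup.mk' M)) = Nat.card A := by
    have := card_mul_relIndex hMH
    rw [card_comap_mk', mul_comm] at this
    exact Nat.eq_of_mul_eq_mul_right Nat.card_pos this
  obtain ⟨B, -, h2, h3, h4⟩ := Cop.exists_complement_of_le_normalizer (N := M)
    (H := A.comap (QuotientGroup.mk' M)) (by rw [normalizer_eq_top]; exact le_top)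
    (by rw [inf_eq_left.2 hMH, hr]; exact hc)
  refine ⟨B, h2, ?_, h4.trans hr⟩
  have := congrArg (Subgroup.map (QuotientGroup.mk' M)) h3
  rwa [inf_eq_left.2 hMH, Subgroup.map_sup, QuotientGroup.map_mk'_self, bot_sup_eq,
    map_comap_eq_self_of_surjective (QuotientGroup.mk'_surjective M)] at this

theorem BG.cj_coprime (h : BG G) {M : Subgroup G} [M.Normal] {A B : Subgroup (G ⧸ M)}
    (hA : IsMulCommutative A) (hB : IsMulCommutative B) (hAB : Nat.card A = Nat.card B)
    (hc : (Nat.card M).Coprime (Nat.card A)) :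
    ∃ g, B = A.map (MulAut.conj g).toMonoidHom := by
  have key : ∀ A : Subgroup (G ⧸ M), IsMulCommutative A → ∀ B : Subgroup G, M ⊓ B = ⊥ →
      B.map (QuotientGroup.mk' M) = A → IsMulCommutative B := fun A hA B h1 h2 => by
    refine PGrp.isMulCommutative_iff_forall.2 fun a ha b hb => ?_
    have e := PGrp.isMulCommutative_iff_forall.1 hA _ (h2.le ⟨a, ha, rfl⟩) _ (h2.le ⟨b, hb, rfl⟩)
    rw [← map_mul, ← map_mul] at e
    have : (a * b)⁻¹ * (b * a) ∈ M ⊓ B :=
      ⟨QuotientGroup.eq.1 e, B.mul_mem (B.inv_mem (B.mul_mem ha hb)) (B.mul_mem hb ha)⟩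
    rw [h1] at this
    exact inv_mul_eq_one.1 (mem_bot.1 this)
  obtain ⟨A', a1, a2, a3⟩ := exists_lift_coprime A hc
  obtain ⟨B', b1, b2, b3⟩ := exists_lift_coprime B (hAB ▸ hc)
  obtain ⟨g, hg⟩ := h A' B' (key A hA A' a1 a2) (key B hB B' b1 b2) (by rw [a3, b3, hAB])
  exact ⟨_, by rw [← b2, hg, map_map_conj, a2]⟩

theorem cj_of_sylow [hp : Fact p.Prime] {A B : Subgroup G}
    (hA : IsMulCommutative A) (hB : IsMulCommutative B) (hAB : Nat.card A = Nat.card B)
    (hi : ¬ p ∣ A.index)
    (h : ∀ A B : Subgroup G, IsMulCommutative A → IsMulCommutative B → Nat.card A = Nat.card B →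
      ¬ p ∣ Nat.card A → ∃ g, B = A.map (MulAut.conj g).toMonoidHom) :
    ∃ g, B = A.map (MulAut.conj g).toMonoidHom := by
  have key : ∀ A : Subgroup G, IsMulCommutative A → ¬ p ∣ A.index → ∃ V O : Subgroup G,
      IsSylowIn p V ⊤ ∧ V ⊔ O = A ∧ ¬ p ∣ Nat.card O ∧ Nat.card V * Nat.card O = Nat.card A := by
    intro A hA hi
    obtain ⟨V, hV⟩ := IsSylowIn.exists_in (p := p) A
    obtain ⟨k, hk⟩ := hV.isPGroup.exists_card_eq
    obtain ⟨O, -, -, h3, h4⟩ := Cop.exists_complement_of_le_normalizer (N := V) (H := A)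
      (fun a ha => centralizer_le_normalizer _ fun v hv =>
        PGrp.isMulCommutative_iff_forall.1 hA v (hV.le hv) a ha)
      (by
        rw [inf_eq_left.2 hV.le, hk]
        exact Nat.Coprime.pow_left _ (hp.out.coprime_iff_not_dvd.2 hV.not_dvd))
    refine ⟨V, O, ⟨le_top, hV.isPGroup, ?_⟩, by rwa [inf_eq_left.2 hV.le] at h3,
      h4 ▸ hV.not_dvd, h4 ▸ card_mul_relIndex hV.le⟩
    rw [relIndex_top_right, ← relIndex_mul_index hV.le]
    exact fun e => (hp.out.dvd_mul.1 e).elim hV.not_dvd hi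
  have hi' : ¬ p ∣ B.index := by
    have e1 := A.card_mul_index
    rw [← B.card_mul_index, hAB] at e1
    rwa [← Nat.eq_of_mul_eq_mul_left Nat.card_pos e1]
  obtain ⟨V, O, v1, v2, v3, v4⟩ := key A hA hi
  obtain ⟨W, R, w1, w2, w3, w4⟩ := key B hB hi'
  obtain ⟨g, hg⟩ := h O R (PGrp.isMulCommutative_of_le (v2 ▸ le_sup_right) hA)
    (PGrp.isMulCommutative_of_le (w2 ▸ le_sup_right) hB) (by
      rw [← v4, ← w4, v1.card_eq w1] at hAB
      exact Nat.eq_of_mul_eq_mul_left Nat.card_pos hAB) v3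
  have c1 : IsSylowIn p W (centralizer (R : Set G)) := w1.mono (fun w hw r hr =>
    PGrp.isMulCommutative_iff_forall.1 hB r (w2 ▸ mem_sup_right hr) w (w2 ▸ mem_sup_left hw))
    le_top
  have c2 : IsSylowIn p (V.map (MulAut.conj g).toMonoidHom) (centralizer (R : Set G)) := by
    refine (v1.map_conj_of_mem_normalizer (by rw [normalizer_eq_top]; trivial)).mono ?_ le_top
    rw [hg]
    rintro _ ⟨v, hv, rfl⟩ _ ⟨r, hr, rfl⟩
    rw [← map_mul, ← map_mul, PGrp.isMulCommutative_iff_forall.1 hA r (v2 ▸ mem_sup_right hr) v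
      (v2 ▸ mem_sup_left hv)]
  obtain ⟨c, hc, e⟩ := c1.exists_conj_eq c2
  refine ⟨c * g, ?_⟩
  rw [← w2, ← v2, Subgroup.map_sup, map_conj_mul, map_conj_mul, e, ← hg,
    map_conj_eq_of_mem_normalizer (centralizer_le_normalizer _ hc)]

theorem BG.min_cases (h : BG G) [hp : Fact p.Prime] {M : Subgroup G} [M.Normal] (hM : M ≠ ⊥)
    (hel : IsElementaryAbelian p M) :
    (Nat.card M = p ∧ ∀ a : G, a ^ p = 1 → a ∈ M) ∨ ¬ p ∣ M.index := by
  obtain ⟨t, ht⟩ := (isPGroup_of_isElementaryAbelian hel).exists_card_eq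
  obtain _ | _ | t := t
  · exact absurd (card_eq_one.1 ht) hM
  · refine Or.inl ⟨by simpa using ht, fun a ha => ?_⟩
    by_cases h1 : a = 1
    · exact h1 ▸ M.one_mem
    obtain ⟨m, hm, hm1⟩ := (bot_or_exists_ne_one M).resolve_left hM
    exact h.mem hm ((orderOf_eq_prime (hel.2 m hm) hm1).trans (orderOf_eq_prime ha h1).symm)
  · obtain ⟨P⟩ : Nonempty (Sylow p G) := inferInstance
    rw [← (Cfsg.Agent.S3909.result h M).2 p _ (by omega) ht hel P]
    exact Or.inr P.not_dvd_index

theorem BG.step (h : BG G) [hp : Fact p.Prime] {M : Subgroup G} [M.Normal] (hM : M ≠ ⊥)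
    (hel : IsElementaryAbelian p M) (hs : p ≠ 2 ∨ Group.IsSolvable G) : BG (G ⧸ M) := by
  intro A B hA hB hAB
  obtain ⟨t, ht⟩ := (isPGroup_of_isElementaryAbelian hel).exists_card_eq
  have hcop : ∀ A B : Subgroup (G ⧸ M), IsMulCommutative A → IsMulCommutative B →
      Nat.card A = Nat.card B → ¬ p ∣ Nat.card A →
      ∃ g, B = A.map (MulAut.conj g).toMonoidHom := fun A B hA hB hAB hd =>
    h.cj_coprime hA hB hAB (ht ▸ Nat.Coprime.pow_left _ (hp.out.coprime_iff_not_dvd.2 hd))
  by_cases hi : p ∣ A.index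
  swap
  · exact cj_of_sylow hA hB hAB hi hcop
  by_cases hd : p ∣ Nat.card A
  swap
  · exact hcop A B hA hB hAB hd
  obtain ⟨hMp, hall⟩ := (h.min_cases hM hel).resolve_right fun e =>
    e (hd.trans (card_subgroup_dvd_card A))
  have hcq : ∀ T : Subgroup G, IsPGroup p T →
      IsCyclic T ∨ (p = 2 ∧ ∃ k : ℕ, 1 ≤ k ∧ Nonempty (T ≃* QuaternionGroup (2 ^ k))) :=
    fun T hT => PGrp.isCyclic_or_quaternion_of_no_card_sq hT fun E hE hc => by
      have h1 : E.map T.subtype ≤ M := by
        rintro _ ⟨e, he, rfl⟩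
        exact hall _ (by rw [← map_pow, hE.2 e he, map_one])
      have h2 := card_le_of_le h1
      rw [card_map_subtype, hc, hMp] at h2
      nlinarith [hp.out.one_lt]
  have hcardq : ∀ (T : Subgroup G) (k : ℕ), (T ≃* QuaternionGroup (2 ^ k)) →
      Nat.card T = 4 * 2 ^ k := fun T k e => by
    rw [Nat.card_congr e.toEquiv, Nat.card_eq_fintype_card, QuaternionGroup.card]
  have key : ∀ A : Subgroup (G ⧸ M), IsMulCommutative A → p ∣ A.index → p ∣ Nat.card A →
      IsMulCommutative (A.comap (QuotientGroup.mk' M)) := by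
    intro A hA hi hd
    obtain ⟨T, hT⟩ := IsSylowIn.exists_in (p := p) (A.comap (QuotientGroup.mk' M))
    have hMH : M ≤ A.comap (QuotientGroup.mk' M) := by
      simpa using A.ker_le_comap (QuotientGroup.mk' M)
    refine PGrp.isMulCommutative_iff_forall.2 (comm_of_cyc hMH hel.2 (fun a ha b hb => ?_) hT ?_ ?_)
    · rw [← QuotientGroup.eq_one_iff]
      have := PGrp.isMulCommutative_iff_forall.1 hA _ ha _ hb
      change QuotientGroup.mk' M _ = 1
      rw [map_mul, map_mul, map_mul, this, map_inv, map_inv]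
      group
    · rcases hcq T hT.isPGroup with h1 | ⟨rfl, k, hk, ⟨e⟩⟩
      · exact h1
      exfalso
      have hs := hs.resolve_left (by simp)
      obtain ⟨P, hTP, hP⟩ := IsSylowIn.exists_ge hT.isPGroup (le_top (a := T))
      have hne : T ≠ P := by
        rintro rfl
        apply hP.not_dvd
        rw [relIndex_top_right, ← relIndex_mul_index hT.le,
          index_comap_of_surjective _ (QuotientGroup.mk'_surjective M)]
        exact hi.mul_left _
      have hlt := card_lt_card_of_lt (lt_of_le_of_ne hTP hne)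
      rcases hcq P hP.isPGroup with h1 | ⟨-, j, hj, ⟨e'⟩⟩
      · have : IsCyclic T := isCyclic_of_injective (inclusion hTP) (inclusion_injective hTP)
        have h2 : IsCyclic (QuaternionGroup (2 ^ k)) := isCyclic_of_surjective e e.surjective
        have h3 := h2.exponent_eq_card
        rw [QuaternionGroup.exponent, Nat.card_eq_fintype_card, QuaternionGroup.card] at h3
        have h4 : lcm (2 ^ k) 2 = 2 ^ k := Nat.lcm_eq_left (dvd_pow_self 2 (by omega))
        rw [h4] at h3
        have : 0 < 2 ^ k := by positivity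
        omega
      · rw [hcardq T k e, hcardq P j e'] at hlt
        have : k < j := (Nat.pow_lt_pow_iff_right one_lt_two).1 (by omega)
        exact h.no_quat hs (by omega) e'
    · intro hle
      apply hT.not_dvd
      have h1 := relIndex_dvd_of_le_left (A.comap (QuotientGroup.mk' M)) hle
      refine hd.trans (Dvd.dvd.trans ?_ h1)
      have := card_mul_relIndex hMH
      rw [card_comap_mk', mul_comm] at this
      exact (Nat.eq_of_mul_eq_mul_right Nat.card_pos this).symm.dvd
  have hi' : p ∣ B.index := by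
    have e1 := A.card_mul_index
    rw [← B.card_mul_index, hAB] at e1
    rwa [← Nat.eq_of_mul_eq_mul_left Nat.card_pos e1]
  obtain ⟨g, hg⟩ := h _ _ (key A hA hi hd) (key B hB hi' (hAB ▸ hd)) (by
    rw [card_comap_mk', card_comap_mk', hAB])
  refine ⟨QuotientGroup.mk' M g, ?_⟩
  rw [← map_comap_eq_self_of_surjective (QuotientGroup.mk'_surjective M) B, hg, map_map_conj,
    map_comap_eq_self_of_surjective (QuotientGroup.mk'_surjective M)]

theorem BG.of_surjective.{u} {Q : Type*} [Group Q] (G : Type u) [Group G] [Finite G] :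
    BG G → ∀ f : G →* Q, Function.Surjective f →
      (Odd (Nat.card f.ker) ∨ Group.IsSolvable G) → BG Q := by
  refine card_induction (P := fun G _ _ => BG G → ∀ f : G →* Q, Function.Surjective f →
      (Odd (Nat.card f.ker) ∨ Group.IsSolvable G) → BG Q) ?_ G
  intro G _ _ ih h f hf hs
  by_cases hk : f.ker = ⊥
  · intro A B hA hB hAB
    have hi := (MonoidHom.ker_eq_bot_iff f).1 hk
    obtain ⟨g, hg⟩ := h (A.comap f) (B.comap f) (comap_injective_isMulCommutative _ hi)
      (comap_injective_isMulCommutative _ hi) (by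
        rw [← card_map_of_injective hi, ← card_map_of_injective (K := B.comap f) hi,
          map_comap_eq_self_of_surjective hf, map_comap_eq_self_of_surjective hf, hAB])
    exact ⟨f g, by rw [← map_comap_eq_self_of_surjective hf B, hg, map_map_conj,
      map_comap_eq_self_of_surjective hf]⟩
  obtain ⟨M, hM, hMk⟩ := exists_isMinNormal_le f.ker hk
  haveI := hM.1
  have hMs : Group.IsSolvable M := by
    rcases hs with hs | hs
    · exact FT.feit_thompson (hs.of_dvd_nat (card_dvd_of_le hMk))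
    · infer_instance
  obtain ⟨p, hp, hel⟩ := hM.exists_isElementaryAbelian hMs
  haveI := Fact.mk hp
  refine ih (G ⧸ M) (card_quotient_lt hM.2.1) (h.step hM.2.1 hel ?_) (QuotientGroup.lift M f hMk)
    (QuotientGroup.lift_surjective_of_surjective M f hf hMk) ?_
  · refine hs.imp_left fun hs => ?_
    rintro rfl
    obtain ⟨t, ht⟩ := (isPGroup_of_isElementaryAbelian hel).exists_card_eq
    have h1 := hs.of_dvd_nat (card_dvd_of_le hMk)
    rw [ht] at h1
    obtain rfl : t = 0 := by
      by_contra h0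
      exact Nat.not_even_iff_odd.2 h1 ((Nat.even_pow.2 ⟨even_two, h0⟩))
    exact hM.2.1 (card_eq_one.1 ht)
  · refine hs.imp (fun hs => ?_) fun hs => by haveI := hs; infer_instance
    rw [QuotientGroup.ker_lift]
    exact hs.of_dvd_nat (card_map_dvd _ _)

theorem BG.quot_odd (h : BG G) (M : Subgroup G) [M.Normal] (hM : Odd (Nat.card M)) : BG (G ⧸ M) :=
  BG.of_surjective G h _ (QuotientGroup.mk'_surjective M)
    (Or.inl (by rwa [QuotientGroup.ker_mk']))

theorem BG.quot_solv (h : BG G) (hs : Group.IsSolvable G) (M : Subgroup G) [M.Normal] :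
    BG (G ⧸ M) :=
  BG.of_surjective G h _ (QuotientGroup.mk'_surjective M) (Or.inr hs)

end CfsgLib.H6B
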