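import Mathlib
import Cfsg.Agent.Lib.H6BG
import Cfsg.Agent.Lib.H6LinB
import Cfsg.Agent.Lib.FrobFPFStruct

/-! Solvable groups whose abelian subgroups of equal order are conjugate. -/

set_option autoImplicit false
set_option linter.unusedSectionVars false
set_option linter.style.haveILetI false

namespace CfsgLib.H6B

open Subgroup Cfsg

variable {G : Type*} [Group G] [Finite G] {p : ℕ}

theorem eq_of_cyclic {D A B : Subgroup G} (hD : IsCyclic D) (hA : A ≤ D) (hB : B ≤ D)
    (h : Nat.card A = Nat.card B) : A = B := by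
  letI : CommGroup D := IsCyclic.commGroup
  have key : ∀ C : Subgroup G, C ≤ D → Nat.card C = Nat.card B →
      C = ((powMonoidHom (Nat.card B) : D →* D).ker).map D.subtype := fun C hC e => by
    refine eq_of_le_of_card_le (fun x hx => ⟨⟨x, hC hx⟩, ?_, rfl⟩) ?_
    · refine Subtype.ext ?_
      change x ^ Nat.card B = 1
      rw [← e]
      exact congrArg Subtype.val (pow_card_eq_one' (x := (⟨x, hx⟩ : C)))
    · rw [card_map_subtype, IsCyclic.card_powMonoidHom_ker, e]
      exact Nat.gcd_le_right _ Nat.card_pos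
  rw [key A hA h, ← key B hB rfl]

theorem exists_ker {E C : Type*} [Group E] [Group C] [IsCyclic C] (hE : ¬ IsCyclic E)
    (χ : E →* C) : ∃ e, e ≠ 1 ∧ χ e = 1 := by
  by_contra h
  push Not at h
  exact hE (isCyclic_of_injective χ ((injective_iff_map_eq_one χ).2 fun e he => by
    by_contra h1
    exact h e h1 he))

theorem card_inf_hall {F : Subgroup G} [F.Normal] (hF : (Nat.card F).Coprime F.index)
    (H : Subgroup G) : Nat.card (F ⊓ H : Subgroup G) = (Nat.card H).gcd (Nat.card F) := by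
  rw [← card_inf_mul_relIndex F H, Nat.Coprime.gcd_mul_right_cancel _
    (hF.symm.coprime_dvd_left (relIndex_dvd_index_of_normal F H)),
    Nat.gcd_eq_left (card_dvd_of_le inf_le_left)]

theorem hall_of_sylow [hp : Fact p.Prime] {M : Subgroup G} (hel : IsElementaryAbelian p M)
    (h : ¬ p ∣ M.index) : (Nat.card M).Coprime M.index := by
  obtain ⟨t, ht⟩ := (isPGroup_of_isElementaryAbelian hel).exists_card_eq
  exact ht ▸ Nat.Coprime.pow_left _ (hp.out.coprime_iff_not_dvd.2 h)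

theorem BG.card_inf (h : BG G) [hp : Fact p.Prime] {M : Subgroup G} [M.Normal] (hM : M ≠ ⊥)
    (hel : IsElementaryAbelian p M) (H : Subgroup G) :
    Nat.card (M ⊓ H : Subgroup G) = (Nat.card H).gcd (Nat.card M) := by
  rcases h.min_cases hM hel with ⟨h1, h2⟩ | h1
  · by_cases hd : p ∣ Nat.card H
    · obtain ⟨x, hx⟩ := exists_prime_orderOf_dvd_card' (G := H) p hd
      have hx' : orderOf (x : G) = p := by rw [orderOf_coe, hx]
      have h3 : zpowers (x : G) = M := eq_of_le_of_card_le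
        (zpowers_le.2 (h2 _ (hx' ▸ pow_orderOf_eq_one _))) (by rw [Nat.card_zpowers, hx', h1])
      rw [inf_eq_left.2 (h3 ▸ zpowers_le.2 x.2), h1, Nat.gcd_eq_right hd]
    · have h3 : (Nat.card H).Coprime (Nat.card M) :=
        h1 ▸ (hp.out.coprime_iff_not_dvd.2 hd).symm
      rw [h3]
      exact Nat.eq_one_of_dvd_coprimes h3 (card_dvd_of_le inf_le_right)
        (card_dvd_of_le inf_le_left)
  · exact card_inf_hall (hall_of_sylow hel h1) H

theorem conj_of_quot {M H K : Subgroup G} [M.Normal] (hs : Group.IsSolvable M)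
    (ih : ∀ A B : Subgroup (G ⧸ M), Nat.card A = Nat.card B →
      ∃ g, B = A.map (MulAut.conj g).toMonoidHom) (hHK : Nat.card H = Nat.card K)
    (h1 : Nat.card (M ⊓ H : Subgroup G) = Nat.card (M ⊓ K : Subgroup G))
    (h2 : M ≤ H ∨ (Nat.card H).Coprime (Nat.card M)) :
    ∃ g, K = H.map (MulAut.conj g).toMonoidHom := by
  obtain ⟨g, hg⟩ := ih (H.map (QuotientGroup.mk' M)) (K.map (QuotientGroup.mk' M)) (by
    have e1 := card_map_mk'_mul_card_inf H M
    rw [hHK, ← card_map_mk'_mul_card_inf K M, h1] at e1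
    exact Nat.eq_of_mul_eq_mul_right Nat.card_pos e1)
  obtain ⟨g, rfl⟩ := QuotientGroup.mk'_surjective M g
  rw [← map_map_conj] at hg
  have h3 := congrArg (Subgroup.comap (QuotientGroup.mk' M)) hg
  rw [comap_map_eq, comap_map_eq, QuotientGroup.ker_mk'] at h3
  rcases h2 with h2 | h2
  · have hK : M ≤ K := by
      rw [inf_eq_left.2 h2] at h1
      exact inf_eq_left.1 (eq_of_le_of_card_le inf_le_left h1.le)
    have hH : M ≤ H.map (MulAut.conj g).toMonoidHom :=
      (map_conj_eq_of_normal g M).symm.le.trans (map_mono h2)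
    exact ⟨g, by rwa [sup_eq_left.2 hK, sup_eq_left.2 hH] at h3⟩
  · obtain ⟨n, -, hn⟩ := Cop.exists_conj_le_of_le_sup (N := M) (K := K)
      (B := H.map (MulAut.conj g).toMonoidHom) (by rw [normalizer_eq_top]; exact le_top)
      (by rw [sup_comm, h3]; exact le_sup_left) (by rwa [card_map_conj]) (Or.inr hs)
    exact ⟨n * g, by
      rw [map_conj_mul]
      exact (eq_of_le_of_card_le hn (by rw [card_map_conj, card_map_conj, hHK])).symm⟩

/-- elements acting on `M` as a power map -/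
def powSub (M : Subgroup G) : Subgroup G where
  carrier := {g | ∃ k : ℕ, ∀ v ∈ M, g * v * g⁻¹ = v ^ k}
  one_mem' := ⟨1, by simp⟩
  mul_mem' := by
    rintro a b ⟨k, hk⟩ ⟨l, hl⟩
    refine ⟨k * l, fun v hv => ?_⟩
    rw [show a * b * v * (a * b)⁻¹ = a * (b * v * b⁻¹) * a⁻¹ by group, hl v hv, ← conj_pow, hk v hv,
      pow_mul]
  inv_mem' := by
    rintro a ⟨k, hk⟩
    have h1 : ∀ j : ℕ, ∀ v ∈ M, a ^ j * v * (a ^ j)⁻¹ = v ^ k ^ j := fun j => by
      induction j with
      | zero => simp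
      | succ j ih =>
        intro v hv
        rw [show a ^ (j + 1) * v * (a ^ (j + 1))⁻¹ = a ^ j * (a * v * a⁻¹) * (a ^ j)⁻¹ by group,
          hk v hv, ← conj_pow, ih v hv, ← pow_mul, pow_succ]
    obtain ⟨j, hj⟩ := mem_powers_iff_mem_zpowers.2 ((zpowers a).inv_mem (mem_zpowers a))
    exact ⟨k ^ j, hj ▸ h1 j⟩

instance (M : Subgroup G) [hM : M.Normal] : (powSub M).Normal := ⟨by
  rintro a ⟨k, hk⟩ g
  refine ⟨k, fun v hv => ?_⟩
  rw [show g * a * g⁻¹ * v * (g * a * g⁻¹)⁻¹ = g * (a * (g⁻¹ * v * g) * a⁻¹) * g⁻¹ by group,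
    hk _ (hM.conj_mem' v hv g), ← conj_pow]
  congr 1
  group⟩

theorem BG.stab (h : BG G) (hs : Group.IsSolvable G) [hp : Fact p.Prime] {M U N : Subgroup G}
    [hM : M.Normal] (hel : IsElementaryAbelian p M) (hi : ¬ p ∣ M.index) (h1 : M ⊓ U ≠ ⊥)
    (h2 : ¬ M ≤ U) (hN : N ≤ normalizer (U : Set G)) :
    ∃ n0 ∈ N, ∀ n ∈ N, ∃ j : ℤ, (n0 ^ j)⁻¹ * n ∈ powSub M := by
  have hcomm := PGrp.isMulCommutative_iff_forall.1 hel.1
  let _ : CommGroup M := { mul_comm := fun x y => Subtype.ext (hcomm x x.2 y y.2) }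
  let ψ : G →* MulAut M := MulAut.conjNormal
  have hT : H6L.TSg ψ.range.subtype := fun A B hAB => by
    obtain ⟨g, hg⟩ := h (A.map M.subtype) (B.map M.subtype)
      (PGrp.isMulCommutative_of_le (map_subtype_le _) hel.1)
      (PGrp.isMulCommutative_of_le (map_subtype_le _) hel.1)
      (by rw [card_map_subtype, card_map_subtype, hAB])
    refine ⟨ψ.rangeRestrict g, map_injective M.subtype_injective ?_⟩
    rw [hg, map_map, map_map]
    rfl
  have hcop : (Nat.card ψ.range).Coprime p := by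
    refine (hp.out.coprime_iff_not_dvd.2 fun e => hi (e.trans ?_)).symm
    rw [← index_ker]
    refine index_dvd_of_le fun m hm => ?_
    ext v
    change m * v * m⁻¹ = v
    rw [hcomm m hm v v.2, mul_inv_cancel_right]
  obtain ⟨_, ⟨n0, hn0, rfl⟩, h3⟩ := hT.stab_cyc (p := p) (subtype_injective _)
    (Group.isSolvable_of_surjective ψ.rangeRestrict_surjective)
    (fun v => Subtype.ext (hel.2 v v.2)) hcop (U := U.subgroupOf M)
    (fun e => h1 (by rwa [subgroupOf_eq_bot, disjoint_iff, inf_comm] at e))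
    (fun e => h2 (subgroupOf_eq_top.1 e)) (S := N.map ψ.rangeRestrict) (by
      rintro _ ⟨n, hn, rfl⟩ u hu
      exact conj_mem_of_mem_normalizer (hN hn) hu)
  refine ⟨n0, hn0, fun n hn => ?_⟩
  obtain ⟨j, k, hk⟩ := h3 _ ⟨n, hn, rfl⟩
  refine ⟨j, k, fun v hv => ?_⟩
  have := congrArg Subtype.val (hk ⟨v, hv⟩)
  rw [← map_zpow, ← map_inv, ← map_mul] at this
  exact this

theorem comm_of_pow {M : Subgroup G} [hM : M.Normal] {n a b : G} {i j : ℤ}
    (ha : (n ^ i)⁻¹ * a ∈ powSub M) (hb : (n ^ j)⁻¹ * b ∈ powSub M) :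
    ∀ v ∈ M, v * ((a * b)⁻¹ * (b * a)) = (a * b)⁻¹ * (b * a) * v := by
  let ψ : G →* MulAut M := MulAut.conjNormal
  have hz : ∀ z ∈ powSub M, ∀ g, Commute (ψ z) (ψ g) := by
    rintro z ⟨k, hk⟩ g
    ext v
    change z * (g * v * g⁻¹) * z⁻¹ = g * (z * v * z⁻¹) * g⁻¹
    rw [hk _ (hM.conj_mem v v.2 g), hk v v.2, conj_pow]
  have h1 : Commute (ψ a) (ψ b) := by
    rw [← mul_inv_cancel_left (n ^ i) a, map_mul]
    refine Commute.mul_left ?_ (hz _ ha b)
    rw [← mul_inv_cancel_left (n ^ j) b, map_mul]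
    refine Commute.mul_right ?_ (hz _ hb _).symm
    rw [map_zpow, map_zpow]
    exact (Commute.refl _).zpow_zpow i j
  have h2 : ψ ((a * b)⁻¹ * (b * a)) = 1 := by
    rw [map_mul, map_inv, map_mul, map_mul, h1.eq, inv_mul_cancel]
  intro v hv
  have := congrArg Subtype.val (DFunLike.congr_fun h2 ⟨v, hv⟩)
  exact (mul_inv_eq_iff_eq_mul.1 this).symm

theorem BG.cent_of_pow (h : BG G) [hp : Fact p.Prime] {M N E : Subgroup G} [hM : M.Normal]
    (hM1 : M ≠ ⊥) (hel : IsElementaryAbelian p M) {n0 : G}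
    (hN : ∀ n ∈ N, ∃ j : ℤ, (n0 ^ j)⁻¹ * n ∈ powSub M) (hE : E ≤ N) (hc : ¬ IsCyclic E) {r : ℕ}
    [Fact r.Prime] (hr : ∀ e ∈ E, e ^ r = 1) : E ≤ centralizer (M : Set G) := by
  have key : ∀ L : Subgroup G, L.Normal → ∀ e : E, e ≠ 1 → (e : G) ∈ L → E ≤ L :=
    fun L _ e he heL x hx => by
      by_cases h1 : x = 1
      · exact h1 ▸ L.one_mem
      · exact h.mem heL ((orderOf_eq_prime (hr e e.2) fun e1 => he (Subtype.ext e1)).trans
          (orderOf_eq_prime (hr x hx) h1).symm)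
  have h1 : E ≤ powSub M := by
    obtain ⟨e, he, h2⟩ := exists_ker hc (((QuotientGroup.mk' (powSub M)).comp E.subtype).codRestrict
      (zpowers (QuotientGroup.mk' (powSub M) n0)) fun x => by
        obtain ⟨j, hj⟩ := hN x (hE x.2)
        exact ⟨j, by simpa using QuotientGroup.eq.2 hj⟩)
    exact key _ inferInstance e he ((QuotientGroup.eq_one_iff _).1 (congrArg Subtype.val h2))
  obtain ⟨v, hv, hv1⟩ := (bot_or_exists_ne_one M).resolve_left hM1
  have hov : orderOf v = p := orderOf_eq_prime (hel.2 v hv) hv1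
  have h2 : E ≤ normalizer (zpowers v : Set G) := fun e he => by
    obtain ⟨k, hk⟩ := h1 he
    refine mem_normalizer_of_conj_mem fun x hx => ?_
    rw [hk x (zpowers_le.2 hv hx)]
    exact pow_mem hx k
  haveI : IsCyclic (zpowers v) := inferInstance
  haveI : IsCyclic (ZMod (Nat.card (zpowers v)))ˣ := by
    rw [Nat.card_zpowers, hov]
    exact ZMod.isCyclic_units_prime hp.out
  haveI : IsCyclic (MulAut (zpowers v)) := isCyclic_of_surjective
    (IsCyclic.mulAutMulEquiv (zpowers v)).symm (IsCyclic.mulAutMulEquiv _).symm.surjective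
  obtain ⟨e, he, h3⟩ := exists_ker hc ((zpowers v).normalizerMonoidHom.comp (inclusion h2))
  refine key _ inferInstance e he fun w hw => ?_
  obtain ⟨k, hk⟩ := h1 e.2
  have h4 : (e : G) * v * (e : G)⁻¹ = v :=
    congrArg Subtype.val (DFunLike.congr_fun h3 (⟨v, mem_zpowers v⟩ : zpowers v))
  rw [hk v hv] at h4
  have h5 : k ≡ 1 [MOD p] := hov ▸ pow_eq_pow_iff_modEq.1 (h4.trans (pow_one v).symm)
  have h6 : w ^ k = w ^ 1 :=
    pow_eq_pow_iff_modEq.2 (h5.of_dvd (orderOf_dvd_of_pow_eq_one (hel.2 w hw)))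
  rw [pow_one, ← hk w hw] at h6
  exact (mul_inv_eq_iff_eq_mul.1 h6).symm

theorem BG.caseB (h : BG G) (hs : Group.IsSolvable G) {H K : Subgroup G}
    (hHK : Nat.card H = Nat.card K)
    (hB : ∀ M : Subgroup G, IsMinNormal M → ¬ M ≤ H ∧ M ⊓ H ≠ ⊥) :
    ∃ g, K = H.map (MulAut.conj g).toMonoidHom := by
  set F := fittingSubgroup G
  have F0 : ∀ (p : ℕ) [Fact p.Prime], pCore p G ≠ ⊥ → IsMinNormal (pCore p G) ∧
      IsElementaryAbelian p (pCore p G) ∧ ¬ p ∣ (pCore p G).index := by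
    intro p hp hne
    obtain ⟨M, hM, hle⟩ := exists_isMinNormal_le (pCore p G) hne
    haveI := hM.1
    have hel := hM.isElementaryAbelian_of_isPGroup ((pCore_isPGroup p).to_le hle)
    have hi := (h.min_cases hM.2.1 hel).resolve_left fun e => by
      haveI : Fact (Nat.card M).Prime := ⟨e.1 ▸ hp.out⟩
      rcases (((M ⊓ H).subgroupOf M)).eq_bot_or_eq_top_of_prime_card with e1 | e1
      · rw [subgroupOf_eq_bot, disjoint_iff, inf_eq_left.2 inf_le_left] at e1
        exact (hB M hM).2 e1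
      · exact (hB M hM).1 ((subgroupOf_eq_top.1 e1).trans inf_le_right)
    have : pCore p G = M := IsSylowIn.eq_of_le (H := ⊤)
      ⟨le_top, isPGroup_of_isElementaryAbelian hel, by rwa [relIndex_top_right]⟩
      (pCore_isPGroup p) hle le_top
    rw [this]
    exact ⟨hM, hel, hi⟩
  have F1 : ∀ g : G, (∀ (p : ℕ) [Fact p.Prime], pCore p G ≠ ⊥ → ∀ v ∈ pCore p G, v * g = g * v) →
      g ∈ F := fun g hg => by
    refine centralizer_fitting_le fun f hf => ?_
    refine mem_centralizer_singleton_iff.1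
      (fitting_le_of_forall_pCore_le (K := centralizer {g}) (fun p _ => ?_) hf)
    by_cases hne : pCore p G = ⊥
    · exact hne ▸ bot_le
    · exact fun v hv => mem_centralizer_singleton_iff.2 (hg p hne v hv)
  have F2 : F ≤ centralizer (F : Set G) := fitting_le_of_forall_pCore_le fun p _ => by
    by_cases hne : pCore p G = ⊥
    · exact hne ▸ bot_le
    · exact commutator_eq_bot_iff_le_centralizer.1 (F0 p hne).1.commutator_fitting_eq_bot
  have hFc : IsMulCommutative F :=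
    PGrp.isMulCommutative_iff_forall.2 fun a ha b hb => F2 hb a ha
  have F3 : (Nat.card F).Coprime F.index := Nat.coprime_of_dvd fun p hp h1 h2 => by
    haveI := Fact.mk hp
    obtain ⟨x, hx⟩ := exists_prime_orderOf_dvd_card' (G := F) p h1
    have h3 : zpowers (x : G) ≤ pCore p G := le_pCore_of_le_fitting (zpowers_le.2 x.2)
      (isPGroup_zpowers_iff.2 ⟨1, by rw [orderOf_coe, hx, pow_one]⟩)
    refine (F0 p fun e => ?_).2.2 (h2.trans (index_dvd_of_le (pCore_le_fitting p)))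
    rw [e, le_bot_iff, zpowers_eq_bot] at h3
    rw [← orderOf_coe, h3, orderOf_one] at hx
    exact hp.one_lt.ne hx
  obtain ⟨g, hg⟩ := h (F ⊓ K) (F ⊓ H) (PGrp.isMulCommutative_of_le inf_le_left hFc)
    (PGrp.isMulCommutative_of_le inf_le_left hFc)
    (by rw [card_inf_hall F3, card_inf_hall F3, hHK])
  rw [map_conj_inf, map_conj_eq_of_normal] at hg
  suffices ∃ x, K.map (MulAut.conj g).toMonoidHom = H.map (MulAut.conj x).toMonoidHom by
    obtain ⟨x, hx⟩ := this
    exact ⟨g⁻¹ * x, by rw [map_conj_mul, ← hx, map_conj_inv_map_conj]⟩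
  rw [← card_map_conj g K] at hHK
  generalize K.map (MulAut.conj g).toMonoidHom = K at hg hHK
  set N := normalizer ((F ⊓ H : Subgroup G) : Set G)
  have hnF : ∀ X : Subgroup G, X ≤ normalizer (F : Set G) := fun X => by
    rw [normalizer_eq_top]; exact le_top
  have hnorm : ∀ X : Subgroup G, X ≤ normalizer ((F ⊓ X : Subgroup G) : Set G) :=
    fun X x hx => mem_normalizer_of_conj_mem fun u hu =>
      ⟨conj_mem_of_mem_normalizer (hnF X hx) hu.1, X.mul_mem (X.mul_mem hx hu.2) (X.inv_mem hx)⟩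
  have hHN : H ≤ N := hnorm H
  have hKN : K ≤ N := by
    have := hnorm K
    rwa [← hg] at this
  have hFN : F ≤ N := fun f hf => centralizer_le_normalizer _ fun u hu => F2 hf u hu.1
  have hcpl : ∀ X : Subgroup G, ∃ B : Subgroup G, B ≤ X ∧ F ⊓ B = ⊥ ∧ (F ⊓ X) ⊔ B = X ∧
      Nat.card B = F.relIndex X := fun X => Cop.exists_complement_of_le_normalizer (hnF X)
    ((F3.coprime_dvd_left (card_dvd_of_le inf_le_left)).coprime_dvd_right
      (relIndex_dvd_index_of_normal F X))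
  obtain ⟨D, d1, d2, d3, -⟩ := hcpl N
  rw [inf_eq_left.2 hFN] at d3
  have hst : ∀ (p : ℕ) [Fact p.Prime], pCore p G ≠ ⊥ →
      ∃ n0 ∈ N, ∀ n ∈ N, ∃ j : ℤ, (n0 ^ j)⁻¹ * n ∈ powSub (pCore p G) := fun p _ hne => by
    obtain ⟨m1, m2, m3⟩ := F0 p hne
    refine h.stab hs m2 m3 (U := F ⊓ H) ?_ (fun e => (hB _ m1).1 (e.trans inf_le_right)) le_rfl
    rw [← inf_assoc, inf_eq_left.2 (pCore_le_fitting p)]
    exact (hB _ m1).2
  have hDc : ∀ a ∈ D, ∀ b ∈ D, a * b = b * a := fun a ha b hb => by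
    have : (a * b)⁻¹ * (b * a) ∈ F ⊓ D := by
      refine ⟨F1 _ fun p _ hne => ?_, D.mul_mem (D.inv_mem (D.mul_mem ha hb)) (D.mul_mem hb ha)⟩
      obtain ⟨n0, -, h1⟩ := hst p hne
      obtain ⟨i, hi⟩ := h1 a (d1 ha)
      obtain ⟨j, hj⟩ := h1 b (d1 hb)
      exact comm_of_pow hi hj
    rw [d2] at this
    exact inv_mul_eq_one.1 (mem_bot.1 this)
  have hD : IsCyclic D := by
    letI : CommGroup D := { mul_comm := fun x y => Subtype.ext (hDc x x.2 y y.2) }
    refine Frob.isCyclic_of_comm_of_ncard_le fun r hr => not_lt.1 fun hlt => ?_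
    haveI := Fact.mk hr
    rw [← card_map_subtype] at hlt
    have hE : ∀ e ∈ ((powMonoidHom r : D →* D).ker).map D.subtype, e ^ r = 1 := by
      rintro _ ⟨e, he, rfl⟩
      exact congrArg Subtype.val (show e ^ r = 1 from he)
    have hED := map_subtype_le (powMonoidHom r : D →* D).ker
    generalize ((powMonoidHom r : D →* D).ker).map D.subtype = E at hlt hE hED
    have hc : ¬ IsCyclic E := PGrp.not_isCyclic_of_isElementaryAbelian
      ⟨PGrp.isMulCommutative_iff_forall.2 fun a ha b hb => hDc a (hED ha) b (hED hb), hE⟩ hlt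
    have : E ≤ F ⊓ D := fun e he => ⟨F1 e fun p _ hne v hv => by
      obtain ⟨n0, -, h1⟩ := hst p hne
      exact h.cent_of_pow hne (F0 p hne).2.1 h1 (hED.trans d1) hc hE he v hv, hED he⟩
    rw [d2, le_bot_iff] at this
    rw [this, card_bot] at hlt
    exact hr.one_lt.not_gt hlt
  obtain ⟨A, a1, -, a3, a4⟩ := hcpl H
  obtain ⟨B, b1, -, b3, b4⟩ := hcpl K
  have hin : ∀ X Y : Subgroup G, X ≤ N → Nat.card X = F.relIndex Y →
      ∃ f ∈ F, X.map (MulAut.conj f).toMonoidHom ≤ D := fun X Y hX e =>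
    Cop.exists_conj_le_of_le_sup (hnF D) (d3 ▸ hX)
      (e ▸ F3.symm.coprime_dvd_left (relIndex_dvd_index_of_normal F Y)) (Or.inr inferInstance)
  obtain ⟨f, hf, f1⟩ := hin A H (a1.trans hHN) a4
  obtain ⟨f', hf', f2⟩ := hin B K (b1.trans hKN) b4
  have := eq_of_cyclic hD f1 f2 (by
    rw [card_map_conj, card_map_conj, a4, b4]
    rw [← card_inf_mul_relIndex F H, ← card_inf_mul_relIndex F K, hg] at hHK
    exact Nat.eq_of_mul_eq_mul_left Nat.card_pos hHK)
  refine ⟨f'⁻¹ * f, ?_⟩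
  rw [← b3, ← hg]
  conv_rhs => rw [← a3]
  rw [Subgroup.map_sup, map_conj_eq_of_mem_normalizer (hFN (F.mul_mem (F.inv_mem hf') hf)),
    map_conj_mul, this, map_conj_inv_map_conj]

theorem BG.conj.{u} (G : Type u) [Group G] [Finite G] : BG G → Group.IsSolvable G →
    ∀ H K : Subgroup G, Nat.card H = Nat.card K → ∃ g, K = H.map (MulAut.conj g).toMonoidHom := by
  refine card_induction (P := fun G _ _ => BG G → Group.IsSolvable G →
    ∀ H K : Subgroup G, Nat.card H = Nat.card K → ∃ g, K = H.map (MulAut.conj g).toMonoidHom) ?_ G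
  intro G _ _ ih h hs H K hHK
  by_cases hB : ∀ M : Subgroup G, IsMinNormal M → ¬ M ≤ H ∧ M ⊓ H ≠ ⊥
  · exact h.caseB hs hHK hB
  push Not at hB
  obtain ⟨M, hM, h1⟩ := hB
  haveI := hM.1
  obtain ⟨p, hp, hel⟩ := hM.exists_isElementaryAbelian inferInstance
  haveI := Fact.mk hp
  refine conj_of_quot (M := M) inferInstance
    (ih _ (card_quotient_lt hM.2.1) (h.quot_solv hs M) inferInstance) hHK
    (by rw [h.card_inf hM.2.1 hel, h.card_inf hM.2.1 hel, hHK]) (or_iff_not_imp_left.2 fun e => ?_)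
  rw [Nat.Coprime, ← h.card_inf hM.2.1 hel, h1 e, card_bot]

end CfsgLib.H6B
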