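import Cfsg.Agent.Lib.H6Refl
import Cfsg.Agent.Lib.H9PLenOdd
import Cfsg.Agent.Lib.H9Exc

/-! # Exceptional involutions are `2`-reflections on Hall–Higman components -/

set_option autoImplicit false
set_option linter.unusedSectionVars false

namespace CfsgLib.H6Refl

open Module Subgroup Polynomial CfsgLib CfsgLib.H9 CfsgLib.Fpf Cfsg
open scoped commutatorElement

universe u v w

section comp
variable {k : Type u} [Field k] {V : Type v} [AddCommGroup V] [Module k V]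
variable {G : Type w} [Group G] [Finite G] {ρ : G →* Module.End k V}

theorem exists_comp [IsAlgClosed k] [FiniteDimensional k V] (hρ : Function.Injective ρ)
    {Q : Subgroup G} (hq : (Nat.card Q : k) ≠ 0) (hcl : ⁅Q, Q⁆ ≤ centralizer (Q : Set G))
    {C : Subgroup G} (hCQ : C ≤ normalizer (Q : Set G))
    (hcop : (Nat.card C).Coprime (Nat.card Q)) (hne : ⁅Q, C⁆ ≠ ⊥) :
    ∃ (R : Subgroup G) (ψ : G → k) (U : Submodule k V) (e : Module.End k V),
      Pack ρ Q R ψ U ∧ (∀ v ∈ U, e v = v) ∧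
      (∀ y ∈ normalizer (Q : Set G), y ∉ stabSub ρ U → ∀ v ∈ U, e (ρ y v) = 0) ∧
      (C ≤ stabSub ρ U → ¬ ⁅Q, C⁆ ≤ R) := by
  have hle : ⁅Q, C⁆ ≤ Q := Cop.commutator_le_left_of_le_normalizer hCQ
  have hQn : Q ≤ normalizer ((⁅Q, C⁆ : Subgroup G) : Set G) :=
    normalizer_commutator_ge_left Q C
  have hq' : (Nat.card (⁅Q, C⁆ : Subgroup G) : k) ≠ 0 := fun h => hq (by
    obtain ⟨c, hc⟩ := card_dvd_of_le hle
    rw [hc, Nat.cast_mul, h, zero_mul])
  obtain ⟨R, ψ, P₀⟩ := exists_pack ρ Q (LinearMap.ker (normOp ρ ⁅Q, C⁆))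
    (ker_normOp_ne_bot (by
      obtain ⟨g, hg⟩ := ne_bot_iff_exists_ne_one.1 hne
      exact ⟨g, g.2, fun h => hg (Subtype.ext (hρ (h.trans (map_one ρ).symm)))⟩))
    (fun g hg => ker_normOp_invariant (hQn hg)) fun g hg h hh a ha v _ => by
      rw [← rho_mul_apply, ← rho_mul_apply, hcl (commutator_mem_commutator hg hh) a ha]
  have P : Pack ρ Q R ψ (weightSpace ρ R ψ) :=
    { le := P₀.le
      ne := fun h => P₀.ne (eq_bot_iff.2 (inf_le_right.trans h.le))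
      inv := fun g hg => weightSpace_invariant (P₀.mem_normalizer (le_normalizer hg) (P₀.inv g hg))
        fun r hr => P₀.psi_conj (le_normalizer hg) (P₀.inv g hg) hr
      scal := fun r hr v hv => hv r hr
      comm := P₀.comm
      nondeg := P₀.nondeg }
  obtain ⟨e, he1, he2, -⟩ := P.exists_proj hq
  refine ⟨R, ψ, _, e, P, he1, fun y hy hy' => ?_, fun h1 h2 => P₀.ne (eq_bot_iff.2 fun v hv => ?_)⟩
  · rcases P.dichotomy he2 hy with ⟨h1, h2⟩ | h
    · exact absurd (weightSpace_invariant h1 h2) hy'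
    · exact h
  · refine eq_zero_of_mem_ker_normOp hq' hv.1 fun g hg => ?_
    rw [← Cop.commutator_commutator_eq hCQ hcop] at hg
    exact (((commutator_mono h2 le_rfl).trans (pack_commutator_le_ker P hCQ h1)) hg).2 v hv.2

end comp

section sec
variable {ℓ : ℕ} {Γ : Type w} [Group Γ] {X : Type v} [Group X] [Finite X] {j : Γ →* X}
  {M N : Subgroup X} {F : Type u} [Field F] {W : Type*} [AddCommGroup W] [Module F W]
  {σ : Γ →* Module.End F W} {ι : X → W}

/-- the elements of `M` sent to the `(-1)`-eigenspace -/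
def negSub (S : SecRep ℓ j M N σ ι) (a : Γ) : Subgroup X where
  carrier := {g | g ∈ M ∧ σ a (ι g) = -ι g}
  one_mem' := ⟨one_mem _, by rw [S.map_one]; simp⟩
  mul_mem' := by
    rintro g h ⟨hg, hg'⟩ ⟨hh, hh'⟩
    refine ⟨mul_mem hg hh, ?_⟩
    rw [S.map_mul g hg h hh, map_add, hg', hh', neg_add]
  inv_mem' := by
    rintro g ⟨hg, hg'⟩
    refine ⟨inv_mem hg, ?_⟩
    rw [S.map_inv hg, map_neg, hg']

theorem le_negSub (S : SecRep ℓ j M N σ ι) (a : Γ) : N ≤ negSub S a := fun g hg =>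
  ⟨S.le hg, by rw [(S.eq_zero_iff g (S.le hg)).2 hg]; simp⟩

theorem commutator_le_negSub [Finite Γ] (S : SecRep ℓ j M N σ ι) (a : Γ) {E : Subgroup X}
    (hE : E ≤ M) (h : ∀ g ∈ E, σ a (σ a (ι g)) = ι g) :
    ⁅E, zpowers (j a)⁆ ≤ negSub S a := by
  rw [commutator_le]
  intro g hg b hb
  rw [← MonoidHom.map_zpowers] at hb
  obtain ⟨b, hb, rfl⟩ := hb
  obtain ⟨i, rfl⟩ := mem_powers_iff_mem_zpowers.2 hb
  have h1 : ∀ i : ℕ, σ (a ^ i) (ι g) = ι g ∨ σ (a ^ i) (ι g) = σ a (ι g) := by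
    intro i
    induction i with
    | zero => left; simp
    | succ i ih =>
      rw [pow_succ', map_mul, Module.End.mul_apply]
      rcases ih with ih | ih
      · right; rw [ih]
      · left; rw [ih, h g hg]
  rw [← commutatorElement_inv]
  refine inv_mem ⟨S.commutator_mem _ (hE hg), ?_⟩
  rw [S.map_commutator _ (hE hg)]
  rcases h1 i with h2 | h2
  · simp only [h2]; simp
  · simp only [h2]; rw [map_sub, h g hg, neg_sub]

theorem negSub_le (S : SecRep ℓ j M N σ ι) (a : Γ) (hodd : ∀ g ∈ M, Odd (orderOf g)) :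
    negSub S a ≤ ⁅M, zpowers (j a)⁆ ⊔ N := by
  rintro g ⟨hg, hg'⟩
  have h1 : ⁅j a, g⁆ * g ^ 2 ∈ N := by
    rw [← S.eq_zero_iff _ (mul_mem (S.commutator_mem _ hg) (pow_mem hg _)),
      S.map_mul _ (S.commutator_mem _ hg) _ (pow_mem hg _), S.map_commutator _ hg, S.map_pow hg,
      hg', two_smul]
    abel
  have h2 : ⁅j a, g⁆ ∈ ⁅M, zpowers (j a)⁆ := by
    rw [commutator_comm]; exact commutator_mem_commutator (mem_zpowers _) hg
  have h3 : g ^ 2 ∈ ⁅M, zpowers (j a)⁆ ⊔ N := by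
    have := mul_mem (inv_mem (mem_sup_left h2 : _ ∈ ⁅M, zpowers (j a)⁆ ⊔ N)) (mem_sup_right h1)
    rwa [inv_mul_cancel_left] at this
  obtain ⟨m, hm⟩ := hodd g hg
  have h4 : g = (g ^ 2) ^ (m + 1) := by
    rw [← pow_mul, show 2 * (m + 1) = orderOf g + 1 by omega, pow_succ, pow_orderOf_eq_one, one_mul]
  rw [h4]
  exact pow_mem h3 _

theorem span_negSub (S : SecRep ℓ j M N σ ι) (h2 : (2 : F) ≠ 0) {a : Γ} (ha : a * a = 1) :
    Submodule.span F (ι '' negSub S a) = neg (σ.toHomUnits a) := by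
  have haa : ∀ v, σ a (σ a v) = v := fun v => by
    rw [← Module.End.mul_apply, ← map_mul, ha, map_one]; rfl
  apply le_antisymm
  · rw [Submodule.span_le]
    rintro _ ⟨g, hg, rfl⟩
    exact mem_neg.2 hg.2
  · intro v hv
    have hv' : σ a v = -v := mem_neg.1 hv
    have h1 : ∀ w : W, σ a w - w ∈ Submodule.span F (ι '' negSub S a) := by
      intro w
      have hw : w ∈ Submodule.span F (ι '' M) := S.span ▸ Submodule.mem_top
      induction hw using Submodule.span_induction with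
      | mem x hx =>
        obtain ⟨g, hg, rfl⟩ := hx
        refine Submodule.subset_span ⟨⁅j a, g⁆, ⟨S.commutator_mem _ hg, ?_⟩,
          S.map_commutator _ hg⟩
        rw [S.map_commutator _ hg, map_sub, haa, neg_sub]
      | zero => simp
      | add x y _ _ hx hy =>
        have := add_mem hx hy
        convert this using 1
        rw [map_add]; abel
      | smul c x _ hx =>
        have := Submodule.smul_mem _ c hx
        convert this using 1
        rw [map_smul, smul_sub]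
    have h3 := Submodule.smul_mem _ (-(2 : F)⁻¹) (h1 v)
    convert h3 using 1
    rw [hv', show -v - v = (-2 : F) • v by module, smul_smul]
    field_simp
    simp

end sec

section refl
variable {k : Type u} [Field k] {V : Type v} [AddCommGroup V] [Module k V]
variable {G : Type w} [Group G] [Finite G] {ρ : G →* Module.End k V} {Q R : Subgroup G}
  {ψ : G → k} {U : Submodule k V}
  {F : Type*} [Field F] {W : Type*} [AddCommGroup W] [Module F W]

theorem refl_of_pack [IsAlgClosed k] [FiniteDimensional k V] (P : Pack ρ Q R ψ U)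
    (hq : (Nat.card Q : k) ≠ 0) {q : ℕ} [hq' : Fact q.Prime] (hq2 : q ≠ 2) (hQ : IsPGroup q Q)
    {Γ : Subgroup G} (hΓ : IsPGroup 2 Γ) (hΓQ : Γ ≤ normalizer (Q : Set G))
    (hΓU : Γ ≤ stabSub ρ U) {σ : Γ →* Module.End F W} {ι : G → W}
    (S : SecRep q Γ.subtype Q R σ ι) (h2 : (2 : F) ≠ 0) {t : Γ} (ht : t * t = 1)
    (hN : q ^ 2 = R.relIndex (⁅Q, zpowers (t : G)⁆ ⊔ R)) :
    Refl σ.toHomUnits.range (σ.toHomUnits t) := by
  have hodd : ∀ g ∈ Q, Odd (orderOf g) := fun g hg => by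
    obtain ⟨n, hn⟩ := hQ.exists_orderOf_eq_pow ⟨g, hg⟩
    rw [← Subgroup.orderOf_coe] at hn
    rw [show orderOf g = q ^ n from hn]
    exact (hq'.out.odd_of_ne_two hq2).pow
  have htt : ∀ v, σ t (σ t v) = v := fun v => by
    rw [← Module.End.mul_apply, ← map_mul, ht, map_one]; rfl
  have hE : negSub S t = ⁅Q, zpowers (t : G)⁆ ⊔ R :=
    le_antisymm (negSub_le S t hodd)
      (sup_le (commutator_le_negSub S t le_rfl fun g _ => htt _) (le_negSub S t))
  have hEQ : negSub S t ≤ Q := fun g hg => hg.1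
  have hcop : ∀ a : Γ, ∀ E : Subgroup G, E ≤ Q →
      (Nat.card (zpowers (a : G))).Coprime (Nat.card E) := fun a E hE =>
    (Cop.coprime_card_of_isPGroup (coprime_card_of_isPGroup_of_ne hq'.out Nat.prime_two hq2
      (hQ.to_le hE)) (hΓ.to_le (zpowers_le.2 a.2))).symm
  have hsolv : ∀ E : Subgroup G, E ≤ Q → Group.IsSolvable E := fun E hE =>
    isSolvable_of_isPGroup (hQ.to_le hE)
  have PE : Pack ρ (negSub S t) R ψ U := hE ▸ sub_pack P (zpowers_le.2 (hΓQ t.2))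
    (zpowers_le.2 (hΓU t.2)) (hcop t Q le_rfl) (hsolv Q le_rfl)
  have hsp := span_negSub S h2 ht
  refine ⟨?_, ?_⟩
  · have := S.rank _ (le_negSub S t) hEQ
    rw [hsp, hE, ← hN] at this
    exact Nat.pow_right_injective hq'.out.two_le this
  · rintro _ ⟨a, rfl⟩ hc hsq
    have hc' : ∀ v, σ t (σ a v) = σ a (σ t v) := fun v =>
      (congrArg (fun x : (Module.End F W)ˣ => (x : Module.End F W) v) hc.eq).symm
    have haE : (a : G) ∈ normalizer (negSub S t : Set G) :=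
      mem_normalizer_of_conj_mem fun g hg => ⟨S.conj_mem a hg.1, by
        have := S.conj a g hg.1
        rw [Subgroup.coe_subtype] at this
        rw [this, hc', hg.2, map_neg]⟩
    have hle : ⁅negSub S t, zpowers (a : G)⁆ ⊔ R ≤ negSub S t :=
      sup_le (Cop.commutator_le_left_of_le_normalizer (zpowers_le.2 haE)) (le_negSub S t)
    have P₂ := sub_pack PE (zpowers_le.2 haE) (zpowers_le.2 (hΓU a.2)) (hcop a _ hEQ)
      (hsolv _ hEQ)
    obtain ⟨N, hN'⟩ := P₂.exists_sq (fun h => hq (by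
      obtain ⟨c, hc⟩ := card_dvd_of_le (hle.trans hEQ)
      rw [hc, Nat.cast_mul, h, zero_mul]))
    have hd : N ^ 2 ∣ q ^ 2 := by
      rw [hN', hN, ← hE]
      exact Dvd.intro _ (relIndex_mul_relIndex _ _ _ le_sup_right hle)
    have hsq' : ∀ g ∈ negSub S t, σ a (σ a (ι g)) = ι g := fun g hg => hsq _ (mem_neg.2 hg.2)
    rcases (Nat.dvd_prime hq'.out).1 ((Nat.pow_dvd_pow_iff two_ne_zero).1 hd) with h1 | h1
    · refine ⟨1, one_mul _, fun v hv => ?_⟩
      rw [h1, one_pow, eq_comm, relIndex_eq_one] at hN'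
      rw [← hsp] at hv
      rw [one_smul]
      refine LinearMap.eqOn_span (f := σ a) (g := LinearMap.id) ?_ hv
      rintro _ ⟨g, hg, rfl⟩
      have h3 : ⁅(a : G), g⁆ ∈ R := hN' (mem_sup_left (by
        rw [commutator_comm]; exact commutator_mem_commutator (mem_zpowers _) hg))
      have h4 := S.map_commutator a hg.1
      rw [Subgroup.coe_subtype, (S.eq_zero_iff _ (P.le h3)).2 h3] at h4
      exact sub_eq_zero.1 h4.symm
    · refine ⟨-1, by ring, fun v hv => ?_⟩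
      have h3 : ⁅negSub S t, zpowers (a : G)⁆ ⊔ R = negSub S t :=
        eq_of_le_of_relIndex_le le_sup_right hle (by rw [← hN', h1, hN, hE])
      have h4 : negSub S t ≤ negSub S a :=
        h3.ge.trans (sup_le (commutator_le_negSub S a hEQ hsq') (le_negSub S a))
      rw [← hsp] at hv
      rw [neg_one_smul]
      refine LinearMap.eqOn_span (f := σ a) (g := -LinearMap.id) ?_ hv
      rintro _ ⟨g, hg, rfl⟩
      exact (h4 hg).2

end refl

section geo
variable {k : Type u} [Field k] {V : Type v} [AddCommGroup V] [Module k V]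
variable {G : Type w} [Group G] [Finite G] {ρ : G →* Module.End k V}
  [IsAlgClosed k] [FiniteDimensional k V] [CharP k 2]

theorem pow_eq_one_of_exc (hρ : Function.Injective ρ) {n : ℕ} {y : G}
    (h : (ρ y - 1) ^ (2 ^ n - 1) = 0) : y ^ 2 ^ n = 1 := by
  apply hρ
  have h1 := sub_one_pow_char_pow (p := 2) k (ρ y) n
  have h2 : 2 ^ n = 2 ^ n - 1 + 1 := by have := Nat.one_le_two_pow (n := n); omega
  rw [map_pow, map_one, ← sub_eq_zero, ← h1, h2, pow_succ, h, zero_mul]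

theorem exists_geo (hρ : Function.Injective ρ) (hs : Group.IsSolvable G) (h0 : pCore 2 G = ⊥)
    {n : ℕ} (hexc : ∀ y : G, (∃ l, y ^ 2 ^ l = 1) → (ρ y - 1) ^ (2 ^ (n + 2) - 1) = 0)
    {B S P : Subgroup G} (hSB : S ≤ B) (hBS : B ≤ normalizer (S : Set G)) (hSP : S ≤ P)
    (hPB : P ≤ B) (hP : IsPGroup 2 P)
    (hgen : S ≤ closure {t | ∃ y ∈ B, (∃ l, y ^ 2 ^ l = 1) ∧ y ^ 2 ^ (n + 1) = t})
    {c : G} (hc : c ∈ S) (hc1 : c ≠ 1) :
    ∃ (F : Type) (_ : Field F) (W : Type w) (_ : AddCommGroup W) (_ : Module F W)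
      (_ : FiniteDimensional F W) (Γ : Subgroup G) (σ : Γ →* (Module.End F W)ˣ) (hS : S ≤ Γ),
      Γ ≤ P ∧ σ ⟨c, hS hc⟩ ≠ 1 ∧ (∀ g ∈ P, g ^ 2 ^ (n + 1) ∈ Γ) ∧
      (∀ g ∈ P, ∀ h : g ^ 2 ^ (n + 1) ∈ Γ, σ ⟨_, h⟩ ≠ 1 → g ^ 2 ^ n ∈ Γ) ∧
      Geo σ.range {t | ∃ a : Γ, (∃ g ∈ P, g ^ 2 ^ (n + 1) = a) ∧ σ a = t} := by
  have hps : IsPSolvable 2 G := isPSolvable_of_isSolvable hs
  have hS2 : IsPGroup 2 S := hP.to_le hSP
  set A := closure {a | ∃ b ∈ B, b * c * b⁻¹ = a} with hA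
  have hAS : A ≤ S := (closure_le _).2 (by
    rintro _ ⟨b, hb, rfl⟩; exact conj_mem_of_mem_normalizer (hBS hb) hc)
  have hcA : c ∈ A := subset_closure ⟨1, one_mem _, by simp⟩
  have hBA : B ≤ normalizer (A : Set G) := fun b hb => mem_normalizer_of_map_conj_eq
    (eq_of_le_of_card_le (by
      rw [hA, MonoidHom.map_closure, closure_le]
      rintro _ ⟨_, ⟨g, hg, rfl⟩, rfl⟩
      exact subset_closure ⟨b * g, mul_mem hb hg, by simp [mul_assoc]⟩) (card_map_conj _ _).ge)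
  obtain ⟨q, hq, hqA⟩ : ∃ q : ℕ, q.Prime ∧ ⁅pCore q G, A⁆ ≠ ⊥ := by
    by_contra hcon
    push Not at hcon
    have h1 : fittingSubgroup G ≤ centralizer (A : Set G) :=
      fitting_le_of_forall_pCore_le fun p hp =>
        commutator_eq_bot_iff_le_centralizer.1 (hcon p hp.out)
    have h2 : A ≤ pCore 2 G := le_pCore_of_le_fitting
      ((le_centralizer_iff.1 h1).trans centralizer_fitting_le) (hS2.to_le hAS)
    exact hc1 (mem_bot.1 (h0 ▸ h2 hcA))
  have := Fact.mk hq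
  have hq2 : q ≠ 2 := by
    rintro rfl
    exact hqA (by rw [h0]; simp)
  obtain ⟨Q, hQq, hBQ, hQA, hmin⟩ := Cop.exists_minimal_action (B := B)
    (le_normalizer_of_normal (H := pCore q G)) hqA
  have hQ : IsPGroup q Q := (pCore_isPGroup q).to_le hQq
  obtain ⟨m1, -, m3, m4, -, -, -⟩ := Cop.minimal_action hQ hBQ (hAS.trans hSB) hBA
    (coprime_card_of_isPGroup_of_ne Nat.prime_two hq hq2.symm (hS2.to_le hAS)) hQA hmin
  have hQ2 : (Nat.card Q).Coprime 2 := coprime_card_of_isPGroup_of_ne hq Nat.prime_two hq2 hQ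
  have hq' : (Nat.card Q : k) ≠ 0 := natCast_ne_zero_of_coprime k 2 hQ2
  have hcQ : ⁅Q, zpowers c⁆ ≠ ⊥ := fun h => hQA (by
    rw [Cop.commutator_eq_bot_iff_le_centralizer'] at h ⊢
    rw [hA, closure_le]
    rintro _ ⟨b, hb, rfl⟩ g hg
    have := h (mem_zpowers c) _ (conj_mem_of_mem_normalizer' (hBQ hb) hg)
    calc g * (b * c * b⁻¹) = b * (b⁻¹ * g * b * c) * b⁻¹ := by group
      _ = _ := by rw [this]; group)
  obtain ⟨R, ψ, U, e, Pk, he1, he0, hcR⟩ := exists_comp hρ hq' m4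
    (zpowers_le.2 (hBQ (hSB hc)))
    (Cop.coprime_card_of_isPGroup hQ2 (hS2.to_le (zpowers_le.2 hc))).symm hcQ
  have key : ∀ y ∈ B, (∃ l, y ^ 2 ^ l = 1) → ∃ j m : ℕ, j + m = n + 1 ∧
      y ^ 2 ^ j ∈ stabSub ρ U ∧ y ^ 2 ^ (n + 1) ∈ stabSub ρ U ∧
      (⁅Q, zpowers (y ^ 2 ^ (n + 1))⁆ ≤ R ∨ ∃ N, N + 1 = 2 ^ (m + 1) ∧
        N ^ 2 = R.relIndex (⁅Q, zpowers (y ^ 2 ^ (n + 1))⁆ ⊔ R)) := fun y hy hl => by
    obtain ⟨f, hf1, hf2, hf3⟩ := exists_poly_of_sub_one_pow (k := k) (hexc y hl)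
    obtain ⟨j, m, h1, -, h2, h3, h4⟩ := hh_at_comp Pk hq' (isSolvable_of_isPGroup hQ)
      Nat.prime_two hQ2 (pow_eq_one_of_exc hρ (hexc y hl)) (hBQ hy) he1
      (fun z hz => he0 z (zpowers_le.2 (hBQ hy) hz)) f hf1 (fun v _ => by rw [hf2]; rfl)
      (by rw [hf3]; exact Nat.sub_lt (Nat.two_pow_pos _) one_pos)
    exact ⟨j, m, h1, h2, h3, h4.imp_right fun ⟨N, h5, h6, _⟩ => ⟨N, h5, h6⟩⟩
  have hSU : S ≤ stabSub ρ U := hgen.trans ((closure_le _).2 (by
    rintro _ ⟨y, hy, hl, rfl⟩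
    obtain ⟨j, m, -, -, h, -⟩ := key y hy hl
    exact h))
  have hPl : ∀ g ∈ P, ∃ l, g ^ 2 ^ l = 1 := fun g hg =>
    (hP ⟨g, hg⟩).imp fun l h => congrArg Subtype.val h
  set Γ := P ⊓ stabSub ρ U with hΓ
  have hΓQ : Γ ≤ normalizer (Q : Set G) := inf_le_left.trans (hPB.trans hBQ)
  have hΓR := pack_le_normalizer Pk hΓQ inf_le_right
  obtain ⟨W, _, _, _, σ, ι, Sr⟩ := exists_secRep q Γ.subtype Q R Pk.le (fun g => hΓQ g.2)
    (fun g => hΓR g.2) (pack_commutator_le Pk)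
    fun a ha => pack_commutator_le Pk (m3.le (Cop.pow_mem_frattini_map hQ ha))
  have hone : ∀ a : Γ, σ.toHomUnits a = 1 ↔ ⁅Q, zpowers (a : G)⁆ ≤ R := fun a => by
    rw [← Units.val_eq_one, MonoidHom.coe_toHomUnits, Sr.rho_eq_one_iff]
    constructor
    · intro h
      rw [commutator_le]
      intro g hg b hb
      refine commutator_mem_of_mem_zpowers (hΓR a.2) ?_ hb
      rw [← commutatorElement_inv]
      exact inv_mem (h g hg)
    · intro h g hg
      rw [← commutatorElement_inv]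
      exact inv_mem (h (commutator_mem_commutator hg (mem_zpowers _)))
  have hmemΓ : ∀ g ∈ P, g ^ 2 ^ (n + 1) ∈ Γ := fun g hg => by
    obtain ⟨j, m, -, -, h, -⟩ := key g (hPB hg) (hPl g hg)
    exact ⟨pow_mem hg _, h⟩
  have key2 : ∀ g ∈ P, ¬ ⁅Q, zpowers (g ^ 2 ^ (n + 1))⁆ ≤ R → g ^ 2 ^ n ∈ Γ ∧
      q ^ 2 = R.relIndex (⁅Q, zpowers (g ^ 2 ^ (n + 1))⁆ ⊔ R) := fun g hg hne => by
    obtain ⟨j, m, h1, h2, h3, h4 | ⟨N, h4, h5⟩⟩ := key g (hPB hg) (hPl g hg)
    · exact absurd h4 hne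
    have hle : ⁅Q, zpowers (g ^ 2 ^ (n + 1))⁆ ⊔ R ≤ Q := sup_le
      (Cop.commutator_le_left_of_le_normalizer (zpowers_le.2 (hΓQ (hmemΓ g hg)))) Pk.le
    obtain ⟨d, hd⟩ := exists_pow_of_sq_eq_relIndex (hQ.to_le hle) h5
    have hd1 : 1 ≤ d := by
      by_contra hd0
      rw [show d = 0 by omega, pow_zero] at hd
      rw [hd, one_pow, eq_comm, relIndex_eq_one] at h5
      exact hne (le_sup_left.trans h5)
    obtain ⟨h6, h7⟩ := eq_one_of_pow_add_one_eq_two_pow hq.two_le hd1 (hd ▸ h4)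
    refine ⟨⟨pow_mem hg _, ?_⟩, by rw [← h5, hd, h6, pow_one]⟩
    obtain ⟨i, hi⟩ := Nat.exists_eq_add_of_le (show j ≤ n by omega)
    rw [hi, pow_add, pow_mul]
    exact pow_mem h2 _
  have hF2 : (2 : AlgebraicClosure (ZMod q)) ≠ 0 := by
    have := natCast_ne_zero_of_coprime (AlgebraicClosure (ZMod q)) q
      ((Nat.coprime_primes Nat.prime_two hq).2 hq2.symm)
    exact_mod_cast this
  have hsq : ∀ a : Γ, (∃ g ∈ P, g ^ 2 ^ (n + 1) = a) → a * a = 1 := by
    rintro a ⟨g, hg, h⟩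
    apply Subtype.ext
    rw [Subgroup.coe_mul, ← h, ← pow_add, ← two_mul, ← pow_succ',
      pow_eq_one_of_exc hρ (hexc g (hPl g hg))]
    rfl
  refine ⟨AlgebraicClosure (ZMod q), inferInstance, W, inferInstance, inferInstance, inferInstance,
    Γ, σ.toHomUnits, le_inf hSP hSU, inf_le_left,
    fun h => hcR (zpowers_le.2 (hSU hc)) ((hone ⟨c, le_inf hSP hSU hc⟩).1 h), hmemΓ,
    fun g hg h hne => (key2 g hg fun h' => hne ((hone ⟨_, h⟩).2 h')).1, ?_⟩
  refine ⟨hF2, ?_, ?_, ?_, ?_, ?_⟩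
  · rintro _ ⟨a, -, rfl⟩
    exact ⟨a, rfl⟩
  · rintro _ ⟨a, ha, rfl⟩
    rw [← map_mul, hsq a ha, map_one]
  · rintro _ ⟨a, ⟨g, hg, ha⟩, rfl⟩ _ ⟨b, ⟨g', hg', hb⟩, rfl⟩
    refine Commute.map (Subtype.ext ?_) _
    have := commute_pow_of_exceptional hρ (K := pPrimeCore 2 G)
      (natCast_ne_zero_of_coprime k 2 (pPrimeCore_coprime 2)) (pPrimeCore_coprime 2) hP
      le_normalizer_of_normal (inf_centralizer_pPrimeCore hps h0 hP) (n := n + 1)
      (fun g hg => ⟨pow_eq_one_of_exc hρ (hexc g (hPl g hg)),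
        (exists_poly_of_sub_one_pow (k := k) (hexc g (hPl g hg))).imp fun f hf =>
          ⟨hf.1, hf.2.1, by rw [hf.2.2]; exact Nat.sub_lt (Nat.two_pow_pos _) one_pos⟩⟩) hg hg'
    rw [ha, hb] at this
    exact this.eq
  · rintro _ ⟨a, ⟨g, hg, ha⟩, rfl⟩ hne
    refine refl_of_pack Pk hq' hq2 hQ hP.to_inf_left hΓQ inf_le_right Sr hF2 (hsq a ⟨g, hg, ha⟩) ?_
    rw [← ha]
    exact (key2 g hg fun h' => hne ((hone _).2 (ha ▸ h'))).2
  · rintro _ ⟨b, rfl⟩ _ ⟨a, ⟨g, hg, ha⟩, rfl⟩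
    refine ⟨b * a * b⁻¹, ⟨b * g * (b : G)⁻¹, mul_mem (mul_mem b.2.1 hg) (inv_mem b.2.1), ?_⟩,
      by rw [map_mul, map_mul, map_inv]⟩
    rw [conj_pow, ha]; rfl

end geo

end CfsgLib.H6Refl
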