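import Mathlib
import Cfsg.Agent.Lib.H6LinB
import Cfsg.Agent.Lib.CG.Normal
import Cfsg.Agent.Lib.SylowIn

/-! Solvable groups with an elementary abelian normal Sylow subgroup whose subgroups of equal
order are conjugate. -/

set_option autoImplicit false
set_option linter.unusedSectionVars false
set_option linter.style.haveILetI false

namespace CfsgLib.H6L

open Subgroup Cfsg

section Two
variable {Y V : Type*} [Group Y] [Finite Y] [CommGroup V] [Finite V] {φ : Y →* MulAut V}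

theorem TSg.trans_two (h : TSg φ) (hV : ∀ v : V, v * v = 1) (a b : V) (ha : a ≠ 1) (hb : b ≠ 1) :
    ∃ y, φ y a = b := by
  have hord : ∀ v : V, v ≠ 1 → orderOf v = 2 := fun v hv => GW.inv_of_mul_self (hV v) hv
  obtain ⟨y, hy⟩ := h (zpowers a) (zpowers b) (by
    rw [Nat.card_zpowers, Nat.card_zpowers, hord a ha, hord b hb])
  obtain ⟨x, hx, e⟩ := hy.ge (mem_zpowers b)
  rcases (GW.mem_zpowers_inv (hord a ha)).1 hx with rfl | rfl
  · exact absurd (by simpa using e.symm) hb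
  · exact ⟨y, e⟩

theorem TSg.two_cases (h : TSg φ) (hφ : Function.Injective φ) (hodd : Odd (Nat.card Y))
    (hV : ∀ v : V, v * v = 1) {n : ℕ} (hn : Nat.card V = 2 ^ n) (hn2 : 2 ≤ n) :
    (n = 2 ∧ Nat.card Y = 3) ∨ (n = 3 ∧ (Nat.card Y = 7 ∨ Nat.card Y = 21)) ∨
      (n = 5 ∧ Nat.card Y = 155) := by
  have hord : ∀ v : V, v ≠ 1 → orderOf v = 2 := fun v hv => GW.inv_of_mul_self (hV v) hv
  obtain ⟨a₀, b₀, ha₀, hb₀, hab₀⟩ : ∃ a b : V, a ≠ 1 ∧ b ≠ 1 ∧ a ≠ b := by
    have := Fintype.ofFinite V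
    have h4 : 2 < Fintype.card V := by
      rw [← Nat.card_eq_fintype_card, hn]
      exact lt_of_lt_of_le (by norm_num) (Nat.pow_le_pow_right two_pos hn2)
    obtain ⟨x, y, z, h1, h3, h5⟩ := Fintype.two_lt_card_iff.1 h4
    by_cases hx : x = 1
    · exact ⟨y, z, hx ▸ h1.symm, hx ▸ h3.symm, h5⟩
    by_cases hy : y = 1
    · exact ⟨x, z, hx, hy ▸ h5.symm, h3⟩
    · exact ⟨x, y, hx, hy, h1⟩
  have hfour : ∀ a b : V, a ≠ 1 → b ≠ 1 → a ≠ b → GW.Four a b :=
    fun a b ha hb hab => ⟨hord a ha, hord b hb, mul_comm _ _, hab⟩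
  refine CG.card_cases hφ hodd hV hn hn2 (h.trans_two hV) (a₀ := a₀) (b₀ := b₀)
    fun a b ha hb hab => ?_
  have f0 := hfour a₀ b₀ ha₀ hb₀ hab₀
  obtain ⟨y, hy⟩ := h _ _ (f0.card_V.trans (hfour a b ha hb hab).card_V.symm)
  have key : ∀ c : V, c ≠ 1 → c ∈ GW.V a b →
      ∃ x ∈ ({a₀, b₀, a₀ * b₀} : Set V), φ y x = c := by
    intro c hc hc'
    obtain ⟨x, hx, e⟩ := hy.ge hc'
    rcases f0.mem_V.1 hx with rfl | rfl | rfl | rfl
    · exact absurd (by simpa using e.symm) hc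
    · exact ⟨_, by simp, e⟩
    · exact ⟨_, by simp, e⟩
    · exact ⟨_, by simp, e⟩
  obtain ⟨x, hx, e1⟩ := key a ha (GW.t_mem_V _ _)
  obtain ⟨x', hx', e2⟩ := key b hb (GW.s_mem_V _ _)
  exact ⟨y, x, hx, x', hx', e1, e2⟩

end Two

variable {X : Type*} [Group X] [Finite X] {p : ℕ} [hp : Fact p.Prime]

theorem exists_norm_conj (P : Sylow p X) (hP : ∀ a ∈ (P : Subgroup X), ∀ b ∈ (P : Subgroup X),
    a * b = b * a) {U : Subgroup X} (hU : U ≤ P) {g : X}
    (hg : U.map (MulAut.conj g).toMonoidHom ≤ P) :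
    ∃ n ∈ normalizer ((P : Subgroup X) : Set X), ∀ u ∈ U, n * u * n⁻¹ = g * u * g⁻¹ := by
  set W := U.map (MulAut.conj g).toMonoidHom
  have h1 : IsSylowIn p (P : Subgroup X) (centralizer (W : Set X)) :=
    IsSylowIn.of_sylow P fun a ha w hw => hP w (hg hw) a ha
  have h2 : IsSylowIn p ((g • P : Sylow p X) : Subgroup X) (centralizer (W : Set X)) := by
    refine IsSylowIn.of_sylow _ ?_
    rw [sylow_coe_smul_eq_map]
    rintro _ ⟨a, ha, rfl⟩ _ ⟨u, hu, rfl⟩
    simp only [MulEquiv.coe_toMonoidHom, ← map_mul, hP u (hU hu) a ha]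
  obtain ⟨c, hc, e⟩ := h1.exists_conj_eq h2
  refine ⟨c * g, ?_, fun u hu => ?_⟩
  · rw [← map_conj_eq_iff_mem_normalizer]
    rw [sylow_coe_smul_eq_map, map_map] at e
    rw [← e]
    nth_rewrite 1 [e]
    congr 1
    ext x
    simp [mul_assoc]
  · have := hc (g * u * g⁻¹) ⟨u, hu, rfl⟩
    calc c * g * u * (c * g)⁻¹ = c * (g * u * g⁻¹) * c⁻¹ := by group
      _ = _ := by rw [← this, mul_inv_cancel_right]

theorem sylow_core {S : Subgroup X} [hN : S.Normal] (hcop : ¬ p ∣ S.index)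
    (hO : pPrimeCore p X = ⊥) (hel : IsElementaryAbelian p S) {n : ℕ} (hn : Nat.card S = p ^ n)
    (h3 : 3 ≤ n) (hs : Group.IsSolvable X)
    (hC : ∀ U W : Subgroup X, U ≤ S → W ≤ S → Nat.card U = Nat.card W →
      ∃ x : X, W = U.map (MulAut.conj x).toMonoidHom) :
    (n = 3 ∧ (∃ f : X →* semiaffineGroup (GaloisField p 3), Function.Injective f) ∧
      (p = 2 → Nonempty (X ≃* semiaffineGroup (GaloisField 2 3)) ∨
        Nonempty (X ≃* affineGroup (GaloisField 2 3)))) ∨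
    (n = 5 ∧ p = 2 ∧ Nonempty (X ≃* semiaffineGroup (GaloisField 2 5))) := by
  have hcomm : ∀ a ∈ S, ∀ b ∈ S, a * b = b * a := fun a ha b hb =>
    congrArg Subtype.val (hel.1.is_comm.comm (⟨a, ha⟩ : S) ⟨b, hb⟩)
  obtain ⟨D, hD⟩ := exists_right_complement'_of_coprime (N := S) (by
    rw [hn]; exact Nat.Coprime.pow_left _ ((hp.out.coprime_iff_not_dvd).2 hcop))
  have hDc : (Nat.card D).Coprime p := by
    rw [← hD.symm.index_eq_card]
    exact ((hp.out.coprime_iff_not_dvd).2 hcop).symm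
  have hdec : ∀ h : X, ∃ x ∈ S, ∃ d ∈ D, h = x * d := fun h => by
    obtain ⟨⟨x, d⟩, e⟩ := hD.2 h
    exact ⟨x, x.2, d, d.2, e.symm⟩
  have faith : ∀ d ∈ D, (∀ x ∈ S, x * d = d * x) → d = 1 := fun d hd h => by
    have hK : (D ⊓ centralizer (S : Set X)).Normal := ⟨fun y hy g => by
      obtain ⟨x, hx, d, hd, rfl⟩ := hdec g
      have h1 : d * y * d⁻¹ ∈ D ⊓ centralizer (S : Set X) :=
        ⟨D.mul_mem (D.mul_mem hd hy.1) (D.inv_mem hd),
          (inferInstance : (centralizer (S : Set X)).Normal).conj_mem _ hy.2 d⟩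
      have h3 : x * d * y * (x * d)⁻¹ = x * (d * y * d⁻¹) * x⁻¹ := by group
      rw [h3, h1.2 x hx, mul_inv_cancel_right]
      exact h1⟩
    have := le_pPrimeCore (N := D ⊓ centralizer (S : Set X))
      (hDc.coprime_dvd_left (card_dvd_of_le inf_le_left))
    rw [hO] at this
    exact mem_bot.1 (this ⟨hd, h⟩)
  let _ : CommGroup S := { mul_comm := fun x y => Subtype.ext (hcomm x x.2 y y.2) }
  let φ : D →* MulAut S := MulAut.conjNormal.comp D.subtype
  have hφa : ∀ (d : D) (v : S), (φ d v : X) = d * v * (d : X)⁻¹ := fun _ _ => rfl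
  have hφ : Function.Injective φ := by
    rw [injective_iff_map_eq_one]
    intro d hd
    refine Subtype.ext (faith d d.2 fun x hx => ?_)
    have := hφa d ⟨x, hx⟩
    rw [hd] at this
    exact eq_mul_inv_iff_mul_eq.1 this
  have hV : ∀ v : S, v ^ p = 1 := fun v => Subtype.ext (hel.2 v v.2)
  have hT : TSg φ := fun U W hUW => by
    obtain ⟨g, hg⟩ := hC (U.map S.subtype) (W.map S.subtype) (map_subtype_le _) (map_subtype_le _)
      (by rw [card_map_of_injective S.subtype_injective, card_map_of_injective S.subtype_injective,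
        hUW])
    obtain ⟨x, hx, d, hd, rfl⟩ := hdec g
    refine ⟨⟨d, hd⟩, map_injective S.subtype_injective ?_⟩
    rw [hg, map_map, map_map]
    congr 1
    ext u
    have h1 := hcomm x hx _ (hN.conj_mem _ u.2 d)
    change d * u * d⁻¹ = x * d * u * (x * d)⁻¹
    calc d * u * d⁻¹ = x * (d * u * d⁻¹) * x⁻¹ := by rw [h1, mul_inv_cancel_right]
      _ = _ := by group
  have hrep : ∀ {m : ℕ} (e : S → GaloisField p m), Function.Bijective e →
      (∀ v w, e (v * w) = e v + e w) →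
      (∀ y, ∃ (c : GaloisField p m) (σ : GaloisField p m ≃+* GaloisField p m), c ≠ 0 ∧
        ∀ v, e (φ y v) = c * σ (e v)) →
      ∃ ρ : X →* Equiv.Perm (GaloisField p m), Function.Injective ρ ∧
        (∀ g, ρ g ∈ semiaffineGroup (GaloisField p m)) ∧
        ((∀ y, ∃ (c : GaloisField p m), c ≠ 0 ∧ ∀ v, e (φ y v) = c * e v) →
          ∀ g, ρ g ∈ affineGroup (GaloisField p m)) := by
    intro m e e1 e2 e3
    obtain ⟨ρ, hρ, hρ'⟩ := CG.exists_perm_rep hD faith e1 e2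
    refine ⟨ρ, hρ, fun g => ?_, fun e4 g => ?_⟩
    · obtain ⟨⟨x, d⟩, rfl⟩ := hD.2 g
      obtain ⟨c, σ, hc0, h6⟩ := e3 d
      refine ⟨Units.mk0 c hc0, e x, σ, fun y => ?_⟩
      obtain ⟨u, rfl⟩ := e1.2 y
      rw [hρ' x d d.2]
      exact congrArg (· + e x) (h6 u)
    · obtain ⟨⟨x, d⟩, rfl⟩ := hD.2 g
      obtain ⟨c, hc0, h6⟩ := e4 d
      refine ⟨Units.mk0 c hc0, e x, fun y => ?_⟩
      obtain ⟨u, rfl⟩ := e1.2 y
      rw [hρ' x d d.2]
      exact congrArg (· + e x) (h6 u)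
  by_cases hp2 : p = 2
  swap
  · obtain ⟨e, e1, e2, e3⟩ := hT.exists_galois hφ inferInstance hV hn h3
    obtain rfl := hT.eq_three hp2 h3 e1 e2 e3
    obtain ⟨ρ, hρ, h1, -⟩ := hrep e e1 e2 e3
    exact Or.inl ⟨rfl, ⟨ρ.codRestrict _ h1, fun x y h => hρ (congrArg Subtype.val h)⟩,
      fun h => absurd h hp2⟩
  subst hp2
  have hodd : Odd (Nat.card D) := Nat.coprime_two_right.1 hDc
  have hV' : ∀ v : S, v * v = 1 := fun v => by rw [← pow_two, hV]
  obtain ⟨e, e1, e2, e3, e4⟩ := CG.exists_galois hφ hodd hV' hn (by omega) (hT.trans_two hV')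
  obtain ⟨ρ, hρ, h1, h2⟩ := hrep e e1 e2 e3
  have hG := hD.card_mul_card
  have hF := GaloisField.card 2 n (by omega)
  have hs := CG.card_semiaffine_le _ hF
  rw [hF] at hs
  rw [hn] at hG
  rcases hT.two_cases hφ hodd hV' hn (by omega) with ⟨rfl, hd⟩ | ⟨rfl, hd | hd⟩ | ⟨rfl, hd⟩
  · omega
  · refine Or.inl ⟨rfl, ⟨ρ.codRestrict _ h1, fun x y h => hρ (congrArg Subtype.val h)⟩,
      fun _ => Or.inr (CG.nonempty_equiv_of_card_le ρ hρ (h2 fun y => e4 y ?_) ?_)⟩
    · have : Fact (Nat.Prime 7) := ⟨by norm_num⟩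
      have := (IsPGroup.of_card (p := 7) (n := 1) hd).isNilpotent
      exact le_sSup (s := {N : Subgroup D | N.Normal ∧ Group.IsNilpotent N}) (a := ⊤)
        ⟨inferInstance, inferInstance⟩ (mem_top y)
    · have := CG.card_affine_le (GaloisField 2 3)
      rw [hF] at this
      omega
  · exact Or.inl ⟨rfl, ⟨ρ.codRestrict _ h1, fun x y h => hρ (congrArg Subtype.val h)⟩,
      fun _ => Or.inl (CG.nonempty_equiv_of_card_le ρ hρ h1 (by omega))⟩
  · exact Or.inr ⟨rfl, rfl, CG.nonempty_equiv_of_card_le ρ hρ h1 (by omega)⟩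

theorem s4025 {G : Type*} [Group G] [Finite G]
    (hC : ∀ H K : Subgroup G, IsPGroup p H → IsPGroup p K → Nat.card H = Nat.card K →
      ∃ g : G, K = H.map (MulAut.conj g).toMonoidHom) (P : Sylow p G) (n : ℕ) (hn : 3 ≤ n)
    (hel : IsElementaryAbelian p (P : Subgroup G)) (hcard : Nat.card P = p ^ n)
    (N : Subgroup G) (hN : N = Subgroup.normalizer ((P : Subgroup G) : Set G))
    (hsolv : Group.IsSolvable (↥N ⧸ pPrimeCore p ↥N)) :
    (n = 3 ∧ (∃ f : ↥N ⧸ pPrimeCore p ↥N →* ↥(semiaffineGroup (GaloisField p 3)),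
      Function.Injective f) ∧
      (p = 2 → Nonempty (↥N ⧸ pPrimeCore p ↥N ≃* semiaffineGroup (GaloisField 2 3)) ∨
               Nonempty (↥N ⧸ pPrimeCore p ↥N ≃* affineGroup (GaloisField 2 3)))) ∨
    (n = 5 ∧ p = 2 ∧ Nonempty (↥N ⧸ pPrimeCore p ↥N ≃* semiaffineGroup (GaloisField 2 5))) := by
  subst hN
  set N := Subgroup.normalizer ((P : Subgroup G) : Set G)
  have hcomm : ∀ a ∈ (P : Subgroup G), ∀ b ∈ (P : Subgroup G), a * b = b * a := fun a ha b hb =>
    congrArg Subtype.val (hel.1.is_comm.comm (⟨a, ha⟩ : (P : Subgroup G)) ⟨b, hb⟩)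
  have hPN : (P : Subgroup G) ≤ N := le_normalizer
  let π := QuotientGroup.mk' (pPrimeCore p N)
  let f : (P : Subgroup G) →* N ⧸ pPrimeCore p N := π.comp (inclusion hPN)
  have hf : Function.Injective f := by
    rw [injective_iff_map_eq_one]
    intro a ha
    have h1 : inclusion hPN a ∈ pPrimeCore p N := (QuotientGroup.eq_one_iff _).1 ha
    obtain ⟨k, hk⟩ := P.2 a
    have h2 := orderOf_dvd_natCard (⟨_, h1⟩ : pPrimeCore p N)
    rw [orderOf_mk, orderOf_injective _ (inclusion_injective hPN)] at h2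
    rw [← orderOf_eq_one_iff]
    exact Nat.eq_one_of_dvd_coprimes ((pPrimeCore_coprime p).pow_right k) h2
      (orderOf_dvd_of_pow_eq_one hk)
  have hr : f.range = ((P : Subgroup G).subgroupOf N).map π := by
    rw [MonoidHom.range_comp, inclusion_range]
  haveI : f.range.Normal := by
    rw [hr]
    exact Normal.map inferInstance _ (QuotientGroup.mk'_surjective _)
  refine sylow_core (S := f.range) ?_ (pPrimeCore_quotient_pPrimeCore p) ⟨?_, ?_⟩ ?_ hn hsolv ?_
  · rw [hr]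
    intro h
    exact (P.subtype hPN).not_dvd_index
      (h.trans (index_map_dvd _ (QuotientGroup.mk'_surjective _)))
  · refine ⟨⟨?_⟩⟩
    rintro ⟨_, a, rfl⟩ ⟨_, b, rfl⟩
    refine Subtype.ext ?_
    change f a * f b = f b * f a
    rw [← map_mul, ← map_mul, show a * b = b * a from Subtype.ext (hcomm a a.2 b b.2)]
  · rintro _ ⟨a, rfl⟩
    rw [← map_pow, show a ^ p = 1 from Subtype.ext (hel.2 a a.2), map_one]
  · rw [← hcard]
    exact (Nat.card_congr (MonoidHom.ofInjective hf).toEquiv).symm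
  · intro U W hU hW hUW
    have hc : ∀ U : Subgroup (N ⧸ pPrimeCore p N), U ≤ f.range →
        Nat.card ((U.comap f).map (P : Subgroup G).subtype) = Nat.card U := fun U hU => by
      rw [card_map_of_injective (subtype_injective _), ← card_map_of_injective hf,
        map_comap_eq_self hU]
    obtain ⟨g, hg⟩ := hC ((U.comap f).map (P : Subgroup G).subtype)
      ((W.comap f).map (P : Subgroup G).subtype) (P.2.to_le (map_subtype_le _))
      (P.2.to_le (map_subtype_le _)) (by rw [hc U hU, hc W hW, hUW])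
    obtain ⟨m, hm, hm'⟩ := exists_norm_conj P hcomm (map_subtype_le _) (hg ▸ map_subtype_le _)
    refine ⟨π ⟨m, hm⟩, (eq_of_le_of_card_ge ?_ ?_).symm⟩
    · rintro _ ⟨u, hu, rfl⟩
      obtain ⟨a, rfl⟩ := hU hu
      have h1 : g * a * g⁻¹ ∈ (W.comap f).map (P : Subgroup G).subtype :=
        hg ▸ ⟨a, ⟨a, hu, rfl⟩, rfl⟩
      obtain ⟨b, hb, e⟩ := h1
      have h2 : (MulAut.conj (π ⟨m, hm⟩)).toMonoidHom (f a) = f b := by
        change π ⟨m, hm⟩ * π _ * (π ⟨m, hm⟩)⁻¹ = π _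
        rw [← map_inv, ← map_mul, ← map_mul]
        congr 1
        exact Subtype.ext ((hm' a ⟨a, hu, rfl⟩).trans e.symm)
      rw [h2]
      exact hb
    · rw [card_map_of_injective (MulAut.conj _).injective, hUW]

end CfsgLib.H6L
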