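import Mathlib

/-! # Geometry of commuting `2`-reflections (for the `2`-length theorem) -/

set_option autoImplicit false

namespace CfsgLib.H6Refl

open Module

variable {F : Type*} [Field F] {W : Type*} [AddCommGroup W] [Module F W]

/-- the `(-1)`-eigenspace -/
def neg (t : (Module.End F W)ˣ) : Submodule F W := LinearMap.ker ((t : Module.End F W) + 1)

theorem mem_neg {t : (Module.End F W)ˣ} {v : W} : v ∈ neg t ↔ (t : Module.End F W) v = -v := by
  simp [neg, add_eq_zero_iff_eq_neg]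

theorem mul_app (a b : (Module.End F W)ˣ) (v : W) :
    ((a * b : (Module.End F W)ˣ) : Module.End F W) v = (a : Module.End F W) ((b : Module.End F W) v) :=
  rfl

theorem inv_app (a : (Module.End F W)ˣ) (v : W) :
    ((a⁻¹ : (Module.End F W)ˣ) : Module.End F W) ((a : Module.End F W) v) = v := by
  rw [← mul_app, inv_mul_cancel]; rfl

theorem app_inv (a : (Module.End F W)ˣ) (v : W) :
    (a : Module.End F W) (((a⁻¹ : (Module.End F W)ˣ) : Module.End F W) v) = v := by
  rw [← mul_app, mul_inv_cancel]; rfl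

theorem conj_mem_neg {t e : (Module.End F W)ˣ} {v : W} (hv : v ∈ neg t) :
    (e : Module.End F W) v ∈ neg (e * t * e⁻¹) := by
  rw [mem_neg] at hv ⊢
  rw [mul_app, mul_app, inv_app, hv, map_neg]

theorem app_mem_neg {t e : (Module.End F W)ˣ} (h : Commute e t) {v : W} (hv : v ∈ neg t) :
    (e : Module.End F W) v ∈ neg t := by
  have := conj_mem_neg (e := e) hv
  rwa [h.eq, mul_inv_cancel_right] at this

/-- `t` is a `2`-reflection relative to the group `Λ` -/
structure Refl (Λ : Subgroup (Module.End F W)ˣ) (t : (Module.End F W)ˣ) : Prop where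
  rank : finrank F (neg t) = 2
  sign : ∀ a ∈ Λ, Commute a t → (∀ v ∈ neg t, (a : Module.End F W) ((a : Module.End F W) v) = v) →
    ∃ ε : F, ε * ε = 1 ∧ ∀ v ∈ neg t, (a : Module.End F W) v = ε • v

/-- a conjugation invariant set of commuting `2`-reflections -/
structure Geo (Λ : Subgroup (Module.End F W)ˣ) (D : Set (Module.End F W)ˣ) : Prop where
  two : (2 : F) ≠ 0
  mem : ∀ t ∈ D, t ∈ Λ
  sq : ∀ t ∈ D, t * t = 1
  comm : ∀ t ∈ D, ∀ t' ∈ D, Commute t t'
  refl : ∀ t ∈ D, t ≠ 1 → Refl Λ t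
  conj : ∀ a ∈ Λ, ∀ t ∈ D, a * t * a⁻¹ ∈ D

theorem eq_zero_of_eq_neg (h2 : (2 : F) ≠ 0) {v : W} (h : v = -v) : v = 0 := by
  have : (2 : F) • v = 0 := by rw [two_smul]; nth_rewrite 2 [h]; exact add_neg_cancel v
  exact (smul_eq_zero.1 this).resolve_left h2

theorem eq_of_neg_eq (h2 : (2 : F) ≠ 0) {t t' : (Module.End F W)ˣ} (ht : t * t = 1)
    (ht' : t' * t' = 1) (hc : Commute t t') (h : neg t = neg t') : t = t' := by
  ext w
  have h1 : w - (t : Module.End F W) w ∈ neg t := by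
    rw [mem_neg, map_sub, ← mul_app, ht, neg_sub]; rfl
  have h2' : w - (t' : Module.End F W) w ∈ neg t' := by
    rw [mem_neg, map_sub, ← mul_app, ht', neg_sub]; rfl
  rw [h, mem_neg, map_sub, ← mul_app] at h1
  rw [← h, mem_neg, map_sub, ← mul_app, hc.eq] at h2'
  have h3 : (t : Module.End F W) w - (t' : Module.End F W) w =
      -((t : Module.End F W) w - (t' : Module.End F W) w) := by
    linear_combination (norm := module) h2' - h1
  exact sub_eq_zero.1 (eq_zero_of_eq_neg h2 h3)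

theorem Refl.exists_ne {Λ : Subgroup (Module.End F W)ˣ} {t : (Module.End F W)ˣ} (h : Refl Λ t) :
    ∃ v ∈ neg t, v ≠ 0 := by
  by_contra hc
  push Not at hc
  have : neg t = ⊥ := eq_bot_iff.2 fun v hv => hc v hv
  have h1 := h.rank
  rw [this, finrank_bot] at h1
  omega

variable [FiniteDimensional F W] {Λ : Subgroup (Module.End F W)ˣ} {D : Set (Module.End F W)ˣ}

namespace Geo

theorem eq_of_neg (G : Geo Λ D) {t t' : (Module.End F W)ˣ} (ht : t ∈ D) (ht' : t' ∈ D)
    (h1 : t ≠ 1) (h : ∀ v ∈ neg t, (t' : Module.End F W) v = -v) : t' = t := by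
  have R := G.refl t ht h1
  have h1' : t' ≠ 1 := by
    rintro rfl
    obtain ⟨v, hv, hv0⟩ := R.exists_ne
    exact hv0 (eq_zero_of_eq_neg G.two (h v hv))
  have R' := G.refl t' ht' h1'
  exact (eq_of_neg_eq G.two (G.sq t ht) (G.sq t' ht') (G.comm t ht t' ht')
    (Submodule.eq_of_le_of_finrank_eq (fun v hv => mem_neg.2 (h v hv))
      (R.rank.trans R'.rank.symm))).symm

theorem fix_of_ne (G : Geo Λ D) {t t' : (Module.End F W)ˣ} (ht : t ∈ D) (ht' : t' ∈ D)
    (h1 : t ≠ 1) (hne : t' ≠ t) : ∀ v ∈ neg t, (t' : Module.End F W) v = v := by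
  obtain ⟨ε, hε, h⟩ := (G.refl t ht h1).sign t' (G.mem t' ht') (G.comm t' ht' t ht)
    (fun v _ => by rw [← mul_app, G.sq t' ht']; rfl)
  rcases mul_self_eq_one_iff.1 hε with rfl | rfl
  · simpa using h
  · exact absurd (G.eq_of_neg ht ht' h1 (by simpa using h)) hne

theorem core (G : Geo Λ D) {u e : (Module.End F W)ˣ} (hu : u ∈ Λ) (he : e ∈ Λ)
    (ht : u * u ∈ D) (h1 : Commute (e * e) (u * u)) (h2 : e * e * (e * e) = 1)
    (h3 : Commute (e * u * e * u⁻¹) (u * u)) (h4 : e * u * e * u⁻¹ * (e * u * e * u⁻¹) = 1) :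
    Commute e (u * u) := by
  set t := u * u with htd
  by_cases h0 : t = 1
  · rw [h0]; exact Commute.one_right e
  by_contra hne
  have R := G.refl t ht h0
  have ht₁ := G.conj e he t ht
  have hne₁ : t ≠ e * t * e⁻¹ := fun h => hne (by
    rw [Commute, SemiconjBy]; nth_rewrite 2 [h]; group)
  have h01 : e * t * e⁻¹ ≠ 1 := fun h => h0 (by
    have : t = e⁻¹ * (e * t * e⁻¹) * e := by group
    rw [this, h]; group)
  have R₁ := G.refl _ ht₁ h01
  have hfix := G.fix_of_ne ht₁ ht h01 hne₁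
  have hut : Commute u t := by rw [htd]; exact (Commute.refl u).mul_right (Commute.refl u)
  have hu₁ : Commute u (e * t * e⁻¹) := by
    have e1 : u * e = e⁻¹ * (e * u * e * u⁻¹) * u := by group
    have e2 : e⁻¹ * t * e = e * t * e⁻¹ := by
      have := h1.eq
      calc e⁻¹ * t * e = e⁻¹ * (t * (e * e)) * e⁻¹ := by group
        _ = e⁻¹ * (e * e * t) * e⁻¹ := by rw [this]
        _ = _ := by group
    have e3 : u * (e * t * e⁻¹) * u⁻¹ = e * t * e⁻¹ := by
      calc u * (e * t * e⁻¹) * u⁻¹ = (u * e) * t * (u * e)⁻¹ := by group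
        _ = e⁻¹ * ((e * u * e * u⁻¹) * (u * t * u⁻¹) * (e * u * e * u⁻¹)⁻¹) * e := by
          rw [e1]; group
        _ = e⁻¹ * t * e := by
          rw [hut.eq, mul_inv_cancel_right, h3.eq, mul_inv_cancel_right]
        _ = _ := e2
    rw [Commute, SemiconjBy]
    nth_rewrite 2 [← e3]
    group
  obtain ⟨ε, hε, hεv⟩ := R₁.sign u hu hu₁ (fun v hv => by rw [← mul_app]; exact hfix v hv)
  obtain ⟨η, hη, hηv⟩ := R.sign (e * e) (mul_mem he he) h1
    (fun v _ => by rw [← mul_app, h2]; rfl)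
  obtain ⟨δ, hδ, hδv⟩ := R.sign _ (mul_mem (mul_mem (mul_mem he hu) he) (inv_mem hu)) h3
    (fun v _ => by rw [← mul_app, h4]; rfl)
  have key : ∀ v ∈ neg t, (u : Module.End F W) v = (ε * η * δ) • v := by
    intro v hv
    have hv' := app_mem_neg hut hv
    have := hδv _ hv'
    rw [mul_app, mul_app, mul_app, inv_app, hεv _ (conj_mem_neg hv), map_smul, ← mul_app,
      hηv v hv, smul_smul] at this
    calc (u : Module.End F W) v = (δ * δ) • (u : Module.End F W) v := by rw [hδ, one_smul]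
      _ = δ • (ε * η) • v := by rw [this, smul_smul]
      _ = _ := by rw [smul_smul]; congr 1; ring
  obtain ⟨v, hv, hv0⟩ := R.exists_ne
  apply hv0
  apply eq_zero_of_eq_neg G.two
  have := mem_neg.1 hv
  rw [htd, mul_app, key v hv, map_smul, key v hv, smul_smul] at this
  rw [← this]
  have h5 : ε * η * δ * (ε * η * δ) = 1 := by
    calc ε * η * δ * (ε * η * δ) = (ε * ε) * (η * η) * (δ * δ) := by ring
      _ = 1 := by rw [hε, hη, hδ]; ring
  rw [h5, one_smul]

theorem swap (G : Geo Λ D) {u : (Module.End F W)ˣ} (hu : u ∈ Λ) (ht : u * u ∈ D)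
    {Z : Subgroup (Module.End F W)ˣ} (hZ : Z ≤ Λ) (hsq : ∀ a ∈ Z, a * a = 1)
    (hn : ∀ a ∈ Z, u * a * u⁻¹ ∈ Z) : ∀ a ∈ Z, Commute a (u * u) := by
  have hinv : ∀ a ∈ Z, a⁻¹ = a := fun a ha => inv_eq_of_mul_eq_one_right (hsq a ha)
  have hcomm : ∀ a ∈ Z, ∀ b ∈ Z, a * b = b * a := fun a ha b hb => by
    rw [← hinv _ (mul_mem ha hb), mul_inv_rev, hinv a ha, hinv b hb]
  have hδ : ∀ a ∈ Z, a * u * a * u⁻¹ ∈ Z := fun a ha => by
    rw [mul_assoc, mul_assoc, ← mul_assoc u]; exact mul_mem ha (hn a ha)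
  have step : ∀ a ∈ Z, Commute (a * u * a * u⁻¹) (u * u) → Commute a (u * u) := fun a ha h =>
    G.core hu (hZ ha) ht (by rw [hsq a ha]; exact Commute.one_left _) (by rw [hsq a ha, one_mul])
      h (hsq _ (hδ a ha))
  intro a ha
  refine step a ha (step _ (hδ a ha) ?_)
  have h1 : a * u * a * u⁻¹ * u * (a * u * a * u⁻¹) * u⁻¹ =
      a * (u * u * a * (u * u)⁻¹) := by
    calc a * u * a * u⁻¹ * u * (a * u * a * u⁻¹) * u⁻¹ =
          a * u * (a * a) * u * a * u⁻¹ * u⁻¹ := by group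
      _ = _ := by rw [hsq a ha]; group
  have h2 : u * u * a * (u * u)⁻¹ ∈ Z := by
    have := hn _ (hn a ha)
    convert this using 1
    group
  have h3 := G.sq _ ht
  rw [h1, Commute, SemiconjBy]
  calc a * (u * u * a * (u * u)⁻¹) * (u * u) = (u * u * a * (u * u)⁻¹) * a * (u * u) := by
        rw [hcomm a ha _ h2]
    _ = u * u * (a * ((u * u)⁻¹ * a * (u * u))) := by group
    _ = u * u * (a * (u * u * a * (u * u)⁻¹)) := by
        rw [inv_eq_of_mul_eq_one_right h3]

theorem eq_of_sq_fix (G : Geo Λ D) {u e : (Module.End F W)ˣ} (he : e ∈ Λ)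
    (ht : u * u ∈ D) (ht' : e * u * (e * u) ∈ D) (h0 : u * u ≠ 1) (h1 : Commute e (u * u))
    (h2 : ∀ v ∈ neg (u * u), (e : Module.End F W) ((e : Module.End F W) v) = v) :
    e * u * (e * u) = u * u := by
  have R := G.refl _ ht h0
  obtain ⟨δ, hδ, hδv⟩ := R.sign e he h1 h2
  have hut : Commute u (u * u) := (Commute.refl u).mul_right (Commute.refl u)
  refine G.eq_of_neg ht ht' h0 fun v hv => ?_
  have hv1 := app_mem_neg hut hv
  have hv2 := app_mem_neg hut hv1
  rw [mul_app, mul_app, mul_app, hδv _ hv1, map_smul, map_smul, hδv _ hv2, smul_smul, hδ,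
    one_smul, ← mul_app]
  exact mem_neg.1 hv

theorem commute_of_not_commute (G : Geo Λ D) {u e b : (Module.End F W)ˣ} (hu : u ∈ Λ)
    (he : e ∈ Λ) (hb : b ∈ Λ) (ht : u * u ∈ D) (ht' : e * u * (e * u) ∈ D)
    (h1 : Commute e (u * u)) (h2 : e * e * (e * e) = 1) (h3 : Commute (e * e) b)
    (h4 : Commute (b * (u * u) * b⁻¹ * (u * u)) e) (h5 : Commute (b * (u * u) * b⁻¹ * (u * u)) b)
    (h6 : Commute (b * (u * u) * b⁻¹ * (u * u)) (u * b * u⁻¹)) (hne : ¬ Commute b (u * u)) :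
    Commute (e * u * (e * u) * (u * u)) b := by
  set t := u * u with htd
  have h0 : t ≠ 1 := fun h => hne (h ▸ Commute.one_right b)
  have R := G.refl t ht h0
  have htt := G.sq t ht
  have hut : Commute u t := by rw [htd]; exact (Commute.refl u).mul_right (Commute.refl u)
  have conj_ne : ∀ c : (Module.End F W)ˣ, ¬ Commute c t → t ≠ c * t * c⁻¹ ∧ c * t * c⁻¹ ≠ 1 :=
    fun c hc => ⟨fun h => hc (by rw [Commute, SemiconjBy]; nth_rewrite 2 [h]; group),
      fun h => h0 (by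
        have : t = c⁻¹ * (c * t * c⁻¹) * c := by group
        rw [this, h]; group)⟩
  obtain ⟨hne₁, h01⟩ := conj_ne b hne
  have ht₁ := G.conj b hb t ht
  set t₁ := b * t * b⁻¹ with ht₁d
  have R₁ := G.refl _ ht₁ h01
  have hne' : ¬ Commute (u * b * u⁻¹) t := fun h => hne (by
    have h7 := (hut.inv_left.mul_left h).mul_left hut
    rwa [show u⁻¹ * (u * b * u⁻¹) * u = b by group] at h7)
  obtain ⟨hne₂, h02⟩ := conj_ne _ hne'
  have ht₂ := G.conj _ (mul_mem (mul_mem hu hb) (inv_mem hu)) t ht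
  have e2 : u * b * u⁻¹ * t * (u * b * u⁻¹)⁻¹ = u * t₁ * u⁻¹ := by
    calc u * b * u⁻¹ * t * (u * b * u⁻¹)⁻¹ = u * b * (u⁻¹ * (t * u)) * b⁻¹ * u⁻¹ := by group
      _ = _ := by rw [← hut.eq, ht₁d]; group
  have hg : ∀ v ∈ neg t, ((t₁ * t : (Module.End F W)ˣ) : Module.End F W) v = -v := fun v hv => by
    rw [mul_app, mem_neg.1 hv, map_neg, G.fix_of_ne ht ht₁ h0 hne₁.symm v hv]
  have h12 : t₁ = u * b * u⁻¹ * t * (u * b * u⁻¹)⁻¹ := by
    refine G.eq_of_neg ht₂ ht₁ h02 fun v hv => ?_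
    have hv1 := G.fix_of_ne ht₂ ht h02 hne₂ v hv
    have hv2 : (((u * b * u⁻¹)⁻¹ : (Module.End F W)ˣ) : Module.End F W) v ∈ neg t := by
      have := conj_mem_neg (e := (u * b * u⁻¹)⁻¹) hv
      rwa [show (u * b * u⁻¹)⁻¹ * (u * b * u⁻¹ * t * (u * b * u⁻¹)⁻¹) * (u * b * u⁻¹)⁻¹⁻¹ = t by
        group] at this
    have hv3 := hg _ hv2
    rw [← mul_app, h6.inv_right.eq, mul_app, ← map_neg] at hv3
    have hv4 := congrArg ((u * b * u⁻¹ : (Module.End F W)ˣ) : Module.End F W) hv3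
    rw [app_inv, app_inv, mul_app, hv1] at hv4
    exact hv4
  have hu₁ : Commute u t₁ := by
    rw [Commute, SemiconjBy]
    nth_rewrite 2 [h12]
    rw [e2]; group
  have he₁ : Commute e t₁ := by
    have := h4.symm.mul_right h1
    rwa [mul_assoc, htt, mul_one] at this
  have hfix := G.fix_of_ne ht₁ ht h01 hne₁
  obtain ⟨ε, hε, hεv⟩ := R₁.sign u hu hu₁ (fun v hv => by rw [← mul_app]; exact hfix v hv)
  obtain ⟨η, hη, hηv⟩ := R.sign (e * e) (mul_mem he he) (h1.mul_left h1)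
    (fun v _ => by rw [← mul_app, h2]; rfl)
  rcases mul_self_eq_one_iff.1 hη with rfl | rfl
  · rw [G.eq_of_sq_fix he ht ht' h0 h1 (fun v hv => by rw [← mul_app, hηv v hv, one_smul]), htt]
    exact Commute.one_left b
  · have h7 : e * u * (e * u) = t₁ := by
      refine G.eq_of_neg ht₁ ht' h01 fun v hv => ?_
      have hv2 : ((b⁻¹ : (Module.End F W)ˣ) : Module.End F W) v ∈ neg t := by
        have := conj_mem_neg (e := b⁻¹) hv
        rwa [ht₁d, show b⁻¹ * (b * t * b⁻¹) * b⁻¹⁻¹ = t by group] at this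
      have hv3 := hηv _ hv2
      rw [← mul_app, h3.inv_right.eq, mul_app, ← map_smul] at hv3
      have hv4 := congrArg (b : Module.End F W) hv3
      rw [app_inv, app_inv, mul_app] at hv4
      rw [mul_app, mul_app, mul_app, hεv v hv, map_smul, map_smul,
        hεv _ (app_mem_neg he₁ hv), map_smul, map_smul, hv4, smul_smul, smul_smul, hε]
      simp
    rw [h7]
    exact h5

end Geo

end CfsgLib.H6Refl
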