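import Cfsg.Agent.Lib.CorePiSep
import Cfsg.Agent.Lib.FT.Main

/-! # `2`-solvable groups are solvable -/

set_option autoImplicit false

namespace CfsgLib.H6Refl

open Subgroup CfsgLib Cfsg

theorem isSolvable_of_isPSolvable_two.{u} (G : Type u) [Group G] [Finite G] :
    IsPSolvable 2 G → Group.IsSolvable G := by
  refine card_induction (P := fun X _ _ => IsPSolvable 2 X → Group.IsSolvable X) ?_ G
  intro X _ _ ih h
  rcases subsingleton_or_nontrivial X with h1 | h1
  · infer_instance
  obtain ⟨M, hM⟩ := exists_isMinNormal (G := X)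
  have := hM.1
  refine isSolvable_of_normal_of_quotient M ?_
    (ih _ (card_quotient_lt hM.2.1) (isPSolvable_quotient h M))
  rcases isPSolvable_isMinNormal h hM with h2 | h2
  · exact isSolvable_of_isPGroup (isPGroup_of_isElementaryAbelian h2)
  · exact FT.feit_thompson (Nat.coprime_two_right.1 h2)

end CfsgLib.H6Refl
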