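import Cfsg.Agent.Lib.FT.PF2
import Cfsg.Agent.Lib.H5PiClosed
import Cfsg.Agent.Lib.ClassSize2
import Cfsg.Agent.Lib.SylowIn
import Cfsg.Agent.Lib.H5Involutions

/-! A `π`-homogeneous `D_π`-group is `π'`-closed (Ferguson). -/

namespace CfsgLib.PiHom

open Subgroup Cfsg CfsgLib.FT

variable {G : Type*} [Group G] {π : Set ℕ} {H : Subgroup G}

/-- Every `π`-subgroup is conjugate into the `π`-subgroup `H`, and `π'`-elements normalizing a
`π`-subgroup centralize it. -/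
structure Hyp (π : Set ℕ) (H : Subgroup G) : Prop where
  pi : IsPiSubgroup π H
  conj : ∀ X : Subgroup G, IsPiSubgroup π X → ∃ g, ∀ x ∈ X, g * x * g⁻¹ ∈ H
  hom : ∀ X : Subgroup G, IsPiSubgroup π X → ∀ g ∈ normalizer (X : Set G),
    IsPiNum πᶜ (orderOf g) → g ∈ centralizer (X : Set G)

/-- Conjugation by `g` on `A` is induced by an element of `H`. -/
def Fus (H A : Subgroup G) (g : G) : Prop := ∃ h ∈ H, ∀ a ∈ A, g * a * g⁻¹ = h * a * h⁻¹

theorem conj_eq_of_mem_centralizer {X : Subgroup G} {c x : G} (hc : c ∈ centralizer (X : Set G))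
    (hx : x ∈ X) : c * x * c⁻¹ = x := by
  rw [← mem_centralizer_iff.mp hc x hx, mul_inv_cancel_right]

namespace Hyp

variable [Finite G] (h : Hyp π H)
include h

theorem exists_sylow_le {p : ℕ} [hp : Fact p.Prime] (hπ : p ∈ π) :
    ∃ P : Sylow p G, (P : Subgroup G) ≤ H := by
  obtain ⟨P⟩ : Nonempty (Sylow p G) := inferInstance
  obtain ⟨g, hg⟩ := h.conj P (isPiSubgroup_mono (isPGroup_iff_isPiSubgroup.mp P.isPGroup')
    (by simpa using hπ))
  exact ⟨g • P, by rintro _ ⟨x, hx, rfl⟩; exact hg x hx⟩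

theorem exists_mul {N : Subgroup G} [N.Normal] (hN : ∀ x, IsPiNum πᶜ (orderOf x) → x ∈ N)
    (g : G) : ∃ n ∈ N, ∃ y ∈ H, n * y = g := by
  have h1 : N ⊔ H = ⊤ := by
    rw [← index_eq_one]
    refine IsPiNum.eq_one (π := π) ?_ fun p hp hd hπ => ?_
    · simpa using (H5.isPiNum_compl_index_of_forall_mem hN).of_dvd (index_dvd_of_le le_sup_left)
    · haveI := Fact.mk hp
      obtain ⟨P, hP⟩ := h.exists_sylow_le hπ
      exact P.not_dvd_index (hd.trans (index_dvd_of_le (hP.trans le_sup_right)))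
  exact mem_sup_of_normal_left.mp (h1 ▸ mem_top g)

theorem exists_supp {X : Subgroup G} (hX : IsPiSubgroup π X) :
    ∃ L : Subgroup G, X ≤ L ∧ L ≤ normalizer (X : Set G) ∧ IsPiSubgroup π L ∧
      ∀ n ∈ normalizer (X : Set G), ∃ l ∈ L, ∃ c ∈ centralizer (X : Set G), l * c = n := by
  haveI : ((centralizer (X : Set G)).subgroupOf (normalizer (X : Set G))).Normal :=
    normal_subgroupOf_of_le_normalizer (H5.normalizer_le_normalizer_centralizer' X)
  obtain ⟨L, hL, hq⟩ := Frob.exists_supplement_primes_dvd_index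
    ((centralizer (X : Set G)).subgroupOf (normalizer (X : Set G)))
  have h1 := H5.isPiNum_compl_index_of_forall_mem (π := πᶜ)
    (K := (centralizer (X : Set G)).subgroupOf (normalizer (X : Set G)))
    fun x hx => h.hom X hX x x.2 (by rwa [orderOf_coe])
  rw [compl_compl] at h1
  refine ⟨L.map (Subgroup.subtype _) ⊔ X, le_sup_right, sup_le (map_subtype_le _) le_normalizer,
    isPiSubgroup_sup (map_subtype_le _) (isPiSubgroup_map_subtype_iff.mpr
      fun q hq' hd => h1 q hq' (hq q hq' hd)) hX, fun n hn => ?_⟩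
  obtain ⟨l, hl, c, hc, e⟩ := mem_sup_of_normal_right.mp (hL ▸ mem_top (⟨n, hn⟩ : normalizer _))
  exact ⟨l, mem_sup_left ⟨l, hl, rfl⟩, c, hc, congrArg Subtype.val e⟩

theorem fus_sylow {p : ℕ} [Fact p.Prime] (P : Sylow p G) (hP : (P : Subgroup G) ≤ H) {y : G}
    (hy : ∀ x ∈ (P : Subgroup G), y * x * y⁻¹ ∈ H) : Fus H P y := by
  have key : ∀ y : G, (∀ x ∈ (P : Subgroup G), y * x * y⁻¹ ∈ H) →
      ∃ k ∈ H, k * y ∈ normalizer ((P : Subgroup G) : Set G) := fun y hy => by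
    obtain ⟨k, hk, e⟩ := (IsSylowIn.of_sylow P hP).exists_conj_le (y • P).isPGroup'
      (by rintro _ ⟨x, hx, rfl⟩; exact hy x hx)
    refine ⟨k, hk, mem_normalizer_of_conj_mem fun x hx => ?_⟩
    have := e (conj_mem_map_conj (g := k) (conj_mem_map_conj (g := y) hx))
    rwa [show k * (y * x * y⁻¹) * k⁻¹ = k * y * x * (k * y)⁻¹ by group] at this
  obtain ⟨L, hPL, -, hL, hs⟩ := h.exists_supp (isPiSubgroup_of_le h.pi hP)
  obtain ⟨g, hg⟩ := h.conj L hL
  obtain ⟨k, hk, hm⟩ := key g fun x hx => hg x (hPL hx)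
  obtain ⟨k', hk', hn⟩ := key y hy
  obtain ⟨l, hl, c, hc, e⟩ := hs _ (mul_mem (mul_mem (inv_mem hm) hn) hm)
  refine ⟨k'⁻¹ * (k * (g * l * g⁻¹) * k⁻¹),
    mul_mem (inv_mem hk') (mul_mem (mul_mem hk (hg l hl)) (inv_mem hk)), fun a ha => ?_⟩
  have h1 := conj_eq_of_mem_centralizer hc (conj_mem_of_mem_normalizer' hm ha)
  have h2 : y = k'⁻¹ * (k * g) * (l * c) * (k * g)⁻¹ := by rw [e]; group
  calc y * a * y⁻¹ = k'⁻¹ * (k * g) * l * (c * ((k * g)⁻¹ * a * (k * g)) * c⁻¹) * l⁻¹ *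
        (k * g)⁻¹ * k' := by rw [h2]; group
    _ = _ := by rw [h1]; group

theorem fus_normalizer {p : ℕ} [hp : Fact p.Prime] {A T : Subgroup G} (hAT : A < T) (hTH : T ≤ H)
    (hT : IsSylowIn p T (normalizer (A : Set G)))
    (ih : ∀ B : Subgroup G, A < B → B ≤ T → ∀ g, (∀ x ∈ B, g * x * g⁻¹ ∈ H) → Fus H B g)
    {n : G} (hn : n ∈ normalizer (A : Set G)) : Fus H A n := by
  have hKN : A ⊔ centralizer (A : Set G) ≤ normalizer (A : Set G) :=
    sup_le le_normalizer (centralizer_le_normalizer _)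
  have hNK : normalizer (A : Set G) ≤ normalizer ((A ⊔ centralizer (A : Set G) : Subgroup G) :
      Set G) := (le_inf le_rfl (H5.normalizer_le_normalizer_centralizer' A)).trans
    (normalizer_inf_normalizer_le_normalizer_sup _ _)
  by_cases hd : p ∣ (A ⊔ centralizer (A : Set G)).relIndex (normalizer (A : Set G))
  · obtain ⟨L, hAL, hLN, hL, hs⟩ := h.exists_supp (isPiSubgroup_of_le h.pi (hAT.le.trans hTH))
    have h1 : L ⊔ (A ⊔ centralizer (A : Set G)) = normalizer (A : Set G) :=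
      le_antisymm (sup_le hLN hKN) fun x hx => by
        obtain ⟨l, hl, c, hc, rfl⟩ := hs x hx
        exact mul_mem (mem_sup_left hl) (mem_sup_right (mem_sup_right hc))
    rw [← h1, relIndex_sup_of_le_normalizer (hLN.trans hNK)] at hd
    obtain ⟨u, huL, hu, huK⟩ := H5.exists_primePow_notMem_of_dvd_relIndex hp.out hd
    have hB : IsPGroup p (zpowers u ⊔ A : Subgroup G) :=
      (isPGroup_zpowers_iff.mpr hu).to_sup_of_normal_right' (hT.isPGroup.to_le hAT.le)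
        (zpowers_le.mpr (hLN huL))
    have hBL : zpowers u ⊔ A ≤ L := sup_le (zpowers_le.mpr huL) hAL
    obtain ⟨m, hm, hmT⟩ := hT.exists_conj_le hB (hBL.trans hLN)
    obtain ⟨y, hy⟩ := h.conj L hL
    have hlt : A < (zpowers u ⊔ A).map (MulAut.conj m).toMonoidHom := by
      conv_lhs => rw [← map_conj_eq_of_mem_normalizer hm]
      exact map_conj_lt_map_conj m (le_sup_right.lt_of_ne fun e =>
        huK (mem_sup_left (e ▸ mem_sup_left (mem_zpowers u))))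
    obtain ⟨k, hk, e⟩ := ih _ hlt hmT (y * m⁻¹) (by
      rintro _ ⟨x, hx, rfl⟩
      simpa [mul_assoc] using hy x (hBL hx))
    obtain ⟨l, hl, c, hc, e'⟩ := hs _ (mul_mem (mul_mem (inv_mem hm) hn) hm)
    refine ⟨k⁻¹ * (y * l * y⁻¹) * k, mul_mem (mul_mem (inv_mem hk) (hy l hl)) hk, fun a ha => ?_⟩
    have h2 := conj_eq_of_mem_centralizer hc (conj_mem_of_mem_normalizer' hm ha)
    have h3 : n = m * (l * c) * m⁻¹ := by rw [e']; group
    have h4 := e _ (hlt.le (conj_mem_of_mem_normalizer hn ha))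
    have h5 := e _ (hlt.le ha)
    calc n * a * n⁻¹ = k⁻¹ * (k * (n * a * n⁻¹) * k⁻¹) * k := by group
      _ = k⁻¹ * (y * l * (c * (m⁻¹ * a * m) * c⁻¹) * l⁻¹ * y⁻¹) * k := by
        rw [← h4, h3]; group
      _ = k⁻¹ * (y * l * y⁻¹) * (y * m⁻¹ * a * (y * m⁻¹)⁻¹) * (y * l * y⁻¹)⁻¹ * k := by
        rw [h2]; group
      _ = _ := by rw [h5]; group
  · have hTK : T ≤ A ⊔ centralizer (A : Set G) := fun x hx => by
      obtain ⟨k, hk⟩ := orderOf_eq_pow_of_mem_isPGroup hT.isPGroup hx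
      exact H5.mem_of_not_dvd_relIndex hp.out hNK hd (hT.le hx) hk
    obtain ⟨k, hk, hkn⟩ := (hT.mono hTK hKN).frattini_elem (hNK hn)
    obtain ⟨y, hy, e⟩ := ih T hAT le_rfl (k * n) fun x hx =>
      hTH (conj_mem_of_mem_normalizer hkn hx)
    obtain ⟨b, hb, c, hc, rfl⟩ :=
      (mem_sup_iff_of_le_normalizer' (centralizer_le_normalizer _)).mp hk
    refine ⟨b⁻¹ * y, mul_mem (inv_mem (hTH (hAT.le hb))) hy, fun a ha => ?_⟩
    have h2 := conj_eq_of_mem_centralizer hc (conj_mem_of_mem_normalizer hn ha)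
    calc n * a * n⁻¹ = b⁻¹ * (b * c * n * a * (b * c * n)⁻¹) * b := by
          conv_lhs => rw [← h2]
          group
      _ = _ := by rw [e a (hAT.le ha)]; group

theorem fus {p : ℕ} [hp : Fact p.Prime] (hπ : p ∈ π) (A : Subgroup G) :
    IsPGroup p A → A ≤ H → ∀ g, (∀ x ∈ A, g * x * g⁻¹ ∈ H) → Fus H A g := by
  induction hm : Nat.card G - Nat.card A using Nat.strong_induction_on generalizing A with
  | _ m ih =>
  intro hA hAH g hg
  have ih' : ∀ B : Subgroup G, Nat.card A < Nat.card B → IsPGroup p B → B ≤ H →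
      ∀ g, (∀ x ∈ B, g * x * g⁻¹ ∈ H) → Fus H B g := fun B hB =>
    ih _ (by have := B.card_le_card_group; omega) B rfl
  obtain ⟨P, hP⟩ := h.exists_sylow_le hπ
  have hPH := IsSylowIn.of_sylow P hP
  -- a `p`-subgroup of `H` of the order of `A` is Sylow or grows in its normalizer
  by_cases hS : Nat.card P ≤ Nat.card A
  · obtain ⟨Q, rfl⟩ := IsSylowIn.top_iff.mp ((IsSylowIn.sylow_top P).of_card_le hA le_top hS)
    exact h.fus_sylow Q hAH hg
  have grow : ∀ B : Subgroup G, IsPGroup p B → B ≤ H → Nat.card B = Nat.card A →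
      ∃ B' : Subgroup G, B < B' ∧ B' ≤ H ∧ B' ≤ normalizer (B : Set G) ∧ IsPGroup p B' := by
    intro B hB hBH hc
    obtain ⟨S, hBS, hS'⟩ := IsSylowIn.exists_ge hB hBH
    refine ⟨_, lt_inf_normalizer_of_isPGroup hS'.isPGroup (hBS.lt_of_ne ?_),
      inf_le_left.trans hS'.le, inf_le_right, hS'.isPGroup.to_le inf_le_left⟩
    rintro rfl
    exact hS (by rw [← hc, hS'.card_eq hPH])
  obtain ⟨A1, h11, h12, h13, h14⟩ := grow A hA hAH rfl
  obtain ⟨A2, h21, h22, h23, h24⟩ := grow (A.map (MulAut.conj g).toMonoidHom) (hA.map _)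
    (by rintro _ ⟨x, hx, rfl⟩; exact hg x hx) (card_map_conj g A)
  obtain ⟨T, hT1, hT⟩ := IsSylowIn.exists_ge h14 h13
  obtain ⟨n, hn, hnT⟩ := hT.exists_conj_le (h24.map (MulAut.conj g⁻¹).toMonoidHom) (by
    refine (map_mono h23).trans_eq ?_
    rw [← normalizer_map_conj, map_conj_inv_map_conj])
  obtain ⟨y, hy⟩ := h.conj T (isPiSubgroup_mono (isPGroup_iff_isPiSubgroup.mp hT.isPGroup)
    (by simpa using hπ))
  obtain ⟨k1, hk1, e1⟩ := ih' A1 (card_lt_card_of_lt h11) h14 h12 y fun x hx => hy x (hT1 hx)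
  obtain ⟨k2, hk2, e2⟩ := ih' A2 (card_map_conj g A ▸ card_lt_card_of_lt h21) h24 h22
    (y * n * g⁻¹) fun x hx => by
      have := hy _ (hnT (conj_mem_map_conj (g := n) (conj_mem_map_conj (g := g⁻¹) hx)))
      rwa [show y * (n * (g⁻¹ * x * g⁻¹⁻¹) * n⁻¹) * y⁻¹ = y * n * g⁻¹ * x * (y * n * g⁻¹)⁻¹ by
        group] at this
  have hT' := hT.map_conj y
  rw [← normalizer_map_conj] at hT'
  obtain ⟨k3, hk3, e3⟩ := h.fus_normalizer (map_conj_lt_map_conj y (h11.trans_le hT1))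
    (by rintro _ ⟨x, hx, rfl⟩; exact hy x hx) hT'
    (fun B hB hBT => ih' B (card_map_conj y A ▸ card_lt_card_of_lt hB) (hT'.isPGroup.to_le hBT)
      (hBT.trans (by rintro _ ⟨x, hx, rfl⟩; exact hy x hx)))
    (n := y * n * y⁻¹) (by rw [normalizer_map_conj]; exact conj_mem_map_conj hn)
  refine ⟨k2⁻¹ * k3 * k1, mul_mem (mul_mem (inv_mem hk2) hk3) hk1, fun a ha => ?_⟩
  calc g * a * g⁻¹ = k2⁻¹ * (k2 * (g * a * g⁻¹) * k2⁻¹) * k2 := by group
    _ = k2⁻¹ * (y * n * y⁻¹ * (y * a * y⁻¹) * (y * n * y⁻¹)⁻¹) * k2 := by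
      rw [← e2 _ (h21.le (conj_mem_map_conj ha))]; group
    _ = _ := by rw [e3 _ (conj_mem_map_conj ha), e1 a (h11.le ha)]; group

omit [Finite G] in
theorem hom_subgroup (K : Subgroup G) (X : Subgroup K) (hX : IsPiSubgroup π X) (g : K)
    (hg : g ∈ normalizer (X : Set K)) (ho : IsPiNum πᶜ (orderOf g)) :
    g ∈ centralizer (X : Set K) := by
  have := h.hom (X.map K.subtype) (isPiSubgroup_map hX _) g
    (le_normalizer_map _ ⟨g, hg, rfl⟩) (by rwa [orderOf_coe])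
  exact mem_centralizer_iff.mpr fun x hx =>
    Subtype.ext (mem_centralizer_iff.mp this x ⟨x, hx, rfl⟩)

theorem cent {u : G} (hu : u ∈ H)
    (hf : ∀ z, z * u * z⁻¹ ∈ H → ∃ k ∈ H, z * u * z⁻¹ = k * u * k⁻¹) :
    Hyp π (H.subgroupOf (centralizer {u})) := by
  refine ⟨isPiSubgroup_subgroupOf h.pi _, fun X hX => ?_, h.hom_subgroup _⟩
  obtain ⟨z, hz⟩ := h.conj (X.map (Subgroup.subtype _) ⊔ zpowers u) (isPiSubgroup_sup
    ((map_subtype_le _).trans (by
      rw [← centralizer_closure, ← zpowers_eq_closure]; exact centralizer_le_normalizer _))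
    (isPiSubgroup_map hX _) (isPiSubgroup_of_le h.pi (zpowers_le.mpr hu)))
  obtain ⟨k, hk, e⟩ := hf z (hz u (mem_sup_right (mem_zpowers u)))
  refine ⟨⟨k⁻¹ * z, mem_centralizer_singleton_iff.mpr ?_⟩, fun x hx => ?_⟩
  · rw [← mul_inv_eq_iff_eq_mul, show k⁻¹ * z * u * (k⁻¹ * z)⁻¹ = k⁻¹ * (z * u * z⁻¹) * k by group,
      e]
    group
  · have := mul_mem (mul_mem (inv_mem hk) (hz x (mem_sup_left ⟨x, hx, rfl⟩))) hk
    rw [mem_subgroupOf]
    convert this using 1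
    simp [mul_assoc]

theorem normal {N : Subgroup G} [hn : N.Normal] (hN : ∀ x, IsPiNum πᶜ (orderOf x) → x ∈ N) :
    Hyp π (H.subgroupOf N) := by
  refine ⟨isPiSubgroup_subgroupOf h.pi _, fun X hX => ?_, h.hom_subgroup _⟩
  obtain ⟨z, hz⟩ := h.conj _ (isPiSubgroup_map hX N.subtype)
  obtain ⟨n, hn, y, hy, e⟩ := h.exists_mul hN z⁻¹
  refine ⟨⟨n⁻¹, inv_mem hn⟩, fun x hx => ?_⟩
  have := mul_mem (mul_mem hy (hz x ⟨x, hx, rfl⟩)) (inv_mem hy)
  rw [mem_subgroupOf]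
  convert this using 1
  rw [← inv_inv z, ← e]
  simp [mul_assoc]

end Hyp

theorem Hyp.fus_elem.{u} {π : Set ℕ} (G : Type u) [Group G] [Finite G] :
    ∀ H : Subgroup G, Hyp π H → ∀ x ∈ H, ∀ g, g * x * g⁻¹ ∈ H →
      ∃ k ∈ H, g * x * g⁻¹ = k * x * k⁻¹ := by
  refine card_induction (P := fun X _ _ => ∀ H : Subgroup X, Hyp π H → ∀ x ∈ H, ∀ g,
    g * x * g⁻¹ ∈ H → ∃ k ∈ H, g * x * g⁻¹ = k * x * k⁻¹) ?_ G
  intro X _ _ ih H h x hx g hg
  by_cases hz : x ∈ center X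
  · exact ⟨1, one_mem _, by rw [mem_center_iff.mp hz]; simp⟩
  obtain ⟨u, hu, p, j, hp, ho, huz⟩ : ∃ u ∈ zpowers x, ∃ p j : ℕ, p.Prime ∧ orderOf u = p ^ j ∧
      u ∉ center X := by
    by_contra hc
    push Not at hc
    exact hz (mem_of_forall_primePow_mem hc)
  haveI := Fact.mk hp
  have huH := zpowers_le.mpr hx hu
  have hπ : p ∈ π := h.pi p hp ((dvd_pow_self p (by
    rintro rfl
    exact huz (orderOf_eq_one_iff.mp ho ▸ one_mem _))).trans (ho ▸ H.orderOf_dvd_natCard huH))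
  have hf : ∀ z, z * u * z⁻¹ ∈ H → ∃ k ∈ H, z * u * z⁻¹ = k * u * k⁻¹ := fun z hz => by
    obtain ⟨k, hk, e⟩ := h.fus hπ (zpowers u) (isPGroup_zpowers_iff.mpr ⟨j, ho⟩)
      (zpowers_le.mpr huH) z (by rintro _ ⟨i, rfl⟩; rw [← conj_zpow]; exact zpow_mem hz i)
    exact ⟨k, hk, e u (mem_zpowers u)⟩
  obtain ⟨k, hk, e⟩ := hf g (by obtain ⟨i, rfl⟩ := hu; rw [← conj_zpow]; exact zpow_mem hg i)
  obtain ⟨k', hk', e'⟩ := ih (centralizer {u})
    (card_lt_of_ne_top fun e => huz (centralizer_eq_top_iff_subset.mp e rfl)) _ (h.cent huH hf)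
    ⟨x, mem_centralizer_singleton_iff.mpr (commute_of_mem_zpowers (mem_zpowers x) hu)⟩ hx
    ⟨k⁻¹ * g, mem_centralizer_singleton_iff.mpr (by
      rw [← mul_inv_eq_iff_eq_mul,
        show k⁻¹ * g * u * (k⁻¹ * g)⁻¹ = k⁻¹ * (g * u * g⁻¹) * k by group, e]
      group)⟩ (by
      have := mul_mem (mul_mem (inv_mem hk) hg) hk
      rw [mem_subgroupOf]
      convert this using 1
      simp [mul_assoc])
  refine ⟨k * k', mul_mem hk hk', ?_⟩
  have e'' : k⁻¹ * g * x * (k⁻¹ * g)⁻¹ = k' * x * (k' : X)⁻¹ := congrArg Subtype.val e'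
  calc g * x * g⁻¹ = k * (k⁻¹ * g * x * (k⁻¹ * g)⁻¹) * k⁻¹ := by group
    _ = _ := by rw [e'']; group

/-- The Dade isometry extends the irreducible characters of `L` trivial outside `A`. -/
theorem exists_normal_of_dade [Fintype G] {A : Set G} {L : Subgroup G} {R : G → Subgroup G}
    (h : DadeHypothesis A L R) {χ : G → ℂ} (hχ : IsIrr L χ) (h1 : χ ≠ cf1 L)
    (hA : ∀ x ∈ L, x ∉ A → χ x = χ 1) :
    ∃ N : Subgroup G, N.Normal ∧ N ≠ ⊤ ∧ ∀ g, g ∉ dadeSupp A R → g ∈ N := by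
  obtain ⟨n, hn, e⟩ := hχ.exists_nat_one
  have hα : χ - (n : ℂ) • cf1 L ∈ ZIrr L :=
    sub_mem hχ.mem_ZIrr (by rw [Nat.cast_smul_eq_nsmul]; exact nsmul_mem cf1_mem_ZIrr n)
  have h0 : ∀ x, x ∉ A → (χ - (n : ℂ) • cf1 L) x = 0 := fun x hx => by
    by_cases hxL : x ∈ L
    · simp [cf1_apply hxL, hA x hxL hx, e]
    · exact CF_zero (ZIrr_mem_CF hα) hxL
  have hα' : χ - (n : ℂ) • cf1 L ∈ CFon L A := ⟨ZIrr_mem_CF hα, h0⟩
  have h2 := hχ.cfdot_ne (isIrr_cf1 L) h1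
  have h3 := cfdot_Dade_cf1 h hα'
  have h4 := Dade_isometry h hα' hα'
  rw [cfdot_sub_left, cfdot_smul_left, h2, cfdot_cf1] at h3
  have h5 := congrArg (starRingEnd ℂ) h3
  rw [cfdot_conj] at h5
  simp only [cfdot_sub_left, cfdot_sub_right, cfdot_smul_left, cfdot_smul_right, h2,
    cfdot_symm_zero h2, cfdot_cf1, hχ.cfdot_self] at h4
  set ψ := Dade A R (χ - (n : ℂ) • cf1 L) + (n : ℂ) • cf1 ⊤ with hψ
  have hv : ∀ g, g ∉ dadeSupp A R → ψ g = n := fun g hg => by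
    simp [hψ, Dade_apply_of_notMem hg, cf1_top]
  have hv1 := hv 1 (one_notMem_dadeSupp h)
  have hi : IsIrr ⊤ ψ := isIrr_of_cfnorm (add_mem (Dade_vchar h hα h0)
    (by rw [Nat.cast_smul_eq_nsmul]; exact nsmul_mem cf1_mem_ZIrr n)) (cfnorm_eq_one_iff.mpr (by
      simp only [hψ, cfdot_add_left, cfdot_add_right, cfdot_smul_left, cfdot_smul_right, h3, h4, h5,
        cfdot_cf1]
      simp)) (by rw [hv1]; simp)
  refine ⟨cfker ⊤ ψ, normal_of_le_normalizer_top (cfker_normal hi.mem_CF), fun e' => ?_,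
    fun g hg => hi.isChar.mem_cfker.mpr ⟨mem_top g, by rw [hv g hg, hv1]⟩⟩
  have h6 : cfdot ⊤ ψ (cf1 ⊤) = 0 := by
    rw [hψ, cfdot_add_left, cfdot_smul_left, h3, cfdot_cf1]; ring
  have h7 : ψ = (n : ℂ) • cf1 ⊤ := funext fun g => by
    rw [cfker_apply (show g ∈ cfker ⊤ ψ by rw [e']; trivial), hv1]; simp [cf1_top]
  rw [h7, cfdot_smul_left, cfdot_cf1, mul_one, Nat.cast_eq_zero] at h6
  omega

theorem exists_irr_le_cfker [Fintype G] {N L : Subgroup G} (hN : N < L)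
    (hn : L ≤ normalizer (N : Set G)) : ∃ χ, IsIrr L χ ∧ χ ≠ cf1 L ∧ N ≤ cfker L χ := by
  classical
  by_contra hc
  push Not at hc
  obtain ⟨b, hb, hbN⟩ := SetLike.exists_of_lt hN
  have := sum_irr_ker_conj_mul_eq_zero hN.le hn (b := b) (one_mem L) (by simpa using fun _ _ => hbN)
  rw [Finset.sum_eq_single (1 : Irr L)] at this
  · change (starRingEnd ℂ) (cf1 L 1) * cf1 L b = 0 at this
    simp [cf1_apply hb, cf1_apply (one_mem L)] at this
  · intro χ hχ h1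
    exact absurd (Finset.mem_filter.mp hχ).2 (hc χ χ.2 fun e => h1 (Irr.ext e))
  · intro h1
    refine absurd (Finset.mem_filter.mpr ⟨Finset.mem_univ _, ?_⟩) h1
    change N ≤ cfker L (cf1 L)
    rw [cfker_cf1]; exact hN.le

/-- A `π`-homogeneous `D_π`-group is `π'`-closed. -/
theorem Hyp.closed.{u} {π : Set ℕ} (G : Type u) [Group G] [Finite G] :
    ∀ H : Subgroup G, Hyp π H → ∃ K : Subgroup G, ∀ x, x ∈ K ↔ IsPiNum πᶜ (orderOf x) := by
  refine card_induction (P := fun X _ _ => ∀ H : Subgroup X, Hyp π H →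
    ∃ K : Subgroup X, ∀ x, x ∈ K ↔ IsPiNum πᶜ (orderOf x)) ?_ G
  intro X _ _ ih H h
  have hidx : IsPiNum πᶜ H.index := fun p hp hd hπ => by
    haveI := Fact.mk hp
    obtain ⟨P, hP⟩ := h.exists_sylow_le hπ
    exact P.not_dvd_index (hd.trans (index_dvd_of_le hP))
  by_cases hz : H ≤ center X
  · haveI : H.Normal := ⟨fun x hx g => by rwa [mem_center_iff.mp (hz hx) g, mul_inv_cancel_right]⟩
    obtain ⟨K, hK⟩ := exists_right_complement'_of_coprime (IsPiNum.coprime_compl h.pi hidx)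
    haveI : K.Normal := normal_of_le_normalizer_top (hK.sup_eq_top ▸ sup_le
      (hz.trans (center_le_normalizer _)) le_normalizer)
    refine ⟨K, fun x => ⟨fun hx => hidx.of_dvd ?_, fun hx => mem_of_coprime_index ?_⟩⟩
    · rw [hK.symm.index_eq_card]; exact K.orderOf_dvd_natCard hx
    · rw [hK.index_eq_card]; exact (IsPiNum.coprime_compl h.pi hx).symm
  letI := Fintype.ofFinite X
  have hlt : ∀ a, a ∉ center X → Nat.card (centralizer ({a} : Set X)) < Nat.card X :=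
    fun a ha => card_lt_of_ne_top fun e => ha (centralizer_eq_top_iff_subset.mp e rfl)
  have hc : ∀ a ∈ H, Hyp π (H.subgroupOf (centralizer {a})) := fun a ha =>
    h.cent ha (Hyp.fus_elem X H h a ha)
  have hR : ∀ a : X, ∃ R : Subgroup X, a ∈ H → a ∉ center X →
      ∀ x, x ∈ R ↔ x ∈ centralizer {a} ∧ IsPiNum πᶜ (orderOf x) := fun a => by
    by_cases ha : a ∈ H ∧ a ∉ center X
    · obtain ⟨K, hK⟩ := ih _ (hlt a ha.2) _ (hc a ha.1)
      refine ⟨K.map (Subgroup.subtype _), fun _ _ x => ⟨?_, fun hx => ⟨⟨x, hx.1⟩, ?_, rfl⟩⟩⟩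
      · rintro ⟨y, hy, rfl⟩
        exact ⟨y.2, by simpa using (hK y).mp hy⟩
      · exact (hK _).mpr (by simpa using hx.2)
    · exact ⟨⊥, fun h1 h2 => absurd ⟨h1, h2⟩ ha⟩
  choose R hR using hR
  have hRπ : ∀ a ∈ H, a ∉ center X → IsPiSubgroup πᶜ (R a) := fun a ha ha' =>
    isPiSubgroup_iff_orderOf.mpr fun x hx => ((hR a ha ha' x).mp hx).2
  have hRc : ∀ a ∈ H, a ∉ center X → ∀ c ∈ centralizer ({a} : Set X), ∀ u ∈ R a,
      c * u * c⁻¹ ∈ R a := fun a ha ha' c hc u hu => by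
    rw [hR a ha ha'] at hu ⊢
    exact ⟨mul_mem (mul_mem hc hu.1) (inv_mem hc), by rw [H5.orderOf_conj']; exact hu.2⟩
  have hD : DadeHypothesis {a | a ∈ H ∧ a ∉ center X} H R :=
    { one_not_mem := fun e => e.2 (one_mem _)
      subset := fun a ha => ha.1
      conj_mem := fun x hx a ha => ⟨mul_mem (mul_mem hx ha.1) (inv_mem hx), fun e => ha.2 (by
        simpa [mul_assoc] using (inferInstance : (center X).Normal).conj_mem _ e x⁻¹)⟩
      fusion := fun a ha g hg => by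
        obtain ⟨k, hk, e⟩ := Hyp.fus_elem X H h a ha.1 g hg.1
        exact ⟨k, hk, e.symm⟩
      le_centralizer := fun a ha x hx => ((hR a ha.1 ha.2 x).mp hx).1
      conj_mem_H := fun a ha => hRc a ha.1 ha.2
      inf_eq_bot := fun a ha => disjoint_of_isPiSubgroup disjoint_compl_left (hRπ a ha.1 ha.2)
        (isPiSubgroup_of_le h.pi inf_le_left)
      sup_eq := fun a ha => le_antisymm
        (sup_le (fun x hx => ((hR a ha.1 ha.2 x).mp hx).1) inf_le_right) fun x hx => by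
          haveI : ((R a).subgroupOf (centralizer {a})).Normal :=
            ⟨fun u hu c => hRc a ha.1 ha.2 c c.2 u hu⟩
          obtain ⟨n, hn, y, hy, e⟩ := (hc a ha.1).exists_mul
            (N := (R a).subgroupOf (centralizer {a}))
            (fun u hu => (hR a ha.1 ha.2 u).mpr ⟨u.2, by simpa using hu⟩) ⟨x, hx⟩
          rw [← show (n : X) * y = x from congrArg Subtype.val e]
          exact mul_mem (mem_sup_left hn) (mem_sup_right ⟨hy, y.2⟩)
      coprime := fun a ha b _ => coprime_card_of_isPiSubgroup disjoint_compl_left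
        (hRπ a ha.1 ha.2) (isPiSubgroup_of_le h.pi inf_le_left) }
  obtain ⟨χ, hχ, h1, hk⟩ := exists_irr_le_cfker (N := H ⊓ center X) (L := H)
    (inf_lt_left.mpr hz) ((le_inf le_normalizer le_normalizer_of_normal).trans
      (inf_normalizer_le_normalizer_inf))
  obtain ⟨N, hN, hne, hmem⟩ := exists_normal_of_dade hD hχ h1 fun x hx hxA =>
    cfker_apply (hk ⟨hx, by by_contra e; exact hxA ⟨hx, e⟩⟩)
  have hN' : ∀ x, IsPiNum πᶜ (orderOf x) → x ∈ N := fun x hx => hmem x (by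
    rintro ⟨a, ha, r, hr, y, rfl⟩
    rw [H5.orderOf_conj'] at hx
    have h2 := (hR a ha.1 ha.2 r).mp hr
    have h3 : IsPiNum π (orderOf a) := IsPiNum.of_dvd h.pi (H.orderOf_dvd_natCard ha.1)
    have h4 := mem_zpowers_mul_of_coprime
      (mem_centralizer_singleton_iff.mp h2.1).symm (h3.coprime_compl h2.2)
    exact ha.2 (orderOf_eq_one_iff.mp
      (h3.eq_one (hx.of_dvd (orderOf_dvd_of_mem_zpowers h4))) ▸ one_mem _))
  obtain ⟨K, hK⟩ := ih N (card_lt_of_ne_top hne) _ (h.normal hN')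
  refine ⟨K.map N.subtype, fun x => ⟨?_, fun hx => ⟨⟨x, hN' x hx⟩, ?_, rfl⟩⟩⟩
  · rintro ⟨y, hy, rfl⟩
    simpa using (hK y).mp hy
  · exact (hK _).mpr (by simpa using hx)

end CfsgLib.PiHom
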