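import Cfsg.Agent.Lib.H8Inv
import Cfsg.Agent.Lib.CommCalc
import Cfsg.Agent.Lib.H5Involutions

/-! Sylow `2`-subgroups of class at most two under operator groups of odd order:
the centre is weakly closed when all invariant normal subgroups have small normalizers. -/

set_option autoImplicit false

namespace CfsgLib.H8Class2

open Subgroup Cfsg CfsgLib.CopAut CfsgLib.H5 CfsgLib.CommCalc
open scoped commutatorElement

variable {G : Type*} [Group G]

/-- class at most two -/
def Cl2 (S : Subgroup G) : Prop := ∀ a ∈ S, ∀ b ∈ S, ⁅a, b⁆ ∈ centerOf S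

theorem commute_of_mem_centerOf {S : Subgroup G} {z s : G} (hz : z ∈ centerOf S) (hs : s ∈ S) :
    Commute s z := hz.2 s hs

theorem mem_centerOf_of_commute {S : Subgroup G} {z : G} (hz : z ∈ S)
    (h : ∀ s ∈ S, Commute z s) : z ∈ centerOf S := ⟨hz, fun s hs => (h s hs).symm.eq⟩

theorem Cl2.mul_left {S : Subgroup G} (h : Cl2 S) {a b s : G} (ha : a ∈ S) (hb : b ∈ S)
    (hs : s ∈ S) : ⁅a * b, s⁆ = ⁅a, s⁆ * ⁅b, s⁆ := by
  rw [comm_mul_left_of_commute (commute_of_mem_centerOf (h b hb s hs) ha)]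
  exact (commute_of_mem_centerOf (h a ha s hs) (h b hb s hs).1).eq

theorem Cl2.le_normalizer {S X : Subgroup G} (h : Cl2 S) (hZ : centerOf S ≤ X) (hX : X ≤ S) :
    S ≤ normalizer (X : Set G) := by
  rw [le_normalizer_iff]
  intro g hg d hd
  simpa [commutatorElement_def] using mul_mem (hZ (h g hg d (hX hd))) hd

theorem centerOf_map_conj (S : Subgroup G) (h : G) :
    centerOf (S.map (MulAut.conj h).toMonoidHom) = (centerOf S).map (MulAut.conj h).toMonoidHom :=
  centerOf_map _ _ (by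
    rw [(MonoidHom.ker_eq_bot_iff _).mpr (MulAut.conj h).injective]; exact disjoint_bot_right)

theorem conj_comm (h a b : G) : ⁅h * a * h⁻¹, h * b * h⁻¹⁆ = h * ⁅a, b⁆ * h⁻¹ := by
  simp only [commutatorElement_def]; group

theorem Cl2.map_conj {S : Subgroup G} (hS : Cl2 S) (h : G) :
    Cl2 (S.map (MulAut.conj h).toMonoidHom) := by
  rintro _ ⟨a, ha, rfl⟩ _ ⟨b, hb, rfl⟩
  rw [centerOf_map_conj]
  exact ⟨⁅a, b⁆, hS a ha b hb, by simp [conj_comm]⟩

/-- the critical configuration -/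
structure Cfg (S T : Subgroup G) (h : G) : Prop where
  cl : Cl2 S
  hT : T = S.map (MulAut.conj h).toMonoidHom
  hh : h ∈ S ⊔ T
  ZT : centerOf S ≤ T
  ZS : centerOf T ≤ S
  two : ∀ s ∈ S, ∀ t ∈ S, s ∉ T → t ∉ T → s * t ∈ T
  cent : ∀ y ∈ S, (∀ u ∈ centerOf T, Commute u y) → y ∈ T
  norm : ¬ T ≤ normalizer (centerOf S : Set G)

theorem gen_of_two {S T : Subgroup G} (two : ∀ s ∈ S, ∀ t ∈ S, s ∉ T → t ∉ T → s * t ∈ T)
    {y u : G} (hy : y ∈ S) (hyT : y ∉ T) (h1 : ∀ d ∈ S, d ∈ T → Commute u d) (h2 : Commute u y) :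
    ∀ s ∈ S, Commute u s := by
  intro s hs
  by_cases hsT : s ∈ T
  · exact h1 s hs hsT
  · have := (h1 _ (mul_mem hs hy) (two s hs y hy hsT hyT)).mul_right h2.inv_right
    simpa using this

theorem Cfg.clT {S T : Subgroup G} {h : G} (c : Cfg S T h) : Cl2 T := c.hT ▸ c.cl.map_conj h

theorem Cfg.mem_normalizer {S T X : Subgroup G} {h : G} (c : Cfg S T h) (h1 : centerOf S ≤ X)
    (h2 : centerOf T ≤ X) (h3 : X ≤ S) (h4 : X ≤ T) : h ∈ normalizer (X : Set G) :=
  sup_le (c.cl.le_normalizer h1 h3) (c.clT.le_normalizer h2 h4) c.hh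

theorem Cfg.mem_normalizer_inf {S T : Subgroup G} {h : G} (c : Cfg S T h) :
    h ∈ normalizer ((S ⊓ T : Subgroup G) : Set G) :=
  c.mem_normalizer (le_inf (centerOf_le _) c.ZT) (le_inf c.ZS (centerOf_le _)) inf_le_left
    inf_le_right

theorem Cfg.mem_T {S T : Subgroup G} {h : G} (c : Cfg S T h) {x : G} :
    x ∈ T ↔ h⁻¹ * x * h ∈ S := by
  conv_lhs => rw [c.hT]
  exact mem_map_conj_iff

theorem Cfg.mem_ZT {S T : Subgroup G} {h : G} (c : Cfg S T h) {x : G} :
    x ∈ centerOf T ↔ h⁻¹ * x * h ∈ centerOf S := by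
  conv_lhs => rw [c.hT, centerOf_map_conj]
  exact mem_map_conj_iff

theorem Cfg.twoT {S T : Subgroup G} {h : G} (c : Cfg S T h) :
    ∀ s ∈ T, ∀ t ∈ T, s ∉ S → t ∉ S → s * t ∈ S := by
  have key : ∀ s ∈ T, h⁻¹ * s * h ∈ T → s ∈ S := fun s hs h1 => by
    have := conj_mem_of_mem_normalizer c.mem_normalizer_inf
      (show h⁻¹ * s * h ∈ S ⊓ T from ⟨c.mem_T.mp hs, h1⟩)
    simpa [mul_assoc] using this.1
  intro s hs t ht hsS htS
  refine key _ (mul_mem hs ht) ?_
  have := c.two _ (c.mem_T.mp hs) _ (c.mem_T.mp ht) (fun h1 => hsS (key s hs h1))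
    (fun h1 => htS (key t ht h1))
  simpa [mul_assoc] using this

theorem Cfg.commute_of_central {S T : Subgroup G} {h : G} (c : Cfg S T h) {z : G}
    (h1 : z ∈ centerOf S) (h2 : z ∈ centerOf T) : h * z * h⁻¹ = z := by
  have : S ⊔ T ≤ centralizer {z} := sup_le
    (fun s hs => mem_centralizer_singleton_iff.mpr (h1.2 s hs))
    (fun s hs => mem_centralizer_singleton_iff.mpr (h2.2 s hs))
  rw [mem_centralizer_singleton_iff.mp (this c.hh)]; simp

theorem Cfg.false {S T : Subgroup G} {h : G} (c : Cfg S T h) (α : MulAut G)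
    (hS : ∀ s, α s ∈ S ↔ s ∈ S) (hodd : Odd (orderOf α)) {y0 : G} (hy0 : y0 ∈ centerOf T)
    (hy0T : α y0 ∉ T) : False := by
  have cl := c.cl
  have clT := c.clT
  have hS' : ∀ s, s ∈ S → α⁻¹ s ∈ S := fun s hs => (hS _).mp (by simpa using hs)
  have hαc : ∀ {u v : G}, Commute u v → Commute (α u) (α v) := fun h => h.map α
  have hy0S : α y0 ∈ S := (hS _).mpr (c.ZS hy0)
  -- elements of `Z(T)` inside `T^α` are central in `S`
  have hb : ∀ u ∈ centerOf T, α⁻¹ u ∈ T → u ∈ centerOf S := by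
    intro u hu huT
    refine mem_centerOf_of_commute (c.ZS hu) (gen_of_two c.two hy0S hy0T
      (fun d _ hd => (commute_of_mem_centerOf hu hd).symm) ?_)
    simpa using hαc (commute_of_mem_centerOf hy0 huT)
  have hb' : ∀ u ∈ centerOf T, ∀ v ∈ centerOf T, u ∉ centerOf S → v ∉ centerOf S →
      u * v ∈ centerOf S := by
    intro u hu v hv huS hvS
    refine hb _ (mul_mem hu hv) ?_
    rw [map_mul]
    exact c.two _ (hS' _ (c.ZS hu)) _ (hS' _ (c.ZS hv)) (fun h1 => huS (hb u hu h1))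
      (fun h1 => hvS (hb v hv h1))
  obtain ⟨x0, hx0, hx0y⟩ : ∃ x0 ∈ centerOf T, ¬ Commute x0 (α y0) := by
    by_contra h1
    push Not at h1
    exact hy0T (c.cent _ hy0S h1)
  have hx0Z : x0 ∉ centerOf S := fun h1 => hx0y (commute_of_mem_centerOf h1 hy0S).symm
  obtain ⟨k, hk⟩ : ∃ k, k = ⁅x0, α y0⁆ := ⟨_, rfl⟩
  have hkZ : k ∈ centerOf S := hk ▸ cl _ (c.ZS hx0) _ hy0S
  have hk1 : k ≠ 1 := fun h1 => hx0y (commutatorElement_eq_one_iff_commute.mp (hk ▸ h1))
  have hZ1 : ∀ {z s : G}, z ∈ centerOf S → s ∈ S → ⁅z, s⁆ = 1 := fun hz hs =>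
    commutatorElement_eq_one_iff_commute.mpr (commute_of_mem_centerOf hz hs).symm
  have hkk : k * k = 1 := by
    rw [hk, ← cl.mul_left (c.ZS hx0) (c.ZS hx0) hy0S]
    exact hZ1 (hb' _ hx0 _ hx0 hx0Z hx0Z) hy0S
  have hkinv : k⁻¹ = k := inv_eq_of_mul_eq_one_right hkk
  -- the commutators `[u, s]`
  have hU1 : ∀ u ∈ centerOf T, u ∉ centerOf S → ∀ s ∈ S, s ∉ T → ⁅u, s⁆ = k := by
    intro u hu huZ s hs hsT
    have h1 : ⁅u, α y0⁆ = k := by
      have h2 := hZ1 (hb' _ hu _ hx0 huZ hx0Z) hy0S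
      rw [cl.mul_left (c.ZS hu) (c.ZS hx0) hy0S, ← hk] at h2
      rw [eq_inv_of_mul_eq_one_left h2, hkinv]
    have h3 : ⁅s * α y0, u⁆ = 1 := commutatorElement_eq_one_iff_commute.mpr
      (commute_of_mem_centerOf hu (c.two _ hs _ hy0S hsT hy0T))
    rw [cl.mul_left hs hy0S (c.ZS hu), ← commutatorElement_inv u, ← commutatorElement_inv u,
      h1, hkinv] at h3
    have := eq_inv_of_mul_eq_one_left h3
    rw [inv_inj] at this
    exact this
  have hU2 : ∀ u ∈ centerOf S ⊔ centerOf T, ∀ s ∈ S, ⁅u, s⁆ = 1 ∨ ⁅u, s⁆ = k := by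
    intro u hu s hs
    obtain ⟨z, hz, v, hv, rfl⟩ := (mem_sup_iff_of_le_normalizer
      (c.ZT.trans ((le_centralizer_centerOf T).trans (centralizer_le_normalizer _)))).mp hu
    rw [cl.mul_left hz.1 (c.ZS hv) hs, hZ1 hz hs, one_mul]
    by_cases h1 : v ∈ centerOf S
    · exact Or.inl (hZ1 h1 hs)
    by_cases h2 : s ∈ T
    · exact Or.inl (commutatorElement_eq_one_iff_commute.mpr (commute_of_mem_centerOf hv h2).symm)
    · exact Or.inr (hU1 v hv h1 s hs h2)
  obtain ⟨x, hx⟩ : ∃ x, x = h * k * h⁻¹ := ⟨_, rfl⟩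
  have hU3 : ∀ z ∈ centerOf S, ∀ t ∈ T, ⁅z, t⁆ = 1 ∨ ⁅z, t⁆ = x := by
    intro z hz t ht
    have h1 := c.mem_normalizer (X := centerOf S ⊔ centerOf T) le_sup_left le_sup_right
      (sup_le (centerOf_le _) c.ZS) (sup_le c.ZT (centerOf_le _))
    have h2 := hU2 _ (conj_mem_of_mem_normalizer' h1 (mem_sup_left hz)) _ (c.mem_T.mp ht)
    have h3 : ⁅z, t⁆ = h * ⁅h⁻¹ * z * h, h⁻¹ * t * h⁆ * h⁻¹ := by
      simp only [commutatorElement_def]; group
    rw [h3, hx]
    rcases h2 with h2 | h2 <;> rw [h2] <;> simp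
  have hkT : k ∉ centerOf T := by
    intro h1
    refine c.norm ?_
    rw [le_normalizer_iff]
    intro t ht z hz
    have h2 : ⁅z, t⁆ ∈ centerOf S := by
      rcases hU3 z hz t ht with h2 | h2 <;> rw [h2]
      · exact one_mem _
      · rw [hx, c.commute_of_central hkZ h1]; exact hkZ
    simpa [commutatorElement_def, mul_assoc] using mul_mem (inv_mem h2) hz
  have hxT : x ∈ centerOf T := c.mem_ZT.mpr (by simpa [hx, mul_assoc] using hkZ)
  have hxS : x ∈ S := c.ZS hxT
  have hxx : x * x = 1 := by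
    rw [hx]
    calc h * k * h⁻¹ * (h * k * h⁻¹) = h * (k * k) * h⁻¹ := by group
      _ = 1 := by rw [hkk]; simp
  have hxZ : x ∉ centerOf S := fun h1 => by
    have h2 := c.commute_of_central h1 hxT
    have : x = k := by
      have h3 : h * x * h⁻¹ = h * k * h⁻¹ := h2.trans hx
      simpa using h3
    exact hkT (this ▸ hxT)
  have hxα : α⁻¹ x ∉ T := fun h1 => hxZ (hb x hxT h1)
  obtain ⟨y, hy⟩ : ∃ y, y = α x := ⟨_, rfl⟩
  have hyS : y ∈ S := hy ▸ (hS _).mpr hxS
  have h5 : ⁅y, x⁆ = α k := by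
    have := congrArg α (hU1 x hxT hxZ _ (hS' _ hxS) hxα)
    rw [map_commutatorElement] at this
    simpa [hy] using this
  have hyT : y ∉ T := fun h1 => by
    rw [commutatorElement_eq_one_iff_commute.mpr (commute_of_mem_centerOf hxT h1)] at h5
    exact hk1 (by simpa using h5.symm)
  have hxy : ⁅x, y⁆ = k := hU1 x hxT hxZ y hyS hyT
  have hyx : ⁅y, x⁆ = k := by rw [← commutatorElement_inv, hxy, hkinv]
  have hαk : α k = k := h5.symm.trans hyx
  -- the subgroup `E`
  let E : G → Prop := fun e => e ∈ S ∧ ∀ s ∈ S, ⁅e, s⁆ = 1 ∨ ⁅e, s⁆ = k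
  have hEα : ∀ e, E e → E (α e) := by
    intro e he
    refine ⟨(hS _).mpr he.1, fun s hs => ?_⟩
    have h1 : ⁅α e, s⁆ = α ⁅e, α⁻¹ s⁆ := by rw [map_commutatorElement]; simp
    rw [h1]
    rcases he.2 _ (hS' s hs) with h2 | h2 <;> rw [h2]
    · simp
    · exact Or.inr hαk
  have hEmul : ∀ e f, E e → E f → E (e * f) := by
    intro e f he hf
    refine ⟨mul_mem he.1 hf.1, fun s hs => ?_⟩
    rw [cl.mul_left he.1 hf.1 hs]
    rcases he.2 s hs with h1 | h1 <;> rcases hf.2 s hs with h2 | h2 <;> rw [h1, h2] <;>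
      simp [hkk]
  have hEx : E x := ⟨hxS, hU2 x (mem_sup_right hxT)⟩
  have hEy : E y := hy ▸ hEα x hEx
  obtain ⟨y', hy'⟩ : ∃ y', y' = h * y * h⁻¹ := ⟨_, rfl⟩
  have hy'T : y' ∈ T := c.mem_T.mpr (by simpa [hy', mul_assoc] using hyS)
  have hy'S : y' ∉ S := fun h1 => hyT (by
    have := conj_mem_of_mem_normalizer' c.mem_normalizer_inf
      (show y' ∈ S ⊓ T from ⟨h1, hy'T⟩)
    simpa [hy', mul_assoc] using this.2)
  have hEy' : ∀ t ∈ T, ⁅t, y'⁆ = 1 ∨ ⁅t, y'⁆ = x := by
    intro t ht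
    have h3 : ⁅t, y'⁆ = h * ⁅y, h⁻¹ * t * h⁆⁻¹ * h⁻¹ := by
      simp only [commutatorElement_def, hy']; group
    rw [h3, hx]
    rcases hEy.2 _ (c.mem_T.mp ht) with h2 | h2 <;> rw [h2] <;> simp [hkinv]
  have hky' : ⁅k, y'⁆ = x := by
    refine (hEy' k (c.ZT hkZ)).resolve_left fun h1 => hkT ?_
    exact mem_centerOf_of_commute (c.ZT hkZ) (gen_of_two c.twoT hy'T hy'S
      (fun d _ hd => (commute_of_mem_centerOf hkZ hd).symm)
      (commutatorElement_eq_one_iff_commute.mp h1))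
  have hdec : ∀ q ∈ S, q ∈ T → ∃ u ∈ centerOf S ⊔ centerOf T, Commute (q * u) y' := by
    intro q hq hqT
    rcases hEy' q hqT with h1 | h1
    · exact ⟨1, one_mem _, by simpa using commutatorElement_eq_one_iff_commute.mp h1⟩
    · refine ⟨k, mem_sup_left hkZ, commutatorElement_eq_one_iff_commute.mp ?_⟩
      rw [clT.mul_left hqT (c.ZT hkZ) hy'T, h1, hky', hxx]
  have hUc : ∀ u ∈ centerOf S ⊔ centerOf T, u ∈ S ∧ ∀ d ∈ S, d ∈ T → Commute u d := by
    intro u hu
    obtain ⟨z, hz, v, hv, rfl⟩ := (mem_sup_iff_of_le_normalizer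
      (c.ZT.trans ((le_centralizer_centerOf T).trans (centralizer_le_normalizer _)))).mp hu
    exact ⟨mul_mem hz.1 (c.ZS hv), fun d hd hd' => (commute_of_mem_centerOf hz hd).symm.mul_left
      (commute_of_mem_centerOf hv hd').symm⟩
  have hEZ : ∀ e, E e → e ∈ T → ⁅e, y⁆ = 1 → e ∈ centerOf S := by
    intro e he heT hey
    refine mem_centerOf_of_commute he.1 (gen_of_two c.two hyS hyT (fun d hd hdT => ?_)
      (commutatorElement_eq_one_iff_commute.mp hey))
    refine commutatorElement_eq_one_iff_commute.mp ((he.2 d hd).resolve_right fun h1 => ?_)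
    obtain ⟨u, hu, hu'⟩ := hdec e he.1 heT
    obtain ⟨v, hv, hv'⟩ := hdec d hd hdT
    have hvT : v ∈ T := sup_le c.ZT (centerOf_le _) hv
    have h2 : ⁅e * u, d * v⁆ = k := by
      rw [cl.mul_left he.1 (hUc u hu).1 (mul_mem hd (hUc v hv).1),
        commutatorElement_eq_one_iff_commute.mpr ((hUc u hu).2 _ (mul_mem hd (hUc v hv).1)
          (mul_mem hdT hvT)), mul_one, ← commutatorElement_inv,
        cl.mul_left hd (hUc v hv).1 he.1,
        commutatorElement_eq_one_iff_commute.mpr ((hUc v hv).2 _ he.1 heT), mul_one,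
        commutatorElement_inv, h1]
    have h3 : Commute k y' := by
      rw [← h2, commutatorElement_def]
      exact ((hu'.mul_left hv').mul_left hu'.inv_left).mul_left hv'.inv_left
    rw [commutatorElement_eq_one_iff_commute.mpr h3] at hky'
    exact hxZ (hky' ▸ one_mem _)
  obtain ⟨w, hw⟩ : ∃ w, w = α y := ⟨_, rfl⟩
  have hEw : E w := hw ▸ hEα y hEy
  have hwy : ⁅w, y⁆ = k := by
    have := congrArg α hyx
    rw [map_commutatorElement, hαk, ← hw, ← hy] at this
    exact this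
  have hww : w * w = 1 := by rw [hw, hy, ← map_mul, ← map_mul, hxx]; simp
  have hyy : y * y = 1 := by rw [hy, ← map_mul, hxx]; simp
  have hwx : w * x ∈ centerOf S := by
    by_cases hwT : w ∈ T
    · refine hEZ _ (hEmul _ _ hEw hEx) (mul_mem hwT hxT.1) ?_
      rw [cl.mul_left hEw.1 hxS hyS, hwy, hxy, hkk]
    · exfalso
      have h1 : w * y * x ∈ centerOf S := by
        refine hEZ _ (hEmul _ _ (hEmul _ _ hEw hEy) hEx)
          (mul_mem (c.two _ hEw.1 _ hyS hwT hyT) hxT.1) ?_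
        rw [cl.mul_left (mul_mem hEw.1 hyS) hxS hyS, cl.mul_left hEw.1 hyS hyS, hwy, hxy]
        simp [hkk]
      obtain ⟨e, he⟩ : ∃ e, e = w * y * x := ⟨_, rfl⟩
      rw [← he] at h1
      have hxi : x⁻¹ = x := inv_eq_of_mul_eq_one_right hxx
      have hyi : y⁻¹ = y := inv_eq_of_mul_eq_one_right hyy
      have h2 : w = e * (x * y) := by
        rw [he]
        calc w = w * y * (x * x) * y⁻¹ := by rw [hxx]; group
          _ = _ := by rw [hyi]; group
      have h3 : e * e = k := by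
        have h4 := commute_of_mem_centerOf h1 (mul_mem hxS hyS)
        have h5 : x * y * (x * y) = k := by
          rw [← hxy, commutatorElement_def, hxi, hyi]; group
        have h6 : w * w = e * e * k := by
          rw [h2, ← h5]
          calc e * (x * y) * (e * (x * y)) = e * (x * y * e) * (x * y) := by group
            _ = _ := by rw [h4.eq]; group
        rw [hww] at h6
        rw [eq_inv_of_mul_eq_one_left h6.symm, hkinv]
      refine hkT (mem_centerOf_of_commute (c.ZT hkZ) fun t ht =>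
        commutatorElement_eq_one_iff_commute.mp ?_)
      rw [← h3, clT.mul_left (c.ZT h1) (c.ZT h1) ht]
      rcases hU3 e h1 t ht with h4 | h4 <;> rw [h4]
      · simp
      · exact hxx
  have hZα : ∀ z ∈ centerOf S, α z ∈ centerOf S := fun z hz =>
    mem_centerOf_of_commute ((hS _).mpr hz.1) fun s hs => by
      simpa using hαc (commute_of_mem_centerOf hz (hS' s hs)).symm
  have hpow : ∀ n : ℕ, (α ^ (2 * n)) x * x ∈ centerOf S := by
    intro n
    induction n with
    | zero => simp [hxx]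
    | succ n ih =>
      have h1 := mul_mem (hZα _ (hZα _ ih)) hwx
      have h2 : (α ^ (2 * (n + 1))) x = α (α ((α ^ (2 * n)) x)) := by
        rw [show 2 * (n + 1) = 1 + (1 + 2 * n) by ring, pow_add, pow_add]; simp
      rw [map_mul, map_mul, ← hy, ← hw, ← h2] at h1
      have h3 : (α ^ (2 * (n + 1))) x * w * (w * x) = (α ^ (2 * (n + 1))) x * (w * w) * x := by
        group
      rw [h3, hww, mul_one] at h1
      exact h1
  obtain ⟨m, hm⟩ := hodd
  have h1 := hpow (m + 1)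
  rw [show 2 * (m + 1) = orderOf α + 1 by omega, pow_succ, pow_orderOf_eq_one, one_mul,
    ← hy] at h1
  have h2 := hZ1 h1 hyS
  rw [cl.mul_left hyS hxS hyS, hxy] at h2
  exact hk1 (by simpa using h2)

/-- two involutions modulo `D` are conjugate or commute with a common involution -/
theorem dihedral_mod [Finite G] {D : Subgroup G} {s t : G} (hs : s ∈ normalizer (D : Set G))
    (ht : t ∈ normalizer (D : Set G)) (hs2 : s * s ∈ D) (ht2 : t * t ∈ D) (hsD : s ∉ D)
    (htD : t ∉ D) :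
    (∃ g ∈ normalizer (D : Set G), s⁻¹ * (g * t * g⁻¹) ∈ D) ∨
      ∃ u ∈ normalizer (D : Set G), u ∉ D ∧ u * u ∈ D ∧ ⁅u, s⁆ ∈ D ∧ ⁅u, t⁆ ∈ D := by
  let N := normalizer (D : Set G)
  have : (D.subgroupOf N).Normal := normal_in_normalizer
  let π := QuotientGroup.mk' (D.subgroupOf N)
  have h1 : ∀ x : N, π x = 1 ↔ (x : G) ∈ D := fun x => QuotientGroup.eq_one_iff x
  have : Fact (Nat.Prime 2) := ⟨Nat.prime_two⟩
  have hs' : π ⟨s, hs⟩ ^ 2 = 1 := by rw [← map_pow, h1]; simpa [sq] using hs2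
  have ht' : π ⟨t, ht⟩ ^ 2 = 1 := by rw [← map_pow, h1]; simpa [sq] using ht2
  by_cases h2 : 2 ∣ orderOf (π ⟨s, hs⟩ * π ⟨t, ht⟩)
  · obtain ⟨u, -, hu, -, -, hsu, htu⟩ := exists_common_involution_of_even
      (orderOf_eq_prime hs' (by rwa [Ne, h1])) (orderOf_eq_prime ht' (by rwa [Ne, h1])) h2
    obtain ⟨u, rfl⟩ := QuotientGroup.mk'_surjective _ u
    refine Or.inr ⟨u, u.2, fun h3 => ?_, ?_, ?_, ?_⟩
    · rw [(h1 u).mpr h3, orderOf_one] at hu
      omega
    · have := pow_orderOf_eq_one (π u)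
      rw [hu, ← map_pow, h1] at this
      simpa [sq] using this
    · have := commutatorElement_eq_one_iff_commute.mpr hsu.symm
      rw [← map_commutatorElement, h1] at this
      exact this
    · have := commutatorElement_eq_one_iff_commute.mpr htu.symm
      rw [← map_commutatorElement, h1] at this
      exact this
  · obtain ⟨g, -, hg⟩ := exists_conj_of_odd hs' ht'
      ((Nat.Prime.coprime_iff_not_dvd Nat.prime_two).mpr h2).symm
    obtain ⟨g, rfl⟩ := QuotientGroup.mk'_surjective _ g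
    refine Or.inl ⟨g, g.2, ?_⟩
    have := (h1 ((⟨s, hs⟩ : N)⁻¹ * (g * ⟨t, ht⟩ * g⁻¹))).mp (by
      rw [map_mul, map_mul, map_mul, map_inv, map_inv, hg]; simp)
    exact this

theorem isPGroup_zpowers_of_sq_mem {D : Subgroup G} (hD : IsPGroup 2 D) {u : G}
    (hu : u * u ∈ D) : IsPGroup 2 (zpowers u) := by
  obtain ⟨k, hk⟩ := hD ⟨_, hu⟩
  rintro ⟨_, n, rfl⟩
  refine ⟨k + 1, Subtype.ext ?_⟩
  have h1 : u ^ 2 ^ (k + 1) = 1 := by
    rw [pow_succ', pow_mul, sq]; simpa using congrArg Subtype.val hk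
  change (u ^ n) ^ 2 ^ (k + 1) = 1
  rw [← zpow_natCast, ← zpow_mul, mul_comm, zpow_mul, zpow_natCast, h1, one_zpow]

theorem exists_two_subgroup [Finite G] {D R : Subgroup G} (hR : IsPGroup 2 R) (hDR : D ≤ R)
    {s u : G} (hs : s ∈ R) (hu : u ∈ normalizer (D : Set G)) (huu : u * u ∈ D)
    (hus : ⁅u, s⁆ ∈ D) : ∃ Y : Subgroup G, IsPGroup 2 Y ∧ D ≤ Y ∧ s ∈ Y ∧ u ∈ Y := by
  have : Fact (Nat.Prime 2) := ⟨Nat.prime_two⟩
  have h1 : D ⊔ zpowers s ≤ R := sup_le hDR (zpowers_le.mpr hs)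
  have h2 : u ∈ normalizer ((D ⊔ zpowers s : Subgroup G) : Set G) := by
    refine mem_normalizer_of_map_conj_eq (eq_of_le_of_card_le ?_ (card_map_conj _ _).ge)
    rw [Subgroup.map_sup, map_conj_eq_of_mem_normalizer hu, MonoidHom.map_zpowers]
    refine sup_le le_sup_left (zpowers_le.mpr ?_)
    simpa [commutatorElement_def] using
      mul_mem (mem_sup_left hus) (mem_sup_right (mem_zpowers s) : s ∈ D ⊔ zpowers s)
  exact ⟨zpowers u ⊔ (D ⊔ zpowers s), (isPGroup_zpowers_of_sq_mem (hR.to_le hDR) huu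
    ).to_sup_of_normal_right' (hR.to_le h1) (zpowers_le.mpr h2),
    le_sup_left.trans le_sup_right, mem_sup_right (mem_sup_right (mem_zpowers s)),
    mem_sup_left (mem_zpowers u)⟩

theorem exists_cfg [Finite G] (S : Sylow 2 G) (cl : Cl2 (S : Subgroup G))
    (hN : HasNormalPComplement 2 (normalizer ((S : Subgroup G) : Set G)))
    (U1 : ∀ Y : Subgroup G, IsPGroup 2 Y → Y ≤ normalizer (centerOf (S : Subgroup G) : Set G) →
      Y ≤ S)
    (U2 : ∀ y : G, IsPGroup 2 (zpowers y) →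
      (∀ z ∈ centerOf (S : Subgroup G), z * z = 1 → Commute z y) → y ∈ (S : Subgroup G))
    (Q : Sylow 2 G) (hQ : centerOf (S : Subgroup G) ≤ Q) (hne : Q ≠ S) :
    ∃ (T : Subgroup G) (h : G), Cfg S T h ∧ IsPGroup 2 T := by
  have : Fact (Nat.Prime 2) := ⟨Nat.prime_two⟩
  obtain ⟨T0, ⟨hT0, hT0'⟩, hmax⟩ := Set.Finite.exists_maximalFor
    (fun Q : Sylow 2 G => (S : Subgroup G) ⊓ Q)
    {Q : Sylow 2 G | centerOf (S : Subgroup G) ≤ Q ∧ Q ≠ S} (Set.toFinite _) ⟨Q, hQ, hne⟩
  obtain ⟨D, hD⟩ : ∃ D, D = (S : Subgroup G) ⊓ T0 := ⟨_, rfl⟩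
  have hZD : centerOf (S : Subgroup G) ≤ D := hD ▸ le_inf (centerOf_le _) hT0
  have hDS : D ≤ S := hD ▸ inf_le_left
  have hSN : (S : Subgroup G) ≤ normalizer (D : Set G) := cl.le_normalizer hZD hDS
  have Max : ∀ Y : Subgroup G, IsPGroup 2 Y → D ≤ Y → ∀ s ∈ Y, s ∈ (S : Subgroup G) → s ∉ D →
      Y ≤ S := by
    intro Y hY hDY s hsY hsS hsD
    obtain ⟨R, hR⟩ := hY.exists_le_sylow
    by_cases h1 : R = S
    · exact h1 ▸ hR
    · have := hmax ⟨hZD.trans (hDY.trans hR), h1⟩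
        (show (S : Subgroup G) ⊓ T0 ≤ (S : Subgroup G) ⊓ R from hD ▸ le_inf hDS (hDY.trans hR))
      exact absurd (hD ▸ this ⟨hsS, hR hsY⟩) hsD
  have h2 : D < T0 := lt_of_le_of_ne (hD ▸ inf_le_right) fun h0 =>
    hT0' (Sylow.ext (T0.is_maximal' S.isPGroup' (h0 ▸ hDS)).symm)
  have h3 := lt_inf_normalizer_of_isPGroup T0.isPGroup' h2
  obtain ⟨T, hT1, hT2⟩ := IsSylowIn.exists_ge (p := 2) (H := normalizer (D : Set G))
    T0.isPGroup'.to_inf_left (inf_le_right (a := (T0 : Subgroup G)))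
  have hDT : D ≤ T := h3.le.trans hT1
  have hTS : ¬ T ≤ S := fun h4 => h3.not_ge ((le_inf (hT1.trans h4) inf_le_left).trans hD.ge)
  have hST : ∀ s ∈ (S : Subgroup G), s ∈ T → s ∈ D := fun s hs hsT => by
    by_contra h4
    exact hTS (Max T hT2.isPGroup hDT s hsT hs h4)
  have hsup : (S : Subgroup G) ⊔ T ≤ normalizer (D : Set G) := sup_le hSN hT2.le
  obtain ⟨h, hh, hT⟩ := (hT2.mono le_sup_right hsup).exists_conj_eq
    (IsSylowIn.of_sylow S le_sup_left)
  have hhN := hsup hh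
  have memT : ∀ {x : G}, x ∈ T ↔ h⁻¹ * x * h ∈ (S : Subgroup G) := by
    intro x; rw [← hT]; exact mem_map_conj_iff
  have memZT : ∀ {x : G}, x ∈ centerOf T ↔ h⁻¹ * x * h ∈ centerOf (S : Subgroup G) := by
    intro x; rw [← hT, centerOf_map_conj]; exact mem_map_conj_iff
  have hZT : centerOf T ≤ D := fun x hx => by
    simpa [mul_assoc] using conj_mem_of_mem_normalizer hhN (hZD (memZT.mp hx))
  have hconjp : ∀ y ∈ (S : Subgroup G), IsPGroup 2 (zpowers (h⁻¹ * y * h)) := fun y hy => by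
    have := (S.isPGroup'.to_le (zpowers_le.mpr hy)).map (MulAut.conj h⁻¹).toMonoidHom
    rw [MonoidHom.map_zpowers] at this
    have h0 : (MulAut.conj h⁻¹).toMonoidHom y = h⁻¹ * y * h := by simp
    rwa [h0] at this
  have U2T : ∀ y ∈ (S : Subgroup G), (∀ u ∈ centerOf T, u * u = 1 → Commute u y) → y ∈ T := by
    intro y hy h4
    refine memT.mpr (U2 _ (hconjp y hy) fun z hz hzz => ?_)
    have h5 := h4 (h * z * h⁻¹) (memZT.mpr (by simpa [mul_assoc] using hz)) (by
      calc h * z * h⁻¹ * (h * z * h⁻¹) = h * (z * z) * h⁻¹ := by group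
        _ = 1 := by rw [hzz]; simp)
    simpa [mul_assoc] using h5.map (MulAut.conj h⁻¹)
  have hsq : ∀ s ∈ (S : Subgroup G), s * s ∈ D := by
    intro s hs
    refine hST _ (mul_mem hs hs) (U2T _ (mul_mem hs hs) fun u hu huu => ?_)
    have huS : u ∈ (S : Subgroup G) := hDS (hZT hu)
    refine (commutatorElement_eq_one_iff_commute.mp ?_).symm
    rw [cl.mul_left hs hs huS, ← inv_eq_one, mul_inv_rev, commutatorElement_inv,
      ← cl.mul_left huS huS hs, huu, commutatorElement_one_left]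
  refine ⟨T, h, ⟨cl, hT.symm, hh, hZD.trans hDT, hZT.trans hDS, ?_,
    fun y hy h4 => U2T y hy fun u hu _ => h4 u hu, fun h4 => hTS (U1 T hT2.isPGroup h4)⟩,
    hT2.isPGroup⟩
  intro s hs t ht hsT htT
  have hsD : s ∉ D := fun h4 => hsT (hDT h4)
  have htD : t ∉ D := fun h4 => htT (hDT h4)
  have ht'T : h * t * h⁻¹ ∈ T := memT.mpr (by simpa [mul_assoc] using ht)
  have ht'D : h * t * h⁻¹ ∉ D := fun h4 => htD (by
    simpa [mul_assoc] using conj_mem_of_mem_normalizer' hhN h4)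
  have ht'2 : h * t * h⁻¹ * (h * t * h⁻¹) ∈ D := by
    have := conj_mem_of_mem_normalizer hhN (hsq t ht)
    convert this using 1; group
  rcases dihedral_mod (hSN hs) (hT2.le ht'T) (hsq s hs) ht'2 hsD ht'D with
    ⟨g, hg, h4⟩ | ⟨u, hu, huD, huu, hus, hut⟩
  · have h5 : (g * h) * t * (g * h)⁻¹ ∈ (S : Subgroup G) := by
      have := mul_mem hs (hDS h4)
      convert this using 1; group
    have hk : g * h ∈ normalizer (D : Set G) := mul_mem hg hhN
    have h6 : (g * h) * t * (g * h)⁻¹ ∉ D := fun h6 => htD (by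
      simpa [mul_assoc] using conj_mem_of_mem_normalizer' hk h6)
    have h7 := Max _ (S.isPGroup'.map (MulAut.conj (g * h)).toMonoidHom)
      ((map_conj_eq_of_mem_normalizer hk).ge.trans (map_mono hDS)) _ (conj_mem_map_conj ht) h5 h6
    have h8 : g * h ∈ normalizer ((S : Subgroup G) : Set G) :=
      mem_normalizer_of_conj_mem fun x hx => h7 (conj_mem_map_conj hx)
    obtain ⟨v, hv, hv'⟩ := (FrobNPC.pAutomizer_of_hnpc_normalizer S.isPGroup' hN).exists_conj_eq
      (IsSylowIn.of_sylow S le_normalizer) h8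
    have h9 : s⁻¹ * (v * t * v⁻¹) ∈ D := by
      rw [← hv' t ht]; convert h4 using 1; group
    have h10 := conj_mem_of_mem_normalizer' (hSN hs) (hZD (cl v hv t ht))
    have h11 := mul_mem (hsq s hs) (mul_mem (inv_mem h10) h9)
    refine hDT ?_
    convert h11 using 1
    simp only [commutatorElement_def]; group
  · exfalso
    obtain ⟨Y, hY, hDY, hsY, huY⟩ := exists_two_subgroup S.isPGroup' hDS hs hu huu hus
    have huS := Max Y hY hDY s hsY hs hsD huY
    obtain ⟨Y', hY', hDY', htY', huY'⟩ := exists_two_subgroup hT2.isPGroup hDT ht'T hu huu hut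
    have h4 := Max _ (hY'.map (MulAut.conj h⁻¹).toMonoidHom)
      ((map_conj_eq_of_mem_normalizer (inv_mem hhN)).ge.trans (map_mono hDY')) t
      (mem_map_conj_iff.mpr (by simpa using htY')) ht htD
    exact huD (hST u huS (memT.mpr (by simpa using h4 (conj_mem_map_conj huY'))))

variable {A : Type*} [Group A] {φ : A →* MulAut G}

theorem inv_centerOf {H : Subgroup G} (hH : Inv φ H) : Inv φ (centerOf H) :=
  H8Inv.inv_inf hH (H8Inv.inv_centralizer hH)

/-- weak closure of the centre -/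
theorem eq_of_centerOf_le [Finite G] (hodd : ∀ a, Odd (orderOf (φ a))) (S : Sylow 2 G)
    (hS0 : (S : Subgroup G) ≠ ⊥) (hS : Inv φ S) (cl : Cl2 (S : Subgroup G))
    (hN : HasNormalPComplement 2 (normalizer ((S : Subgroup G) : Set G)))
    (U : ∀ X : Subgroup G, Inv φ X → X ≠ ⊥ → X ≤ S → (S : Subgroup G) ≤ normalizer (X : Set G) →
      ∀ Y : Subgroup G, IsPGroup 2 Y → Y ≤ normalizer (X : Set G) → Y ≤ S)
    (Q : Sylow 2 G) (hQ : centerOf (S : Subgroup G) ≤ Q) : Q = S := by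
  have : Fact (Nat.Prime 2) := ⟨Nat.prime_two⟩
  by_contra hne
  have hZ0 := centerOf_ne_bot S.isPGroup' hS0
  let Ω : Subgroup G :=
    { carrier := {z | z ∈ centerOf (S : Subgroup G) ∧ z * z = 1}
      one_mem' := ⟨one_mem _, one_mul 1⟩
      mul_mem' := fun {a b} ha hb => ⟨mul_mem ha.1 hb.1, by
        calc a * b * (a * b) = a * (b * a) * b := by group
          _ = a * a * (b * b) := by rw [ha.1.2 b hb.1.1]; group
          _ = 1 := by rw [ha.2, hb.2, one_mul]⟩
      inv_mem' := fun {a} ha => ⟨inv_mem ha.1, by rw [← mul_inv_rev, ha.2, inv_one]⟩ }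
  have hΩ0 : Ω ≠ ⊥ := by
    obtain ⟨k, hk⟩ := IsPGroup.iff_card.mp (S.isPGroup'.to_le (centerOf_le (S : Subgroup G)))
    have hk0 : k ≠ 0 := fun h0 => hZ0 (card_eq_one.mp (by rw [hk, h0, pow_zero]))
    obtain ⟨⟨z, hz⟩, hz'⟩ := exists_prime_orderOf_dvd_card' (G := centerOf (S : Subgroup G)) 2
      (hk ▸ dvd_pow_self 2 hk0)
    rw [orderOf_mk] at hz'
    intro h0
    have : z ∈ Ω := ⟨hz, by rw [← sq, ← hz', pow_orderOf_eq_one]⟩
    rw [h0, mem_bot] at this
    rw [this, orderOf_one] at hz'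
    omega
  obtain ⟨T, h, c, hT⟩ := exists_cfg S cl hN
    (U _ (inv_centerOf hS) hZ0 (centerOf_le _)
      (le_normalizer.trans (normalizer_le_normalizer_centerOf _)))
    (fun y hy h1 => U Ω (fun a z hz => ⟨inv_centerOf hS a z hz.1, by
        rw [← map_mul, hz.2, map_one]⟩) hΩ0 (fun z hz => hz.1.1)
      (fun s hs => centralizer_le_normalizer _ fun z hz => (hz.1.2 s hs).symm) _ hy
      (zpowers_le.mpr (centralizer_le_normalizer _ fun z hz => (h1 z hz.1 hz.2).eq))
      (mem_zpowers y)) Q hQ hne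
  by_cases h1 : ∀ a, ∀ y ∈ centerOf T, φ a y ∈ T
  · let X : Subgroup G := centerOf (S : Subgroup G) ⊔ ⨆ a, (centerOf T).map (φ a).toMonoidHom
    have hX1 : X ≤ S := sup_le (centerOf_le _) (iSup_le fun a => by
      rintro _ ⟨y, hy, rfl⟩; exact hS a y (c.ZS hy))
    have hX2 : X ≤ T := sup_le c.ZT (iSup_le fun a => by
      rintro _ ⟨y, hy, rfl⟩; exact h1 a y hy)
    have hX3 : centerOf T ≤ X := le_sup_of_le_right (le_iSup_of_le 1 fun y hy => ⟨y, hy, by simp⟩)
    have hX4 : Inv φ X := H8Inv.inv_sup (inv_centerOf hS) fun a => by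
      change (⨆ b, (centerOf T).map (φ b).toMonoidHom) ≤
        (⨆ b, (centerOf T).map (φ b).toMonoidHom).comap (φ a).toMonoidHom
      refine iSup_le fun b => ?_
      rintro _ ⟨y, hy, rfl⟩
      exact mem_iSup_of_mem (a * b) ⟨y, hy, by simp⟩
    have := U X hX4 (fun h0 => hZ0 (le_bot_iff.mp (h0 ▸ le_sup_left))) hX1
      (cl.le_normalizer le_sup_left hX1) T hT (c.clT.le_normalizer hX3 hX2)
    exact c.norm (this.trans (le_normalizer.trans (normalizer_le_normalizer_centerOf _)))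
  · push Not at h1
    obtain ⟨a, y, hy, hyT⟩ := h1
    exact c.false (φ a) (fun s => H8Inv.inv_mem_iff' hS a) (hodd a) hy hyT

open CfsgLib.PCompl CfsgLib.PRes in
theorem solvable_of_corefree [Finite A] [Finite G] (hcop : (Nat.card A).Coprime (Nat.card G))
    {M T : Subgroup G} (hMtop : M ≠ ⊤) (hMi : Inv φ M)
    (hmax : ∀ H : Subgroup G, M < H → Inv φ H → H = ⊤) (hnil : Group.IsNilpotent M)
    (hT : IsSylowIn 2 T M) (cl : Cl2 T) (hN : ∀ N : Subgroup G, N.Normal → N ≤ M → N = ⊥) :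
    Group.IsSolvable G := by
  have key : ∀ X : Subgroup G, Inv φ X → X ≠ ⊥ → X ≤ M → M ≤ normalizer (X : Set G) →
      normalizer (X : Set G) = M := by
    intro X hX h0 h1 h2
    rcases h2.eq_or_lt with h3 | h3
    · exact h3.symm
    · exact absurd (hN X (normalizer_eq_top_iff.mp (hmax _ h3 (H8Inv.inv_normalizer hX))) h1) h0
  have hsyl : ∀ (q : ℕ) [Fact q.Prime] (S : Subgroup G), IsSylowIn q S M → S ≠ ⊥ →
      ∃ P : Sylow q G, (P : Subgroup G) = S ∧ normalizer (S : Set G) = M := by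
    intro q _ S hS hS0
    have h1 := key S (H8Inv.inv_of_isSylowIn_of_isNilpotent hS hnil hMi) hS0 hS.le
      (le_normalizer_of_isSylowIn_of_isNilpotent hS hnil)
    obtain ⟨P, hP⟩ := hS.isPGroup.exists_le_sylow
    refine ⟨P, ?_, h1⟩
    by_contra h2
    have h3 := lt_inf_normalizer_of_isPGroup P.isPGroup' (lt_of_le_of_ne hP (Ne.symm h2))
    exact h3.ne' (hS.eq_of_le P.isPGroup'.to_inf_left h3.le (inf_le_right.trans h1.le))
  have hnpc : ∀ q : ℕ, q.Prime → q ∣ Nat.card M → HasNormalPComplement q G := by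
    intro q hq hqM
    have : Fact q.Prime := ⟨hq⟩
    by_cases hq2 : q = 2
    · subst hq2
      obtain ⟨P, rfl, hP⟩ := hsyl 2 T hT (hT.ne_bot hqM)
      have hPN : HasNormalPComplement 2 (normalizer ((P : Subgroup G) : Set G)) :=
        hP ▸ hnpc_of_isNilpotent
      refine hnpc_of_center_in_unique_sylow P (eq_of_centerOf_le (φ := φ) (fun a => ?_) P
        (hT.ne_bot hqM) (H8Inv.inv_of_isSylowIn_of_isNilpotent hT hnil hMi) cl hPN
        fun X hX hX0 hXP hPX Y hY hYX => ?_) hPN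
      · refine Nat.odd_iff.mpr (Nat.two_dvd_ne_zero.mp fun h2 => ?_)
        have := Nat.dvd_gcd (h2.trans ((orderOf_map_dvd φ a).trans (orderOf_dvd_natCard a)))
          (hqM.trans (card_subgroup_dvd_card M))
        rw [hcop] at this
        omega
      · rw [key X hX hX0 (hXP.trans hT.le) (le_normalizer_of_isNilpotent hT hnil hXP hPX)] at hYX
        exact le_of_isSylowIn_of_isNilpotent hT hnil hY hYX
    · obtain ⟨S, hS⟩ := IsSylowIn.exists_in (p := q) M
      obtain ⟨P, rfl, hP⟩ := hsyl q S hS (hS.ne_bot hqM)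
      refine thompson_of_characteristic hq2 P fun X hX hc => ?_
      rw [key _ (H8Inv.inv_map_subtype_of_characteristic
        (H8Inv.inv_of_isSylowIn_of_isNilpotent hS hnil hMi) X)
        (fun h0 => hX ((map_eq_bot_iff_of_injective _ (subtype_injective _)).mp h0))
        ((map_subtype_le X).trans hS.le)
        (hP.ge.trans (normalizer_le_normalizer_map_subtype_of_characteristic _ X))]
      exact hnpc_of_isNilpotent
  let K : Subgroup G := ⨅ q ∈ {q : ℕ | q.Prime ∧ q ∣ Nat.card M}, pResidual q G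
  have hKn : K.Normal := Subgroup.normal_iInf_normal fun q =>
    Subgroup.normal_iInf_normal fun _ => pResidual_normal
  have hK : ∀ x, x ∈ K ↔ (orderOf x).Coprime (Nat.card M) := by
    intro x
    simp only [K, mem_iInf]
    constructor
    · intro h
      refine Nat.coprime_of_dvd fun q hq h1 h2 => ?_
      have : Fact q.Prime := ⟨hq⟩
      exact (Nat.Prime.coprime_iff_not_dvd hq).mp
        ((hnpc_mem_pResidual_iff (hnpc q hq h2)).mp (h q ⟨hq, h2⟩)).symm h1
    · intro h q hq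
      exact mem_pResidual_of_coprime (Nat.Coprime.coprime_dvd_right hq.2 h)
  have hKi : Inv φ K := fun a x hx => (hK _).mpr (by
    rw [MulEquiv.orderOf_eq]; exact (hK x).mp hx)
  have hKM : (Nat.card M).Coprime (Nat.card K) := by
    refine Nat.coprime_of_dvd fun q hq h1 h2 => ?_
    have : Fact q.Prime := ⟨hq⟩
    obtain ⟨⟨x, hx⟩, hx'⟩ := exists_prime_orderOf_dvd_card' (G := K) q h2
    rw [orderOf_mk] at hx'
    exact (Nat.Prime.coprime_iff_not_dvd hq).mp (hx' ▸ (hK x).mp hx) h1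
  obtain ⟨q, hq, hqM⟩ := Nat.exists_prime_and_dvd (fun h0 => hMtop (index_eq_one.mp h0))
  have : Fact q.Prime := ⟨hq⟩
  have hqM' : ¬ q ∣ Nat.card M := by
    intro h0
    obtain ⟨S, hS⟩ := IsSylowIn.exists_in (p := q) M
    obtain ⟨P, rfl, -⟩ := hsyl q S hS (hS.ne_bot h0)
    exact P.not_dvd_index (hqM.trans (index_dvd_of_le hS.le))
  obtain ⟨y, hy⟩ := exists_prime_orderOf_dvd_card' (G := G) q (hqM.trans M.index_dvd_card)
  have hqK : q ∣ Nat.card K :=
    hy ▸ orderOf_dvd_natCard K ((hK y).mpr (hy ▸ (Nat.Prime.coprime_iff_not_dvd hq).mpr hqM'))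
  have := finite_semidirect (φ := φ)
  have hc : (Nat.card (R φ ⊤ ⊔ L φ M : Subgroup (G ⋊[φ] A))).Coprime (Nat.card (L φ K)) := by
    refine Nat.Coprime.coprime_dvd_left (card_sup_dvd_mul (R_top_le_normalizer_iff.mpr hMi)) ?_
    rw [card_R_top, card_L, card_L]
    exact Nat.Coprime.mul_left (hcop.coprime_dvd_right (card_subgroup_dvd_card K)) hKM
  obtain ⟨P, hP, hPn⟩ := Cop.exists_invariant_sylowOf q (A := R φ ⊤ ⊔ L φ M) (G := L φ K)
    (sup_le (R_top_le_normalizer_iff.mpr hKi)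
      ((map_mono le_normalizer_of_normal).trans (le_normalizer_map _))) hc
    (H8FT.solvable_or_of_coprime hc)
  obtain ⟨P, -, rfl⟩ := exists_L_eq hP.1
  obtain ⟨hPK, hPq, hPi⟩ := Cop.isPiHallOf_singleton_iff.mp (isPiHallOf_L_iff.mp hP)
  have hMP : M ≤ normalizer (P : Set G) := by
    rw [le_normalizer_iff]
    intro m hm x hx
    have := conj_mem_of_mem_normalizer (hPn (mem_sup_right (inl_mem_L.mpr hm)))
      (inl_mem_L.mpr hx)
    rwa [← map_inv, ← map_mul, ← map_mul, inl_mem_L] at this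
  have htop := hmax (M ⊔ P) (lt_of_le_of_ne le_sup_left fun h0 => by
      have h1 : P ≤ M := h0 ▸ le_sup_right
      have h2 : Nat.card P = 1 := Nat.eq_one_of_dvd_coprimes hKM (card_dvd_of_le h1)
        (card_dvd_of_le hPK)
      rw [← card_mul_relIndex hPK, h2, one_mul] at hqK
      exact hPi hqK)
    (H8Inv.inv_sup hMi (R_top_le_normalizer_iff.mp (le_sup_left.trans hPn)))
  exact isSolvable_top_iff.mp (htop ▸ isSolvable_sup hMP inferInstance
    (isSolvable_of_isPGroup hPq))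

/-- A finite group with coprime operator group `A` and a nilpotent maximal `A`-invariant
subgroup whose Sylow `2`-subgroup has class at most two is solvable. -/
theorem solvable_of_nilpotent_maximal_inv [Finite A] [Finite G]
    (hcop : (Nat.card A).Coprime (Nat.card G))
    {M T : Subgroup G} (hMtop : M ≠ ⊤) (hMi : Inv φ M)
    (hmax : ∀ H : Subgroup G, M < H → Inv φ H → H = ⊤) (hnil : Group.IsNilpotent M)
    (hT : IsSylowIn 2 T M) (hc : ⁅T, T⁆ ≤ centralizer (T : Set G)) : Group.IsSolvable G := by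
  have := solvableRadical_characteristic (G := G)
  set R := solvableRadical G with hR
  by_cases hRM : R ≤ M
  swap
  · have := hmax (M ⊔ R) (lt_of_le_of_ne le_sup_left fun h0 => hRM (h0 ▸ le_sup_right))
      (H8Inv.inv_sup hMi (inv_of_characteristic R))
    exact isSolvable_top_iff.mp (this ▸ isSolvable_sup_of_normal inferInstance
      solvableRadical_isSolvable)
  have hs := QuotientGroup.mk'_surjective R
  have h1 : (M.map (QuotientGroup.mk' R)).comap (QuotientGroup.mk' R) = M :=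
    comap_map_eq_self (by rwa [QuotientGroup.ker_mk'])
  have hnil' := isNilpotent_map hnil (QuotientGroup.mk' R)
  refine isSolvable_of_normal_of_quotient R solvableRadical_isSolvable
    (solvable_of_corefree (φ := H8Inv.quot φ R) (hcop.coprime_dvd_right (card_quotient_dvd_card R))
      (M := M.map (QuotientGroup.mk' R)) (T := T.map (QuotientGroup.mk' R))
      (fun h0 => hMtop (by rw [← h1, h0, comap_top])) (H8Inv.inv_map_quot hMi) (fun H hH hHi => ?_)
      hnil' (hT.map _) ?_ fun N hN hNM => ?_)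
  · have h2 : M < H.comap (QuotientGroup.mk' R) := by
      refine lt_of_le_of_ne (map_le_iff_le_comap.mp hH.le) fun h0 => hH.ne ?_
      rw [h0, map_comap_eq_self_of_surjective hs]
    rw [← map_comap_eq_self_of_surjective hs H, hmax _ h2 (H8Inv.inv_comap_quot hHi),
      map_top_of_surjective _ hs]
  · intro a ha b hb
    have h2 := commutator_mem_commutator ha hb
    refine ⟨commutator_le_self _ h2, ?_⟩
    rw [← map_commutator] at h2
    exact ((map_mono hc).trans (map_centralizer_le' _ _)) h2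
  · exact le_bot_iff.mp (solvableRadical_quotient_solvableRadical (G := G) ▸
      le_solvableRadical (isSolvable_of_le inferInstance hNM))

end CfsgLib.H8Class2
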