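import Cfsg.Agent.Lib.FT.BG10T3
import Cfsg.Agent.Lib.H1Amb
import Cfsg.Agent.Lib.H1PrimTwo

/-! Control of `q'`-cores of centralizers under a coprime operator group (Flavell). -/

set_option autoImplicit false

namespace CfsgLib.Flav

open Subgroup Cfsg CfsgLib.FT.BGN CfsgLib.Cop CfsgLib.H1
open scoped commutatorElement

variable {G : Type*} [Group G] [Finite G]

theorem core_control {H P : Subgroup G} [H.Normal] (hPH : H ⊔ P = ⊤)
    (hcop : (Nat.card P).Coprime (Nat.card H)) (hsol : Group.IsSolvable ↥⁅H, P⁆)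
    {q : ℕ} [Fact q.Prime] {z : G} (hzH : z ∈ H) (hzP : z ∈ 𝐂(P)) (hz : ∃ k : ℕ, orderOf z = q ^ k) :
    (piCoreOf {q}ᶜ (H ⊓ 𝐂[z]) ⊓ piCoreOf {q}ᶜ (H ⊓ 𝐂(P))) ⊔ ⁅piCoreOf {q}ᶜ (H ⊓ 𝐂[z]), P⁆ ≤
      piCoreOf {q}ᶜ H := by
  set K := ⁅H, P⁆ with hK
  set D := piCoreOf {q}ᶜ (H ⊓ 𝐂[z]) with hD
  set B := piCoreOf {q}ᶜ (H ⊓ 𝐂(P)) with hB
  have hN : ∀ X : Subgroup G, X ≤ 𝐍(H) := fun X => le_normalizer_of_normal
  have hKH : K ≤ H := commutator_le_left_of_le_normalizer (hN P)
  have hKn : K.Normal := normalizer_eq_top_iff.1 (top_le_iff.1 (hPH ▸ sup_le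
    (normalizer_commutator_ge_left H P) (normalizer_commutator_ge_right H P)))
  have hNK : ∀ X : Subgroup G, X ≤ 𝐍(K) := fun X => le_normalizer_of_normal
  set O := piCoreOf {q}ᶜ K with hO
  have hOn : O.Normal := normalizer_eq_top_iff.1 (top_le_iff.1
    ((hNK ⊤).trans (normalizer_le_normalizer_piCoreOf K)))
  have hOH : O ≤ piCoreOf {q}ᶜ H := FT.piCoreOf_le_of_norm hKH (hNK H)
  have hDH : D ≤ H ⊓ 𝐂[z] := piCoreOf_le _
  have hzq : IsPGroup q (zpowers z) := by
    obtain ⟨k, hk⟩ := hz
    exact IsPGroup.of_card (by rw [Nat.card_zpowers, hk])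
  -- the key local step
  have key : ∀ e ∈ D, D ⊓ (K ⊔ closure {z, e}) ≤ piCoreOf {q}ᶜ (K ⊔ closure {z, e}) := by
    intro e he
    have hc : IsMulCommutative (closure ({z, e} : Set G)) :=
      isMulCommutative_closure (by
        rintro a (rfl | rfl) b (rfl | rfl)
        exacts [rfl, (mem_centralizer_singleton_iff.1 (hDH he).2).symm,
          mem_centralizer_singleton_iff.1 (hDH he).2, rfl])
    have hX : Group.IsSolvable ↥(K ⊔ closure {z, e}) := by
      rw [sup_comm]; exact isSolvable_sup_of_normal isSolvable_of_isMulCommutative hsol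
    have hXH : K ⊔ closure {z, e} ≤ H := sup_le hKH ((closure_le _).2 (by
      rintro a (rfl | rfl)
      exacts [hzH, (hDH he).1]))
    rw [← map_pPrimeCore_eq_piCoreOf]
    refine FT.le_p'core_of_cent_pgroup hX hzq
      (zpowers_le.2 (mem_sup_right (subset_closure (Or.inl rfl)))) inf_le_right
      ((piCoreOf_compl_coprime q _).coprime_dvd_left (card_dvd_of_le inf_le_left))
      (fun x hx => ?_) (le_normalizer_inf (fun x hx => ?_) (inf_le_left.trans le_normalizer))
    · rintro _ ⟨n, rfl⟩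
      exact (Commute.zpow_right (mem_centralizer_singleton_iff.1 (hDH hx.1).2) n).eq.symm
    · exact le_normalizer_piCoreOf _ ⟨hXH hx.1, mem_centralizer_singleton_iff.2
        (hx.2 z (mem_zpowers z)).symm⟩
  have key2 : ∀ e : G, piCoreOf {q}ᶜ (K ⊔ closure {z, e}) ⊓ K ≤ O := fun e =>
    piCoreOf_inf_le le_sup_left
  refine sup_le ?_ ?_
  · let f := QuotientGroup.mk' O
    let B' := B ⊓ (𝐂(K.map f)).comap f
    have hKB : ⁅K, B'⁆ ≤ O := commutator_le.2 fun k hk b hb => by
      rw [← QuotientGroup.eq_one_iff, ← QuotientGroup.mk'_apply, map_commutatorElement,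
        commutatorElement_eq_one_iff_mul_comm]
      exact hb.2 _ ⟨k, hk, rfl⟩
    have h1 : D ⊓ B ≤ B' := fun e he => ⟨he.2, by
      rintro _ ⟨k, hk, rfl⟩
      rw [← commutatorElement_eq_one_iff_mul_comm, ← map_commutatorElement,
        QuotientGroup.mk'_apply, QuotientGroup.eq_one_iff]
      have h2 := key e he.1 ⟨he.1, mem_sup_right (subset_closure (Or.inr rfl))⟩
      refine key2 e ⟨?_, ?_⟩
      · exact le_normalizer_iff_commutator_le_right.1 (le_normalizer_piCoreOf _)
          (commutator_mem_commutator (mem_sup_left hk) h2)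
      · exact commutator_le_left_of_le_normalizer (hNK ⊤)
          (commutator_mem_commutator hk (mem_top e))⟩
    refine le_sup_left.trans' h1 |>.trans ((le_piCoreOf_compl (A := B' ⊔ O) (sup_le
      (inf_le_left.trans ((piCoreOf_le _).trans inf_le_left)) ((piCoreOf_le _).trans hKH)) ?_ ?_))
    · rw [← commutator_sup_centralizer' (hN P) hcop (Or.inr hsol)]
      refine sup_le (le_normalizer_sup_of_commutator_le (commutator_comm K B' ▸ hKB)
        le_normalizer_of_normal) (le_normalizer_sup (le_normalizer_inf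
          (le_normalizer_piCoreOf _) ?_) le_normalizer_of_normal)
      have : (K.map f).Normal := hKn.map f (QuotientGroup.mk'_surjective O)
      exact le_normalizer_of_normal
    · exact (Nat.Coprime.mul_left ((piCoreOf_compl_coprime q _).coprime_dvd_left
        (card_dvd_of_le inf_le_left)) (piCoreOf_compl_coprime q _)).coprime_dvd_left
        (card_sup_dvd_mul le_normalizer_of_normal)
  · have hPD : P ≤ 𝐍(D) := (le_normalizer_inf (hN P) (fun x hx => by
      rw [mem_normalizer_iff]
      intro y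
      have := hzP x hx
      simp only [SetLike.mem_coe, mem_centralizer_singleton_iff]
      constructor
      · intro h
        calc x * y * x⁻¹ * z = x * y * x⁻¹ * (x * z * x⁻¹) := by rw [this]; group
          _ = x * (y * z) * x⁻¹ := by group
          _ = x * z * x⁻¹ * (x * y * x⁻¹) := by rw [h]; group
          _ = z * (x * y * x⁻¹) := by rw [this]; group
      · intro h
        calc y * z = x⁻¹ * (x * y * x⁻¹ * (x * z * x⁻¹)) * x := by group
          _ = x⁻¹ * (x * y * x⁻¹ * z) * x := by rw [this]; group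
          _ = x⁻¹ * (x * z * x⁻¹ * (x * y * x⁻¹)) * x := by rw [h, this]; group
          _ = z * y := by group)).trans (normalizer_le_normalizer_piCoreOf _)
    have h1 : ⁅D, P⁆ ≤ D := commutator_le_left_of_le_normalizer hPD
    have h2 : ⁅D, P⁆ ≤ K := commutator_mono (hDH.trans inf_le_left) le_rfl
    exact fun x hx => hOH (key2 1 ⟨key 1 (one_mem _) ⟨h1 hx, mem_sup_left (h2 hx)⟩, h2 hx⟩)

end CfsgLib.Flav
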