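import Mathlib
import Cfsg.Agent.Lib.H8PiClassesHall

/-! If `k_π(G) > |G|_π / p` then `G` has a nilpotent Hall `π`-subgroup. -/

set_option autoImplicit false

namespace CfsgLib.PiCl

open Subgroup Cfsg CfsgLib CfsgLib.PCompl CfsgLib.PRes

universe u

theorem mul_card_inf_centralizer_le {G : Type*} [Group G] [Finite G] {q : ℕ} [hq : Fact q.Prime]
    {P : Subgroup G} (hP : IsPGroup q P) {g : G} (hg : g ∉ centralizer (P : Set G)) :
    q * Nat.card (P ⊓ centralizer ({g} : Set G) : Subgroup G) ≤ Nat.card P := by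
  set C := P ⊓ centralizer ({g} : Set G) with hC
  have hlt : C ≠ P := by
    intro he
    apply hg
    intro x hx
    have : x ∈ C := he ▸ hx
    exact mem_centralizer_singleton_iff.mp this.2
  have hle : C ≤ P := inf_le_left
  rw [← card_mul_relIndex hle, mul_comm]
  apply Nat.mul_le_mul_left
  obtain ⟨k, hk⟩ := hP.index (C.subgroupOf P)
  have hk' : C.relIndex P = q ^ k := hk
  have : k ≠ 0 := by
    rintro rfl
    exact hlt (le_antisymm hle (relIndex_eq_one.mp hk'))
  rw [hk']
  exact Nat.le_self_pow this q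

theorem exists_nilpotent_hall_of_lt (p : ℕ) (hp1 : 1 ≤ p) (s : Finset ℕ)
    (hs : ∀ r ∈ s, r.Prime ∧ p ≤ r) :
    ∀ (G : Type u) [Group G] [Finite G],
      piPart s (Nat.card G) < p * (piClasses (s : Set ℕ) G).ncard →
      ∃ H : Subgroup G, IsPiHall (s : Set ℕ) H ∧ Group.IsNilpotent H := by
  classical
  induction s using Finset.induction_on_max with
  | empty =>
    intro G _ _ _
    exact ⟨⊥, ⟨isPiSubgroup_bot _, fun r _ hr => absurd hr (by simp)⟩, inferInstance⟩
  | insert q s hmax IH =>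
    intro G _ _ hlt
    obtain ⟨hq, hpq⟩ := hs q (Finset.mem_insert_self _ _)
    haveI : Fact q.Prime := ⟨hq⟩
    obtain ⟨S⟩ : Nonempty (Sylow q G) := inferInstance
    have hSH := Hall.isPiHall_singleton_sylow S
    have hSn : Group.IsNilpotent (S : Subgroup G) := S.isPGroup'.isNilpotent
    rcases s.eq_empty_or_nonempty with rfl | ⟨r₀, hr₀⟩
    · exact ⟨S, by simpa using hSH, hSn⟩
    have hs' : ∀ r ∈ s, r.Prime ∧ p ≤ r := fun r hr => hs r (Finset.mem_insert_of_mem hr)
    have hsp : ∀ r ∈ s, r.Prime := fun r hr => (hs' r hr).1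
    have hpq' : p + 1 ≤ q := lt_of_le_of_lt (hs' r₀ hr₀).2 (hmax r₀ hr₀)
    have hqs : q ∉ s := fun h => lt_irrefl _ (hmax q h)
    have hdis : Disjoint ({q} : Set ℕ) s := by simpa using hqs
    have hins : ((insert q s : Finset ℕ) : Set ℕ) = ({q} : Set ℕ) ∪ (s : Set ℕ) := by
      rw [Finset.coe_insert]; rfl
    set a := piPart s (Nat.card G) with ha
    set b := Nat.card (S : Subgroup G) with hb
    have hab : piPart (insert q s) (Nat.card G) = b * a := by
      rw [piPart, Finset.prod_insert hqs, ← S.card_eq_multiplicity]; rfl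
    have hsyl : ∀ C : Subgroup G, (piClasses {q} C).ncard ≤ q ^ (Nat.card C).factorization q :=
      fun C => by
        obtain ⟨R⟩ : Nonempty (Sylow q C) := inferInstance
        exact (ncard_piClasses_singleton_le R).trans R.card_eq_multiplicity.le
    have hb' : b = q ^ (Nat.card G).factorization q := S.card_eq_multiplicity
    have hsylb : ∀ C : Subgroup G, (piClasses {q} C).ncard ≤ b := fun C =>
      (hsyl C).trans (hb' ▸ Nat.pow_le_pow_right hq.pos
        ((Nat.factorization_le_iff_dvd Nat.card_pos.ne' Nat.card_pos.ne').mpr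
          (card_subgroup_dvd_card _) q))
    -- covering Hall subgroups are nilpotent
    have hcov : (∃ H : Subgroup G, IsPiHall ({q} ∪ (s : Set ℕ)) H ∧ ∀ x : G,
        IsPiNum ({q} ∪ (s : Set ℕ)) (orderOf x) → ∃ g : G, g * x * g⁻¹ ∈ H) →
        ∃ H : Subgroup G, IsPiHall ((insert q s : Finset ℕ) : Set ℕ) H ∧ Group.IsNilpotent H := by
      rw [← hins]
      rintro ⟨H, hH, hH'⟩
      refine ⟨H, hH, ClBound.isNilpotent_of_lt hp1 (fun r hr hd => (hs r (hH.1 r hr hd)).2) ?_⟩
      rw [card_hall_eq_piPart (fun r hr => (hs r hr).1) hH]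
      exact hlt.trans_le (Nat.mul_le_mul_left _ (ncard_piClasses_le_card_conjClasses H hH'))
    rw [hab] at hlt
    set T := (piClasses ((insert q s : Finset ℕ) : Set ℕ) G).ncard with hT
    set k := (piClasses (s : Set ℕ) G).ncard with hk
    have h1 : T ≤ k * b := ncard_piClasses_le_mul _ _ _ fun y _ => by
      rw [hins, Set.union_sdiff_cancel_right (by simpa using hqs)]
      exact hsylb _
    obtain ⟨K, hK, hKn⟩ := IH hs' G (by
      apply Nat.lt_of_mul_lt_mul_left (a := b)
      calc b * a < p * T := hlt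
        _ ≤ p * (k * b) := Nat.mul_le_mul_left _ h1
        _ = _ := by ring)
    -- case A
    by_cases hA : normalizer ((S : Subgroup G) : Set G) ≤ centralizer ((S : Subgroup G) : Set G)
    · have h2 := hnpc_of_normalizer_le_centralizer S hA
      obtain ⟨L, hL, hL1, n, hL2⟩ := hnpc_exists_normal h2
      exact hcov (exists_hall_covering hdis (coprime_iff_isPiSubgroup.mp hL1)
        (by rw [hL2]; exact (isPiNum_prime hq (Set.mem_singleton q)).pow n) hSH hSn hK hKn)
    -- case B
    by_cases hB : (p + 1) * a < 2 * p * k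
    · obtain ⟨⟨L, hL, hL1, hL2⟩, -⟩ :=
        exists_normal_complement_of_lt s hsp p (fun r hr => (hs' r hr).2) hB
      rw [Set.union_comm] at hcov
      exact hcov (exists_hall_covering hdis.symm hL1 hL2 hK hKn hSH hSn)
    set C := centralizer ((S : Subgroup G) : Set G) with hC
    set κ := (piClasses (s : Set ℕ) C).ncard with hκ
    -- case C
    by_cases hc : a < p * κ
    · obtain ⟨K₀, hK₀, hK₀n⟩ := IH hs' C ((piPart_subgroup_le hsp C).trans_lt hc)
      have h2 : ∀ r : ℕ, r.Prime → r ∈ (s : Set ℕ) → ¬ r ∣ C.index := by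
        intro r hr hrs hd
        have h3 : κ ≤ piPart s (Nat.card C) := ncard_piClasses_le_piPart hsp
        have h4 : a = piPart s (Nat.card C) * piPart s C.index := by
          rw [ha, ← C.card_mul_index, piPart_mul s Nat.card_pos.ne' index_ne_zero_of_finite]
        have h5 : p ≤ piPart s C.index := (hs' r hrs).2.trans
          (Nat.le_of_dvd (piPart_pos hsp _) (dvd_piPart hrs hr index_ne_zero_of_finite hd))
        have := Nat.mul_le_mul h3 h5
        rw [← h4, mul_comm] at this
        omega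
      have h3 := Hall.isPiHall_of_isPiHallOf (Hall.isPiHallOf_map_subtype hK₀) h2
      have h4 : K₀.map C.subtype ≤ C := map_subtype_le _
      have h5 : (S : Subgroup G) ≤ normalizer ((K₀.map C.subtype : Subgroup G) : Set G) :=
        (le_centralizer_iff.mp h4).trans (centralizer_le_normalizer _)
      refine ⟨_, hins ▸ isPiHall_sup hSH h3 h5, isNilpotent_sup h5
        (h4.trans (centralizer_le_normalizer _)) hSn (isNilpotent_map hK₀n _)⟩
    -- case D
    exfalso
    push Not at hB hc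
    obtain ⟨g, hg, hgC⟩ := SetLike.not_le_iff_exists.mp hA
    set D₀ : Set (ConjClasses G) := {c | ∃ x : G, ConjClasses.mk x = c ∧
      IsPiNum (s : Set ℕ) (orderOf x) ∧ x ∈ C} with hD₀
    set D₁ := piClasses (s : Set ℕ) G \ D₀ with hD₁
    have hD : D₀ ⊆ piClasses (s : Set ℕ) G := fun c ⟨x, h1, h2, _⟩ => ⟨x, h1, h2⟩
    have e1 : D₁.ncard + D₀.ncard = k := Set.ncard_sdiff_add_ncard_of_subset hD
    have e2 : T ≤ (pairClasses D₀ {q}).ncard + (pairClasses D₁ {q}).ncard := by
      refine le_trans (Set.ncard_le_ncard ?_) (Set.ncard_union_le _ _)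
      rintro _ ⟨x, rfl, hx⟩
      obtain ⟨u, hu, v, hv, hx', hc, hu', hv'⟩ := exists_pi_part (s : Set ℕ) x
      have hv2 : IsPiNum {q} (orderOf v) := fun r hr hd =>
        ((hins ▸ hx) r hr (hd.trans (orderOf_dvd_of_mem_zpowers hv))).resolve_right (hv' r hr hd)
      by_cases h0 : ConjClasses.mk u ∈ D₀
      · exact Or.inl ⟨u, v, h0, hv2, hc, hx' ▸ rfl⟩
      · exact Or.inr ⟨u, v, ⟨mk_mem_piClasses.mpr hu', h0⟩, hv2, hc, hx' ▸ rfl⟩
    have e3 : (pairClasses D₀ {q}).ncard ≤ D₀.ncard * b :=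
      ncard_pairClasses_le _ _ _ fun y _ => hsylb _
    have e4 : (pairClasses D₁ {q}).ncard ≤ D₁.ncard * (b / q) :=
      ncard_pairClasses_le _ _ _ fun y hy => by
        refine (hsyl _).trans ((Nat.le_div_iff_mul_le hq.pos).mpr ?_)
        have h2 : q ∣ (centralizer ({y} : Set G)).index := by
          by_contra h2
          apply hy.2
          obtain ⟨R, hR⟩ := IsSylowIn.exists_in (p := q) (centralizer ({y} : Set G))
          have h3 : IsSylowIn q R ⊤ := ⟨le_top, hR.isPGroup, by
            rw [← relIndex_mul_relIndex R _ ⊤ hR.le le_top, relIndex_top_right]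
            exact fun hd => (hq.dvd_mul.mp hd).elim hR.not_dvd h2⟩
          obtain ⟨c, -, hc⟩ := (IsSylowIn.sylow_top S).exists_conj_eq h3
          refine ⟨c * y * c⁻¹, mk_conj _ _, by
            rw [orderOf_conj']; exact mk_mem_piClasses.mp hy.1, ?_⟩
          intro z hz
          rw [← hc] at hz
          obtain ⟨w, hw, rfl⟩ := hz
          have := mem_centralizer_singleton_iff.mp (hR.le hw)
          simp [mul_assoc, ← mul_assoc w y, this]
        rw [hb', ← pow_succ, ← (centralizer ({y} : Set G)).card_mul_index,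
          Nat.factorization_mul Nat.card_pos.ne' index_ne_zero_of_finite, Finsupp.add_apply]
        exact Nat.pow_le_pow_right hq.pos (Nat.add_le_add_left
          (hq.factorization_pos_of_dvd index_ne_zero_of_finite h2) _)
    have e5 := two_mul_ncard_pairClasses_le S (s : Set ℕ) hg
    have e6 := mul_card_inf_centralizer_le S.isPGroup' hgC
    have e7 : q * (b / q) ≤ b := Nat.mul_div_le b q
    rw [← hC, ← hD₀, ← hκ, ← hb] at e5
    rw [← hb] at e6
    set T₀ := (pairClasses D₀ {q}).ncard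
    set T₁ := (pairClasses D₁ {q}).ncard
    set c := Nat.card ((S : Subgroup G) ⊓ centralizer ({g} : Set G) : Subgroup G)
    set m := b / q
    set k₀ := D₀.ncard
    set k₁ := D₁.ncard
    obtain ⟨t, rfl⟩ : ∃ t, q = t + 1 := ⟨q - 1, by omega⟩
    have f1 : (t + 1) * T₁ ≤ k₁ * b := by nlinarith
    have f2 : 2 * (t + 1) * T₀ ≤ κ * (b * (t + 2)) := by nlinarith
    have f3 : p * (2 * (t + 1) * T₀) ≤ a * (b * (t + 2)) := by
      calc _ ≤ p * (κ * (b * (t + 2))) := Nat.mul_le_mul_left _ f2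
        _ = (p * κ) * (b * (t + 2)) := by ring
        _ ≤ _ := Nat.mul_le_mul_right _ hc
    have f4 : 2 * p * (T₀ + (t + 1) * T₁) ≤ (t + 1) * a * b := by
      calc _ ≤ 2 * p * (k₀ * b + k₁ * b) := Nat.mul_le_mul_left _ (add_le_add e3 f1)
        _ = (2 * p * k) * b := by rw [← e1]; ring
        _ ≤ ((p + 1) * a) * b := Nat.mul_le_mul_right _ hB
        _ ≤ _ := Nat.mul_le_mul_right _ (Nat.mul_le_mul_right _ hpq')
    have f5 : 2 * (t + 1) ^ 2 * (p * (T₀ + T₁)) ≤ 2 * (t + 1) ^ 2 * (b * a) := by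
      have g1 := Nat.mul_le_mul_left t f3
      have g2 := Nat.mul_le_mul_left (t + 1) f4
      nlinarith [Nat.zero_le (a * b)]
    have f6 := Nat.le_of_mul_le_mul_left f5 (by positivity)
    have f7 := Nat.mul_le_mul_left p e2
    omega

/-- The form used for `π` an arbitrary set of primes and `m` the `π`-part of the group order. -/
theorem exists_nilpotent_hall_card {G : Type*} [Group G] [Finite G]
    (π : Set ℕ) (p : ℕ) (hp1 : 1 ≤ p) (hmin : ∀ q ∈ π, p ≤ q)
    (m : ℕ) (hm : m ∣ Nat.card G) (hmπ : ∀ q : ℕ, q.Prime → q ∣ m → q ∈ π)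
    (hm' : ∀ q ∈ π, ¬ q ∣ Nat.card G / m) (k : ℕ)
    (hk : k = Nat.card {C : ConjClasses G // ∀ q : ℕ, q.Prime →
      (∃ g : G, ConjClasses.mk g = C ∧ q ∣ orderOf g) → q ∈ π})
    (hmany : m < p * k) :
    ∃ H : Subgroup G, Nat.card H = m ∧ Group.IsNilpotent H ∧ k ≤ Nat.card (ConjClasses H) := by
  classical
  have hm0 : m ≠ 0 := fun h => Nat.card_pos.ne' (Nat.eq_zero_of_zero_dvd (h ▸ hm))
  have h0 : Nat.card G / m ≠ 0 := fun h => Nat.card_pos.ne' (by
    rw [← Nat.mul_div_cancel' hm, h, mul_zero])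
  have h1 : k ≤ (piClasses (m.primeFactors : Set ℕ) G).ncard := by
    rw [hk]
    apply Set.ncard_le_ncard (s := {C : ConjClasses G | _})
    intro C hC
    obtain ⟨x, rfl⟩ := ConjClasses.mk_surjective C
    refine mk_mem_piClasses.mpr fun q hq hd => ?_
    have h2 := hC q hq ⟨x, rfl, hd⟩
    have h3 : q ∣ m * (Nat.card G / m) := by
      rw [Nat.mul_div_cancel' hm]; exact hd.trans (orderOf_dvd_natCard x)
    exact Nat.mem_primeFactors.mpr ⟨hq, (hq.dvd_mul.mp h3).resolve_right (hm' q h2), hm0⟩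
  have h2 : piPart m.primeFactors (Nat.card G) = m := by
    rw [← Nat.mul_div_cancel' hm, piPart_mul _ hm0 h0, piPart_eq_self hm0 fun q hq hd =>
      Nat.mem_primeFactors.mpr ⟨hq, hd, hm0⟩, piPart_eq_one fun r hr => hm' r
        (hmπ r (Nat.prime_of_mem_primeFactors hr) (Nat.dvd_of_mem_primeFactors hr)), mul_one]
  obtain ⟨H, hH, hHn⟩ := exists_nilpotent_hall_of_lt p hp1 m.primeFactors (fun r hr =>
    ⟨Nat.prime_of_mem_primeFactors hr, hmin r (hmπ r (Nat.prime_of_mem_primeFactors hr)
      (Nat.dvd_of_mem_primeFactors hr))⟩) G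
    (h2.symm ▸ hmany.trans_le (Nat.mul_le_mul_left _ h1))
  refine ⟨H, (card_hall_eq_piPart (fun r hr => Nat.prime_of_mem_primeFactors hr) hH).trans h2,
    hHn, h1.trans (ncard_piClasses_le_card_conjClasses H fun x hx => ?_)⟩
  obtain ⟨g, -, hg⟩ := NilHall.exists_conj_mem (Hall.isPiHallOf_top.mpr hH) hHn hx (mem_top x)
  exact ⟨g, hg⟩

end CfsgLib.PiCl
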