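import Cfsg.Agent.Lib.H8SigX
import Cfsg.Agent.Lib.H8AbTI
import Cfsg.Agent.Lib.BSW.ClsD
import Cfsg.Agent.Lib.CoreSimpleInd
import Cfsg.Agent.Lib.SylowAction
import Cfsg.Agent.Lib.FrobeniusPComplement

/-! Simple groups whose class sizes have at most two prime divisors: counting. -/

set_option autoImplicit false

namespace CfsgLib.SigX

open Subgroup Cfsg CfsgLib.BSW CfsgLib.Frob
open scoped commutatorElement

variable {G : Type*} [Group G] [Finite G]

/-- The nontrivial `r`-central elements. -/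
def Ar (G : Type*) [Group G] (r : ℕ) : Set G := {x | x ≠ 1 ∧ ¬ r ∣ cidx x}

/-- The order of the automizer. -/
noncomputable def ee (R : Subgroup G) : ℕ :=
  (centralizer (R : Set G)).relIndex (normalizer (R : Set G))

theorem card_eq_ee (R : Subgroup G) : Nat.card G =
    (normalizer (R : Set G)).index * (Nat.card (centralizer (R : Set G)) * ee R) := by
  rw [ee, card_mul_relIndex (centralizer_le_normalizer _), index_mul_card]

theorem ncard_Ar_le {r : ℕ} [Fact r.Prime] (R : Sylow r G) : (Ar G r).ncard ≤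
    (normalizer ((R : Subgroup G) : Set G)).index *
      (Nat.card (centralizer ((R : Subgroup G) : Set G)) - 1) := by
  have h1 := SqClass.ncard_conj_le (normalizer ((R : Subgroup G) : Set G))
    ((centralizer ((R : Subgroup G) : Set G) : Set G) \ {1})
    (fun c hc t ht => ⟨conj_mem_of_mem_normalizer
      (FrobNPC.normalizer_le_normalizer_centralizer _ hc) ht.1, conj_ne_one ht.2⟩)
  rw [ncard_diff_one] at h1
  refine le_trans (Set.ncard_le_ncard (fun x hx => ?_) (Set.toFinite _)) h1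
  obtain ⟨g, hg⟩ := exists_conj_mem_centralizer_sylow R hx.2
  exact ⟨g⁻¹, g * x * g⁻¹, ⟨hg, conj_ne_one hx.1⟩, by group⟩

theorem mul_Ar_le {r : ℕ} [Fact r.Prime] (R : Sylow r G) {e : ℕ} (he : e ≤ ee (R : Subgroup G)) :
    e * (Ar G r).ncard + e ≤ Nat.card G := by
  have h1 := ncard_Ar_le R
  rw [card_eq_ee (R : Subgroup G)]
  have h5 : 0 < Nat.card (centralizer ((R : Subgroup G) : Set G)) := Nat.card_pos
  have h6 : 0 < (normalizer ((R : Subgroup G) : Set G)).index :=
    Nat.pos_of_ne_zero index_ne_zero_of_finite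
  obtain ⟨a, ha⟩ : ∃ a, Nat.card (centralizer ((R : Subgroup G) : Set G)) = a + 1 :=
    ⟨_, (Nat.succ_pred_eq_of_pos h5).symm⟩
  rw [ha] at h1 ⊢
  simp only [Nat.add_sub_cancel] at h1
  generalize (normalizer ((R : Subgroup G) : Set G)).index = n at *
  calc e * (Ar G r).ncard + e ≤ e * (n * a) + e * n :=
        Nat.add_le_add (Nat.mul_le_mul_left _ h1) (Nat.le_mul_of_pos_right _ h6)
    _ = n * ((a + 1) * e) := by ring
    _ ≤ _ := Nat.mul_le_mul_left _ (Nat.mul_le_mul_left _ he)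

omit [Finite G] in
theorem relIndex_dvd_of_norm {C R N : Subgroup G} (hR : R ≤ N) (hN : N ≤ normalizer (C : Set G)) :
    C.relIndex R ∣ C.relIndex N := by
  haveI : (C.subgroupOf N).Normal := (normal_subgroupOf_iff_le_normalizer_inf).mpr
    (by intro x hx; exact (le_normalizer_inf_aux hN) hx)
  rw [← relIndex_subgroupOf hR]
  exact relIndex_dvd_index_of_normal _ _
where
  le_normalizer_inf_aux {C N : Subgroup G} (hN : N ≤ normalizer (C : Set G)) :
      N ≤ normalizer ((C ⊓ N : Subgroup G) : Set G) := fun x hx => by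
    rw [mem_normalizer_iff]
    intro y
    rw [mem_inf, mem_inf, ← mem_normalizer_iff.mp (hN hx) y,
      ← mem_normalizer_iff.mp (le_normalizer hx) y]

theorem prime_dvd_relIndex {r : ℕ} [Fact r.Prime] {H K : Subgroup G} (hK : IsPGroup r K)
    (h : ¬ K ≤ H) : r ∣ H.relIndex K := by
  obtain ⟨n, hn⟩ := hK.index (H.subgroupOf K)
  rcases n with _ | n
  · exact absurd (relIndex_eq_one.mp hn) h
  · exact ⟨r ^ n, hn.trans (pow_succ' r n)⟩

theorem sq_dvd_relIndex_cent {r : ℕ} [Fact r.Prime] {R : Subgroup G} (hR : IsPGroup r R)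
    (hna : ¬ IsMulCommutative R) : r ^ 2 ∣ (centralizer (R : Set G)).relIndex R := by
  rw [BSW.isMulCommutative_iff'] at hna
  push Not at hna
  obtain ⟨a, ha, b, hb, hab⟩ := hna
  have h1 : centralizer (R : Set G) ⊓ R ≤ centralizer {a} ⊓ R :=
    inf_le_inf_right _ (centralizer_le (Set.singleton_subset_iff.mpr ha))
  rw [← inf_relIndex_right, ← relIndex_mul_relIndex _ _ _ h1 inf_le_right, pow_two]
  refine Nat.mul_dvd_mul (prime_dvd_relIndex (hR.to_le inf_le_right) fun e => hab ?_)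
    (prime_dvd_relIndex hR fun e => hab ?_)
  · exact ((e ⟨self_mem_cent a, ha⟩).1 b hb).symm
  · exact (mem_cent.mp (e hb).1).symm

theorem sq_dvd_ee {r : ℕ} [Fact r.Prime] {R : Subgroup G} (hR : IsPGroup r R)
    (hna : ¬ IsMulCommutative R) : r ^ 2 ∣ ee R :=
  (sq_dvd_relIndex_cent hR hna).trans (relIndex_dvd_of_norm le_normalizer
    (FrobNPC.normalizer_le_normalizer_centralizer R))

theorem not_dvd_ee {r : ℕ} [Fact r.Prime] (R : Sylow r G)
    (ha : IsMulCommutative (R : Subgroup G)) : ¬ r ∣ ee (R : Subgroup G) := fun h =>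
  (IsSylowIn.of_sylow R le_normalizer).not_dvd (h.trans (relIndex_dvd_of_le_left _
    fun x hx y hy => BSW.isMulCommutative_iff'.mp ha y hy x hx))

theorem ee_ne_zero (R : Subgroup G) : ee R ≠ 0 := index_ne_zero_of_finite

/-- All `r`-elements are `r`-central. -/
def AllC (G : Type*) [Group G] (r : ℕ) : Prop := ∀ (x : G) (k : ℕ), orderOf x = r ^ k → ¬ r ∣ cidx x

theorem allC_of_comm {r : ℕ} [Fact r.Prime] (R : Sylow r G)
    (ha : IsMulCommutative (R : Subgroup G)) : AllC G r := fun x k hx => by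
  obtain ⟨g, hg⟩ := exists_conj_mem_sylow R hx
  rw [← cidx_conj g x]
  exact not_dvd_cidx_of_sylow_le R fun y hy =>
    mem_cent.mpr (BSW.isMulCommutative_iff'.mp ha y hy _ hg)

theorem mem_sylow_of_cent {r k : ℕ} [Fact r.Prime] (R : Sylow r G) {u : G}
    (hu : u ∈ centralizer ((R : Subgroup G) : Set G)) (hk : orderOf u = r ^ k) :
    u ∈ (R : Subgroup G) := by
  have h1 : IsPGroup r ↥(zpowers u ⊔ (R : Subgroup G)) :=
    IsPGroup.to_sup_of_normal_right' (isPGroup_zpowers_iff.mpr ⟨k, hk⟩) R.isPGroup'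
      (zpowers_le.mpr (centralizer_le_normalizer _ hu))
  rw [← (IsSylowIn.sylow_top R).eq_of_le h1 le_sup_right le_top]
  exact mem_sup_left (mem_zpowers u)

theorem two_le_card_primeFactors [IsSimpleGroup G] (hna : ¬ IsMulCommutative G) {x : G}
    (hx : x ≠ 1) : 2 ≤ (cidx x).primeFactors.card := by
  by_contra hc
  have h1 : (cidx x).primeFactors.card = 0 ∨ (cidx x).primeFactors.card = 1 := by omega
  rcases h1 with h1 | h1
  · rw [Finset.card_eq_zero, Nat.primeFactors_eq_empty] at h1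
    exact hna (isMulCommutative_of_simple_of_class_prime_pow (k := 0) Nat.prime_two hx
      (h1.resolve_left (cidx_ne_zero x)))
  · obtain ⟨p, k, hp, -, e⟩ := (isPrimePow_nat_iff _).mp
      (isPrimePow_iff_card_primeFactors_eq_one.mpr h1)
    exact hna (isMulCommutative_of_simple_of_class_prime_pow hp hx e.symm)

theorem three_le_card_primeFactors [IsSimpleGroup G] (hna : ¬ IsMulCommutative G) :
    3 ≤ (Nat.card G).primeFactors.card := by
  by_contra hc
  exact not_isSolvable_of_simple hna (isSolvable_of_card_primeFactors_le_two (by omega))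

theorem not_hnpc [IsSimpleGroup G] (hna : ¬ IsMulCommutative G) {r : ℕ} [hr : Fact r.Prime]
    (hd : r ∣ Nat.card G) : ¬ HasNormalPComplement r G := by
  obtain ⟨s, hs, hsr⟩ := Finset.exists_mem_ne
    (show 1 < (Nat.card G).primeFactors.card by have := three_le_card_primeFactors hna; omega) r
  exact H4.not_hnpc_of_simple (Nat.prime_of_mem_primeFactors hs) hsr hd
    (Nat.dvd_of_mem_primeFactors hs)

theorem two_le_ee [IsSimpleGroup G] (hna : ¬ IsMulCommutative G) {r : ℕ} [hr : Fact r.Prime]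
    (hd : r ∣ Nat.card G) (R : Sylow r G) : 2 ≤ ee (R : Subgroup G) := by
  have h0 := ee_ne_zero (R : Subgroup G)
  have h1 : ee (R : Subgroup G) ≠ 1 := fun e => not_hnpc hna hd
    (PCompl.hnpc_of_normalizer_le_centralizer R (relIndex_eq_one.mp e))
  omega

theorem primeFactors_cidx_subset (x : G) : (cidx x).primeFactors ⊆ (Nat.card G).primeFactors :=
  Nat.primeFactors_mono (index_dvd_card _) Nat.card_pos.ne'

theorem card_filter_not_dvd (x : G) :
    ((Nat.card G).primeFactors.filter fun r => ¬ r ∣ cidx x).card +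
      (cidx x).primeFactors.card = (Nat.card G).primeFactors.card := by
  rw [← Finset.card_sdiff_add_card_eq_card (primeFactors_cidx_subset x)]
  congr 2
  ext r
  simp only [Finset.mem_filter, Finset.mem_sdiff, Nat.mem_primeFactors]
  have := cidx_ne_zero x
  tauto

theorem card_primeFactors_eq [IsSimpleGroup G] (hna : ¬ IsMulCommutative G)
    (h : ∀ x : G, (cidx x).primeFactors.card ≤ 2) : (Nat.card G).primeFactors.card = 3 := by
  classical
  haveI := Fintype.ofFinite G
  have h3 := three_le_card_primeFactors hna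
  set π := (Nat.card G).primeFactors with hπ
  have h1 : ∑ r ∈ π, (2 * (Ar G r).ncard + 2) ≤ ∑ _r ∈ π, Nat.card G := by
    refine Finset.sum_le_sum fun r hr => ?_
    haveI := Fact.mk (Nat.prime_of_mem_primeFactors hr)
    obtain ⟨R⟩ : Nonempty (Sylow r G) := inferInstance
    exact mul_Ar_le R (two_le_ee hna (Nat.dvd_of_mem_primeFactors hr) R)
  have h2 : ∀ r, (Ar G r).ncard = ∑ x ∈ Finset.univ.erase (1 : G), if ¬ r ∣ cidx x then 1 else 0 := by
    intro r
    rw [← Finset.card_filter, ← Set.ncard_coe_finset]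
    congr 1
    ext x
    simp [Ar]
  have h4 : ∑ _x ∈ Finset.univ.erase (1 : G), (π.card - 2) ≤ ∑ r ∈ π, (Ar G r).ncard := by
    simp only [h2]
    rw [Finset.sum_comm]
    refine Finset.sum_le_sum fun x _ => ?_
    rw [← Finset.card_filter]
    have := card_filter_not_dvd x
    have := h x
    rw [← hπ] at *
    omega
  rw [Finset.sum_add_distrib, ← Finset.mul_sum] at h1
  simp only [Finset.sum_const, smul_eq_mul, Finset.card_erase_of_mem (Finset.mem_univ _),
    Finset.card_univ, ← Nat.card_eq_fintype_card] at h1 h4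
  obtain ⟨g, hg⟩ : ∃ g, Nat.card G = g + 1 := ⟨_, (Nat.succ_pred_eq_of_pos Nat.card_pos).symm⟩
  by_contra hc
  obtain ⟨k, hk⟩ : ∃ k, π.card = k + 4 := ⟨π.card - 4, by omega⟩
  rw [hk, hg] at h1 h4
  simp only [Nat.add_sub_cancel, show k + 4 - 2 = k + 2 from rfl] at h4
  have h5 : 1 ≤ g := by
    have : 1 < Nat.card G := Finite.one_lt_card
    omega
  nlinarith

/-- The configuration with three primes. -/
structure Tri (G : Type*) [Group G] (p q : ℕ) : Prop where
  hna : ¬ IsMulCommutative G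
  hp : p.Prime
  hq : q.Prime
  p2 : p ≠ 2
  q2 : q ≠ 2
  pq : p ≠ q
  d2 : 2 ∣ Nat.card G
  dp : p ∣ Nat.card G
  dq : q ∣ Nat.card G
  primes : ∀ r : ℕ, r.Prime → r ∣ Nat.card G → r = 2 ∨ r = p ∨ r = q
  ex : ∀ x : G, ∃ r : ℕ, r.Prime ∧ r ∣ Nat.card G ∧ ¬ r ∣ cidx x
  uniq : ∀ x : G, x ≠ 1 → ∀ r s : ℕ, r.Prime → s.Prime → r ∣ Nat.card G → s ∣ Nat.card G →
    ¬ r ∣ cidx x → ¬ s ∣ cidx x → r = s

theorem exists_tri [IsSimpleGroup G] (hna : ¬ IsMulCommutative G)
    (h : ∀ x : G, (cidx x).primeFactors.card ≤ 2) : ∃ p q, Tri G p q := by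
  classical
  have h3 := card_primeFactors_eq hna h
  have d2 : 2 ∣ Nat.card G :=
    (even_card_of_not_isSolvable (not_isSolvable_of_simple hna)).two_dvd
  have m2 : 2 ∈ (Nat.card G).primeFactors :=
    Nat.mem_primeFactors.mpr ⟨Nat.prime_two, d2, Nat.card_pos.ne'⟩
  obtain ⟨p, q, hpq, e⟩ := Finset.card_eq_two.mp
    (show ((Nat.card G).primeFactors.erase 2).card = 2 by rw [Finset.card_erase_of_mem m2, h3])
  have mp : p ∈ (Nat.card G).primeFactors.erase 2 := by simp [e]
  have mq : q ∈ (Nat.card G).primeFactors.erase 2 := by simp [e]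
  rw [Finset.mem_erase, Nat.mem_primeFactors] at mp mq
  refine ⟨p, q, hna, mp.2.1, mq.2.1, mp.1, mq.1, hpq, d2, mp.2.2.1, mq.2.2.1, fun r hr hd => ?_,
    fun x => ?_, fun x hx r s hr hs dr ds nr ns => ?_⟩
  · by_cases h2 : r = 2
    · exact Or.inl h2
    · have : r ∈ (Nat.card G).primeFactors.erase 2 :=
        Finset.mem_erase.mpr ⟨h2, Nat.mem_primeFactors.mpr ⟨hr, hd, Nat.card_pos.ne'⟩⟩
      rw [e] at this
      exact Or.inr (by simpa using this)
  · have h1 := card_filter_not_dvd x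
    have h2 := h x
    obtain ⟨r, hr⟩ := Finset.card_pos.mp (show 0 < ((Nat.card G).primeFactors.filter
      fun r => ¬ r ∣ cidx x).card by omega)
    rw [Finset.mem_filter, Nat.mem_primeFactors] at hr
    exact ⟨r, hr.1.1, hr.1.2.1, hr.2⟩
  · have h1 := card_filter_not_dvd x
    have h2 := two_le_card_primeFactors hna hx
    refine Finset.card_le_one.mp (show ((Nat.card G).primeFactors.filter
      fun r => ¬ r ∣ cidx x).card ≤ 1 by omega) r ?_ s ?_
    · exact Finset.mem_filter.mpr ⟨Nat.mem_primeFactors.mpr ⟨hr, dr, Nat.card_pos.ne'⟩, nr⟩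
    · exact Finset.mem_filter.mpr ⟨Nat.mem_primeFactors.mpr ⟨hs, ds, Nat.card_pos.ne'⟩, ns⟩

namespace Tri

variable {p q : ℕ} (h : Tri G p q)
include h

omit [Finite G] in
theorem symm : Tri G q p :=
  ⟨h.hna, h.hq, h.hp, h.q2, h.p2, h.pq.symm, h.d2, h.dq, h.dp,
    fun r hr hd => by have := h.primes r hr hd; tauto, h.ex, h.uniq⟩

theorem cover : Nat.card G ≤ 1 + (Ar G 2).ncard + (Ar G p).ncard + (Ar G q).ncard := by
  have hsub : (Set.univ : Set G) ⊆ {1} ∪ Ar G 2 ∪ Ar G p ∪ Ar G q := by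
    intro x _
    by_cases hx : x = 1
    · exact Or.inl (Or.inl (Or.inl hx))
    obtain ⟨r, hr, hd, hn⟩ := h.ex x
    rcases h.primes r hr hd with rfl | rfl | rfl
    · exact Or.inl (Or.inl (Or.inr ⟨hx, hn⟩))
    · exact Or.inl (Or.inr ⟨hx, hn⟩)
    · exact Or.inr ⟨hx, hn⟩
  have h1 := Set.ncard_le_ncard hsub (Set.toFinite _)
  have h2 := Set.ncard_union_le ({1} ∪ Ar G 2 ∪ Ar G p) (Ar G q)
  have h3 := Set.ncard_union_le ({1} ∪ Ar G 2) (Ar G p)
  have h4 := Set.ncard_union_le {1} (Ar G 2)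
  rw [Set.ncard_univ] at h1
  rw [Set.ncard_singleton] at h4
  omega

theorem three_le_ee [IsSimpleGroup G] (T : Sylow 2 G) : 3 ≤ ee (T : Subgroup G) := by
  have h1 := two_le_ee h.hna h.d2 T
  by_cases hT : IsMulCommutative (T : Subgroup G)
  · have := not_dvd_ee T hT
    omega
  · have := Nat.le_of_dvd (by omega) (sq_dvd_ee T.isPGroup' hT)
    omega

theorem comm [IsSimpleGroup G] [Fact p.Prime] (P : Sylow p G) :
    IsMulCommutative (P : Subgroup G) := by
  haveI := Fact.mk h.hq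
  by_contra hP
  obtain ⟨T⟩ : Nonempty (Sylow 2 G) := inferInstance
  obtain ⟨Q⟩ : Nonempty (Sylow q G) := inferInstance
  have h1 := Nat.le_of_dvd (Nat.pos_of_ne_zero (ee_ne_zero _)) (sq_dvd_ee P.isPGroup' hP)
  have h3 : 3 ≤ p := by have := h.hp.two_le; have := h.p2; omega
  have a2 := mul_Ar_le T (h.three_le_ee T)
  have ap := mul_Ar_le P (e := 9) (le_trans (by nlinarith) h1)
  have aq := mul_Ar_le Q (two_le_ee h.hna h.dq Q)
  have := h.cover
  omega

theorem allC [IsSimpleGroup G] : AllC G p := by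
  haveI := Fact.mk h.hp
  obtain ⟨P⟩ : Nonempty (Sylow p G) := inferInstance
  exact allC_of_comm P (h.comm P)

theorem allC_of_ne [IsSimpleGroup G] {s : ℕ} (hs : s.Prime) (hd : s ∣ Nat.card G) (h2 : s ≠ 2) :
    AllC G s := by
  rcases h.primes s hs hd with rfl | rfl | rfl
  exacts [absurd rfl h2, h.allC, h.symm.allC]

/-- Commuting elements of coprime orders are central for the same prime. -/
theorem same {x y : G} (hc : Commute x y) (hcop : (orderOf x).Coprime (orderOf y)) :
    ∃ r : ℕ, r.Prime ∧ r ∣ Nat.card G ∧ ¬ r ∣ cidx x ∧ ¬ r ∣ cidx y ∧ ¬ r ∣ cidx (x * y) := by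
  obtain ⟨r, hr, hd, hn⟩ := h.ex (x * y)
  have e := centralizer_mul_of_coprime hc hcop
  exact ⟨r, hr, hd, fun e1 => hn (e1.trans (index_dvd_of_le (e ▸ inf_le_left))),
    fun e1 => hn (e1.trans (index_dvd_of_le (e ▸ inf_le_right))), hn⟩

theorem eq_of_commute {x y : G} (hx : x ≠ 1) (hy : y ≠ 1) (hc : Commute x y)
    (hcop : (orderOf x).Coprime (orderOf y)) {r s : ℕ} (hr : r.Prime) (hs : s.Prime)
    (dr : r ∣ Nat.card G) (ds : s ∣ Nat.card G) (nr : ¬ r ∣ cidx x) (ns : ¬ s ∣ cidx y) :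
    r = s := by
  obtain ⟨t, ht, dt, n1, n2, -⟩ := h.same hc hcop
  rw [h.uniq x hx r t hr ht dr dt nr n1, h.uniq y hy s t hs ht ds dt ns n2]

theorem isPGroup_cent {r : ℕ} (hr : r.Prime) (dr : r ∣ Nat.card G)
    (hall : ∀ s : ℕ, s.Prime → s ∣ Nat.card G → s ≠ r → AllC G s) {y : G} (hy : y ≠ 1)
    (hn : ¬ r ∣ cidx y) : IsPGroup r (centralizer ({y} : Set G)) := by
  have key : ∀ y : G, y ≠ 1 → ¬ r ∣ cidx y → ∃ k, orderOf y = r ^ k := by
    intro y hy hn
    refine exists_pow_of_forall_prime_eq hr (orderOf_pos y).ne' fun s hs hd => ?_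
    by_contra hsr
    obtain ⟨w, hw, hws⟩ := exists_orderOf_eq_mem_zpowers hd
    have ds := hd.trans (orderOf_dvd_natCard y)
    exact hsr (h.uniq w (ne_one_of_orderOf_prime hs hws) s r hs hr ds dr
      (hall s hs ds hsr w 1 (by simpa using hws))
      fun e => hn (e.trans (index_dvd_of_le (centralizer_le_centralizer_of_mem_zpowers hw))))
  obtain ⟨k, hk⟩ := key y hy hn
  refine isPGroup_of_forall_orderOf fun x hx =>
    exists_pow_of_forall_prime_eq hr (orderOf_pos x).ne' fun s hs hd => ?_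
  by_contra hsr
  obtain ⟨w, hw, hws⟩ := exists_orderOf_eq_mem_zpowers hd
  have ds := hd.trans (orderOf_dvd_natCard x)
  refine hsr (h.eq_of_commute (ne_one_of_orderOf_prime hs hws) hy
    (mem_cent.mp (zpowers_le.mpr hx hw)) ?_ hs hr ds dr
    (hall s hs ds hsr w 1 (by simpa using hws)) hn)
  rw [hws, hk]
  exact ((Nat.coprime_primes hs hr).mpr hsr).pow_right k

/-- The centralizer of a `2`-central element is a Sylow `2`-subgroup. -/
theorem cent_eq [IsSimpleGroup G] (T : Sylow 2 G) {z : G} (hz : z ≠ 1)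
    (hT : (T : Subgroup G) ≤ centralizer {z}) : centralizer ({z} : Set G) = T :=
  (IsSylowIn.sylow_top T).eq_of_le (h.isPGroup_cent Nat.prime_two h.d2
    (fun _ hs hd h2 => h.allC_of_ne hs hd h2) hz (not_dvd_cidx_of_sylow_le T hT)) hT le_top

theorem fgroup [IsSimpleGroup G] (h2 : AllC G 2) (x y : G) (hy : y ≠ 1)
    (hle : centralizer ({x} : Set G) ≤ centralizer {y}) :
    centralizer ({x} : Set G) = centralizer {y} := by
  have hall : ∀ s : ℕ, s.Prime → s ∣ Nat.card G → AllC G s := fun s hs hd => by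
    by_cases e : s = 2
    · rwa [e]
    · exact h.allC_of_ne hs hd e
  by_cases hx : x = 1
  · refine le_antisymm hle ?_
    rw [hx, centralizer_singleton_eq_top_iff.mpr (one_mem _)]
    exact le_top
  obtain ⟨r, hr, dr, nr⟩ := h.ex x
  haveI := Fact.mk hr
  have ny : ¬ r ∣ cidx y := fun e => nr (e.trans (index_dvd_of_le hle))
  have hS : IsSylowIn r (centralizer ({x} : Set G)) ⊤ :=
    ⟨le_top, h.isPGroup_cent hr dr (fun s hs hd _ => hall s hs hd) hx nr, by
      rwa [relIndex_top_right]⟩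
  exact (hS.eq_of_le (h.isPGroup_cent hr dr (fun s hs hd _ => hall s hs hd) hy ny) hle le_top).symm

end Tri

end CfsgLib.SigX
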