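import Cfsg.Agent.Lib.HallNumA
import Cfsg.Agent.Lib.SE.Main
import Cfsg.Agent.Lib.Sig.ZNMain
import Cfsg.Agent.Lib.Suz.Main
import Cfsg.Agent.Lib.H9PLenHH
import Cfsg.Agent.Lib.FrobeniusPComplement

/-!
# The Hall numbers `12`, `24` and `60`
-/

set_option autoImplicit false

namespace CfsgLib.H4

open Subgroup Cfsg CfsgLib.GW CfsgLib.FT.BGN CfsgLib.FT.U4 MatrixGroups

universe u

variable {G : Type*} [Group G] [Finite G]

/-- Simple groups with elementary abelian Sylow `2`-subgroups of order at least `8` and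
`2`-nilpotent centralizers of involutions. -/
theorem sl2_of_hnpc_cent {G : Type u} [Group G] [Finite G] [IsSimpleGroup G]
    (hns : ¬ Group.IsSolvable G) {S : Subgroup G} (hS : IsSylowIn 2 S ⊤)
    (hE : IsElementaryAbelian 2 S) (h8 : 8 ≤ Nat.card S)
    (hC : ∀ t : G, orderOf t = 2 → HasNormalPComplement 2 𝐂[t]) :
    ∃ n : ℕ, 2 ≤ n ∧ Nonempty (G ≃* SL(2, GaloisField 2 n)) := by
  have hSol : Sig.SolC G := fun t ht => isSolvable_of_hnpc_two (hC t ht)
  have hW := (hSol.wc_eq hE h8 le_rfl (by omega)).2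
  have hN : 𝐍(S) ≤ 𝐍(Sig.wc S) := fun g hg => by
    rw [mem_normalizer_iff_map_conj_eq] at hg ⊢
    exact (Sig.wc_map_conj S g).symm.trans (congrArg _ hg)
  have hA : H1.AbTwo G := fun Q hQ => by
    obtain ⟨x, -, hx⟩ := hS.exists_conj_le hQ le_top
    refine ⟨⟨fun a b => Subtype.ext (conj_injective (x := x) ?_)⟩⟩
    have := congrArg Subtype.val (hE.1.is_comm.comm ⟨_, hx ⟨a, a.2, rfl⟩⟩ ⟨_, hx ⟨b, b.2, rfl⟩⟩)
    simpa [mul_assoc] using this
  obtain ⟨P, rfl⟩ := IsSylowIn.top_iff.1 hS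
  have hs : Group.IsSolvable ↥(𝐍((P : Subgroup G)) ⊔ Sig.wc P) :=
    isSolvable_sup hN (by
      have := @isSolvable_of_normal_sylow_two _ _ _
        (P.subtype (le_normalizer (H := (P : Subgroup G))))
        (normal_subgroupOf_of_le_normalizer (H := 𝐍((P : Subgroup G))) (N := P) le_rfl)
      exact this) (solvable_of_odd (Nat.coprime_two_right.1 hW))
  have hne : 𝐍((P : Subgroup G)) ⊔ Sig.wc P ≠ ⊤ := fun h => hns (by
    rw [h] at hs
    exact solvable_of_surjective (f := (topEquiv (G := G)).toMonoidHom) topEquiv.surjective)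
  have hP0 : (P : Subgroup G) ≠ ⊥ := fun h => by rw [h, card_bot] at h8; omega
  have h1 := Sig.IsStronglyEmbedded.of_mulEquiv (Sig.isStronglyEmbedded_subgroupOf hS hP0 (fun h => hne (top_le_iff.1 h))
    (inf_le_right.trans le_sup_left) fun t ht h2 => inf_le_right.trans (by
      have hPC : (P : Subgroup G) ≤ 𝐂[t] := fun x hx => mem_cent1.2
        (congrArg Subtype.val (hE.1.is_comm.comm ⟨x, hx⟩ ⟨t, ht⟩))
      intro x hx
      obtain ⟨⟨a, b⟩, e⟩ := (PCompl.hnpc_isComplement' (hC t h2) (P.subtype hPC)).2 ⟨x, hx⟩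
      have e' : ((a : 𝐂[t]) : G) * (b : 𝐂[t]) = x := congrArg Subtype.val e
      rw [← e']
      refine mul_mem (mem_sup_right (Sig.oc_le_wc ht (ne_one_of_inv h2)
        (nilp2_of_hnpc (hC t h2) _ (a : 𝐂[t]).2 ?_))) (mem_sup_left (le_normalizer b.2))
      rw [orderOf_coe]
      exact Nat.coprime_two_right.1 ((PCompl.hnpc_mem_pResidual_iff (hC t h2)).1 a.2))) topEquiv
  have h2 : ((𝐍((P : Subgroup G)) ⊔ Sig.wc P).subgroupOf ⊤).map (topEquiv (G := G)).toMonoidHom =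
      𝐍((P : Subgroup G)) ⊔ Sig.wc P :=
    (subgroupOf_map_subtype _ _).trans (inf_top_eq _)
  rw [h2] at h1
  have hr : SE.Rk2 (⊤ : Subgroup G) := by
    obtain ⟨a, ha, ha1⟩ := exists_ne_one hP0
    have hsq : ∀ x ∈ (P : Subgroup G), x * x = 1 := fun x hx => by rw [← sq]; exact hE.2 x hx
    have : ¬ (P : Subgroup G) ≤ zpowers a := fun h => by
      have := card_le_of_le h
      rw [card_zpowers_inv (inv_of_mul_self (hsq a ha) ha1)] at this
      omega
    obtain ⟨b, hb, hba⟩ := SetLike.not_le_iff_exists.1 this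
    exact ⟨a, trivial, b, trivial, ⟨hsq a ha, ha1⟩, ⟨hsq b hb, fun h => hba (h ▸ one_mem _)⟩,
      fun h => hba (h ▸ mem_zpowers a), congrArg Subtype.val (hE.1.is_comm.comm ⟨a, ha⟩ ⟨b, hb⟩)⟩
  obtain ⟨Q, t, R, hQ⟩ := SE.bender_solvable h1 hs (SE.normalCore_eq_bot_of_simple hne) hr
    (Or.inl hA)
  obtain ⟨n, h3, -, -, h4, -⟩ := R.simple_of_comm hQ fun x hx y hy =>
    congrArg Subtype.val ((hA Q (R.isPGroup_two hQ)).is_comm.comm ⟨x, hx⟩ ⟨y, hy⟩)
  exact ⟨n, h3, h4⟩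

theorem act_cases {Q : Subgroup G} (h8 : Nat.card Q ∣ 8) {y : G} {q k : ℕ} (hq : q.Prime)
    (hq2 : q ≠ 2) (ho : orderOf y = q ^ k) (hy : y ∈ 𝐍(Q)) (hc : y ∉ 𝐂(Q)) :
    (q = 3 ∧ 4 ∣ Nat.card Q) ∨ (q = 7 ∧ Nat.card Q = 8 ∧ Q ⊓ 𝐂[y] = ⊥) := by
  have : Fact q.Prime := ⟨hq⟩
  have h1 := H1.card_modEq_card_inf_centralizer_elem (p := q) (U := Q)
    (IsPGroup.of_card (by rw [Nat.card_zpowers, ho])) hy
  have h2 : Nat.card ↥(Q ⊓ 𝐂[y]) ∣ Nat.card Q := card_dvd_of_le inf_le_left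
  have h3 : Nat.card ↥(Q ⊓ 𝐂[y]) ≠ Nat.card Q := fun h => hc fun x hx =>
    mem_cent1.1 ((eq_of_le_of_card_ge (H := Q ⊓ 𝐂[y]) inf_le_left h.ge).ge hx).2
  rw [← card_eq_one]
  have h4 := (Nat.modEq_iff_dvd' (Nat.le_of_dvd Nat.card_pos h2)).1 h1.symm
  have h5 := hq.two_le
  have h6 := hq.eq_two_or_odd.resolve_left hq2
  generalize Nat.card ↥(Q ⊓ 𝐂[y]) = c at *
  generalize Nat.card Q = n at *
  have hn := Nat.le_of_dvd (by norm_num) h8
  have hc := Nat.le_of_dvd (Nat.pos_of_dvd_of_pos h8 (by norm_num)) h2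
  have hq' := Nat.le_of_dvd (by omega) h4
  have hq8 : q ≤ 8 := by omega
  interval_cases n <;> interval_cases c <;> interval_cases q <;> simp_all

theorem exists_of_solvable_sub {m n : ℕ} (h : Nat.card G = m * n) (hc : m.Coprime n)
    {K : Subgroup G} (hs : Group.IsSolvable K) (hm : m ∣ Nat.card K) :
    ∃ H : Subgroup G, Nat.card H = m := by
  obtain ⟨k, hk⟩ := hm
  have h1 := card_subgroup_dvd_card K
  have hm0 : 0 < m := Nat.pos_of_ne_zero fun h0 => Nat.card_pos.ne' (by rw [h, h0, zero_mul])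
  rw [h, hk, Nat.mul_dvd_mul_iff_left hm0] at h1
  obtain ⟨H, hH⟩ := Hall.exists_subgroup_card_eq_of_coprime hs (hc.coprime_dvd_right h1) hk
  exact ⟨H.map K.subtype, by rw [card_map_of_injective K.subtype_injective, hH]⟩

theorem solvable_norm {Q : Subgroup G} (hQ : IsPGroup 2 Q) (h : ¬ Nat.card Q * 4 ∣ Nat.card G) :
    Group.IsSolvable 𝐍(Q) := by
  refine isSolvable_of_normal_of_quotient (Q.subgroupOf 𝐍(Q))
    (isSolvable_of_isPGroup (hQ.comap_subtype)) (solvable_of_not_four_dvd fun h4 => h ?_)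
  refine Dvd.dvd.trans ?_ (card_subgroup_dvd_card 𝐍(Q))
  rw [← (Q.subgroupOf 𝐍(Q)).card_mul_index,
    Nat.card_congr (subgroupOfEquivOfLe le_normalizer).toEquiv]
  exact Nat.mul_dvd_mul_left _ h4

theorem three_dvd_norm {Q : Subgroup G} {y : G} {k : ℕ} (ho : orderOf y = 3 ^ k) (hy : y ∈ 𝐍(Q))
    (hc : y ∉ 𝐂(Q)) : 3 ∣ Nat.card 𝐍(Q) := by
  refine Dvd.dvd.trans ?_ (orderOf_dvd_natCard _ hy)
  rw [ho]
  refine dvd_pow_self 3 fun h => hc ?_
  rw [h, pow_zero, orderOf_eq_one_iff] at ho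
  exact ho ▸ one_mem _

theorem card_dvd_of_not_dvd {Q : Subgroup G} (hQ : IsPGroup 2 Q) {k : ℕ}
    (h : ¬ 2 ^ (k + 1) ∣ Nat.card G) : Nat.card Q ∣ 2 ^ k := by
  obtain ⟨j, hj⟩ := hQ.exists_card_eq
  rw [hj]
  refine pow_dvd_pow 2 (Nat.le_of_not_lt fun hl => h ?_)
  exact (pow_dvd_pow 2 hl).trans (hj ▸ card_subgroup_dvd_card Q)

/-- A solvable subgroup of order divisible by `12`. -/
theorem exists_solvable_twelve (h8 : ¬ 8 ∣ Nat.card G) (hs : ¬ Group.IsSolvable G) :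
    ∃ Q : Subgroup G, IsPGroup 2 Q ∧ Nat.card Q = 4 ∧ Group.IsSolvable 𝐍(Q) ∧
      12 ∣ Nat.card 𝐍(Q) := by
  obtain ⟨Q, y, q, k, hQ, -, hy, hq, hq2, ho, hc⟩ :=
    FrobNPC.exists_not_centralizes_of_not_hnpc fun h => hs (isSolvable_of_hnpc_two h)
  have h1 : Nat.card Q ∣ 4 := card_dvd_of_not_dvd hQ (k := 2) h8
  rcases act_cases (h1.trans (by decide)) hq hq2 ho hy hc with ⟨rfl, h2⟩ | ⟨-, h2, -⟩
  · have h3 := Nat.dvd_antisymm h1 h2
    exact ⟨Q, hQ, h3, solvable_norm hQ fun h => h8 ((by rw [h3]; decide : 8 ∣ _).trans h),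
      (show Nat.Coprime 4 3 by decide).mul_dvd_of_dvd_of_dvd
        (h3 ▸ card_dvd_of_le le_normalizer) (three_dvd_norm ho hy hc)⟩
  · rw [h2] at h1
    exact absurd h1 (by decide)

theorem not_dvd_of_coprime {m n d : ℕ} (hc : m.Coprime n) {p : ℕ} (hp : p.Prime) (h1 : d ∣ m)
    (h2 : p ∣ m) (h3 : ¬ d * p ∣ m) (h4 : ∃ k, d = p ^ k) : ¬ d * p ∣ m * n := fun h => h3 (by
  obtain ⟨k, rfl⟩ := h4
  rw [← pow_succ] at h ⊢
  exact ((hc.coprime_dvd_left h2).pow_left _).dvd_of_dvd_mul_right h)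

theorem hall_twelve {n : ℕ} (h : Nat.card G = 12 * n) (hc : Nat.Coprime 12 n) :
    ∃ H : Subgroup G, Nat.card H = 12 := by
  by_cases hs : Group.IsSolvable G
  · exact Hall.exists_subgroup_card_eq_of_coprime hs hc h
  obtain ⟨Q, -, -, h1, h2⟩ := exists_solvable_twelve (h ▸ not_dvd_of_coprime (d := 4) hc
    Nat.prime_two (by decide) (by decide) (by decide) ⟨2, rfl⟩) hs
  exact exists_of_solvable_sub h hc h1 h2

/-- No `3`-element acts nontrivially on a `2`-subgroup. -/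
def NoThree (G : Type*) [Group G] : Prop :=
  ∀ Q : Subgroup G, IsPGroup 2 Q → ∀ y ∈ 𝐍(Q), (∃ k, y ^ 3 ^ k = 1) → y ∈ 𝐂(Q)

theorem NoThree.subgroup (h : NoThree G) (N : Subgroup G) : NoThree N := by
  rintro Q hQ y hy ⟨k, hk⟩ x hx
  exact Subtype.ext (h (Q.map N.subtype) (hQ.map _) y (le_normalizer_map _ ⟨y, hy, rfl⟩)
    ⟨k, congrArg Subtype.val hk⟩ x ⟨x, hx, rfl⟩)

theorem NoThree.quotient (h : NoThree G) (N : Subgroup G) [N.Normal] : NoThree (G ⧸ N) := by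
  rintro Q hQ y hy ⟨k, hk⟩
  have hf := QuotientGroup.mk'_surjective N
  obtain ⟨y, rfl⟩ := hf y
  obtain ⟨T, hT⟩ := IsSylowIn.exists_in (p := 2) (Q.comap (QuotientGroup.mk' N))
  have h1 : T.map (QuotientGroup.mk' N) = Q := by
    have := hT.map (QuotientGroup.mk' N)
    rw [map_comap_eq_self_of_surjective hf] at this
    exact (this.eq_of_le hQ this.le le_rfl).symm
  obtain ⟨c, hc, h2⟩ := hT.frattini_elem (g := y) (le_normalizer_comap _ hy)
  obtain ⟨τ, hτ, e⟩ := h1.ge hc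
  have e1 : QuotientGroup.mk' N (τ⁻¹ * (c * y)) = QuotientGroup.mk' N y := by
    rw [map_mul, map_mul, map_inv, e, inv_mul_cancel_left]
  obtain ⟨u, hu, e2, h3⟩ := H9.exists_lift_pElement (p := 3) (QuotientGroup.mk' N) (τ⁻¹ * (c * y))
    (k := k) (by rw [e1, hk])
  have h4 := h T hT.isPGroup u (zpowers_le.2 (mul_mem (inv_mem (le_normalizer hτ)) h2) hu) h3
  rw [← e1, ← e2, ← h1]
  rintro _ ⟨x, hx, rfl⟩
  rw [← map_mul, h4 x hx, map_mul]

theorem NoThree.solvable (G : Type u) [Group G] [Finite G] (h : NoThree G)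
    (h16 : ¬ 16 ∣ Nat.card G) (h9 : ¬ 9 ∣ Nat.card G) : Group.IsSolvable G := by
  refine isSolvable_of_simple_induction
    (P := fun X _ _ => NoThree X ∧ ¬ 16 ∣ Nat.card X ∧ ¬ 9 ∣ Nat.card X)
    (fun X _ _ N _ h => ⟨h.1.subgroup N, fun h' => h.2.1 (h'.trans (card_subgroup_dvd_card N)),
      fun h' => h.2.2 (h'.trans (card_subgroup_dvd_card N))⟩)
    (fun X _ _ N _ h => ⟨h.1.quotient N, fun h' => h.2.1 (h'.trans (card_quotient_dvd_card N)),
      fun h' => h.2.2 (h'.trans (card_quotient_dvd_card N))⟩) ?_ G ⟨h, h16, h9⟩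
  rintro X _ _ _ ⟨h, h16, h9⟩
  by_contra hs
  have key : ∀ (Q : Subgroup X) (y : X) (q k : ℕ), IsPGroup 2 Q → y ∈ 𝐍(Q) → q.Prime → q ≠ 2 →
      orderOf y = q ^ k → y ∉ 𝐂(Q) → q = 7 ∧ Nat.card Q = 8 ∧ Q ⊓ 𝐂[y] = ⊥ :=
    fun Q y q k hQ hy hq hq2 ho hc =>
      (act_cases (card_dvd_of_not_dvd hQ (k := 3) h16) hq hq2 ho hy hc).resolve_left fun h' =>
        hc (h Q hQ y hy ⟨k, by rw [← h'.1, ← ho, pow_orderOf_eq_one]⟩)
  obtain ⟨Q, y, q, k, hQ, h0, hy, hq, hq2, ho, hc⟩ :=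
    FrobNPC.exists_not_centralizes_of_not_hnpc fun h => hs (isSolvable_of_hnpc_two h)
  obtain ⟨rfl, h8, hb⟩ := key Q y q k hQ hy hq hq2 ho hc
  have hS : IsSylowIn 2 Q ⊤ := IsSylowIn.of_maximal le_top hQ fun T hT h1 _ =>
    (eq_of_le_of_card_ge h1 (h8 ▸ Nat.le_of_dvd (by norm_num)
      (card_dvd_of_not_dvd hT (k := 3) h16))).ge
  have hE : IsElementaryAbelian 2 Q := by
    have h1 := Sig.oz_le Q
    have h2 : y ∉ 𝐂(Sig.oz Q) := fun h2 => by
      obtain ⟨t, ht, ht2⟩ := Sig.exists_involution_mem (hQ.to_le inf_le_left)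
        (inf_centralizer_ne_bot_of_isNilpotent hQ.isNilpotent le_rfl le_normalizer h0)
      have : t ∈ Q ⊓ 𝐂[y] := ⟨ht.1, mem_cent1.2
        (h2 t (Sig.mem_oz.2 ⟨ht.1, ht.2, mul_self_of_inv ht2⟩))⟩
      rw [hb, mem_bot] at this
      exact ne_one_of_inv ht2 this
    obtain ⟨-, h3, -⟩ := key _ y 7 k (hQ.to_le h1) (Sig.le_normalizer_oz le_rfl hy) hq hq2 ho h2
    rw [← eq_of_le_of_card_ge h1 (by omega)]
    exact Sig.oz_elem Q
  obtain ⟨n, hn, ⟨e⟩⟩ := sl2_of_hnpc_cent hs hS hE h8.ge fun t ht =>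
    FrobNPC.hnpc_of_primePow_centralizes fun H hH _ g hg q k hq hq2 ho x hx => by
      have h1 : zpowers t ≤ 𝐍(H.map (𝐂[t]).subtype) := zpowers_le.2 (centralizer_le_normalizer _
        (by rintro _ ⟨z, -, rfl⟩; exact mem_cent1.1 z.2))
      by_contra hne
      obtain ⟨-, -, h2⟩ := key (H.map (𝐂[t]).subtype ⊔ zpowers t) g q k
        ((hH.map _).to_sup_of_normal_left' (isPGroup_zpowers_inv ht) h1)
        (H1.le_normalizer_sup (zpowers_le.2 (le_normalizer_map _ ⟨g, hg, rfl⟩))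
          (zpowers_le.2 (centralizer_le_normalizer _ (by rw [cent_zpowers]; exact g.2)))
          (mem_zpowers _)) hq hq2
        (by rw [orderOf_coe, ho])
        fun h3 => hne (Subtype.ext (h3 x (mem_sup_left ⟨x, hx, rfl⟩)))
      have : t ∈ (H.map (𝐂[t]).subtype ⊔ zpowers t) ⊓ 𝐂[(g : X)] :=
        ⟨mem_sup_right (mem_zpowers t), mem_cent1_comm.1 g.2⟩
      rw [h2, mem_bot] at this
      exact ne_one_of_inv ht this
  have h1 := Nat.card_congr e.toEquiv
  rw [SL2C.card_SL2, GaloisField.card 2 n (by omega)] at h1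
  have h2 : n ≤ 3 := by
    by_contra h2
    exact h16 (h1 ▸ (pow_dvd_pow 2 (show 4 ≤ n by omega)).mul_right _)
  have h3 := h8 ▸ card_subgroup_dvd_card Q
  interval_cases n
  · rw [h1] at h3
    exact absurd h3 (by decide)
  · exact h9 (by rw [h1]; decide)

theorem hall_twenty_four {n : ℕ} (h : Nat.card G = 24 * n) (hc : Nat.Coprime 24 n) :
    ∃ H : Subgroup G, Nat.card H = 24 := by
  have h16 : ¬ 16 ∣ Nat.card G := h ▸ not_dvd_of_coprime (d := 8) hc
    Nat.prime_two (by decide) (by decide) (by decide) ⟨3, rfl⟩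
  have h9 : ¬ 9 ∣ Nat.card G := h ▸ not_dvd_of_coprime (d := 3) hc
    Nat.prime_three (by decide) (by decide) (by decide) ⟨1, rfl⟩
  by_cases h3 : NoThree G
  · exact Hall.exists_subgroup_card_eq_of_coprime (h3.solvable G h16 h9) hc h
  simp only [NoThree, not_forall] at h3
  obtain ⟨Q, hQ, y, hy, ⟨k, hk⟩, hyc⟩ := h3
  obtain ⟨j, -, ho⟩ := (Nat.dvd_prime_pow Nat.prime_three).1 (orderOf_dvd_of_pow_eq_one hk)
  have h1 : Nat.card Q ∣ 8 := card_dvd_of_not_dvd hQ (k := 3) h16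
  have h4 : 4 ∣ Nat.card Q := ((act_cases h1 Nat.prime_three (by decide) ho hy hyc).resolve_right
    fun h => absurd h.1 (by decide)).2
  refine exists_of_solvable_sub h hc
    (solvable_norm hQ fun h => h16 ((Nat.mul_dvd_mul_right h4 4).trans h))
    ((show Nat.Coprime 8 3 by decide).mul_dvd_of_dvd_of_dvd ?_ (three_dvd_norm ho hy hyc))
  obtain ⟨P, hP⟩ := hQ.exists_le_sylow
  have h8 : 8 ∣ Nat.card (P : Subgroup G) := by
    rw [Sylow.card_eq_multiplicity]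
    exact pow_dvd_pow 2 ((Nat.prime_two.pow_dvd_iff_le_factorization (k := 3) Nat.card_pos.ne').1
      (by rw [h]; exact Dvd.dvd.mul_right (by decide) n))
  rcases hP.eq_or_lt with h5 | h5
  · exact (h5 ▸ h8).trans (card_dvd_of_le le_normalizer)
  have h6 := lt_inf_normalizer_of_isPGroup P.isPGroup' h5
  refine Dvd.dvd.trans ?_ (card_dvd_of_le (inf_le_right : (P : Subgroup G) ⊓ 𝐍(Q) ≤ _))
  have h7 := card_dvd_of_not_dvd (P.isPGroup'.to_le
    (inf_le_left : (P : Subgroup G) ⊓ 𝐍(Q) ≤ _)) (k := 3) h16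
  have h10 := h4.trans (card_dvd_of_le h6.le)
  have h11 : Nat.card ↥((P : Subgroup G) ⊓ 𝐍(Q)) ≠ 4 := fun h' =>
    h6.ne (eq_of_le_of_card_ge h6.le (h' ▸ Nat.le_of_dvd Nat.card_pos h4))
  have := Nat.le_of_dvd (by norm_num) h7
  have := Nat.card_pos (α := ↥((P : Subgroup G) ⊓ 𝐍(Q)))
  omega

theorem hall_sixty (G : Type u) [Group G] [Finite G] : ∀ {n : ℕ}, Nat.card G = 60 * n →
    Nat.Coprime 60 n → ∃ H : Subgroup G, Nat.card H = 60 := by
  refine card_induction (P := fun G _ _ => ∀ {n : ℕ}, Nat.card G = 60 * n →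
    Nat.Coprime 60 n → ∃ H : Subgroup G, Nat.card H = 60) ?_ G
  intro G _ _ ih n h hc
  by_cases hs : Group.IsSolvable G
  · exact Hall.exists_subgroup_card_eq_of_coprime hs hc h
  have h8 : ¬ 8 ∣ Nat.card G := h ▸ not_dvd_of_coprime (d := 4) hc
    Nat.prime_two (by decide) (by decide) (by decide) ⟨2, rfl⟩
  have h9 : ¬ 9 ∣ Nat.card G := h ▸ not_dvd_of_coprime (d := 3) hc
    Nat.prime_three (by decide) (by decide) (by decide) ⟨1, rfl⟩
  have h25 : ¬ 25 ∣ Nat.card G := h ▸ not_dvd_of_coprime (d := 5) hc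
    Nat.prime_five (by decide) (by decide) (by decide) ⟨1, rfl⟩
  by_cases hO : Od (⊤ : Subgroup G) = ⊥
  · obtain ⟨Q, hQ, h1, h2, h3⟩ := exists_solvable_twelve h8 hs
    have hS : IsSylowIn 2 Q ⊤ := IsSylowIn.of_maximal le_top hQ fun T hT h4 _ =>
      (eq_of_le_of_card_ge h4 (h1 ▸ Nat.le_of_dvd (by norm_num)
        (card_dvd_of_not_dvd hT (k := 2) h8))).ge
    obtain ⟨P, rfl⟩ := IsSylowIn.top_iff.1 hS
    have hnc : ¬ IsCyclic (P : Subgroup G) := fun h => hs (isSolvable_of_isCyclic_sylow_two P h)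
    have hE : E4 G := ⟨h8, fun g hg => hnc (by
      obtain ⟨m, hm⟩ := hg
      have hm0 : m ≠ 0 := fun h0 => (orderOf_pos g).ne' (by rw [hm, h0])
      have h4 : orderOf (g ^ m) = 4 := by
        rw [orderOf_pow_of_dvd hm0 (hm ▸ dvd_mul_left _ _), hm,
          Nat.mul_div_cancel _ (Nat.pos_of_ne_zero hm0)]
      obtain ⟨x, -, hx⟩ := hS.exists_conj_le (Q := zpowers (g ^ m))
        (IsPGroup.of_card (n := 2) (by rw [Nat.card_zpowers, h4]; rfl)) le_top
      refine isCyclic_of_orderOf_eq_card ⟨_, hx ⟨_, mem_zpowers _, rfl⟩⟩ ?_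
      rw [← orderOf_coe, h1, ← h4]
      exact orderOf_conj x _)⟩
    obtain ⟨a, ha, b, hb, h4⟩ := exists_four' hE (M := P) h1.symm.dvd
    have hV : V a b = P := eq_of_le_of_card_ge (V_le ha hb) (by rw [h1, h4.card_V])
    rw [← hV] at hS h2 h3
    rcases struct_Jv hO h4 hS with h5 | ⟨-, -, F, _, _, -, h5, ⟨e⟩⟩
    · refine absurd ?_ hs
      rw [normalizer_eq_top_iff.2 (h5 ▸ inferInstance : (V a b).Normal)] at h2
      exact solvable_of_surjective (f := (topEquiv (G := G)).toMonoidHom) topEquiv.surjective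
    by_cases h6 : 5 ∣ Nat.card (Jv (⊤ : Subgroup G))
    · obtain ⟨H, hH⟩ := exists_card_sixty (PA.two_ne_zero_of_card h5)
        (Nat.card_congr e.toEquiv ▸ h6)
      exact ⟨(H.map e.symm.toMonoidHom).map (Jv ⊤).subtype, by
        rw [card_map_of_injective (subtype_injective _), card_map_of_injective e.symm.injective, hH]⟩
    refine exists_of_solvable_sub h hc h2
      ((show Nat.Coprime 12 5 by decide).mul_dvd_of_dvd_of_dvd h3 ?_)
    have h7 := (hS.mono (V_le (mem_Jv (mem_top _) h4.ot) (mem_Jv (mem_top _) h4.os)) le_top).frattini_le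
      le_top le_normalizer_of_normal
    rw [top_inf_eq, top_le_iff] at h7
    have h10 := card_sup_dvd_mul (H := 𝐍(V a b)) (N := Jv (⊤ : Subgroup G)) le_normalizer_of_normal
    rw [sup_comm, h7, card_top, h] at h10
    exact ((Nat.Prime.dvd_mul Nat.prime_five).1
      ((Dvd.dvd.mul_right (by decide) n).trans h10)).resolve_right h6
  obtain ⟨N, hN, hNO⟩ := exists_isMinNormal_le _ hO
  have := hN.1
  have ho := odd_card_of_le (odd_Od _) hNO
  obtain ⟨p, hp, hNp⟩ := hN.exists_isPGroup (solvable_of_odd ho)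
  have : Fact p.Prime := ⟨hp⟩
  obtain ⟨k, hk⟩ := hNp.exists_card_eq
  have hk0 : k ≠ 0 := fun h0 => hN.2.1 (card_eq_one.1 (by rw [hk, h0, pow_zero]))
  have e := N.card_mul_index
  have hns : ¬ Group.IsSolvable (G ⧸ N) := fun h' =>
    hs (isSolvable_of_normal_of_quotient N (solvable_of_odd ho) h')
  have one : ∀ r : ℕ, ¬ r * r ∣ Nat.card G → p = r → Nat.card N = r := fun r hr hpr => by
    subst hpr
    have : k = 1 := by
      by_contra h1
      refine hr (Dvd.dvd.trans ?_ (card_subgroup_dvd_card N))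
      rw [hk, ← sq]
      exact pow_dvd_pow p (by omega)
    rw [hk, this, pow_one]
  by_cases h3 : p = 3
  · obtain ⟨Q, -, -, -, h1⟩ := exists_solvable_twelve
      (fun h' => h8 (h'.trans (card_quotient_dvd_card N))) hns
    refine absurd ?_ h9
    rw [← e, one 3 h9 h3]
    exact Nat.mul_dvd_mul_left 3 (((show 3 ∣ 12 by decide).trans h1).trans
      (card_subgroup_dvd_card _))
  by_cases h5 : p = 5
  · rw [one 5 h25 h5, h] at e
    obtain ⟨H, hH⟩ := hall_twelve (G := G ⧸ N) (n := n) (by change N.index = _; omega)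
      (hc.coprime_dvd_left (by decide))
    exact ⟨H.comap (QuotientGroup.mk' N), by rw [card_comap_mk', hH, one 5 h25 h5]⟩
  have hcop : (Nat.card N).Coprime 60 := by
    have h2 : p ≠ 2 := by
      rintro rfl
      exact ho.not_two_dvd_nat (hk ▸ dvd_pow_self 2 hk0)
    rw [hk, show 60 = 2 ^ 2 * 3 * 5 from rfl]
    exact ((((Nat.coprime_primes hp Nat.prime_two).2 h2).pow_right 2).mul_right
      ((Nat.coprime_primes hp Nat.prime_three).2 h3)).mul_right
      ((Nat.coprime_primes hp Nat.prime_five).2 h5) |>.pow_left k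
  obtain ⟨n', hn'⟩ : Nat.card N ∣ n := hcop.dvd_of_dvd_mul_left (h ▸ card_subgroup_dvd_card N)
  obtain ⟨H, hH⟩ := ih (G ⧸ N) (card_quotient_lt hN.2.1) (n := n') (by
    change N.index = _
    refine Nat.eq_of_mul_eq_mul_left (Nat.card_pos (α := N)) ?_
    rw [e, h, hn']; ring) (hc.coprime_dvd_right (Dvd.intro_left _ hn'.symm))
  have hle : N ≤ H.comap (QuotientGroup.mk' N) := fun x hx => by
    rw [mem_comap, QuotientGroup.mk'_apply, (QuotientGroup.eq_one_iff x).2 hx]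
    exact one_mem _
  have hi : (N.subgroupOf (H.comap (QuotientGroup.mk' N))).index = 60 := by
    have := (N.subgroupOf (H.comap (QuotientGroup.mk' N))).card_mul_index
    rw [Nat.card_congr (subgroupOfEquivOfLe hle).toEquiv, card_comap_mk', hH, mul_comm 60] at this
    exact Nat.eq_of_mul_eq_mul_left Nat.card_pos this
  obtain ⟨K, hK⟩ := exists_right_complement'_of_coprime
    (N := N.subgroupOf (H.comap (QuotientGroup.mk' N)))
    (by rwa [hi, Nat.card_congr (subgroupOfEquivOfLe hle).toEquiv])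
  exact ⟨K.map (Subgroup.subtype _), by
    rw [card_map_of_injective (subtype_injective _), ← hK.symm.index_eq_card, hi]⟩

end CfsgLib.H4
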