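import Mathlib
import Cfsg.Agent.Lib.CommCalc
import Cfsg.Agent.Lib.ClassCount
import Cfsg.Agent.Lib.CoreBasic

/-!
# The subgroup generated by the smallest non-central classes (Mann, Isaacs)
-/

set_option autoImplicit false

namespace CfsgLib.MannIsaacs

open Subgroup
open scoped commutatorElement

variable {G : Type*} [Group G]

/-- For an abelian normal subgroup `K`, the map `k ↦ ⁅k, x⁆`. -/
def commHom (K : Subgroup G) [hK : K.Normal] (hc : IsMulCommutative K) (x : G) : K →* G :=
  MonoidHom.mk' (fun k => ⁅(k : G), x⁆) fun a b => by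
    have h1 : ⁅(b : G), x⁆ ∈ K := commutator_le_left K ⊤ (commutator_mem_commutator b.2 (mem_top x))
    have h2 : ⁅(a : G), x⁆ ∈ K := commutator_le_left K ⊤ (commutator_mem_commutator a.2 (mem_top x))
    rw [coe_mul, CommCalc.comm_mul_left_of_commute
      (congrArg Subtype.val (hc.is_comm.comm a ⟨_, h1⟩))]
    exact congrArg Subtype.val (hc.is_comm.comm ⟨_, h1⟩ ⟨_, h2⟩)

/-- If `K` is abelian and normal and `x` is not central, the class of `⁅t, x⁆` (`t ∈ K`) is smaller
than the class of `x`. -/
theorem index_centralizer_commutator_lt [Finite G] (K : Subgroup G) [hK : K.Normal]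
    (hc : IsMulCommutative K) {x t : G} (hx : 1 < (centralizer ({x} : Set G)).index) (ht : t ∈ K) :
    (centralizer ({⁅t, x⁆} : Set G)).index < (centralizer ({x} : Set G)).index := by
  by_cases h1 : ⁅t, x⁆ = 1
  · rwa [h1, ClassCount.index_centralizer_eq_one_iff.mpr (one_mem _)]
  set C := centralizer ({x} : Set G) with hC
  set y := ⁅t, x⁆ with hy
  set θ := commHom K hc x
  have hker : θ.ker = C.subgroupOf K := by
    ext k
    rw [MonoidHom.mem_ker, mem_subgroupOf, hC, mem_centralizer_singleton_iff]
    exact commutatorElement_eq_one_iff_mul_comm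
  have hR : Nat.card θ.range = C.relIndex K := by rw [← index_ker, hker]; rfl
  -- the class of `y` in `H = K C`
  set H := K ⊔ C with hH
  have hyK : y ∈ K := commutator_le_left K ⊤ (commutator_mem_commutator ht (mem_top x))
  have h2 : (centralizer ({y} : Set G)).relIndex H < Nat.card θ.range := by
    have e := ClassCount.index_centralizer_eq_ncard (G := H) ⟨y, mem_sup_left hyK⟩
    rw [← ClassCount.centralizer_subgroupOf] at e
    rw [relIndex, e, ← Set.ncard_image_of_injective _ Subtype.val_injective]
    refine Set.ncard_lt_ncard (t := (θ.range : Set G)) ⟨?_, fun h => ?_⟩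
    · rintro _ ⟨z, hz, rfl⟩
      obtain ⟨⟨h, hh⟩, rfl⟩ := isConj_iff.mp hz
      rw [hH, ← SetLike.mem_coe, normal_mul] at hh
      obtain ⟨k, hk, c, hc', rfl⟩ := hh
      refine ⟨⟨c * t * c⁻¹, hK.conj_mem t ht c⟩, ?_⟩
      have h3 : c * x * c⁻¹ = x := by
        rw [mem_centralizer_singleton_iff.mp hc', mul_inv_cancel_right]
      have h4 : c * y * c⁻¹ = ⁅c * t * c⁻¹, x⁆ := by
        rw [hy, conjugate_commutatorElement, h3]
      have h5 : k * (c * y * c⁻¹) = (c * y * c⁻¹) * k :=
        congrArg Subtype.val (hc.is_comm.comm ⟨k, hk⟩ ⟨_, hK.conj_mem y hyK c⟩)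
      change ⁅c * t * c⁻¹, x⁆ = k * c * y * (k * c)⁻¹
      calc _ = (c * y * c⁻¹) * k * k⁻¹ := by rw [← h4]; group
        _ = _ := by rw [← h5]; group
    · obtain ⟨z, hz, e⟩ := h (one_mem θ.range)
      have : z = 1 := Subtype.ext e
      rw [this, Set.mem_ofPred_eq, isConj_one_left] at hz
      exact h1 (congrArg Subtype.val hz)
  have h3 : C.relIndex K = C.relIndex H := by
    have e1 := card_sup_mul_card_inf (H := C) (N := K) (CommCalc.le_normalizer_of_normal' _ _)
    have e2 := ClassCount.card_mul_relIndex_inf C K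
    have e3 := card_mul_relIndex (le_sup_right : C ≤ H)
    rw [sup_comm, ← hH, ← e2, ← e3] at e1
    have p1 : 0 < Nat.card C := Nat.card_pos
    have p2 : 0 < Nat.card (C ⊓ K : Subgroup G) := Nat.card_pos
    apply Nat.eq_of_mul_eq_mul_left (Nat.mul_pos p1 p2)
    linarith
  rw [hR, h3] at h2
  have h4 := relIndex_mul_index (le_sup_right : C ≤ H)
  have h5 := relIndex_mul_index (inf_le_right : centralizer ({y} : Set G) ⊓ H ≤ H)
  rw [inf_relIndex_right] at h5
  calc _ ≤ (centralizer ({y} : Set G) ⊓ H).index := index_antitone inf_le_left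
    _ < _ := by
      rw [← h4, ← h5]
      exact Nat.mul_lt_mul_of_pos_right h2 (Nat.pos_of_ne_zero index_ne_zero_of_finite)

theorem lcs_three_eq_bot [Finite G] (A : Subgroup G) [A.Normal] (hA : IsMulCommutative A)
    (hCA : centralizer (A : Set G) = A) (m : ℕ)
    (hmin : ∀ x : G, 1 < (centralizer ({x} : Set G)).index → m ≤ (centralizer ({x} : Set G)).index) :
    (closure {x : G | (centralizer ({x} : Set G)).index = 1 ∨
      (centralizer ({x} : Set G)).index = m}).lowerCentralSeries 3 = ⊥ := by
  set M := closure {x : G | (centralizer ({x} : Set G)).index = 1 ∨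
      (centralizer ({x} : Set G)).index = m} with hM
  have h1 : ⁅A, M⁆ ≤ center G := by
    refine CommCalc.commutator_closure_right_le (CommCalc.subset_normalizer_of_normal _ _) ?_
    intro t ht x hx
    by_cases h : (centralizer ({x} : Set G)).index = 1
    · rw [ClassCount.index_centralizer_eq_one_iff, mem_center_iff] at h
      rw [commutatorElement_eq_one_iff_mul_comm.mpr (h t)]
      exact one_mem _
    have h0 : ∀ y : G, (centralizer ({y} : Set G)).index ≠ 0 := fun _ => index_ne_zero_of_finite
    have h2 := index_centralizer_commutator_lt A hA (x := x) (by have := h0 x; omega) ht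
    rw [hx.resolve_left h] at h2
    rw [← ClassCount.index_centralizer_eq_one_iff]
    by_contra h3
    exact absurd (hmin _ (by have := h0 ⁅t, x⁆; omega)) h2.not_ge
  have h2 : ⁅⁅A, M⁆, M⁆ = ⊥ :=
    eq_bot_iff.mpr ((commutator_mono h1 le_rfl).trans (commutator_center_left _).le)
  have h3 : ⁅M, M⁆ ≤ A := by
    rw [← hCA, ← commutator_eq_bot_iff_le_centralizer]
    exact commutator_commutator_eq_bot_of_rotate (by rwa [commutator_comm M A]) h2
  exact eq_bot_iff.mpr ((commutator_mono (commutator_mono h3 le_rfl) le_rfl).trans h2.le)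

theorem ucs_eq_top_of_lcs_eq_bot {M : Subgroup G} {n : ℕ} (h : M.lowerCentralSeries n = ⊥) :
    Subgroup.upperCentralSeries M n = ⊤ := by
  rw [← lowerCentralSeries_eq_bot_iff_upperCentralSeries_eq_top,
    ← Subgroup.map_eq_bot_iff_of_injective _ M.subtype_injective, top_subtype_lowerCentralSeries, h]

end CfsgLib.MannIsaacs
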