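import Mathlib
import Cfsg.Agent.Lib.PermTwoPrimesA

/-! A primitive even group of degree 13 containing an 11-cycle is alternating. -/

set_option autoImplicit false

namespace CfsgLib.H4

open Equiv Equiv.Perm MulAction Subgroup

variable {α : Type*} [Fintype α] [DecidableEq α]

theorem card_support_of_orderOf_prime {g : Perm α} {p : ℕ} (hp : p.Prime) (hg : orderOf g = p) :
    ∃ n, g.support.card = (n + 1) * p ∧ (n = 0 → g.IsCycle) := by
  obtain ⟨n, hn⟩ := cycleType_prime_order (hg ▸ hp)
  refine ⟨n, by rw [← sum_cycleType, hn, hg, Multiset.sum_replicate, smul_eq_mul], ?_⟩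
  rintro rfl
  rw [← card_cycleType_eq_one, hn]
  simp

omit [DecidableEq α] in
theorem ncard_orbit_eq_pow {Q : Subgroup (Perm α)} {r : ℕ} [Fact r.Prime] (hQ : IsPGroup r Q)
    (e : α) : ∃ k, (orbit Q e).ncard = r ^ k := by
  obtain ⟨k, hk⟩ := hQ.card_orbit e
  exact ⟨k, by rw [← hk, Nat.card_coe_set_eq]⟩

theorem ncard_fixedBy_perm (g : Perm α) :
    (fixedBy α g).ncard = Nat.card α - g.support.card := by
  have : fixedBy α g = (g.supportᶜ : Finset α) := by
    ext x; simp [mem_fixedBy]
  rw [this, Set.ncard_coe_finset, Finset.card_compl, Nat.card_eq_fintype_card]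

theorem eq_bot_of_three_group_normalized {Q : Subgroup (Perm α)} (h13 : Nat.card α = 13)
    (hQ : IsPGroup 3 Q) {x : Perm α} (hx : orderOf x = 11)
    (hn : x ∈ normalizer (Q : Set (Perm α))) : Q = ⊥ := by
  have := Fact.mk Nat.prime_three
  have h11 : Fact (Nat.Prime 11) := ⟨by norm_num⟩
  obtain ⟨n, hn1, -⟩ := card_support_of_orderOf_prime h11.out hx
  have hle := Finset.card_le_univ x.support
  rw [← Nat.card_eq_fintype_card] at hle
  have hfx : (fixedBy α x).ncard = 2 := by rw [ncard_fixedBy_perm]; omega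
  have hconj : ∀ q ∈ Q, x * q * x⁻¹ ∈ Q := fun q hq => (mem_normalizer_iff.mp hn q).mp hq
  have hconj' : ∀ q ∈ Q, x⁻¹ * q * x ∈ Q := fun q hq => (mem_normalizer_iff''.mp hn q).mp hq
  have h1 : ∀ e ∈ fixedBy α x, ∀ q ∈ Q, q e = e := by
    intro e he
    have he' : x e = e := he
    obtain ⟨k, hk⟩ := ncard_orbit_eq_pow hQ e
    have h2 := ncard_modEq_ncard_fixedBy (p := 11) (k := 1) (y := x) (by simpa using hx)
      (orbit Q e) (by
        rintro _ ⟨q, rfl⟩
        refine ⟨⟨_, hconj q q.2⟩, ?_⟩
        change (x * q * x⁻¹) e = x ((q : Perm α) e)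
        rw [Perm.mul_apply, Perm.mul_apply, show x⁻¹ e = e from Perm.inv_eq_iff_eq.mpr he'.symm])
    have h3 : (orbit Q e ∩ fixedBy α x).ncard ≤ 2 :=
      hfx ▸ Set.ncard_le_ncard Set.inter_subset_right
    have h4 : 0 < (orbit Q e ∩ fixedBy α x).ncard :=
      (Set.ncard_pos (Set.toFinite _)).mpr ⟨e, mem_orbit_self e, he⟩
    have h5 : (orbit Q e).ncard ≤ 13 := h13 ▸ Set.ncard_le_card _
    have h6 : (orbit Q e).ncard = 1 := by
      rw [hk] at h2 h5 ⊢
      have : k < 3 := by
        by_contra hc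
        have := Nat.pow_le_pow_right (show 0 < 3 by norm_num) (not_lt.mp hc)
        omega
      unfold Nat.ModEq at h2
      interval_cases k <;> omega
    intro q hq
    obtain ⟨z, hz⟩ := Set.ncard_eq_one.mp h6
    have h7 : e ∈ orbit Q e := mem_orbit_self e
    have h8 : q e ∈ orbit Q e := ⟨⟨q, hq⟩, rfl⟩
    rw [hz] at h7 h8
    rw [h8, ← h7]
  set Φ : Set α := {e | ∀ q ∈ Q, q e = e} with hΦ
  have h2 := ncard_modEq_ncard_fixedBy (p := 11) (k := 1) (y := x) (by simpa using hx) Φ (by
    intro e he q hq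
    have := he _ (hconj' q hq)
    rw [Perm.mul_apply, Perm.mul_apply, Perm.inv_eq_iff_eq] at this
    exact this)
  rw [show Φ ∩ fixedBy α x = fixedBy α x from Set.inter_eq_right.mpr (fun e he => h1 e he),
    hfx] at h2
  have h3 := ncard_modEq_ncard_fixed hQ (Set.univ : Set α) (fun _ _ _ _ => trivial)
  have h4 : {e | e ∈ (Set.univ : Set α) ∧ ∀ g ∈ Q, g • e = e} = Φ := by
    ext e; simp [hΦ]
  rw [h4, Set.ncard_univ, h13] at h3
  have h5 : Φ.ncard ≤ 13 := h13 ▸ Set.ncard_le_card _
  unfold Nat.ModEq at h2 h3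
  have h6 : Φ = Set.univ := (Set.eq_univ_iff_ncard Φ).mpr (by omega)
  refine eq_bot_iff.mpr fun q hq => mem_bot.mpr (Perm.ext fun e => ?_)
  exact (show e ∈ Φ from h6 ▸ Set.mem_univ e) q hq

theorem eq_one_of_mem_zpowers_cycle {x y : Perm α} (hx : x.IsCycle) (hy : y ∈ zpowers x) {e : α}
    (he : e ∈ x.support) (h : y e = e) : y = 1 := by
  obtain ⟨k, rfl⟩ := (mem_powers_iff_mem_zpowers.mpr hy)
  exact (hx.pow_eq_one_iff' (mem_support.mp he)).mpr h

theorem five_not_dvd_of_thirteen {H : Subgroup (Perm α)} (h13 : Nat.card α = 13)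
    (hprim : IsPreprimitive H α) (h3 : IsMultiplyPretransitive H α 3)
    (hn : ¬ alternatingGroup α ≤ H) : ¬ 5 ∣ Nat.card H := by
  have h5 : Fact (Nat.Prime 5) := ⟨by norm_num⟩
  have := Fact.mk Nat.prime_three
  have A1 : ∀ g ∈ H, orderOf g = 5 → g.support.card = 10 := by
    intro g hg ho
    obtain ⟨n, hn1, hn2⟩ := card_support_of_orderOf_prime h5.out ho
    have hle := Finset.card_le_univ g.support
    rw [← Nat.card_eq_fintype_card] at hle
    have : n ≠ 0 := fun h0 => hn (alternatingGroup_le_of_isCycle hprim h5.out (by omega) (hn2 h0)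
      (by rw [hn1, h0]) hg)
    omega
  intro hd
  obtain ⟨g', hg'⟩ := exists_prime_orderOf_dvd_card' 5 hd
  obtain ⟨g, hg⟩ := g'
  have ho : orderOf g = 5 := by rw [← hg']; exact (Subgroup.orderOf_mk g hg).symm
  have hs := A1 g hg ho
  have hcard : Nat.card (zpowers g) = 5 := by rw [Nat.card_zpowers, ho]
  have hle : zpowers g ≤ fixSub H (g.supportᶜ : Finset α) :=
    zpowers_le.mpr ⟨hg, fun x hx => notMem_support.mp (by simpa using hx)⟩
  have hS : IsSylowIn 5 (zpowers g) (fixSub H (g.supportᶜ : Finset α)) := by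
    refine IsSylowIn.of_maximal hle (IsPGroup.of_card (hcard.trans (pow_one 5).symm))
      fun T hT h1 h2 => ?_
    obtain ⟨a, ha⟩ := Finset.card_pos.mp (show 0 < g.support.card by omega)
    have h4 : stabilizer T a = ⊥ := by
      by_contra h4
      obtain ⟨k, hk⟩ := (hT.to_subgroup (stabilizer T a)).exists_card_eq
      have h6 : 5 ∣ Nat.card (stabilizer T a) := by
        rw [hk]
        refine dvd_pow_self 5 fun h0 => h4 ?_
        rw [h0, pow_zero] at hk
        exact card_eq_one.mp hk
      obtain ⟨y, hy⟩ := exists_prime_orderOf_dvd_card' 5 h6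
      have hy1 : orderOf ((y : T) : Perm α) = 5 := by
        rw [Subgroup.orderOf_coe, Subgroup.orderOf_coe, hy]
      have hy2 := h2 (y : T).2
      have hy3 := A1 _ hy2.1 hy1
      have hy4 : ((y : T) : Perm α).support ⊆ g.support.erase a := by
        intro z hz
        rw [Finset.mem_erase]
        refine ⟨?_, ?_⟩
        · rintro rfl
          exact mem_support.mp hz y.2
        · by_contra hc
          exact mem_support.mp hz (hy2.2 z (by simpa using hc))
      have := Finset.card_le_card hy4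
      rw [Finset.card_erase_of_mem ha] at this
      omega
    have h6 := index_stabilizer T a
    rw [h4, index_bot] at h6
    have h7 : (orbit T a).ncard ≤ 13 := h13 ▸ Set.ncard_le_card _
    obtain ⟨k, hk⟩ := hT.exists_card_eq
    have h8 : k ≤ 1 := by
      by_contra hc
      have := Nat.pow_le_pow_right (show 0 < 5 by norm_num) (show 2 ≤ k by omega)
      omega
    refine (eq_of_le_of_card_ge h1 ?_).ge
    rw [hcard, hk]
    exact (Nat.pow_le_pow_right (by norm_num) h8).trans (by norm_num)
  have hF : (g.supportᶜ).card = 3 := by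
    rw [Finset.card_compl, ← Nat.card_eq_fintype_card]; omega
  obtain ⟨a, b, c, hab, hac, hbc, hF'⟩ := Finset.card_eq_three.mp hF
  have hτ : (swap a b * swap a c).IsThreeCycle := isThreeCycle_swap_mul_swap_same hab hac hbc
  set τ := swap a b * swap a c with hτ'
  have hτs : τ.support = g.supportᶜ := by
    refine Finset.eq_of_subset_of_card_le ?_ (by rw [hF, hτ.card_support])
    rw [hF']
    refine (support_mul_le _ _).trans ?_
    rw [support_swap hab, support_swap hac]
    intro z hz
    simp only [Finset.sup_eq_union, Finset.mem_union, Finset.mem_insert,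
      Finset.mem_singleton] at hz ⊢
    tauto
  have hτF : ∀ z ∈ g.supportᶜ, τ z ∈ g.supportᶜ := fun z hz => by
    rw [← hτs] at hz ⊢; exact apply_mem_support.mpr hz
  obtain ⟨u, hu, hu'⟩ := exists_eq_on_of_multiply h3 (by omega) g.supportᶜ hF.le τ
    τ.injective.injOn
  obtain ⟨v, hv, hv1, hv2⟩ := witt hS hu (maps_of_eq_on (τ := τ) hu' hτF)
  have hvk : ∀ k : ℕ, ∀ z ∈ g.supportᶜ, (v ^ k) z = (τ ^ k) z := by
    intro k
    induction k with
    | zero => intro z _; rfl
    | succ k ih =>
      intro z hz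
      rw [pow_succ, pow_succ, Perm.mul_apply, Perm.mul_apply, hv2 z hz, hu' z hz, ih _ (hτF z hz)]
  have h3v : 3 ∣ orderOf v := by
    rw [← hτ.orderOf, orderOf_dvd_iff_pow_eq_one]
    have ha : a ∈ g.supportᶜ := by rw [hF']; simp
    refine (hτ.isCycle.pow_eq_one_iff' (mem_support.mp (hτs ▸ ha))).mpr ?_
    rw [← hvk _ a ha, pow_orderOf_eq_one, Perm.one_apply]
  set w := v ^ (orderOf v / 3) with hw
  have hwo : orderOf w = 3 := orderOf_pow_orderOf_div (orderOf_pos v).ne' h3v
  have hwg : Commute w g := commute_of_coprime_totient (pow_mem hv1 _) (by rw [hwo, ho]; decide)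
  have e1 := ncard_modEq_ncard_fixedBy (p := 5) (k := 1) (y := g) (by simpa using ho)
    ((w.support ∩ g.support : Finset α) : Set α) (by
      intro z hz
      simp only [Finset.coe_inter, Set.mem_inter_iff, Finset.mem_coe] at hz ⊢
      exact ⟨apply_mem_support_of_commute hwg.symm hz.1, apply_mem_support.mpr hz.2⟩)
  have e2 := ncard_modEq_ncard_fixedBy (p := 3) (k := 1) (y := w) (by simpa using hwo)
    ((w.support ∩ g.support : Finset α) : Set α) (by
      intro z hz
      simp only [Finset.coe_inter, Set.mem_inter_iff, Finset.mem_coe] at hz ⊢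
      exact ⟨apply_mem_support.mpr hz.1, apply_mem_support_of_commute hwg hz.2⟩)
  rw [show ((w.support ∩ g.support : Finset α) : Set α) ∩ fixedBy α g = ∅ from
    Set.eq_empty_of_forall_notMem fun z hz =>
      mem_support.mp (Finset.mem_inter.mp hz.1).2 hz.2, Set.ncard_empty,
    Set.ncard_coe_finset] at e1
  rw [show ((w.support ∩ g.support : Finset α) : Set α) ∩ fixedBy α w = ∅ from
    Set.eq_empty_of_forall_notMem fun z hz =>
      mem_support.mp (Finset.mem_inter.mp hz.1).1 hz.2, Set.ncard_empty,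
    Set.ncard_coe_finset] at e2
  have e3 : (w.support ∩ g.support).card ≤ 10 :=
    hs ▸ Finset.card_le_card Finset.inter_subset_right
  unfold Nat.ModEq at e1 e2
  have e4 : w.support ∩ g.support = ∅ := Finset.card_eq_zero.mp (by omega)
  have e5 : w.support.card ≤ 3 := by
    rw [← hF]
    refine Finset.card_le_card fun z hz => Finset.mem_compl.mpr fun hz' => ?_
    have : z ∈ w.support ∩ g.support := Finset.mem_inter.mpr ⟨hz, hz'⟩
    rw [e4] at this
    exact Finset.notMem_empty z this
  obtain ⟨n, hn1, -⟩ := card_support_of_orderOf_prime Nat.prime_three hwo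
  exact hn (alternatingGroup_le_of_isPreprimitive_of_isThreeCycle_mem hprim
    (card_support_eq_three_iff.mp (show w.support.card = 3 by omega)) (pow_mem hv _))

theorem eq_one_of_involution_normalizing {x t : Perm α} (h13 : Nat.card α = 13)
    (hx : x.IsCycle) (hx' : x.support.card = 11) (ht : t ^ 2 = 1) (hs : sign t = 1)
    (hn : t ∈ normalizer (zpowers x : Set (Perm α))) {a : α} (ha : a ∉ x.support)
    (hta : t a = a) : t = 1 := by
  have h11 : Fact (Nat.Prime 11) := ⟨by norm_num⟩
  have hconj : ∀ q ∈ zpowers x, t * q * t⁻¹ ∈ zpowers x :=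
    fun q hq => (mem_normalizer_iff.mp hn q).mp hq
  have hconj' : ∀ q ∈ zpowers x, t⁻¹ * q * t ∈ zpowers x :=
    fun q hq => (mem_normalizer_iff''.mp hn q).mp hq
  have h1 : ∀ z, z ∉ x.support → t z ∉ x.support := by
    intro z hz
    obtain ⟨k, hk⟩ := hconj' x (mem_zpowers x)
    have := zpow_apply_eq_self_of_apply_eq_self (notMem_support.mp hz) k
    simp only at hk
    rw [hk, Perm.mul_apply, Perm.mul_apply, Perm.inv_eq_iff_eq] at this
    exact notMem_support.mpr this
  have hF : (x.supportᶜ.erase a).card = 1 := by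
    rw [Finset.card_erase_of_mem (Finset.mem_compl.mpr ha), Finset.card_compl,
      ← Nat.card_eq_fintype_card]
    omega
  obtain ⟨b, hb⟩ := Finset.card_eq_one.mp hF
  have h2 : t.support ⊆ x.support := by
    intro z hz
    by_contra hc
    have hza : z ≠ a := by rintro rfl; exact mem_support.mp hz hta
    have e1 : z ∈ x.supportᶜ.erase a := Finset.mem_erase.mpr ⟨hza, Finset.mem_compl.mpr hc⟩
    have e2 : t z ∈ x.supportᶜ.erase a := Finset.mem_erase.mpr
      ⟨fun h => hza (t.injective (h.trans hta.symm)), Finset.mem_compl.mpr (h1 z hc)⟩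
    rw [hb, Finset.mem_singleton] at e1 e2
    exact mem_support.mp hz (e2.trans e1.symm)
  have h3 := four_dvd_card_support ht hs
  have h4 := Finset.card_le_card h2
  have h5 : 1 < (x.support \ t.support).card := by
    rw [Finset.card_sdiff_of_subset h2]; omega
  obtain ⟨e, he, f, hf, hef⟩ := Finset.one_lt_card.mp h5
  rw [Finset.mem_sdiff, notMem_support] at he hf
  obtain ⟨i, hi⟩ := hx.exists_zpow_eq (mem_support.mp he.1) (mem_support.mp hf.1)
  have h6 : (x ^ i)⁻¹ * (t * x ^ i * t⁻¹) = 1 := by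
    refine eq_one_of_mem_zpowers_cycle hx (mul_mem (inv_mem (zpow_mem (mem_zpowers x) i))
      (hconj _ (zpow_mem (mem_zpowers x) i))) he.1 ?_
    rw [Perm.mul_apply, Perm.inv_eq_iff_eq, Perm.mul_apply, Perm.mul_apply,
      show t⁻¹ e = e from Perm.inv_eq_iff_eq.mpr he.2.symm, hi, hf.2]
  have h7 : Commute t (x ^ i) := by
    rw [inv_mul_eq_one, eq_mul_inv_iff_mul_eq] at h6
    exact h6.symm
  have h8 : x ∈ zpowers (x ^ i) := by
    have hc : Nat.card (zpowers x) = 11 := by rw [Nat.card_zpowers, hx.orderOf, hx']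
    have hne : x ^ i ≠ 1 := fun h => hef (by rw [← hi, h, Perm.one_apply])
    have hle : zpowers (x ^ i) ≤ zpowers x := zpowers_le.mpr (zpow_mem (mem_zpowers x) i)
    have := card_dvd_of_le hle
    rw [hc, Nat.dvd_prime h11.out] at this
    rcases this with h | h
    · exact absurd (zpowers_eq_bot.mp (card_eq_one.mp h)) hne
    · rw [eq_of_le_of_card_ge hle (by rw [h, hc])]; exact mem_zpowers x
  obtain ⟨j, hj⟩ := h8
  have h9 : Commute t x := by
    have := h7.zpow_right j
    simp only at hj
    rwa [hj] at this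
  obtain ⟨k, hk⟩ := exists_zpow_eq_on_support hx h9
  have h10 : x ^ k = 1 := eq_one_of_mem_zpowers_cycle hx (zpow_mem (mem_zpowers x) k) he.1
    (by rw [← hk e he.1, he.2])
  refine Perm.ext fun z => ?_
  by_cases hz : z ∈ t.support
  · rw [hk z (h2 hz), h10]
  · exact notMem_support.mp hz

theorem alt_le_of_eleven_cycle_thirteen {H : Subgroup (Perm α)} (h13 : Nat.card α = 13)
    (hle : H ≤ alternatingGroup α) (hprim : IsPreprimitive H α) {x : Perm α} (hx : x.IsCycle)
    (hx' : x.support.card = 11) (hxH : x ∈ H) : alternatingGroup α ≤ H := by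
  have h11 : Fact (Nat.Prime 11) := ⟨by norm_num⟩
  have := Fact.mk Nat.prime_three
  have := Fact.mk Nat.prime_two
  by_contra hn
  have h3 : IsMultiplyPretransitive H α 3 :=
    isMultiplyPretransitive_of_isCycle hprim h11.out (k := 1) (by omega) hx hx' hxH
  have h5 := five_not_dvd_of_thirteen h13 hprim h3 hn
  have hxo : orderOf x = 11 := by rw [hx.orderOf, hx']
  obtain ⟨a, ha⟩ := Finset.card_pos.mp (show 0 < x.supportᶜ.card by
    rw [Finset.card_compl, ← Nat.card_eq_fintype_card]; omega)
  rw [Finset.mem_compl] at ha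
  set M := fixSub H (({a} : Finset α) : Set α) with hM
  have hxM : x ∈ M := ⟨hxH, fun z hz => by
    rw [Finset.coe_singleton, Set.mem_singleton_iff] at hz
    rw [hz]; exact notMem_support.mp ha⟩
  have h3M : 3 ∣ Nat.card M := by
    obtain ⟨F, hF⟩ := Finset.exists_subset_card_eq (s := (Finset.univ : Finset α)) (n := 3)
      (by rw [Finset.card_univ, ← Nat.card_eq_fintype_card]; omega)
    have e1 := card_mul_factorial_of_multiply h3 F hF.2
    have e2 := card_mul_factorial_of_multiply (isMultiplyPretransitive_of_le (G := H) (n := 3)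
      (m := 1) (by norm_num) (by omega)) {a} (Finset.card_singleton a)
    rw [h13] at e1 e2
    norm_num [Nat.factorial] at e1 e2
    rw [hM, Finset.coe_singleton]
    omega
  have hcard : Nat.card (zpowers x) = 11 := by rw [Nat.card_zpowers, hxo]
  have hS : IsSylowIn 11 (zpowers x) M := by
    refine ⟨zpowers_le.mpr hxM, IsPGroup.of_card (hcard.trans (pow_one 11).symm), fun h => ?_⟩
    have e1 := card_subgroup_dvd_card M
    rw [← card_mul_relIndex (zpowers_le.mpr hxM), hcard, Nat.card_perm, h13] at e1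
    have := (Nat.mul_dvd_mul_left 11 h).trans e1
    norm_num [Nat.factorial] at this
  have hNC : ∀ v ∈ M, v ∈ normalizer (zpowers x : Set (Perm α)) → Commute v x := by
    intro v hv hvn
    refine commute_of_coprime_totient hvn ?_
    rw [hxo, show Nat.totient 11 = 2 * 5 by decide]
    refine Nat.Coprime.mul_right ?_ ?_
    · rw [Nat.coprime_comm, Nat.Prime.coprime_iff_not_dvd Nat.prime_two]
      intro h2
      have e1 : orderOf (v ^ (orderOf v / 2)) = 2 := orderOf_pow_orderOf_div (orderOf_pos v).ne' h2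
      have e2 := eq_one_of_involution_normalizing h13 hx hx' (e1 ▸ pow_orderOf_eq_one _)
        (hle (pow_mem hv.1 _)) (pow_mem hvn _) ha ((pow_mem hv _).2 a (by simp))
      rw [e2, orderOf_one] at e1
      omega
    · rw [Nat.coprime_comm, Nat.Prime.coprime_iff_not_dvd (by norm_num)]
      exact fun h => h5 (h.trans (H.orderOf_dvd_natCard hv.1))
  obtain ⟨P, hP⟩ := hS.exists_sylow
  obtain ⟨P', N, hN, hc⟩ := CfsgLib.PCompl.hnpc_of_normalizer_le_centralizer P (by
    intro v hv
    rw [hP] at hv ⊢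
    have e1 : (v : Perm α) ∈ normalizer (zpowers x : Set (Perm α)) := by
      rw [← subgroupOf_normalizer_eq hS.le, mem_subgroupOf] at hv
      exact hv
    have e2 := hNC v v.2 e1
    rw [mem_centralizer_iff]
    intro y hy
    obtain ⟨k, hk⟩ := mem_subgroupOf.mp hy
    apply Subtype.ext
    simp only at hk
    rw [Subgroup.coe_mul, Subgroup.coe_mul, ← hk]
    exact (e2.zpow_right k).eq.symm)
  have hP' : Nat.card (P' : Subgroup M) = 11 := by
    rw [Nat.card_congr (P'.equiv P).toEquiv]
    change Nat.card (P : Subgroup M) = 11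
    rw [hP, Nat.card_congr (subgroupOfEquivOfLe hS.le).toEquiv, hcard]
  have hNi : N.index = 11 := by rw [hc.symm.index_eq_card, hP']
  have h3N : 3 ∣ Nat.card N := by
    rw [← N.card_mul_index, hNi] at h3M
    exact (Nat.Coprime.dvd_mul_right (by norm_num)).mp h3M
  obtain ⟨Q⟩ : Nonempty (Sylow 3 N) := inferInstance
  have hsup := Q.normalizer_sup_eq_top
  have hd : 11 ∣ Nat.card (normalizer (((Q : Subgroup N).map N.subtype : Subgroup M) : Set M)) := by
    rw [← hNi, ← relIndex_top_right, ← hsup, relIndex_sup_right]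
    exact relIndex_dvd_card _ _
  obtain ⟨y, hy⟩ := exists_prime_orderOf_dvd_card' 11 hd
  have hQ := eq_bot_of_three_group_normalized h13
    (Q := ((Q : Subgroup N).map N.subtype).map M.subtype) ((Q.isPGroup'.map _).map _)
    (x := ((y : M) : Perm α)) (by rw [Subgroup.orderOf_coe, Subgroup.orderOf_coe, hy])
    (le_normalizer_map _ ⟨_, y.2, rfl⟩)
  rw [map_eq_bot_iff_of_injective _ M.subtype_injective,
    map_eq_bot_iff_of_injective _ N.subtype_injective] at hQ
  exact Q.ne_bot_of_dvd_card h3N hQ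

end CfsgLib.H4
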