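import Mathlib
import Cfsg.Agent.Lib.SylowAction
import Cfsg.Agent.Lib.PGroupBasic

/-! Sylow intersections: Brodkey's theorem; a simple group with 22 Sylow 3-subgroups has
Sylow 3-subgroups of order 3. -/

set_option autoImplicit false

namespace CfsgLib.H4

open MulAction Subgroup Cfsg
open scoped Pointwise

variable {G : Type*} [Group G] [Finite G]

section General
variable {p : ℕ} [hp : Fact p.Prime]

/-- index of a Sylow intersection -/
noncomputable def sylIdx (P Q : Sylow p G) : ℕ := (Q : Subgroup G).relIndex (P : Subgroup G)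

theorem card_sylow_eq (P Q : Sylow p G) :
    Nat.card (P : Subgroup G) = Nat.card (Q : Subgroup G) := Nat.card_congr (P.equiv Q).toEquiv

omit [Finite G] hp in
theorem card_inf_mul_sylIdx (P Q : Sylow p G) :
    Nat.card ((P : Subgroup G) ⊓ Q : Subgroup G) * sylIdx P Q = Nat.card (P : Subgroup G) := by
  rw [inf_comm]; exact card_inf_mul_relIndex _ _

theorem sylIdx_comm (P Q : Sylow p G) : sylIdx P Q = sylIdx Q P := by
  have h1 := card_inf_mul_sylIdx P Q
  have h2 := card_inf_mul_sylIdx Q P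
  rw [inf_comm, ← card_sylow_eq P Q, ← h1] at h2
  exact (Nat.eq_of_mul_eq_mul_left Nat.card_pos h2).symm

omit [Finite G] hp in
theorem sylIdx_smul (g : G) (P Q : Sylow p G) : sylIdx (g • P) (g • Q) = sylIdx P Q :=
  relIndex_pointwise_smul (MulAut.conj g) _ _

omit [Finite G] hp in
theorem mem_smul_sylow_iff {g x : G} {P : Sylow p G} :
    x ∈ ((g • P : Sylow p G) : Subgroup G) ↔ g⁻¹ * x * g ∈ (P : Subgroup G) := by
  rw [Sylow.coe_subgroup_smul, mem_pointwise_smul_iff_inv_smul_mem]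
  simp

theorem smul_eq_iff_mem_of_isPGroup {D : Subgroup G} (hD : IsPGroup p D) {x : G} (hx : x ∈ D)
    (Q : Sylow p G) : x • Q = Q ↔ x ∈ (Q : Subgroup G) := by
  obtain ⟨k, hk⟩ := (IsPGroup.iff_orderOf.mp hD) ⟨x, hx⟩
  exact sylow_smul_eq_iff_mem ((Subgroup.orderOf_mk x hx).symm.trans hk) Q

theorem sylIdx_smul_of_mem {g : G} {P : Sylow p G} (hg : g ∈ (P : Subgroup G)) (Q : Sylow p G) :
    sylIdx P (g • Q) = sylIdx P Q := by
  have := sylIdx_smul g P Q
  rwa [(smul_eq_iff_mem_of_isPGroup P.isPGroup' hg P).mpr hg] at this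

theorem index_stabilizer_sylow {D : Subgroup G} (hD : IsPGroup p D) (Q : Sylow p G) :
    (stabilizer D Q).index = (Q : Subgroup G).relIndex D := by
  congr 1
  ext x
  exact smul_eq_iff_mem_of_isPGroup hD x.2 Q

theorem ncard_orbit_sylow (P Q : Sylow p G) :
    (orbit (P : Subgroup G) Q).ncard = sylIdx P Q := by
  rw [← index_stabilizer, index_stabilizer_sylow P.isPGroup']; rfl

theorem exists_sylIdx_eq_pow (P Q : Sylow p G) : ∃ k, sylIdx P Q = p ^ k :=
  P.isPGroup'.index _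

omit [Finite G] hp in
theorem sylIdx_eq_one_iff {P Q : Sylow p G} : sylIdx P Q = 1 ↔ Q = P :=
  ⟨fun h => Sylow.ext (P.is_maximal' Q.isPGroup' (relIndex_eq_one.mp h)),
    fun h => relIndex_eq_one.mpr (h ▸ le_rfl)⟩

theorem le_normalizer_inf_of_sylIdx {P Q : Sylow p G} (h : sylIdx P Q = p) :
    (P : Subgroup G) ≤ normalizer (((P : Subgroup G) ⊓ Q : Subgroup G) : Set G) := by
  have h1 : ((Q : Subgroup G).subgroupOf P).Normal := PGrp.normal_of_index_eq_prime P.isPGroup' h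
  rw [← inf_subgroupOf_left] at h1
  exact (normal_subgroupOf_iff_le_normalizer inf_le_left).mp h1

theorem le_normalizer_inf_of_sylIdx' {P Q : Sylow p G} (h : sylIdx P Q = p) :
    (Q : Subgroup G) ≤ normalizer (((P : Subgroup G) ⊓ Q : Subgroup G) : Set G) := by
  rw [inf_comm]; exact le_normalizer_inf_of_sylIdx ((sylIdx_comm Q P).trans h)

/-- Brodkey's theorem. -/
theorem brodkey_le {P Q : Sylow p G} (hmin : ∀ R : Sylow p G, sylIdx P R ≤ sylIdx P Q)
    (hP : (P : Subgroup G) ≤ normalizer (((P : Subgroup G) ⊓ Q : Subgroup G) : Set G))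
    (hQ : (Q : Subgroup G) ≤ normalizer (((P : Subgroup G) ⊓ Q : Subgroup G) : Set G))
    (R : Sylow p G) : (P : Subgroup G) ⊓ Q ≤ R := by
  set D := (P : Subgroup G) ⊓ Q with hD
  obtain ⟨n, hn, h⟩ := (IsSylowIn.of_sylow Q hQ).exists_conj_le
    (Q := (R : Subgroup G) ⊓ normalizer (D : Set G)) (R.isPGroup'.to_inf_left) inf_le_right
  have h1 : (P : Subgroup G) ⊓ (n • R : Sylow p G) ≤ D := by
    rintro x ⟨hx1, hx2⟩
    have h0 : n⁻¹ * x * n ∈ normalizer (D : Set G) := mul_mem (mul_mem (inv_mem hn) (hP hx1)) hn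
    refine ⟨hx1, h ⟨n⁻¹ * x * n, ⟨mem_smul_sylow_iff.mp hx2, h0⟩, ?_⟩⟩
    simp [mul_assoc]
  have h2 := card_inf_mul_sylIdx P (n • R)
  have h3 : Nat.card D * _ = _ := card_inf_mul_sylIdx P Q
  have h4 := hmin (n • R)
  have h5 : Nat.card D ≤ Nat.card ((P : Subgroup G) ⊓ (n • R : Sylow p G) : Subgroup G) := by
    by_contra hc
    have := Nat.mul_lt_mul_of_lt_of_le (not_le.mp hc) h4 (Nat.pos_of_ne_zero fun h0 => by
      rw [h0, mul_zero] at h3
      exact Nat.card_pos.ne' h3.symm)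
    omega
  have h6 := eq_of_le_of_card_ge h1 h5
  intro x hx
  have h7 : n * x * n⁻¹ ∈ D := (mem_normalizer_iff.mp hn x).mp hx
  rw [← h6] at h7
  simpa [mul_assoc] using mem_smul_sylow_iff.mp h7.2

theorem ncard_modEq_one {P : Sylow p G} {S : Set (Sylow p G)} (hP : P ∈ S)
    (hS : ∀ g ∈ (P : Subgroup G), ∀ x ∈ S, g • x ∈ S) : S.ncard ≡ 1 [MOD p] := by
  have h1 := ncard_modEq_ncard_fixed P.isPGroup' S hS
  rwa [show {x | x ∈ S ∧ ∀ g ∈ (P : Subgroup G), g • x = x} = {P} from Set.eq_singleton_iff_unique_mem.mpr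
    ⟨⟨hP, fun g hg => (smul_eq_iff_mem_of_isPGroup P.isPGroup' hg P).mpr hg⟩, fun Q hQ =>
      Sylow.ext (P.is_maximal' Q.isPGroup' fun g hg =>
        (smul_eq_iff_mem_of_isPGroup P.isPGroup' hg Q).mp (hQ.2 g hg))⟩, Set.ncard_singleton] at h1

/-- the Sylow subgroups containing `D` -/
def sylLine (p : ℕ) (D : Subgroup G) : Set (Sylow p G) := {R | D ≤ (R : Subgroup G)}

omit [Finite G] hp in
theorem left_mem_sylLine (P Q : Sylow p G) : P ∈ sylLine p ((P : Subgroup G) ⊓ Q) :=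
  (inf_le_left : (P : Subgroup G) ⊓ Q ≤ P)

omit [Finite G] hp in
theorem right_mem_sylLine (P Q : Sylow p G) : Q ∈ sylLine p ((P : Subgroup G) ⊓ Q) :=
  (inf_le_right : (P : Subgroup G) ⊓ Q ≤ Q)

theorem ncard_sylLine_modEq {P : Sylow p G} {D : Subgroup G} (h1 : D ≤ P)
    (h2 : (P : Subgroup G) ≤ normalizer (D : Set G)) : (sylLine p D).ncard ≡ 1 [MOD p] :=
  ncard_modEq_one h1 fun _ hg _ hR x hx =>
    mem_smul_sylow_iff.mpr (hR ((mem_normalizer_iff''.mp (h2 hg) x).mp hx))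

theorem inf_eq_of_mem_sylLine {P Q R R' : Sylow p G} (h : sylIdx P Q = p)
    (hR : R ∈ sylLine p ((P : Subgroup G) ⊓ Q)) (hR' : R' ∈ sylLine p ((P : Subgroup G) ⊓ Q))
    (hne : R' ≠ R) : sylIdx R R' = p ∧ (R : Subgroup G) ⊓ R' = (P : Subgroup G) ⊓ Q := by
  have h1 : (P : Subgroup G) ⊓ Q ≤ (R : Subgroup G) ⊓ R' := le_inf hR hR'
  obtain ⟨c, hc⟩ := card_dvd_of_le h1
  have h2 := card_inf_mul_sylIdx R R'
  have h3 := card_inf_mul_sylIdx P Q
  rw [hc, card_sylow_eq R P, ← h3, h, mul_assoc] at h2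
  have h4 := Nat.eq_of_mul_eq_mul_left Nat.card_pos h2
  have h5 : sylIdx R R' = p := ((Nat.dvd_prime hp.out).mp (Dvd.intro_left _ h4)).resolve_left
    fun h => hne (sylIdx_eq_one_iff.mp h)
  refine ⟨h5, (eq_of_le_of_card_ge h1 ?_).symm⟩
  rw [h5] at h4
  rw [hc, Nat.eq_of_mul_eq_mul_right hp.out.pos (h4.trans (one_mul p).symm), mul_one]

theorem sup_eq_of_sylIdx {P Q : Sylow p G} (h : sylIdx P Q = p) {E : Subgroup G}
    (hE : E ≤ P) (hn : ¬ E ≤ (P : Subgroup G) ⊓ Q) : (P : Subgroup G) ⊓ Q ⊔ E = P := by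
  have h1 : (P : Subgroup G) ⊓ Q ⊔ E ≤ P := sup_le inf_le_left hE
  have h2 := relIndex_mul_relIndex _ _ _ (le_sup_left : (P : Subgroup G) ⊓ Q ≤ _ ⊔ E) h1
  rw [inf_relIndex_left] at h2
  change _ = sylIdx P Q at h2
  rw [h] at h2
  rcases (Nat.dvd_prime hp.out).mp (Dvd.intro _ h2) with h3 | h3
  · exact absurd (le_sup_right.trans (relIndex_eq_one.mp h3)) hn
  · rw [h3] at h2
    exact le_antisymm h1 (relIndex_eq_one.mp
      (Nat.eq_of_mul_eq_mul_left hp.out.pos (h2.trans (mul_one p).symm)))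

end General

section TwentyTwo

local notation "Ω" => Sylow 3 G

theorem sylIdx_cases (hn : Nat.card Ω = 22) {P Q : Ω} (h : Q ≠ P) :
    sylIdx P Q = 3 ∨ sylIdx P Q = 9 := by
  have := Fact.mk Nat.prime_three
  obtain ⟨k, hk⟩ := exists_sylIdx_eq_pow P Q
  have h1 : sylIdx P Q ≤ 22 := by rw [← ncard_orbit_sylow, ← hn]; exact Set.ncard_le_card _
  have h2 : sylIdx P Q ≠ 1 := fun h' => h (sylIdx_eq_one_iff.mp h')
  rw [hk] at h1 h2 ⊢
  have : k < 3 := by
    by_contra hc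
    have := Nat.pow_le_pow_right (show 0 < 3 by norm_num) (not_lt.mp hc)
    omega
  interval_cases k <;> simp_all

theorem eq_top_of_normalizer_le (hn : Nat.card Ω = 22) {P : Ω} {H : Subgroup G}
    (h1 : normalizer ((P : Subgroup G) : Set G) ≤ H)
    (h2 : ¬ H ≤ normalizer ((P : Subgroup G) : Set G)) : H = ⊤ := by
  have := Fact.mk Nat.prime_three
  have h3 : (orbit H P).ncard = (normalizer ((P : Subgroup G) : Set G)).relIndex H := by
    rw [← index_stabilizer]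
    congr 1
    ext x
    exact Sylow.smul_eq_iff_mem_normalizer
  have h4 := ncard_modEq_one (P := P) (S := orbit H P) (mem_orbit_self P) (by
    rintro g hg _ ⟨h, rfl⟩
    exact ⟨⟨g, h1 (le_normalizer hg)⟩ * h, mul_smul _ _ _⟩)
  have h5 := relIndex_mul_index h1
  rw [← H9.card_sylow_eq_index, hn] at h5
  rw [h3] at h4
  have h6 : (normalizer ((P : Subgroup G) : Set G)).relIndex H ≠ 1 :=
    fun h => h2 (relIndex_eq_one.mp h)
  have h7 := Nat.le_of_dvd (by norm_num) (Dvd.intro _ h5)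
  unfold Nat.ModEq at h4
  rw [← index_eq_one]
  generalize (normalizer ((P : Subgroup G) : Set G)).relIndex H = m at *
  interval_cases m <;> omega

theorem not_le_normalizer_of_ne {P Q : Ω} (h : Q ≠ P) :
    ¬ (Q : Subgroup G) ≤ normalizer ((P : Subgroup G) : Set G) := by
  have := Fact.mk Nat.prime_three
  intro hc
  refine h (Sylow.ext (Q.is_maximal' P.isPGroup' fun g hg => ?_).symm)
  exact (smul_eq_iff_mem_of_isPGroup Q.isPGroup' hg P).mp
    (Sylow.smul_eq_iff_mem_normalizer.mpr (hc hg))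

theorem ncard_nb_add (hn : Nat.card Ω = 22) (P : Ω) :
    {Q | sylIdx P Q = 3}.ncard + {Q | sylIdx P Q = 9}.ncard = 21 ∧
      9 ∣ {Q | sylIdx P Q = 9}.ncard := by
  have := Fact.mk Nat.prime_three
  constructor
  · rw [← Set.ncard_union_eq (Set.disjoint_left.mpr fun Q h h' => by
      simp only [Set.mem_ofPred_eq] at h h'; omega)]
    have h1 : {Q | sylIdx P Q = 3} ∪ {Q | sylIdx P Q = 9} = {P}ᶜ := by
      ext Q
      simp only [Set.mem_union, Set.mem_ofPred_eq, Set.mem_compl_iff, Set.mem_singleton_iff]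
      refine ⟨fun h h' => ?_, sylIdx_cases hn⟩
      have := sylIdx_eq_one_iff.mpr h'
      omega
    have h2 := Set.ncard_add_ncard_compl ({P} : Set Ω)
    rw [Set.ncard_singleton, hn] at h2
    rw [h1]
    omega
  · refine Frob.dvd_ncard_of_dvd_index_stabilizer (A := (P : Subgroup G)) _ ?_ ?_
    · intro g Q hQ
      exact (sylIdx_smul_of_mem g.2 Q).trans hQ
    · intro Q hQ
      rw [index_stabilizer_sylow P.isPGroup']
      exact (show sylIdx P Q = 9 from hQ).symm.dvd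

theorem ncard_nb_eq (P Q : Ω) (k : ℕ) :
    {R | sylIdx P R = k}.ncard = {R | sylIdx Q R = k}.ncard := by
  have := Fact.mk Nat.prime_three
  obtain ⟨g, rfl⟩ := exists_smul_eq G P Q
  rw [← Set.ncard_smul_set g]
  congr 1
  ext R
  rw [Set.mem_smul_set_iff_inv_smul_mem, Set.mem_ofPred_eq, Set.mem_ofPred_eq, ← sylIdx_smul g,
    smul_inv_smul]

theorem four_le_ncard_sylLine {P Q : Ω} (h : sylIdx P Q = 3) :
    4 ≤ (sylLine 3 ((P : Subgroup G) ⊓ Q)).ncard := by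
  have := Fact.mk Nat.prime_three
  have h1 := ncard_sylLine_modEq inf_le_left (le_normalizer_inf_of_sylIdx h)
  have h2 : 1 < (sylLine 3 ((P : Subgroup G) ⊓ Q)).ncard :=
    (Set.one_lt_ncard (Set.toFinite _)).mpr ⟨P, left_mem_sylLine P Q, Q, right_mem_sylLine P Q, fun h' => by
      have := sylIdx_eq_one_iff.mpr h'.symm
      omega⟩
  unfold Nat.ModEq at h1
  omega

theorem ncard_two_lines_le {P Q₁ Q₂ : Ω} (h₁ : sylIdx P Q₁ = 3) (h₂ : sylIdx P Q₂ = 3)
    (hne : (P : Subgroup G) ⊓ Q₁ ≠ (P : Subgroup G) ⊓ Q₂) :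
    (sylLine 3 ((P : Subgroup G) ⊓ Q₁)).ncard + (sylLine 3 ((P : Subgroup G) ⊓ Q₂)).ncard ≤
      {Q | sylIdx P Q = 3}.ncard + 2 := by
  have := Fact.mk Nat.prime_three
  have e1 := Set.ncard_diff_singleton_add_one (left_mem_sylLine P Q₁)
  have e2 := Set.ncard_diff_singleton_add_one (left_mem_sylLine P Q₂)
  have e3 := Set.ncard_union_eq (s := sylLine 3 ((P : Subgroup G) ⊓ Q₁) \ {P})
    (t := sylLine 3 ((P : Subgroup G) ⊓ Q₂) \ {P}) (Set.disjoint_left.mpr fun R hR hR' =>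
      hne ((inf_eq_of_mem_sylLine h₁ (left_mem_sylLine _ _) hR.1 hR.2).2.symm.trans
        (inf_eq_of_mem_sylLine h₂ (left_mem_sylLine _ _) hR'.1 hR'.2).2))
  have e4 : sylLine 3 ((P : Subgroup G) ⊓ Q₁) \ {P} ∪ sylLine 3 ((P : Subgroup G) ⊓ Q₂) \ {P} ⊆
      {Q | sylIdx P Q = 3} := by
    rintro R (hR | hR)
    · exact (inf_eq_of_mem_sylLine h₁ (left_mem_sylLine _ _) hR.1 hR.2).1
    · exact (inf_eq_of_mem_sylLine h₂ (left_mem_sylLine _ _) hR.1 hR.2).1
  have e5 := Set.ncard_le_ncard e4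
  omega

variable [IsSimpleGroup G]

theorem eq_bot_of_le_sylows (hn : Nat.card Ω = 22) {D : Subgroup G} (h : ∀ R : Ω, D ≤ R) :
    D = ⊥ := by
  have := Fact.mk Nat.prime_three
  obtain ⟨g, P, hg⟩ := exists_sylow_smul_ne (p := 3) (G := G) (by omega)
  have := faithfulSMul_of_simple hg
  refine eq_bot_iff.mpr fun x hx => mem_bot.mpr (eq_of_smul_eq_smul (α := Ω) fun R => ?_)
  rw [one_smul]
  exact Sylow.smul_eq_iff_mem_normalizer.mpr (le_normalizer (h R hx))

theorem exists_two_lines (hn : Nat.card Ω = 22) {P : Ω} (hP : Nat.card (P : Subgroup G) ≠ 3) :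
    ∃ Q₁ Q₂ : Ω, sylIdx P Q₁ = 3 ∧ sylIdx P Q₂ = 3 ∧
      (P : Subgroup G) ⊓ Q₁ ≠ (P : Subgroup G) ⊓ Q₂ := by
  have := Fact.mk Nat.prime_three
  by_contra hc
  push Not at hc
  obtain ⟨h1, h2⟩ := ncard_nb_add hn P
  obtain ⟨Q, hQ⟩ := (Set.ncard_pos (Set.toFinite _)).mp
    (show 0 < {Q | sylIdx P Q = 3}.ncard by omega)
  have hQ' : sylIdx P Q = 3 := hQ
  have hne : Q ≠ P := fun h => by have := sylIdx_eq_one_iff.mpr h; omega
  have h3 : normalizer (((P : Subgroup G) ⊓ Q : Subgroup G) : Set G) = ⊤ := by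
    refine eq_top_of_normalizer_le hn (P := P) (fun g hg => ?_) fun h =>
      not_le_normalizer_of_ne hne ((le_normalizer_inf_of_sylIdx' hQ').trans h)
    have e1 : g • P = P := Sylow.smul_eq_iff_mem_normalizer.mpr hg
    have e2 := hc Q (g • Q) hQ' (by rw [← e1, sylIdx_smul]; exact hQ')
    rw [mem_normalizer_iff'']
    intro x
    conv_lhs => rw [e2, ← e1]
    exact and_congr mem_smul_sylow_iff mem_smul_sylow_iff
  have h4 := normalizer_eq_top_iff.mp h3
  have h5 := eq_bot_of_le_sylows hn (D := (P : Subgroup G) ⊓ Q) fun R => by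
    obtain ⟨g, rfl⟩ := exists_smul_eq G P R
    intro x hx
    have := h4.conj_mem x hx g⁻¹
    rw [inv_inv] at this
    exact mem_smul_sylow_iff.mpr this.1
  have h6 := card_inf_mul_sylIdx P Q
  rw [h5, card_bot, hQ'] at h6
  omega

theorem inf_le_of_nine (hn : Nat.card Ω = 22) (h9 : ∀ P : Ω, {Q | sylIdx P Q = 9}.ncard = 9)
    {P Q R : Ω} (hQ : sylIdx P Q = 9) (hR : sylIdx P R = 3) :
    (P : Subgroup G) ⊓ Q ≤ (P : Subgroup G) ⊓ R := by
  have := Fact.mk Nat.prime_three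
  have horb : ∀ P Q : Ω, sylIdx P Q = 9 → orbit (P : Subgroup G) Q = {Q | sylIdx P Q = 9} := by
    intro P Q hQ
    refine Set.eq_of_subset_of_ncard_le ?_ (by rw [h9, ncard_orbit_sylow, hQ])
    rintro _ ⟨g, rfl⟩
    exact (sylIdx_smul_of_mem g.2 Q).trans hQ
  by_contra hc
  have h1 := sup_eq_of_sylIdx hR inf_le_left hc
  have h2 : orbit (P : Subgroup G) Q ⊆ orbit (R : Subgroup G) Q := by
    rintro _ ⟨g, rfl⟩
    obtain ⟨d, hd, e, he, h⟩ := (mem_sup_iff_of_le_normalizer'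
      (inf_le_left.trans (le_normalizer_inf_of_sylIdx hR))).mp (h1.ge g.2)
    refine ⟨⟨d, hd.2⟩, ?_⟩
    change d • Q = (g : G) • Q
    rw [← h, mul_smul, (smul_eq_iff_mem_of_isPGroup Q.isPGroup' he.2 Q).mpr he.2]
  have h3 := Set.ncard_le_ncard h2
  rw [ncard_orbit_sylow, ncard_orbit_sylow, hQ] at h3
  have h4 : sylIdx R Q = 9 := by
    have hne : Q ≠ R := fun h => by have := sylIdx_eq_one_iff.mpr h; omega
    have := sylIdx_cases hn hne
    omega
  have h5 : orbit (P : Subgroup G) Q = orbit (R : Subgroup G) Q :=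
    Set.eq_of_subset_of_ncard_le h2 (by rw [ncard_orbit_sylow, ncard_orbit_sylow, hQ, h4])
  have key : ∀ P : Ω, normalizer ((P : Subgroup G) : Set G) ≤
      stabilizer G {Q | sylIdx P Q = 9} := by
    intro P g hg
    have e1 : g • P = P := Sylow.smul_eq_iff_mem_normalizer.mpr hg
    rw [mem_stabilizer_iff]
    ext R
    rw [Set.mem_smul_set_iff_inv_smul_mem, Set.mem_ofPred_eq, Set.mem_ofPred_eq, ← sylIdx_smul g,
      smul_inv_smul, e1]
  have hne : R ≠ P := fun h => by have := sylIdx_eq_one_iff.mpr h; omega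
  have h6 := eq_top_of_normalizer_le hn (key P) fun h => not_le_normalizer_of_ne hne
    (le_normalizer.trans ((key R).trans (by rw [← horb R Q h4, ← h5, horb P Q hQ]; exact h)))
  obtain ⟨g, hg⟩ := exists_smul_eq G Q P
  have h7 : g ∈ stabilizer G {Q | sylIdx P Q = 9} := h6 ▸ mem_top g
  have h8 : P ∈ {Q | sylIdx P Q = 9} := by
    rw [← mem_stabilizer_iff.mp h7, ← hg]
    exact Set.smul_mem_smul_set (by rw [hg]; exact hQ)
  have := sylIdx_eq_one_iff.mpr (rfl : P = P)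
  have h8' : sylIdx P P = 9 := h8
  omega

omit [IsSimpleGroup G] in
theorem eq_inf_of_card {D₁ D₂ E : Subgroup G} {n : ℕ} (h : IsPGroup 3 D₁) (f1 : E ≤ D₁ ⊓ D₂)
    (hne : D₁ ≠ D₂) (f2 : Nat.card E * 9 = n) (f3 : Nat.card D₁ * 3 = n)
    (f4 : Nat.card D₂ * 3 = n) : E = D₁ ⊓ D₂ := by
  have := Fact.mk Nat.prime_three
  have f5 := card_inf_mul_relIndex D₂ D₁
  obtain ⟨k, hk⟩ : ∃ k, D₂.relIndex D₁ = 3 ^ k := h.index _
  have f6 : k ≠ 0 := by
    rintro rfl
    exact hne (eq_of_le_of_card_ge (relIndex_eq_one.mp hk) (by omega))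
  have f7 := Nat.le_self_pow f6 3
  rw [hk, inf_comm] at f5
  have f8 := Nat.mul_le_mul_left (Nat.card (D₁ ⊓ D₂ : Subgroup G)) f7
  exact eq_of_le_of_card_ge f1 (by omega)

theorem le_normalizer_inf_of_nine (hn : Nat.card Ω = 22)
    (h9 : ∀ P : Ω, {Q | sylIdx P Q = 9}.ncard = 9) {P Q : Ω} (hP : Nat.card (P : Subgroup G) ≠ 3)
    (hQ : sylIdx P Q = 9) :
    (P : Subgroup G) ≤ normalizer (((P : Subgroup G) ⊓ Q : Subgroup G) : Set G) := by
  have := Fact.mk Nat.prime_three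
  obtain ⟨Q₁, Q₂, h₁, h₂, hne⟩ := exists_two_lines hn hP
  have f1 : (P : Subgroup G) ⊓ Q ≤ ((P : Subgroup G) ⊓ Q₁) ⊓ ((P : Subgroup G) ⊓ Q₂) :=
    le_inf (inf_le_of_nine hn h9 hQ h₁) (inf_le_of_nine hn h9 hQ h₂)
  have f2 := card_inf_mul_sylIdx P Q
  have f3 := card_inf_mul_sylIdx P Q₁
  have f4 := card_inf_mul_sylIdx P Q₂
  rw [hQ] at f2
  rw [h₁] at f3
  rw [h₂] at f4
  have f9 := eq_inf_of_card P.isPGroup'.to_inf_left f1 hne f2 f3 f4
  rw [f9]
  exact (le_inf (le_normalizer_inf_of_sylIdx h₁) (le_normalizer_inf_of_sylIdx h₂)).trans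
    inf_normalizer_le_normalizer_inf

omit [IsSimpleGroup G] in
theorem mem_sylLine_of_triangle (h6 : ∀ R : Ω, Nat.card (R : Subgroup G) = 9) {X Y Z : Ω}
    (hY : sylIdx X Y = 3) (hZ : sylIdx X Z = 3) (hYZ : sylIdx Y Z = 3) :
    Z ∈ sylLine 3 ((X : Subgroup G) ⊓ Y) := by
  have := Fact.mk Nat.prime_three
  have hcomm : ∀ R : Ω, ∀ a ∈ (R : Subgroup G), ∀ b ∈ (R : Subgroup G), a * b = b * a := by
    intro R a ha b hb
    have := IsPGroup.isMulCommutative_of_card_eq_prime_sq (p := 3) (G := (R : Subgroup G))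
      (h6 R)
    exact congrArg Subtype.val (this.is_comm.comm ⟨a, ha⟩ ⟨b, hb⟩)
  by_contra hc
  have f1 : ¬ (X : Subgroup G) ⊓ Y ≤ (X : Subgroup G) ⊓ Z := fun h => hc (h.trans inf_le_right)
  have f2 := sup_eq_of_sylIdx hZ inf_le_left f1
  have f3 : (Y : Subgroup G) ⊓ Z ≤ normalizer ((X : Subgroup G) : Set G) := by
    refine le_trans ?_ (centralizer_le_normalizer _)
    rw [← f2, le_centralizer_iff]
    exact sup_le (fun a ha b hb => hcomm Z b hb.2 a ha.2) fun a ha b hb => hcomm Y b hb.1 a ha.2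
  have f4 : X ∈ sylLine 3 ((Y : Subgroup G) ⊓ Z) := fun g hg =>
    (smul_eq_iff_mem_of_isPGroup Y.isPGroup' hg.1 X).mp
      (Sylow.smul_eq_iff_mem_normalizer.mpr (f3 hg))
  have hne : Y ≠ X := fun h => by have := sylIdx_eq_one_iff.mpr h; omega
  exact hc ((inf_eq_of_mem_sylLine hYZ f4 (left_mem_sylLine _ _) hne).2.le.trans inf_le_right)

omit [IsSimpleGroup G] in
theorem nine_le_ncard_sylLine (hn : Nat.card Ω = 22)
    (h6 : ∀ R : Ω, Nat.card (R : Subgroup G) = 9)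
    (h12 : ∀ Q : Ω, {R | sylIdx Q R = 3}.ncard = 12) {P Q : Ω} (hQ : sylIdx P Q = 3) :
    9 ≤ (sylLine 3 ((P : Subgroup G) ⊓ Q)).ncard := by
  have := Fact.mk Nat.prime_three
  set L := sylLine 3 ((P : Subgroup G) ⊓ Q) with hL
  have f1 : 4 ≤ L.ncard := four_le_ncard_sylLine hQ
  obtain ⟨X, Y, Z, hX, hY, hZ, hXY, hXZ, hYZ⟩ := (Set.two_lt_ncard_iff (Set.toFinite L)).mp
    (by omega)
  have f2 : ∀ X ∈ L, 13 ≤ ({R | sylIdx X R = 3} \ L).ncard + L.ncard := by
    intro X hX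
    have g1 := Set.ncard_diff_singleton_add_one hX
    have g2 : {R | sylIdx X R = 3} ⊆ ({R | sylIdx X R = 3} \ L) ∪ (L \ {X}) := by
      intro R hR
      by_cases h : R ∈ L
      · refine Or.inr ⟨h, fun h' => ?_⟩
        have := sylIdx_eq_one_iff.mpr (show R = X from h')
        have hR' : sylIdx X R = 3 := hR
        omega
      · exact Or.inl ⟨hR, h⟩
    have g3 := (Set.ncard_le_ncard g2).trans (Set.ncard_union_le _ _)
    rw [h12] at g3
    omega
  have f3 : ∀ X ∈ L, ∀ Y ∈ L, X ≠ Y →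
      Disjoint ({R | sylIdx X R = 3} \ L) ({R | sylIdx Y R = 3} \ L) := by
    intro X hX Y hY hXY
    refine Set.disjoint_left.mpr fun R h1 h2 => h1.2 ?_
    obtain ⟨g1, g2⟩ := inf_eq_of_mem_sylLine hQ hX hY hXY.symm
    have := mem_sylLine_of_triangle h6 g1 h1.1 h2.1
    rwa [g2] at this
  have g1 := Set.ncard_union_eq (f3 X hX Y hY hXY)
  have g2 := Set.ncard_union_eq (Set.disjoint_union_left.mpr ⟨f3 X hX Z hZ hXZ, f3 Y hY Z hZ hYZ⟩)
  have g3 := Set.ncard_le_ncard (show ({R | sylIdx X R = 3} \ L ∪ {R | sylIdx Y R = 3} \ L) ∪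
    {R | sylIdx Z R = 3} \ L ⊆ Lᶜ by rintro R ((h | h) | h) <;> exact h.2)
  have g4 := Set.ncard_add_ncard_compl L
  have := f2 X hX
  have := f2 Y hY
  have := f2 Z hZ
  omega

theorem card_sylow_three_of_twentytwo (hn : Nat.card Ω = 22) (P : Ω) :
    Nat.card (P : Subgroup G) = 3 := by
  have := Fact.mk Nat.prime_three
  by_contra hP
  have hP' : ∀ Q : Ω, Nat.card (Q : Subgroup G) ≠ 3 := fun Q => card_sylow_eq P Q ▸ hP
  obtain ⟨Q₁, Q₂, h₁, h₂, hne⟩ := exists_two_lines hn hP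
  have e1 := ncard_two_lines_le h₁ h₂ hne
  have e2 := four_le_ncard_sylLine h₁
  have e3 := four_le_ncard_sylLine h₂
  obtain ⟨e4, e5⟩ := ncard_nb_add hn P
  have hle : ∀ {k : ℕ} (R : Ω), sylIdx P R ≠ 9 ∨ k = 9 → 3 ≤ k → sylIdx P R ≤ k := by
    intro k R h h3
    by_cases hR : R = P
    · have := sylIdx_eq_one_iff.mpr hR
      omega
    · have := sylIdx_cases hn hR
      omega
  rcases (show {Q | sylIdx P Q = 9}.ncard = 0 ∨ {Q | sylIdx P Q = 9}.ncard = 9 by omega) with h | h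
  · rw [Set.ncard_eq_zero (Set.toFinite _)] at h
    have h5 := eq_bot_of_le_sylows hn (brodkey_le (P := P) (Q := Q₁) (fun R => hle R
      (Or.inl fun h' => (h ▸ (show R ∈ {Q | sylIdx P Q = 9} from h') : R ∈ (∅ : Set Ω))) h₁.ge)
      (le_normalizer_inf_of_sylIdx h₁) (le_normalizer_inf_of_sylIdx' h₁))
    have h6 := card_inf_mul_sylIdx P Q₁
    rw [h5, card_bot, h₁] at h6
    omega
  have h9 : ∀ Q : Ω, {R | sylIdx Q R = 9}.ncard = 9 := fun Q => (ncard_nb_eq Q P 9).trans h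
  have h12 : ∀ Q : Ω, {R | sylIdx Q R = 3}.ncard = 12 := fun Q => by
    rw [ncard_nb_eq Q P 3]; omega
  obtain ⟨Q, hQ⟩ := (Set.ncard_pos (Set.toFinite _)).mp
    (show 0 < {Q | sylIdx P Q = 9}.ncard by omega)
  have hQ' : sylIdx P Q = 9 := hQ
  have h5 := eq_bot_of_le_sylows hn (brodkey_le (P := P) (Q := Q)
    (fun R => hle R (Or.inr hQ') (by omega)) (le_normalizer_inf_of_nine hn h9 hP hQ')
    (by rw [inf_comm]; exact le_normalizer_inf_of_nine hn h9 (hP' Q) ((sylIdx_comm Q P).trans hQ')))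
  have h6 := card_inf_mul_sylIdx P Q
  rw [h5, card_bot, hQ', one_mul] at h6
  have h7 : ∀ R : Ω, Nat.card (R : Subgroup G) = 9 := fun R => by
    rw [← card_sylow_eq P R, ← h6]
  have := nine_le_ncard_sylLine hn h7 h12 h₁
  have := nine_le_ncard_sylLine hn h7 h12 h₂
  have := h12 P
  omega

end TwentyTwo

end CfsgLib.H4
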